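import Mathlib
import Cfsg.Agent.Lib.helper15.SubnSyl
import Cfsg.Prelude.Def_Transfer

set_option autoImplicit false
set_option linter.style.haveILetI false
set_option linter.unusedSimpArgs false

namespace Cfsg.Agent.Lib.helper14

section frame

variable {S : Type*} [Group S]

/-- A dihedral frame of order `8`: central involution `z` and non-central involutions `t`, `u`. -/
structure D8F (X : Subgroup S) (z t u : S) : Prop where
  hz : z ∈ X
  ht : t ∈ X
  hu : u ∈ X
  z2 : z * z = 1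
  t2 : t * t = 1
  u2 : u * u = 1
  z1 : z ≠ 1
  zt : z * t = t * z
  zu : z * u = u * z
  ut : u * t = t * z * u
  all : ∀ x ∈ X, x = 1 ∨ x = z ∨ x = t ∨ x = t * z ∨ x = u ∨ x = u * z ∨ x = u * t ∨ x = u * t * z

theorem D8F.tu {X : Subgroup S} {z t u : S} (F : D8F X z t u) : t * u = u * z * t := by
  have h1 : (u * t)⁻¹ = (t * z * u)⁻¹ := by rw [F.ut]
  have hti : t⁻¹ = t := inv_eq_of_mul_eq_one_right F.t2
  have hui : u⁻¹ = u := inv_eq_of_mul_eq_one_right F.u2
  have hzi : z⁻¹ = z := inv_eq_of_mul_eq_one_right F.z2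
  rw [mul_inv_rev, mul_inv_rev, mul_inv_rev, hti, hui, hzi] at h1
  rw [h1, mul_assoc]

theorem D8F.swap {X : Subgroup S} {z t u : S} (F : D8F X z t u) : D8F X z u t where
  hz := F.hz
  ht := F.hu
  hu := F.ht
  z2 := F.z2
  t2 := F.u2
  u2 := F.t2
  z1 := F.z1
  zt := F.zu
  zu := F.zt
  ut := F.tu
  all := by
    intro x hx
    have e1 : t * u = u * t * z := by
      rw [F.tu, mul_assoc, F.zt, ← mul_assoc]
    have e2 : t * u * z = u * t := by
      rw [e1, mul_assoc, F.z2, mul_one]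
    rcases F.all x hx with h | h | h | h | h | h | h | h
    · left; exact h
    · right; left; exact h
    · right; right; right; right; left; exact h
    · right; right; right; right; right; left; exact h
    · right; right; left; exact h
    · right; right; right; left; exact h
    · right; right; right; right; right; right; right; rw [e2, h]
    · right; right; right; right; right; right; left; rw [e1, h]

theorem D8F.twist {X : Subgroup S} {z t u : S} (F : D8F X z t u) : D8F X z (t * z) u where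
  hz := F.hz
  ht := X.mul_mem F.ht F.hz
  hu := F.hu
  z2 := F.z2
  t2 := by
    rw [mul_assoc, ← mul_assoc z t z, F.zt, mul_assoc t z z, F.z2, mul_one, F.t2]
  u2 := F.u2
  z1 := F.z1
  zt := by rw [← mul_assoc, F.zt]
  zu := F.zu
  ut := by
    rw [← mul_assoc, F.ut, mul_assoc (t * z) u z, ← F.zu, mul_assoc, mul_assoc, mul_assoc]
  all := by
    intro x hx
    have e1 : t * z * z = t := by rw [mul_assoc, F.z2, mul_one]
    have e2 : u * (t * z) * z = u * t := by rw [mul_assoc, e1]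
    rcases F.all x hx with h | h | h | h | h | h | h | h
    · left; exact h
    · right; left; exact h
    · right; right; right; left; rw [e1, h]
    · right; right; left; exact h
    · right; right; right; right; left; exact h
    · right; right; right; right; right; left; exact h
    · right; right; right; right; right; right; right; rw [e2, h]
    · right; right; right; right; right; right; left; rw [h, mul_assoc]

/-- A subgroup isomorphic to the dihedral group of order `8` has a dihedral frame. -/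
theorem exists_D8F (X : Subgroup S) (e : ↥X ≃* DihedralGroup 4) : ∃ z t u : S, D8F X z t u := by
  refine ⟨(e.symm (DihedralGroup.r 2) : S), (e.symm (DihedralGroup.sr 0) : S),
    (e.symm (DihedralGroup.sr 1) : S), ?_⟩
  have key : ∀ {d d' : DihedralGroup 4}, d = d' → ((e.symm d : X) : S) = ((e.symm d' : X) : S) :=
    fun h => by rw [h]
  refine ⟨(e.symm _).2, (e.symm _).2, (e.symm _).2, ?_, ?_, ?_, ?_, ?_, ?_, ?_, ?_⟩
  · rw [← Subgroup.coe_mul, ← map_mul, key (show DihedralGroup.r 2 * DihedralGroup.r 2 = 1 by decide),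
      map_one, Subgroup.coe_one]
  · rw [← Subgroup.coe_mul, ← map_mul, key (show DihedralGroup.sr 0 * DihedralGroup.sr 0 = 1 by decide),
      map_one, Subgroup.coe_one]
  · rw [← Subgroup.coe_mul, ← map_mul, key (show DihedralGroup.sr 1 * DihedralGroup.sr 1 = 1 by decide),
      map_one, Subgroup.coe_one]
  · intro h
    have h1 : e.symm (DihedralGroup.r 2) = 1 := Subtype.ext h
    have h2 := congrArg e h1
    rw [MulEquiv.apply_symm_apply, map_one] at h2
    exact absurd h2 (by decide)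
  · rw [← Subgroup.coe_mul, ← Subgroup.coe_mul, ← map_mul, ← map_mul]
    exact key (by decide)
  · rw [← Subgroup.coe_mul, ← Subgroup.coe_mul, ← map_mul, ← map_mul]
    exact key (by decide)
  · rw [← Subgroup.coe_mul, ← Subgroup.coe_mul, ← Subgroup.coe_mul, ← map_mul, ← map_mul, ← map_mul]
    exact key (by decide)
  · intro x hx
    have hd : ∀ d : DihedralGroup 4, d = 1 ∨ d = DihedralGroup.r 2 ∨ d = DihedralGroup.sr 0 ∨
        d = DihedralGroup.sr 0 * DihedralGroup.r 2 ∨ d = DihedralGroup.sr 1 ∨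
        d = DihedralGroup.sr 1 * DihedralGroup.r 2 ∨ d = DihedralGroup.sr 1 * DihedralGroup.sr 0 ∨
        d = DihedralGroup.sr 1 * DihedralGroup.sr 0 * DihedralGroup.r 2 := by decide
    have hx' : x = ((e.symm (e ⟨x, hx⟩) : X) : S) := by rw [MulEquiv.symm_apply_apply]
    rcases hd (e ⟨x, hx⟩) with h | h | h | h | h | h | h | h
    · left; rw [hx', h, map_one, Subgroup.coe_one]
    · right; left; rw [hx', h]
    · right; right; left; rw [hx', h]
    · right; right; right; left; rw [hx', h, map_mul, Subgroup.coe_mul]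
    · right; right; right; right; left; rw [hx', h]
    · right; right; right; right; right; left; rw [hx', h, map_mul, Subgroup.coe_mul]
    · right; right; right; right; right; right; left; rw [hx', h, map_mul, Subgroup.coe_mul]
    · right; right; right; right; right; right; right
      rw [hx', h, map_mul, map_mul, Subgroup.coe_mul, Subgroup.coe_mul]

theorem D8F.ut_sq {X : Subgroup S} {z t u : S} (F : D8F X z t u) : u * t * (u * t) = z := by
  nth_rewrite 1 [F.ut]
  rw [mul_assoc (t * z) u, ← mul_assoc u u t, F.u2, one_mul, ← F.zt, mul_assoc, F.t2, mul_one]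

theorem D8F.utz_sq {X : Subgroup S} {z t u : S} (F : D8F X z t u) :
    u * t * z * (u * t * z) = z := by
  have h1 : z * (u * t) = u * t * z := by
    rw [← mul_assoc, F.zu, mul_assoc, F.zt, ← mul_assoc]
  rw [mul_assoc (u * t) z, ← mul_assoc z (u * t) z, h1, ← mul_assoc, ← mul_assoc, F.ut_sq,
    mul_assoc, F.z2, mul_one]

theorem D8F.u_ne_one {X : Subgroup S} {z t u : S} (F : D8F X z t u) : u ≠ 1 := by
  intro h
  have h1 := F.ut
  rw [h, one_mul, mul_one] at h1
  exact F.z1 (by simpa using h1)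

theorem D8F.u_ne_z {X : Subgroup S} {z t u : S} (F : D8F X z t u) : u ≠ z := by
  intro h
  have h1 := F.ut
  rw [h, F.zt] at h1
  exact F.z1 (by simpa using h1)

theorem D8F.exists_B2 {X : Subgroup S} {z t u : S} (F : D8F X z t u) :
    ∃ B : Subgroup S, (∀ x, x ∈ B ↔ x = 1 ∨ x = z ∨ x = u ∨ x = u * z) ∧ B ≤ X ∧
      Nat.card B = 4 ∧ ∀ b ∈ B, b ^ 2 = 1 := by
  have hzi : z⁻¹ = z := inv_eq_of_mul_eq_one_right F.z2
  have hui : u⁻¹ = u := inv_eq_of_mul_eq_one_right F.u2
  have e1 : u * z * z = u := by rw [mul_assoc, F.z2, mul_one]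
  have e2 : u * z * u = z := by rw [mul_assoc, F.zu, ← mul_assoc, F.u2, one_mul]
  have e3 : u * (u * z) = z := by rw [← mul_assoc, F.u2, one_mul]
  have e4 : z * (u * z) = u := by rw [← mul_assoc, F.zu, e1]
  have e5 : u * z * (u * z) = 1 := by rw [← mul_assoc, e2, F.z2]
  have hmul : ∀ x y : S, (x = 1 ∨ x = z ∨ x = u ∨ x = u * z) → (y = 1 ∨ y = z ∨ y = u ∨ y = u * z) →
      (x * y = 1 ∨ x * y = z ∨ x * y = u ∨ x * y = u * z) := by
    intro x y hx hy
    rcases hx with hx | hx | hx | hx <;> rcases hy with hy | hy | hy | hy <;> rw [hx, hy]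
    · left; rw [one_mul]
    · right; left; rw [one_mul]
    · right; right; left; rw [one_mul]
    · right; right; right; rw [one_mul]
    · right; left; rw [mul_one]
    · left; exact F.z2
    · right; right; right; exact F.zu
    · right; right; left; exact e4
    · right; right; left; rw [mul_one]
    · right; right; right; rfl
    · left; exact F.u2
    · right; left; exact e3
    · right; right; right; rw [mul_one]
    · right; right; left; exact e1
    · right; left; exact e2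
    · left; exact e5
  have hinv : ∀ x : S, (x = 1 ∨ x = z ∨ x = u ∨ x = u * z) →
      (x⁻¹ = 1 ∨ x⁻¹ = z ∨ x⁻¹ = u ∨ x⁻¹ = u * z) := by
    intro x hx
    rcases hx with hx | hx | hx | hx <;> rw [hx]
    · left; exact inv_one
    · right; left; exact hzi
    · right; right; left; exact hui
    · right; right; right; rw [mul_inv_rev, hzi, hui, F.zu]
  let B : Subgroup S :=
    { carrier := {x | x = 1 ∨ x = z ∨ x = u ∨ x = u * z}
      one_mem' := Or.inl rfl
      mul_mem' := fun {x y} hx hy => hmul x y hx hy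
      inv_mem' := fun {x} hx => hinv x hx }
  have hB : ∀ x, x ∈ B ↔ x = 1 ∨ x = z ∨ x = u ∨ x = u * z := fun x => Iff.rfl
  refine ⟨B, hB, ?_, ?_, ?_⟩
  · intro x hx
    rcases (hB x).mp hx with h | h | h | h <;> rw [h]
    · exact X.one_mem
    · exact F.hz
    · exact F.hu
    · exact X.mul_mem F.hu F.hz
  · have hs : (B : Set S) = {1, z, u, u * z} := by
      ext x
      exact hB x
    have h0 : Nat.card B = Set.ncard (B : Set S) := rfl
    have n1 : (1 : S) ∉ ({z, u, u * z} : Set S) := by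
      simp only [Set.mem_insert_iff, Set.mem_singleton_iff, not_or]
      refine ⟨F.z1.symm, F.u_ne_one.symm, ?_⟩
      intro h
      exact F.u_ne_z (by rw [← hzi]; exact eq_inv_of_mul_eq_one_left h.symm)
    have n2 : z ∉ ({u, u * z} : Set S) := by
      simp only [Set.mem_insert_iff, Set.mem_singleton_iff, not_or]
      refine ⟨F.u_ne_z.symm, ?_⟩
      intro h
      exact F.u_ne_one (by simpa using h)
    have n3 : u ∉ ({u * z} : Set S) := by
      simp only [Set.mem_singleton_iff]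
      intro h
      exact F.z1 (by simpa using h)
    rw [h0, hs, Set.ncard_insert_of_notMem n1, Set.ncard_insert_of_notMem n2,
      Set.ncard_insert_of_notMem n3, Set.ncard_singleton]
  · intro b hb
    rcases (hB b).mp hb with h | h | h | h <;> rw [h, pow_two]
    · exact one_mul 1
    · exact F.z2
    · exact F.u2
    · exact e5

end frame

section conj

variable {S : Type*} [Group S]

theorem e9_conj_eq {x y w : S} : MulAut.conj x y = w ↔ x * y = w * x := by
  rw [MulAut.conj_apply, mul_inv_eq_iff_eq_mul]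

theorem e9_conj_rel {x y x' y' : S} (h : x * y = x' * y') (d : S) :
    MulAut.conj x (MulAut.conj y d) = MulAut.conj x' (MulAut.conj y' d) := by
  rw [← MulAut.mul_apply, ← map_mul, h, map_mul, MulAut.mul_apply]

theorem e9_conj_sq {x : S} (h : x * x = 1) (d : S) : MulAut.conj x (MulAut.conj x d) = d := by
  rw [← MulAut.mul_apply, ← map_mul, h, map_one, MulAut.one_apply]

theorem e9_inv_of_sq {x : S} (h : x * x = 1) : x⁻¹ = x := inv_eq_of_mul_eq_one_right h

theorem e9_one_of_sq_cube {x : S} (h2 : x * x = 1) (h3 : x ^ 3 = 1) : x = 1 := by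
  rw [pow_succ, pow_two, h2, one_mul] at h3
  exact h3

theorem e9_inv_eq_sq {x : S} (h3 : x ^ 3 = 1) : x⁻¹ = x * x := by
  apply inv_eq_of_mul_eq_one_right
  rw [← h3, pow_succ, pow_two, mul_assoc]

theorem e9_mem_zpowers_inv {x y : S} (hx : x * x = 1) (hy : y ∈ Subgroup.zpowers x) :
    y = 1 ∨ y = x := by
  obtain ⟨k, rfl⟩ := Subgroup.mem_zpowers_iff.mp hy
  rcases Int.even_or_odd' k with ⟨j, rfl | rfl⟩
  · left
    rw [zpow_mul, zpow_two, hx, one_zpow]
  · right
    rw [zpow_add, zpow_mul, zpow_two, hx, one_zpow, one_mul, zpow_one]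

/-- Existence of an element of `A` centralized by `t` and inverted by `z`. -/
theorem e9_exists_a {A X : Subgroup S} [hAn : A.Normal] (hA3 : ∀ a ∈ A, a ^ 3 = 1)
    (hAc : ∀ a ∈ A, ∀ b ∈ A, a * b = b * a)
    (hAC : Subgroup.centralizer (A : Set S) = A) {z t u : S} (F : D8F X z t u) :
    ∃ a ∈ A, a ≠ 1 ∧ MulAut.conj t a = a ∧ MulAut.conj z a = a⁻¹ := by
  have hzA : z ∉ A := fun h => F.z1 (e9_one_of_sq_cube F.z2 (hA3 z h))
  have h1 : ∃ a₀ ∈ A, a₀ * z ≠ z * a₀ := by
    by_contra hcon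
    push Not at hcon
    apply hzA
    rw [← hAC]
    exact Subgroup.mem_centralizer_iff.mpr hcon
  obtain ⟨a₀, ha₀, hne⟩ := h1
  have hcA : ∀ x ∈ A, ∀ g : S, MulAut.conj g x ∈ A := fun x hx g => by
    rw [MulAut.conj_apply]
    exact hAn.conj_mem x hx g
  obtain ⟨d, hd⟩ : ∃ d, d = a₀ * (MulAut.conj z a₀)⁻¹ := ⟨_, rfl⟩
  have hdA : d ∈ A := by
    rw [hd]
    exact A.mul_mem ha₀ (A.inv_mem (hcA a₀ ha₀ z))
  have hd1 : d ≠ 1 := by
    intro h
    rw [hd, mul_inv_eq_one] at h
    exact hne (e9_conj_eq.mp h.symm).symm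
  have hzd : MulAut.conj z d = d⁻¹ := by
    rw [hd, map_mul, map_inv, e9_conj_sq F.z2, mul_inv_rev, inv_inv]
  have hd3 := hA3 d hdA
  by_cases htd : MulAut.conj t d = d⁻¹
  · refine ⟨MulAut.conj u d, hcA d hdA u, ?_, ?_, ?_⟩
    · intro h
      apply hd1
      have := congrArg (MulAut.conj u) h
      rwa [e9_conj_sq F.u2, map_one] at this
    · rw [e9_conj_rel F.tu d, htd, map_mul, MulAut.mul_apply, map_inv, hzd, inv_inv]
    · rw [e9_conj_rel F.zu d, hzd, map_inv]
  · refine ⟨d * MulAut.conj t d, A.mul_mem hdA (hcA d hdA t), ?_, ?_, ?_⟩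
    · intro h
      exact htd (eq_inv_of_mul_eq_one_right h)
    · rw [map_mul, e9_conj_sq F.t2]
      exact hAc _ (hcA d hdA t) _ hdA
    · rw [map_mul, e9_conj_rel F.zt d, hzd, map_inv, mul_inv_rev]
      exact hAc _ (A.inv_mem hdA) _ (A.inv_mem (hcA d hdA t))

end conj

section rep

variable {S : Type*} [Group S] {M : Type*} [AddCommGroup M] [Module (ZMod 2) M]

theorem e9_two (x : M) : x + x = 0 := by
  have h : (2 : ZMod 2) = 0 := by decide
  rw [← two_smul (ZMod 2) x, h, zero_smul]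

theorem e9_eq_of_add {x y : M} (h : x + y = 0) : x = y := by
  have h1 := e9_two y
  have e : x = (x + y) + y - (y + y) := by abel
  rw [e, h, h1]
  abel

theorem e9_eq_of_add3 {x y w : M} (h : x + y + w = 0) : x = y + w :=
  e9_eq_of_add (by rw [← add_assoc]; exact h)

variable (ρ : Representation (ZMod 2) S M)

theorem e9_rel {x y x' y' : S} (h : x * y = x' * y') (m : M) :
    ρ x (ρ y m) = ρ x' (ρ y' m) := by
  have := congrArg (fun s => ρ s m) h
  simpa only [map_mul, Module.End.mul_apply] using this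

theorem e9_inv_fix {x : S} {m : M} (h : ρ x m = m) : ρ x⁻¹ m = m := by
  have h1 : ρ x⁻¹ (ρ x m) = m := by
    rw [← Module.End.mul_apply, ← map_mul, inv_mul_cancel, map_one, Module.End.one_apply]
  rw [h] at h1
  exact h1

theorem e9_sq {x : S} (hx : x * x = 1) (m : M) : ρ x (ρ x m) = m := by
  rw [← Module.End.mul_apply, ← map_mul, hx, map_one, Module.End.one_apply]

theorem e9_cube {x : S} (hx : x ^ 3 = 1) (m : M) : ρ x (ρ x (ρ x m)) = m := by
  rw [← Module.End.mul_apply, ← Module.End.mul_apply, ← map_mul, ← map_mul]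
  have h : x * x * x = 1 := by rw [← hx, pow_succ, pow_two]
  rw [h, map_one, Module.End.one_apply]

theorem e9_norm_fix {x : S} (hx : x ^ 3 = 1) (m : M) :
    ρ x (ρ x (ρ x m) + ρ x m + m) = ρ x (ρ x m) + ρ x m + m := by
  rw [map_add, map_add, e9_cube ρ hx]
  abel

theorem e9_inv_apply {x : S} (hx : x ^ 3 = 1) (m : M) : ρ x⁻¹ m = ρ x (ρ x m) := by
  rw [e9_inv_eq_sq hx, map_mul, Module.End.mul_apply]

end rep

section main

variable {S : Type*} [Group S] {M : Type*} [AddCommGroup M] [Module (ZMod 2) M]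

theorem e9_fix_of_sq (ρ : Representation (ZMod 2) S M) {x : S} (hx : x ^ 3 = 1) {m : M}
    (h : ρ x (ρ x m) = m) : ρ x m = m := by
  have h1 := congrArg (ρ x) h
  rw [e9_cube ρ hx] at h1
  exact h1.symm

/-- Configuration: a frame, an element `a` of `A` centralized by `t` and inverted by `z`,
with a nonzero fixed vector. -/
structure E9C (A X : Subgroup S) (ρ : Representation (ZMod 2) S M) (z t u a : S) (m : M) :
    Prop where
  F : D8F X z t u
  haA : a ∈ A
  ha1 : a ≠ 1
  hta : MulAut.conj t a = a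
  hza : MulAut.conj z a = a⁻¹
  hm : m ≠ 0
  hfix : ρ a m = m

theorem e9_exists_fix {A X : Subgroup S} [hAn : A.Normal] (hA3 : ∀ a ∈ A, a ^ 3 = 1)
    (hAc : ∀ a ∈ A, ∀ b ∈ A, a * b = b * a)
    (hAC : Subgroup.centralizer (A : Set S) = A) {z t u : S} (F : D8F X z t u)
    (ρ : Representation (ZMod 2) S M) [Nontrivial M] :
    ∃ (z t u a : S) (m : M), E9C A X ρ z t u a m := by
  obtain ⟨a, haA, ha1, hta, hza⟩ := e9_exists_a hA3 hAc hAC F
  have hcA : ∀ x ∈ A, ∀ g : S, MulAut.conj g x ∈ A := fun x hx g => by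
    rw [MulAut.conj_apply]
    exact hAn.conj_mem x hx g
  obtain ⟨b, hb⟩ : ∃ b, b = MulAut.conj u a := ⟨_, rfl⟩
  have hbA : b ∈ A := hb ▸ hcA a haA u
  have hub : MulAut.conj u b = a := by rw [hb, e9_conj_sq F.u2]
  have hb1 : b ≠ 1 := by
    intro h
    rw [h, map_one] at hub
    exact ha1 hub.symm
  have htb : MulAut.conj t b = b⁻¹ := by
    rw [hb, ← MulAut.mul_apply, ← map_mul, F.tu, map_mul, map_mul, MulAut.mul_apply,
      MulAut.mul_apply, hta, hza, map_inv]
  have hzb : MulAut.conj z b = b⁻¹ := by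
    rw [hb, e9_conj_rel F.zu a, hza, map_inv]
  have ha3 := hA3 a haA
  have hb3 := hA3 b hbA
  have hab := hAc a haA b hbA
  by_cases h1 : ∃ m : M, m ≠ 0 ∧ ρ a m = m
  · obtain ⟨m, hm, hfix⟩ := h1
    exact ⟨z, t, u, a, m, F, haA, ha1, hta, hza, hm, hfix⟩
  by_cases h2 : ∃ m : M, m ≠ 0 ∧ ρ b m = m
  · obtain ⟨m, hm, hfix⟩ := h2
    refine ⟨z, t * z, u, b, m, F.twist, hbA, hb1, ?_, hzb, hm, hfix⟩
    rw [map_mul, MulAut.mul_apply, hzb, map_inv, htb, inv_inv]
  push Not at h1 h2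
  have hα : ∀ m : M, ρ a (ρ a m) = ρ a m + m := by
    intro m
    apply e9_eq_of_add3
    by_contra hne
    exact h1 _ hne (e9_norm_fix ρ ha3 m)
  have hβ : ∀ m : M, ρ b (ρ b m) = ρ b m + m := by
    intro m
    apply e9_eq_of_add3
    by_contra hne
    exact h2 _ hne (e9_norm_fix ρ hb3 m)
  obtain ⟨m, hm⟩ := exists_ne (0 : M)
  have hc : ∀ x : M, ρ a (ρ b x) = ρ b (ρ a x) := fun x => e9_rel ρ hab x
  by_cases hn : ρ b m + ρ a (ρ a m) = 0
  · have e1 : ρ b m = ρ a (ρ a m) := e9_eq_of_add hn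
    refine ⟨z, u, t, a * b, m, F.swap, A.mul_mem haA hbA, ?_, ?_, ?_, hm, ?_⟩
    · intro h
      have hb' : b = a⁻¹ := eq_inv_of_mul_eq_one_right h
      have h2' : b⁻¹ = b := by
        rw [← htb, hb', map_inv, hta]
      apply hb1
      apply e9_one_of_sq_cube _ hb3
      nth_rewrite 1 [← h2']
      exact inv_mul_cancel b
    · rw [map_mul, hub, ← hb]
      exact hab.symm
    · rw [map_mul, hza, hzb, mul_inv_rev]
      exact hAc _ (A.inv_mem haA) _ (A.inv_mem hbA)
    · rw [map_mul, Module.End.mul_apply, e1, e9_cube ρ ha3]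
  · obtain ⟨n, hn'⟩ : ∃ n, n = ρ b m + ρ a (ρ a m) := ⟨_, rfl⟩
    have e2 : ρ b n = ρ a n := by
      rw [hn']
      simp only [map_add, hα, hβ, hc]
      linear_combination (norm := abel) e9_two (ρ b m) - e9_two (ρ a m)
    refine ⟨z, u * z, t, a⁻¹ * b, n, F.swap.twist, A.mul_mem (A.inv_mem haA) hbA, ?_, ?_, ?_,
      hn' ▸ hn, ?_⟩
    · intro h
      have h3 : a = b := inv_mul_eq_one.mp h
      have h2' : b⁻¹ = b := by
        rw [← htb, ← h3, hta]
      apply hb1
      apply e9_one_of_sq_cube _ hb3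
      nth_rewrite 1 [← h2']
      exact inv_mul_cancel b
    · have hc2 : ∀ x : S, MulAut.conj (u * z) x = MulAut.conj u (MulAut.conj z x) := fun x => by
        rw [map_mul, MulAut.mul_apply]
      rw [hc2, map_mul, map_inv, hza, inv_inv, hzb, map_mul, map_inv, hub, ← hb]
      exact hAc _ hbA _ (A.inv_mem haA)
    · rw [map_mul, map_inv, hza, inv_inv, hzb, mul_inv_rev, inv_inv]
      exact hAc _ haA _ (A.inv_mem hbA)
    · rw [map_mul, Module.End.mul_apply, e2, ← Module.End.mul_apply, ← map_mul, inv_mul_cancel,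
        map_one, Module.End.one_apply]

theorem e9_gen {A X : Subgroup S} [Finite S] (hA3 : ∀ a ∈ A, a ^ 3 = 1)
    (hA9 : Nat.card ↥A = 9) (hAX : A ⊔ X = ⊤) {z t u a b : S} (F : D8F X z t u)
    (haA : a ∈ A) (ha1 : a ≠ 1) (hbA : b ∈ A) (hb1 : b ≠ 1) (hab : a * b = b * a)
    (hta : MulAut.conj t a = a) (htb : MulAut.conj t b = b⁻¹)
    (T : Subgroup S) (ha : a ∈ T) (hb : b ∈ T) (ht : t ∈ T) (hz : z ∈ T) (hu : u ∈ T) :
    T = ⊤ := by
  have hAT : A ≤ T := by
    have h1 : Subgroup.zpowers a ⊓ Subgroup.zpowers b = ⊥ := by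
      rw [eq_bot_iff]
      intro x hx
      obtain ⟨⟨k, hk⟩, ⟨j, hj⟩⟩ := hx
      have e1 : MulAut.conj t x = x := by rw [← hk, map_zpow, hta]
      have e2 : MulAut.conj t x = x⁻¹ := by rw [← hj, map_zpow, htb, inv_zpow]
      have hxA : x ∈ A := hk ▸ A.zpow_mem haA k
      have e3 : x * x = 1 := by
        have h : x⁻¹ = x := by rw [← e2, e1]
        nth_rewrite 1 [← h]
        exact inv_mul_cancel x
      exact Subgroup.mem_bot.mpr (e9_one_of_sq_cube e3 (hA3 x hxA))
    haveI : Fact (Nat.Prime 3) := ⟨by norm_num⟩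
    have hnorm : Subgroup.zpowers a ≤ Subgroup.normalizer (Subgroup.zpowers b : Set S) := by
      refine le_trans ?_ (Subgroup.centralizer_le_normalizer _)
      rw [Subgroup.zpowers_le, Subgroup.mem_centralizer_iff]
      intro h hh
      obtain ⟨k, rfl⟩ := Subgroup.mem_zpowers_iff.mp hh
      exact (Commute.zpow_left (show Commute b a from hab.symm) k).eq
    have h2 := helper15.card_sup_mul_card_inf (Subgroup.zpowers a) (Subgroup.zpowers b) hnorm
    rw [h1, Subgroup.card_bot, mul_one, Nat.card_zpowers, Nat.card_zpowers,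
      orderOf_eq_prime (hA3 a haA) ha1, orderOf_eq_prime (hA3 b hbA) hb1] at h2
    have hle : Subgroup.zpowers a ⊔ Subgroup.zpowers b ≤ A :=
      sup_le (Subgroup.zpowers_le.mpr haA) (Subgroup.zpowers_le.mpr hbA)
    have heq : Subgroup.zpowers a ⊔ Subgroup.zpowers b = A :=
      Subgroup.eq_of_le_of_card_ge hle (by rw [h2, hA9])
    rw [← heq]
    exact sup_le (Subgroup.zpowers_le.mpr ha) (Subgroup.zpowers_le.mpr hb)
  have hXT : X ≤ T := by
    intro x hx
    rcases F.all x hx with h | h | h | h | h | h | h | h <;> rw [h]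
    · exact T.one_mem
    · exact hz
    · exact ht
    · exact T.mul_mem ht hz
    · exact hu
    · exact T.mul_mem hu hz
    · exact T.mul_mem hu ht
    · exact T.mul_mem (T.mul_mem hu ht) hz
  rw [eq_top_iff, ← hAX]
  exact sup_le hAT hXT

theorem e9_inv {A X : Subgroup S} [Finite S] (hA3 : ∀ a ∈ A, a ^ 3 = 1)
    (hA9 : Nat.card ↥A = 9) (hAX : A ⊔ X = ⊤) {z t u a b : S} (F : D8F X z t u)
    (haA : a ∈ A) (ha1 : a ≠ 1) (hbA : b ∈ A) (hb1 : b ≠ 1) (hab : a * b = b * a)
    (hta : MulAut.conj t a = a) (htb : MulAut.conj t b = b⁻¹)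
    (ρ : Representation (ZMod 2) S M) (N : Submodule (ZMod 2) M)
    (ha : ∀ n ∈ N, ρ a n ∈ N) (hb : ∀ n ∈ N, ρ b n ∈ N) (ht : ∀ n ∈ N, ρ t n ∈ N)
    (hz : ∀ n ∈ N, ρ z n ∈ N) (hu : ∀ n ∈ N, ρ u n ∈ N) :
    ∀ s : S, ∀ n ∈ N, ρ s n ∈ N := by
  let T : Subgroup S :=
    { carrier := {s | ∀ n, n ∈ N ↔ ρ s n ∈ N}
      one_mem' := fun n => by rw [map_one, Module.End.one_apply]
      mul_mem' := fun {x y} hx hy n => by
        rw [map_mul, Module.End.mul_apply, ← hx, ← hy]
      inv_mem' := fun {x} hx n => by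
        rw [hx (ρ x⁻¹ n), ← Module.End.mul_apply, ← map_mul, mul_inv_cancel, map_one,
          Module.End.one_apply] }
  have hT : T = ⊤ := by
    apply e9_gen hA3 hA9 hAX F haA ha1 hbA hb1 hab hta htb T
    · intro n
      refine ⟨ha n, fun h => ?_⟩
      have h1 := ha _ (ha _ h)
      rwa [e9_cube ρ (hA3 a haA)] at h1
    · intro n
      refine ⟨hb n, fun h => ?_⟩
      have h1 := hb _ (hb _ h)
      rwa [e9_cube ρ (hA3 b hbA)] at h1
    · intro n
      refine ⟨ht n, fun h => ?_⟩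
      have h1 := ht _ h
      rwa [e9_sq ρ F.t2] at h1
    · intro n
      refine ⟨hz n, fun h => ?_⟩
      have h1 := hz _ h
      rwa [e9_sq ρ F.z2] at h1
    · intro n
      refine ⟨hu n, fun h => ?_⟩
      have h1 := hu _ h
      rwa [e9_sq ρ F.u2] at h1
  intro s n hn
  have hs : s ∈ T := hT ▸ Subgroup.mem_top s
  exact (hs n).mp hn

theorem e9_pigeon {α : Type*} (p q x y w : α) (hx : x = p ∨ x = q) (hy : y = p ∨ y = q)
    (hw : w = p ∨ w = q) : x = y ∨ x = w ∨ y = w := by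
  rcases hx with hx | hx <;> rcases hy with hy | hy <;> rcases hw with hw | hw <;>
    simp [hx, hy, hw]

theorem e9_main {A X : Subgroup S} [Finite S] [Finite M] [hAn : A.Normal]
    (hA3 : ∀ a ∈ A, a ^ 3 = 1)
    (hAc : ∀ a ∈ A, ∀ b ∈ A, a * b = b * a) (hA9 : Nat.card ↥A = 9) (hAX : A ⊔ X = ⊤)
    (ρ : Representation (ZMod 2) S M) (hfaith : Function.Injective ρ)
    (hirr : ∀ N : Submodule (ZMod 2) M, (∀ s : S, ∀ m ∈ N, ρ s m ∈ N) → N = ⊥ ∨ N = ⊤)
    {z t u a : S} {m₀ : M} (C : E9C A X ρ z t u a m₀) :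
    Nat.card M = 16 ∧
      ∃! B : Subgroup S, B ≤ X ∧ Nat.card ↥B = 4 ∧ (∀ b ∈ B, b ^ 2 = 1) ∧
        Nat.card {m : M // ∀ b ∈ B, ρ b m = m} = 2 := by
  obtain ⟨F, haA, ha1, hta, hza, hm₀, hfix₀⟩ := C
  have hcA : ∀ x ∈ A, ∀ g : S, MulAut.conj g x ∈ A := fun x hx g => by
    rw [MulAut.conj_apply]
    exact hAn.conj_mem x hx g
  obtain ⟨b, hb⟩ : ∃ b, b = MulAut.conj u a := ⟨_, rfl⟩
  have hbA : b ∈ A := hb ▸ hcA a haA u
  have hub : MulAut.conj u b = a := by rw [hb, e9_conj_sq F.u2]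
  have hb1 : b ≠ 1 := by
    intro h
    rw [h, map_one] at hub
    exact ha1 hub.symm
  have htb : MulAut.conj t b = b⁻¹ := by
    rw [hb, ← MulAut.mul_apply, ← map_mul, F.tu, map_mul, map_mul, MulAut.mul_apply,
      MulAut.mul_apply, hta, hza, map_inv]
  have hzb : MulAut.conj z b = b⁻¹ := by
    rw [hb, e9_conj_rel F.zu a, hza, map_inv]
  have ha3 := hA3 a haA
  have hb3 := hA3 b hbA
  have hab := hAc a haA b hbA
  -- relations on the module
  have rta : ∀ x : M, ρ t (ρ a x) = ρ a (ρ t x) := fun x => e9_rel ρ (e9_conj_eq.mp hta) x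
  have rza : ∀ x : M, ρ z (ρ a x) = ρ a (ρ a (ρ z x)) := fun x => by
    rw [← e9_inv_apply ρ ha3]
    exact e9_rel ρ (e9_conj_eq.mp hza) x
  have rua : ∀ x : M, ρ u (ρ a x) = ρ b (ρ u x) := fun x => e9_rel ρ (e9_conj_eq.mp hb.symm) x
  have rub : ∀ x : M, ρ u (ρ b x) = ρ a (ρ u x) := fun x => e9_rel ρ (e9_conj_eq.mp hub) x
  have rtb : ∀ x : M, ρ t (ρ b x) = ρ b (ρ b (ρ t x)) := fun x => by
    rw [← e9_inv_apply ρ hb3]
    exact e9_rel ρ (e9_conj_eq.mp htb) x
  have rzb : ∀ x : M, ρ z (ρ b x) = ρ b (ρ b (ρ z x)) := fun x => by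
    rw [← e9_inv_apply ρ hb3]
    exact e9_rel ρ (e9_conj_eq.mp hzb) x
  have rab : ∀ x : M, ρ a (ρ b x) = ρ b (ρ a x) := fun x => e9_rel ρ hab x
  have rtt := e9_sq ρ F.t2
  have rzz := e9_sq ρ F.z2
  have ruu := e9_sq ρ F.u2
  have raaa := e9_cube ρ ha3
  have rbbb := e9_cube ρ hb3
  have rzt : ∀ x : M, ρ z (ρ t x) = ρ t (ρ z x) := fun x => e9_rel ρ F.zt x
  have rzu : ∀ x : M, ρ z (ρ u x) = ρ u (ρ z x) := fun x => e9_rel ρ F.zu x
  have rtu : ∀ x : M, ρ t (ρ u x) = ρ u (ρ z (ρ t x)) := fun x => by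
    have h := congrArg (fun s => ρ s x) F.tu
    simpa only [map_mul, Module.End.mul_apply] using h
  -- the common fixed points of `a` and `b` vanish
  let N₀ : Submodule (ZMod 2) M :=
    { carrier := {n | ρ a n = n ∧ ρ b n = n}
      add_mem' := fun {x y} hx hy => ⟨by rw [map_add, hx.1, hy.1], by rw [map_add, hx.2, hy.2]⟩
      zero_mem' := ⟨map_zero _, map_zero _⟩
      smul_mem' := fun c x hx => ⟨by rw [map_smul, hx.1], by rw [map_smul, hx.2]⟩ }
  have hN₀mem : ∀ n : M, n ∈ N₀ ↔ ρ a n = n ∧ ρ b n = n := fun n => Iff.rfl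
  have hN₀ : N₀ = ⊥ := by
    have hinv : ∀ s : S, ∀ n ∈ N₀, ρ s n ∈ N₀ := by
      apply e9_inv hA3 hA9 hAX F haA ha1 hbA hb1 hab hta htb ρ N₀
      · intro n hn
        obtain ⟨h1, h2⟩ := (hN₀mem n).mp hn
        exact (hN₀mem _).mpr ⟨by rw [h1, h1], by rw [← rab, h2]⟩
      · intro n hn
        obtain ⟨h1, h2⟩ := (hN₀mem n).mp hn
        exact (hN₀mem _).mpr ⟨by rw [rab, h1], by rw [h2, h2]⟩
      · intro n hn
        obtain ⟨h1, h2⟩ := (hN₀mem n).mp hn
        refine (hN₀mem _).mpr ⟨by rw [← rta, h1], ?_⟩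
        apply e9_fix_of_sq ρ hb3
        rw [← rtb, h2]
      · intro n hn
        obtain ⟨h1, h2⟩ := (hN₀mem n).mp hn
        refine (hN₀mem _).mpr ⟨?_, ?_⟩
        · apply e9_fix_of_sq ρ ha3
          rw [← rza, h1]
        · apply e9_fix_of_sq ρ hb3
          rw [← rzb, h2]
      · intro n hn
        obtain ⟨h1, h2⟩ := (hN₀mem n).mp hn
        exact (hN₀mem _).mpr ⟨by rw [← rub, h2], by rw [← rua, h1]⟩
    rcases hirr N₀ hinv with h | h
    · exact h
    · exfalso
      apply ha1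
      apply hfaith
      rw [map_one]
      ext x
      have hx : x ∈ N₀ := h ▸ Submodule.mem_top
      exact ((hN₀mem x).mp hx).1
  have hN : ∀ n : M, ρ a n = n → ρ b n = n → n = 0 := by
    intro n h1 h2
    have hn : n ∈ N₀ := (hN₀mem n).mpr ⟨h1, h2⟩
    rw [hN₀] at hn
    exact (Submodule.mem_bot _).mp hn
  -- a nonzero vector fixed by `a`, `t`, `z`
  obtain ⟨m₁, hm₁, ha₁, ht₁⟩ : ∃ m₁ : M, m₁ ≠ 0 ∧ ρ a m₁ = m₁ ∧ ρ t m₁ = m₁ := by
    by_cases h : m₀ + ρ t m₀ = 0
    · exact ⟨m₀, hm₀, hfix₀, (e9_eq_of_add h).symm⟩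
    · refine ⟨m₀ + ρ t m₀, h, ?_, ?_⟩
      · rw [map_add, ← rta, hfix₀]
      · rw [map_add, rtt, add_comm]
  obtain ⟨m, hm, ham, htm, hzm⟩ : ∃ m : M, m ≠ 0 ∧ ρ a m = m ∧ ρ t m = m ∧ ρ z m = m := by
    have haz : ρ a (ρ z m₁) = ρ z m₁ := by
      apply e9_fix_of_sq ρ ha3
      rw [← rza, ha₁]
    by_cases h : m₁ + ρ z m₁ = 0
    · exact ⟨m₁, hm₁, ha₁, ht₁, (e9_eq_of_add h).symm⟩
    · refine ⟨m₁ + ρ z m₁, h, ?_, ?_, ?_⟩
      · rw [map_add, haz, ha₁]
      · rw [map_add, ← rzt, ht₁]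
      · rw [map_add, rzz, add_comm]
  obtain ⟨m', hm'⟩ : ∃ m' : M, m' = ρ u m := ⟨_, rfl⟩
  have hum : ρ u m = m' := hm'.symm
  have hum' : ρ u m' = m := by rw [hm', ruu]
  have hbm' : ρ b m' = m' := by rw [hm', ← rua, ham]
  have hzm' : ρ z m' = m' := by rw [hm', rzu, hzm]
  have htm' : ρ t m' = m' := by rw [hm', rtu, htm, hzm]
  have hbm : ρ b m ≠ m := fun h => hm (hN m ham h)
  have hm'0 : m' ≠ 0 := fun h => by
    apply hm
    rw [← hum', h, map_zero]
  have ham' : ρ a m' ≠ m' := fun h => hm'0 (hN m' h hbm')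
  have hmm' : m ≠ m' := fun h => hbm (by rw [h]; exact hbm')
  have hbb : ρ b (ρ b m) = ρ b m + m := by
    apply e9_eq_of_add3
    apply hN
    · simp only [map_add, rab, ham]
    · exact e9_norm_fix ρ hb3 m
  have haa : ρ a (ρ a m') = ρ a m' + m' := by
    apply e9_eq_of_add3
    apply hN
    · exact e9_norm_fix ρ ha3 m'
    · simp only [map_add, ← rab, hbm']
  obtain ⟨w2, hw2⟩ : ∃ w2 : M, w2 = ρ b m := ⟨_, rfl⟩
  obtain ⟨w4, hw4⟩ : ∃ w4 : M, w4 = ρ a m' := ⟨_, rfl⟩
  have hbm2 : ρ b m = w2 := hw2.symm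
  have ham4 : ρ a m' = w4 := hw4.symm
  have aw2 : ρ a w2 = w2 := by rw [hw2, rab, ham]
  have aw4 : ρ a w4 = w4 + m' := by rw [hw4, haa]
  have bw2 : ρ b w2 = w2 + m := by rw [hw2, hbb]
  have bw4 : ρ b w4 = w4 := by rw [hw4, ← rab, hbm']
  have tw2 : ρ t w2 = w2 + m := by rw [hw2, rtb, htm, hbb]
  have tw4 : ρ t w4 = w4 := by rw [hw4, rta, htm']
  have zw2 : ρ z w2 = w2 + m := by rw [hw2, rzb, hzm, hbb]
  have zw4 : ρ z w4 = w4 + m' := by rw [hw4, rza, hzm', haa]
  have uw2 : ρ u w2 = w4 := by rw [hw2, hw4, hm', rub]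
  have uw4 : ρ u w4 = w2 := by rw [hw4, hw2, rua, hum']
  -- the span of the four vectors is everything
  obtain ⟨W, hW⟩ : ∃ W : Submodule (ZMod 2) M, W = Submodule.span (ZMod 2) {m, w2, m', w4} :=
    ⟨_, rfl⟩
  have hmW : m ∈ W := by
    rw [hW]
    exact Submodule.subset_span (by simp)
  have hw2W : w2 ∈ W := by
    rw [hW]
    exact Submodule.subset_span (by simp)
  have hm'W : m' ∈ W := by
    rw [hW]
    exact Submodule.subset_span (by simp)
  have hw4W : w4 ∈ W := by
    rw [hW]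
    exact Submodule.subset_span (by simp)
  have hWinv : ∀ g : S, ρ g m ∈ W → ρ g w2 ∈ W → ρ g m' ∈ W → ρ g w4 ∈ W →
      ∀ n ∈ W, ρ g n ∈ W := by
    intro g h1 h2 h3 h4 n hn
    have hle : Submodule.map (ρ g) W ≤ W := by
      rw [hW, Submodule.map_span_le, ← hW]
      intro x hx
      simp only [Set.mem_insert_iff, Set.mem_singleton_iff] at hx
      rcases hx with hx | hx | hx | hx <;> rw [hx]
      exacts [h1, h2, h3, h4]
    exact hle (Submodule.mem_map_of_mem hn)
  have hWtop : W = ⊤ := by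
    have hinv : ∀ s : S, ∀ n ∈ W, ρ s n ∈ W := by
      apply e9_inv hA3 hA9 hAX F haA ha1 hbA hb1 hab hta htb ρ W
      · exact hWinv a (by rw [ham]; exact hmW) (by rw [aw2]; exact hw2W)
          (by rw [ham4]; exact hw4W) (by rw [aw4]; exact W.add_mem hw4W hm'W)
      · exact hWinv b (by rw [hbm2]; exact hw2W) (by rw [bw2]; exact W.add_mem hw2W hmW)
          (by rw [hbm']; exact hm'W) (by rw [bw4]; exact hw4W)
      · exact hWinv t (by rw [htm]; exact hmW) (by rw [tw2]; exact W.add_mem hw2W hmW)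
          (by rw [htm']; exact hm'W) (by rw [tw4]; exact hw4W)
      · exact hWinv z (by rw [hzm]; exact hmW) (by rw [zw2]; exact W.add_mem hw2W hmW)
          (by rw [hzm']; exact hm'W) (by rw [zw4]; exact W.add_mem hw4W hm'W)
      · exact hWinv u (by rw [hum]; exact hm'W) (by rw [uw2]; exact hw4W)
          (by rw [hum']; exact hmW) (by rw [uw4]; exact hw2W)
    rcases hirr W hinv with h | h
    · exfalso
      apply hm
      have h1 : m ∈ (⊥ : Submodule (ZMod 2) M) := h ▸ hmW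
      exact (Submodule.mem_bot _).mp h1
    · exact h
  have hcoord : ∀ x : M, ∃ c1 c2 c3 c4 : ZMod 2, x = c1 • m + c2 • w2 + c3 • m' + c4 • w4 := by
    intro x
    have hx : x ∈ W := hWtop ▸ Submodule.mem_top
    rw [hW] at hx
    obtain ⟨c1, y1, hy1, rfl⟩ := Submodule.mem_span_insert.mp hx
    obtain ⟨c2, y2, hy2, rfl⟩ := Submodule.mem_span_insert.mp hy1
    obtain ⟨c3, y3, hy3, rfl⟩ := Submodule.mem_span_insert.mp hy2
    obtain ⟨c4, rfl⟩ := Submodule.mem_span_singleton.mp hy3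
    exact ⟨c1, c2, c3, c4, by rw [add_assoc, add_assoc]⟩
  have h01 : ∀ c : ZMod 2, c = 0 ∨ c = 1 := by decide
  have hind1 : ∀ c1 c2 : ZMod 2, c1 • m + c2 • w2 = 0 → c1 = 0 ∧ c2 = 0 := by
    intro c1 c2 h
    rcases h01 c1 with h1 | h1 <;> rcases h01 c2 with h2 | h2 <;> rw [h1, h2] at h
    · exact ⟨h1, h2⟩
    · exfalso
      rw [zero_smul, one_smul, zero_add] at h
      apply hm
      rw [← rbbb m, hbm2, h, map_zero, map_zero]
    · exfalso
      rw [one_smul, zero_smul, add_zero] at h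
      exact hm h
    · exfalso
      rw [one_smul, one_smul] at h
      exact hbm (by rw [hbm2]; exact (e9_eq_of_add h).symm)
  have hind2 : ∀ c3 c4 : ZMod 2, c3 • m' + c4 • w4 = 0 → c3 = 0 ∧ c4 = 0 := by
    intro c1 c2 h
    rcases h01 c1 with h1 | h1 <;> rcases h01 c2 with h2 | h2 <;> rw [h1, h2] at h
    · exact ⟨h1, h2⟩
    · exfalso
      rw [zero_smul, one_smul, zero_add] at h
      apply hm'0
      rw [← raaa m', ham4, h, map_zero, map_zero]
    · exfalso
      rw [one_smul, zero_smul, add_zero] at h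
      exact hm'0 h
    · exfalso
      rw [one_smul, one_smul] at h
      exact ham' (by rw [ham4]; exact (e9_eq_of_add h).symm)
  have hind : ∀ c1 c2 c3 c4 : ZMod 2, c1 • m + c2 • w2 + c3 • m' + c4 • w4 = 0 →
      c1 = 0 ∧ c2 = 0 ∧ c3 = 0 ∧ c4 = 0 := by
    intro c1 c2 c3 c4 h
    have e : c1 • m + c2 • w2 = c3 • m' + c4 • w4 :=
      e9_eq_of_add (by rw [← add_assoc]; exact h)
    have h0 : c1 • m + c2 • w2 = 0 := by
      apply hN
      · rw [map_add, map_smul, map_smul, ham, aw2]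
      · rw [e, map_add, map_smul, map_smul, hbm', bw4]
    have h0' : c3 • m' + c4 • w4 = 0 := by
      rw [← e]
      exact h0
    exact ⟨(hind1 _ _ h0).1, (hind1 _ _ h0).2, (hind2 _ _ h0').1, (hind2 _ _ h0').2⟩
  have hcard : Nat.card M = 16 := by
    have hli : LinearIndependent (ZMod 2) ![m, w2, m', w4] := by
      rw [Fintype.linearIndependent_iff]
      intro g hg
      rw [Fin.sum_univ_four] at hg
      have h4 := hind (g 0) (g 1) (g 2) (g 3) hg
      intro i
      fin_cases i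
      exacts [h4.1, h4.2.1, h4.2.2.1, h4.2.2.2]
    have hsp : ⊤ ≤ Submodule.span (ZMod 2) (Set.range ![m, w2, m', w4]) := by
      rw [← hWtop, hW]
      apply Submodule.span_mono
      intro x hx
      simp only [Set.mem_insert_iff, Set.mem_singleton_iff] at hx
      rcases hx with hx | hx | hx | hx <;> rw [hx]
      exacts [⟨0, rfl⟩, ⟨1, rfl⟩, ⟨2, rfl⟩, ⟨3, rfl⟩]
    have h1 := Module.finrank_eq_card_basis (Module.Basis.mk hli hsp)
    rw [Module.natCard_eq_pow_finrank (K := ZMod 2) (V := M), h1]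
    simp
  -- the subgroup `B₂ = {1, z, u, uz}`
  obtain ⟨B₂, hB₂, hB₂X, hB₂card, hB₂sq⟩ := F.exists_B2
  have hzB₂ : z ∈ B₂ := (hB₂ z).mpr (Or.inr (Or.inl rfl))
  have huB₂ : u ∈ B₂ := (hB₂ u).mpr (Or.inr (Or.inr (Or.inl rfl)))
  have hfixzu : ∀ x : M, ρ z x = x → ρ u x = x → x = 0 ∨ x = m + m' := by
    intro x hz hu
    obtain ⟨c1, c2, c3, c4, rfl⟩ := hcoord x
    have e1 : ρ z (c1 • m + c2 • w2 + c3 • m' + c4 • w4) =
        c1 • m + c2 • (w2 + m) + c3 • m' + c4 • (w4 + m') := by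
      simp only [map_add, map_smul, hzm, zw2, hzm', zw4]
    rw [e1] at hz
    have h2 : c2 • m + c4 • m' = 0 := by
      have h3 := sub_eq_zero.mpr hz
      rw [← h3]
      simp only [smul_add]
      abel
    have h3 := hind c2 0 c4 0 (by simpa only [zero_smul, add_zero] using h2)
    obtain ⟨h4, -, h5, -⟩ := h3
    rw [h4, h5] at hu ⊢
    simp only [zero_smul, add_zero, map_add, map_smul, hum, hum'] at hu ⊢
    rcases h01 c1 with h6 | h6 <;> rcases h01 c3 with h7 | h7 <;> rw [h6, h7] at hu ⊢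
    · left
      simp
    · exfalso
      simp only [zero_smul, one_smul, zero_add, add_zero] at hu
      exact hmm' hu
    · exfalso
      simp only [zero_smul, one_smul, zero_add, add_zero] at hu
      exact hmm' hu.symm
    · right
      simp
  have hfix2 : Nat.card {x : M // ∀ g ∈ B₂, ρ g x = x} = 2 := by
    rw [Nat.card_eq_two_iff]
    have h0 : ∀ g ∈ B₂, ρ g (0 : M) = 0 := fun g _ => map_zero _
    have h1 : ∀ g ∈ B₂, ρ g (m + m') = m + m' := by
      intro g hg
      rcases (hB₂ g).mp hg with h | h | h | h <;> rw [h]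
      · rw [map_one, Module.End.one_apply]
      · rw [map_add, hzm, hzm']
      · rw [map_add, hum, hum', add_comm]
      · rw [map_mul, Module.End.mul_apply, map_add, hzm, hzm', map_add, hum, hum', add_comm]
    refine ⟨⟨0, h0⟩, ⟨m + m', h1⟩, ?_, ?_⟩
    · intro h
      have h2 := congrArg Subtype.val h
      exact hmm' (e9_eq_of_add h2.symm)
    · ext ⟨x, hx⟩
      simp only [Set.mem_insert_iff, Set.mem_singleton_iff, Set.mem_univ, iff_true,
        Subtype.mk.injEq]
      exact hfixzu x (hx z hzB₂) (hx u huB₂)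
  refine ⟨hcard, B₂, ⟨hB₂X, hB₂card, hB₂sq, hfix2⟩, ?_⟩
  rintro B' ⟨hB'X, hB'4, hB'2, hB'f⟩
  have hsq : ∀ g ∈ B', g * g = 1 := fun g hg => by
    rw [← pow_two]
    exact hB'2 g hg
  have hno1 : u * t ∉ B' := fun h => F.z1 (by rw [← F.ut_sq]; exact hsq _ h)
  have hno2 : u * t * z ∉ B' := fun h => F.z1 (by rw [← F.utz_sq]; exact hsq _ h)
  have h3 : ∃ g ∈ B', g = u ∨ g = u * z := by
    by_contra hcon
    push Not at hcon
    have hfixall : ∀ x : M, ρ z x = x → ρ t x = x → ∀ g ∈ B', ρ g x = x := by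
      intro x hzx htx g hg
      rcases F.all g (hB'X hg) with h | h | h | h | h | h | h | h
      · rw [h, map_one, Module.End.one_apply]
      · rw [h]
        exact hzx
      · rw [h]
        exact htx
      · rw [h, map_mul, Module.End.mul_apply, hzx, htx]
      · exact absurd h (hcon g hg).1
      · exact absurd h (hcon g hg).2
      · exact absurd (h ▸ hg) hno1
      · exact absurd (h ▸ hg) hno2
    obtain ⟨p, q, hpq, huniv⟩ := Nat.card_eq_two_iff.mp hB'f
    have hmem : ∀ y : {x : M // ∀ b ∈ B', ρ b x = x}, y = p ∨ y = q := by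
      intro y
      have hy : y ∈ ({p, q} : Set _) := huniv ▸ Set.mem_univ y
      simpa only [Set.mem_insert_iff, Set.mem_singleton_iff] using hy
    have h5 := e9_pigeon p q (⟨0, fun g _ => map_zero _⟩ : {x : M // ∀ b ∈ B', ρ b x = x})
      ⟨m, hfixall m hzm htm⟩ ⟨m', hfixall m' hzm' htm'⟩ (hmem _) (hmem _) (hmem _)
    simp only [Subtype.mk.injEq] at h5
    rcases h5 with h5 | h5 | h5
    · exact hm h5.symm
    · exact hm'0 h5.symm
    · exact hmm' h5
  obtain ⟨g₀, hg₀, hg₀'⟩ := h3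
  have hle : B' ≤ B₂ := by
    intro g hg
    rw [hB₂]
    rcases F.all g (hB'X hg) with h | h | h | h | h | h | h | h
    · left
      exact h
    · right; left
      exact h
    · exfalso
      rcases hg₀' with h' | h'
      · exact hno1 (by rw [← h', ← h]; exact B'.mul_mem hg₀ hg)
      · apply hno2
        have e : u * t * z = g₀ * g := by rw [h', h, mul_assoc u z t, F.zt, ← mul_assoc]
        rw [e]
        exact B'.mul_mem hg₀ hg
    · exfalso
      rcases hg₀' with h' | h'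
      · apply hno2
        have e : u * t * z = g₀ * g := by rw [h', h, ← mul_assoc]
        rw [e]
        exact B'.mul_mem hg₀ hg
      · apply hno1
        have e : u * t = g₀ * g := by
          rw [h', h, mul_assoc u z (t * z), ← mul_assoc z t z, F.zt, mul_assoc t z z, F.z2, mul_one]
        rw [e]
        exact B'.mul_mem hg₀ hg
    · right; right; left
      exact h
    · right; right; right
      exact h
    · exact absurd (h ▸ hg) hno1
    · exact absurd (h ▸ hg) hno2
  exact Subgroup.eq_of_le_of_card_ge hle (by rw [hB₂card, hB'4])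

end main

theorem e9_result {S : Type*} [Group S] [Finite S]
    (A : Subgroup S) [A.Normal] (hA : Cfsg.IsElementaryAbelian 3 A) (hA9 : Nat.card ↥A = 9)
    (hAC : Subgroup.centralizer (A : Set S) = A) (X : Subgroup S)
    (hX : Nonempty (↥X ≃* DihedralGroup 4)) (hAX : A ⊔ X = ⊤)
    {M : Type*} [AddCommGroup M] [Module (ZMod 2) M] [Finite M] (ρ : Representation (ZMod 2) S M)
    (hfaith : Function.Injective ρ)
    (hirr : ∀ N : Submodule (ZMod 2) M, (∀ s : S, ∀ m ∈ N, ρ s m ∈ N) → N = ⊥ ∨ N = ⊤)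
    (hM : Nontrivial M) :
    Nat.card M = 16 ∧
      ∃! B : Subgroup S, B ≤ X ∧ Nat.card ↥B = 4 ∧ (∀ b ∈ B, b ^ 2 = 1) ∧
        Nat.card {m : M // ∀ b ∈ B, ρ b m = m} = 2 := by
  obtain ⟨hAcomm, hA3⟩ := hA
  have hAc : ∀ a ∈ A, ∀ b ∈ A, a * b = b * a := by
    intro a ha b hb
    have h := hAcomm.is_comm.comm ⟨a, ha⟩ ⟨b, hb⟩
    exact congrArg Subtype.val h
  obtain ⟨e⟩ := hX
  obtain ⟨z, t, u, F⟩ := exists_D8F X e
  obtain ⟨z', t', u', a, m, C⟩ := e9_exists_fix hA3 hAc hAC F ρ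
  exact e9_main hA3 hAc hA9 hAX ρ hfaith hirr C

end Cfsg.Agent.Lib.helper14
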