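import Mathlib
import Cfsg.Agent.Lib.helper18.ES2c
import Cfsg.Agent.Lib.helper18.ES2b

set_option autoImplicit false
set_option linter.style.haveILetI false
set_option linter.unusedSimpArgs false

namespace Cfsg.Agent.Lib.helper14

open Cfsg Cfsg.Agent.Lib.helper18.ES2

open scoped commutatorElement

section frame

variable {P : Type*} [Group P] {z : P}

theorem es32_coe_rep {H : Subgroup P} (x y : H) (i j : Bool) :
    ((rep x y i j : H) : P) = rep (x : P) (y : P) i j := by
  cases i <;> cases j <;> simp [rep]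

theorem es32_cz (h : ES P z) (x : P) : ⁅z, x⁆ = 1 :=
  commutatorElement_eq_one_iff_mul_comm.mpr (h.cen x)

theorem es32_cz' (h : ES P z) (x : P) : ⁅x, z⁆ = 1 :=
  commutatorElement_eq_one_iff_mul_comm.mpr (h.cen x).symm

/-- The frame of an extraspecial group of order `32` of minus type. -/
theorem es32_frame [Finite P] (h : ES P z) (h32 : Nat.card P = 32)
    (hminus : ∀ A : Subgroup P, Cfsg.IsElementaryAbelian 2 A → Nat.card ↥A ≤ 4) :
    ∃ e₁ e₂ c₁ c₂ : P, e₁ * e₁ = 1 ∧ e₂ * e₂ = 1 ∧ ⁅e₁, e₂⁆ = z ∧ c₁ * c₁ = z ∧ c₂ * c₂ = z ∧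
      ⁅c₁, c₂⁆ = z ∧ ⁅e₁, c₁⁆ = 1 ∧ ⁅e₁, c₂⁆ = 1 ∧ ⁅e₂, c₁⁆ = 1 ∧ ⁅e₂, c₂⁆ = 1 ∧
      ∀ g : P, ∃ i j k l m : Bool,
        g = rep e₁ e₂ i j * (rep c₁ c₂ k l * (if m then z else 1)) := by
  rcases h.tri with ⟨h2, -⟩ | ⟨h8, -⟩ | ⟨e₁, e₂, he₁, he₂, he⟩
  · omega
  · omega
  have hC := h.sub he
  have hcardC : Nat.card (Subgroup.centralizer ({e₁, e₂} : Set P)) = 8 := by
    have := h.card_eq he
    omega
  rcases hC.tri with ⟨h2, -⟩ | ⟨-, -, c₁, c₂, hc₁, hc₂, hc⟩ | ⟨x, y, hx, hy, hxy⟩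
  · omega
  · have hD := hC.sub hc
    have hcardD : Nat.card (Subgroup.centralizer
        ({c₁, c₂} : Set (Subgroup.centralizer ({e₁, e₂} : Set P)))) = 2 := by
      have := hC.card_eq hc
      omega
    obtain ⟨w, hw1, hw2⟩ := (Nat.card_eq_two_iff' (1 : Subgroup.centralizer
        ({c₁, c₂} : Set (Subgroup.centralizer ({e₁, e₂} : Set P))))).mp hcardD
    have hDel : ∀ d : Subgroup.centralizer
        ({c₁, c₂} : Set (Subgroup.centralizer ({e₁, e₂} : Set P))),
        ((d : Subgroup.centralizer ({e₁, e₂} : Set P)) : P) = 1 ∨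
          ((d : Subgroup.centralizer ({e₁, e₂} : Set P)) : P) = z := by
      intro d
      by_cases hd : d = 1
      · left; rw [hd]; rfl
      · right
        have h1 := hw2 d hd
        have h2 := hw2 ⟨⟨z, h.z_mem e₁ e₂⟩, hC.z_mem c₁ c₂⟩ hD.ne
        rw [h1, ← h2]
    have hcc : ⁅(c₁ : P), (c₂ : P)⁆ = z := by
      have := congrArg Subtype.val hc
      simpa [commutatorElement_def] using this
    obtain ⟨h11, h12⟩ := (mem_cent e₁ e₂ (c₁ : P)).mp c₁.2
    obtain ⟨h21, h22⟩ := (mem_cent e₁ e₂ (c₂ : P)).mp c₂.2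
    refine ⟨e₁, e₂, c₁, c₂, he₁, he₂, he, congrArg Subtype.val hc₁, congrArg Subtype.val hc₂,
      hcc, commutatorElement_eq_one_iff_mul_comm.mpr h11,
      commutatorElement_eq_one_iff_mul_comm.mpr h21,
      commutatorElement_eq_one_iff_mul_comm.mpr h12,
      commutatorElement_eq_one_iff_mul_comm.mpr h22, ?_⟩
    intro g
    obtain ⟨⟨i, j, c⟩, rfl⟩ := (h.Phi_bij he).2 g
    obtain ⟨⟨k, l, d⟩, rfl⟩ := (hC.Phi_bij hc).2 c
    rcases hDel d with hd | hd
    · refine ⟨i, j, k, l, false, ?_⟩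
      show rep e₁ e₂ i j * ((rep c₁ c₂ k l * (d : Subgroup.centralizer ({e₁, e₂} : Set P)) :
        Subgroup.centralizer ({e₁, e₂} : Set P)) : P) = _
      rw [Subgroup.coe_mul, es32_coe_rep, hd]
      rfl
    · refine ⟨i, j, k, l, true, ?_⟩
      show rep e₁ e₂ i j * ((rep c₁ c₂ k l * (d : Subgroup.centralizer ({e₁, e₂} : Set P)) :
        Subgroup.centralizer ({e₁, e₂} : Set P)) : P) = _
      rw [Subgroup.coe_mul, es32_coe_rep, hd]
      rfl
  · exfalso
    have hxy' : ⁅(x : P), (y : P)⁆ = z := by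
      have := congrArg Subtype.val hxy
      simpa [commutatorElement_def] using this
    have hx' : (x : P) * (x : P) = 1 := congrArg Subtype.val hx
    obtain ⟨hx1, hx2⟩ := (mem_cent e₁ e₂ (x : P)).mp x.2
    obtain ⟨hy1, hy2⟩ := (mem_cent e₁ e₂ (y : P)).mp y.2
    have hB1 : EA (Subgroup.zpowers z) := EA_zpowers z h.sq
    have hB2 : EA (Subgroup.zpowers z ⊔ Subgroup.zpowers e₁) := by
      refine sup_EA hB1 (EA_zpowers e₁ he₁) ?_
      intro a ha b hb
      obtain ⟨n, rfl⟩ := Subgroup.mem_zpowers_iff.mp ha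
      exact ((Commute.zpow_left (h.cen b) n)).eq
    have hB3 : EA (Subgroup.zpowers z ⊔ Subgroup.zpowers e₁ ⊔ Subgroup.zpowers (x : P)) := by
      refine sup_EA hB2 (EA_zpowers (x : P) hx') ?_
      have hle : Subgroup.zpowers z ⊔ Subgroup.zpowers e₁ ≤
          Subgroup.centralizer ({(x : P)} : Set P) := by
        refine sup_le ?_ ?_
        · rw [Subgroup.zpowers_le]
          exact Subgroup.mem_centralizer_iff.mpr (fun g hg => by
            rw [Set.mem_singleton_iff.mp hg]; exact (h.cen _).symm)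
        · rw [Subgroup.zpowers_le]
          exact Subgroup.mem_centralizer_iff.mpr (fun g hg => by
            rw [Set.mem_singleton_iff.mp hg]; exact hx1.symm)
      intro a ha b hb
      obtain ⟨n, rfl⟩ := Subgroup.mem_zpowers_iff.mp hb
      have h1 : (x : P) * a = a * x :=
        Subgroup.mem_centralizer_iff.mp (hle ha) x (Set.mem_singleton _)
      exact ((Commute.zpow_right (show Commute a (x : P) from h1.symm) n)).eq
    have hc1 : 2 * Nat.card (⊥ : Subgroup P) ≤ Nat.card (Subgroup.zpowers z) :=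
      card_double bot_le z (Subgroup.mem_zpowers z) (fun hz => h.ne (Subgroup.mem_bot.mp hz))
    have hc2 : 2 * Nat.card (Subgroup.zpowers z) ≤
        Nat.card (Subgroup.zpowers z ⊔ Subgroup.zpowers e₁ : Subgroup P) := by
      refine card_double le_sup_left e₁ (le_sup_right (a := Subgroup.zpowers z)
        (Subgroup.mem_zpowers e₁)) ?_
      intro hmem
      obtain ⟨n, hn⟩ := Subgroup.mem_zpowers_iff.mp hmem
      have h1 : e₁ * e₂ = e₂ * e₁ := by
        rw [← hn]
        exact ((Commute.zpow_left (h.cen e₂) n)).eq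
      exact h.ne (he ▸ commutatorElement_eq_one_iff_mul_comm.mpr h1)
    have hc3 : 2 * Nat.card (Subgroup.zpowers z ⊔ Subgroup.zpowers e₁ : Subgroup P) ≤
        Nat.card (Subgroup.zpowers z ⊔ Subgroup.zpowers e₁ ⊔ Subgroup.zpowers (x : P) :
          Subgroup P) := by
      refine card_double le_sup_left (x : P) (le_sup_right
        (a := Subgroup.zpowers z ⊔ Subgroup.zpowers e₁) (Subgroup.mem_zpowers (x : P))) ?_
      intro hmem
      have hle : Subgroup.zpowers z ⊔ Subgroup.zpowers e₁ ≤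
          Subgroup.centralizer ({(y : P)} : Set P) := by
        refine sup_le ?_ ?_
        · rw [Subgroup.zpowers_le]
          exact Subgroup.mem_centralizer_iff.mpr (fun g hg => by
            rw [Set.mem_singleton_iff.mp hg]; exact (h.cen _).symm)
        · rw [Subgroup.zpowers_le]
          exact Subgroup.mem_centralizer_iff.mpr (fun g hg => by
            rw [Set.mem_singleton_iff.mp hg]; exact hy1.symm)
      have h1 : (y : P) * x = x * y :=
        Subgroup.mem_centralizer_iff.mp (hle hmem) y (Set.mem_singleton _)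
      exact h.ne (hxy' ▸ commutatorElement_eq_one_iff_mul_comm.mpr h1.symm)
    have h4 := hminus _ ⟨hB3.comm, hB3.exp⟩
    rw [Subgroup.card_bot] at hc1
    omega

end frame

section alpha

variable {P : Type*} [Group P] [Finite P] {z : P}

/-- The automorphism `x ↦ x` or `x * y` according to whether `x` commutes with `y`, for an element
`y` with `y * y = z`. -/
theorem es32_alpha (h : ES P z) (y : P) (hy : y * y = z) :
    ∃ α : MulAut P, ∀ x : P, (⁅x, y⁆ = 1 → α x = x) ∧ (⁅x, y⁆ = z → α x = x * y) := by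
  classical
  let f : P → P := fun x => if ⁅x, y⁆ = 1 then x else x * y
  have hf1 : ∀ x, ⁅x, y⁆ = 1 → f x = x := fun x hx => if_pos hx
  have hfz : ∀ x, ⁅x, y⁆ = z → f x = x * y := fun x hx => if_neg (by rw [hx]; exact h.ne)
  have hmul : ∀ x x', f (x * x') = f x * f x' := by
    intro x x'
    have hb := h.b1 x x' y
    rcases h.comms x y with e1 | e1 <;> rcases h.comms x' y with e2 | e2
    · rw [hf1 _ (by rw [hb, e1, e2, one_mul]), hf1 _ e1, hf1 _ e2]
    · rw [hfz _ (by rw [hb, e1, e2, one_mul]), hf1 _ e1, hfz _ e2, mul_assoc]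
    · rw [hfz _ (by rw [hb, e1, e2, mul_one]), hfz _ e1, hf1 _ e2]
      have h1 : x' * y = y * x' := commutatorElement_eq_one_iff_mul_comm.mp e2
      rw [mul_assoc, mul_assoc, h1]
    · rw [hf1 _ (by rw [hb, e1, e2, h.sq]), hfz _ e1, hfz _ e2]
      have h1 : y * x' = z * (x' * y) := by
        have h2 := h.symm e2
        rw [commutatorElement_def] at h2
        rw [← h2]
        group
      calc x * x' = x * x' * (z * z) := by rw [h.sq, mul_one]
        _ = x * (z * (x' * (y * y))) := by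
            rw [hy, ← mul_assoc z x' z, h.cen x', mul_assoc x' z z, mul_assoc]
        _ = x * y * (x' * y) := by
            rw [mul_assoc x y, ← mul_assoc y x' y, h1]
            group
  let F : P →* P := MonoidHom.mk' f hmul
  have hinj : Function.Injective F := by
    rw [injective_iff_map_eq_one]
    intro x hx
    rcases h.comms x y with e1 | e1
    · have : F x = x := hf1 x e1
      rw [← this, hx]
    · exfalso
      have h1 : F x = x * y := hfz x e1
      rw [hx] at h1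
      have h2 : x = y⁻¹ := eq_inv_of_mul_eq_one_left h1.symm
      rw [h2, h.comm_inv, commutatorElement_self] at e1
      exact h.ne e1.symm
  refine ⟨MulEquiv.ofBijective F ⟨hinj, Finite.injective_iff_surjective.mp hinj⟩, ?_⟩
  intro x
  exact ⟨hf1 x, hfz x⟩

end alpha

section fr

variable {P : Type*} [Group P] {z e₁ e₂ c₁ c₂ : P}

/-- A frame of the extraspecial group of order `32` of minus type. -/
structure Fr32 (P : Type*) [Group P] (z e₁ e₂ c₁ c₂ : P) : Prop where
  es : ES P z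
  he₁ : e₁ * e₁ = 1
  he₂ : e₂ * e₂ = 1
  he : ⁅e₁, e₂⁆ = z
  hc₁ : c₁ * c₁ = z
  hc₂ : c₂ * c₂ = z
  hc : ⁅c₁, c₂⁆ = z
  h11 : ⁅e₁, c₁⁆ = 1
  h12 : ⁅e₁, c₂⁆ = 1
  h21 : ⁅e₂, c₁⁆ = 1
  h22 : ⁅e₂, c₂⁆ = 1
  dec : ∀ g : P, ∃ i j k l m : Bool,
    g = rep e₁ e₂ i j * (rep c₁ c₂ k l * (if m then z else 1))

/-- Representatives of the five classes of non-central involutions. -/
def r5 (e₁ e₂ c₁ c₂ : P) : Fin 5 → P :=
  ![e₁, e₂, e₁ * e₂ * c₁, e₁ * e₂ * c₂, e₁ * e₂ * (c₁ * c₂)]

theorem Fr32.he' (F : Fr32 P z e₁ e₂ c₁ c₂) : ⁅e₂, e₁⁆ = z := F.es.symm F.he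
theorem Fr32.hc' (F : Fr32 P z e₁ e₂ c₁ c₂) : ⁅c₂, c₁⁆ = z := F.es.symm F.hc
theorem Fr32.h11' (F : Fr32 P z e₁ e₂ c₁ c₂) : ⁅c₁, e₁⁆ = 1 := by
  rw [← commutatorElement_inv, F.h11, inv_one]
theorem Fr32.h12' (F : Fr32 P z e₁ e₂ c₁ c₂) : ⁅c₂, e₁⁆ = 1 := by
  rw [← commutatorElement_inv, F.h12, inv_one]
theorem Fr32.h21' (F : Fr32 P z e₁ e₂ c₁ c₂) : ⁅c₁, e₂⁆ = 1 := by
  rw [← commutatorElement_inv, F.h21, inv_one]
theorem Fr32.h22' (F : Fr32 P z e₁ e₂ c₁ c₂) : ⁅c₂, e₂⁆ = 1 := by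
  rw [← commutatorElement_inv, F.h22, inv_one]

theorem Fr32.R1 (F : Fr32 P z e₁ e₂ c₁ c₂) (k : Fin 5) :
    r5 e₁ e₂ c₁ c₂ k * r5 e₁ e₂ c₁ c₂ k = 1 := by
  have hz := F.es.sq
  fin_cases k
  · simpa [r5] using F.he₁
  · simpa [r5] using F.he₂
  · show e₁ * e₂ * c₁ * (e₁ * e₂ * c₁) = 1
    rw [F.es.sqm (e₁ * e₂) c₁, F.es.sqm e₁ e₂, F.es.b2, F.he₁, F.he₂, F.he', F.hc₁, F.h11', F.h21']
    simp [hz]
  · show e₁ * e₂ * c₂ * (e₁ * e₂ * c₂) = 1
    rw [F.es.sqm (e₁ * e₂) c₂, F.es.sqm e₁ e₂, F.es.b2, F.he₁, F.he₂, F.he', F.hc₂, F.h12', F.h22']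
    simp [hz]
  · show e₁ * e₂ * (c₁ * c₂) * (e₁ * e₂ * (c₁ * c₂)) = 1
    rw [F.es.sqm (e₁ * e₂) (c₁ * c₂), F.es.sqm e₁ e₂, F.es.sqm c₁ c₂, F.es.b2, F.es.b1, F.es.b1,
      F.he₁, F.he₂, F.he', F.hc₁, F.hc₂, F.hc', F.h11', F.h21', F.h12', F.h22']
    simp [hz]

theorem Fr32.R2 (F : Fr32 P z e₁ e₂ c₁ c₂) (k l : Fin 5) (hkl : k ≠ l) :
    ⁅r5 e₁ e₂ c₁ c₂ k, r5 e₁ e₂ c₁ c₂ l⁆ = z := by
  have hz := F.es.sq
  fin_cases k <;> fin_cases l <;>
    first
    | exact absurd rfl hkl
    | simp [r5, F.es.b1, F.es.b2, F.he, F.he', F.hc, F.hc', F.h11, F.h12, F.h21, F.h22,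
        F.h11', F.h12', F.h21', F.h22', hz]

theorem Fr32.R3 (F : Fr32 P z e₁ e₂ c₁ c₂) (g : P) (hsq : g * g = 1) (hg1 : g ≠ 1)
    (hgz : g ≠ z) : ∃ n, g = r5 e₁ e₂ c₁ c₂ n ∨ g = r5 e₁ e₂ c₁ c₂ n * z := by
  have hz := F.es.sq
  have hne := F.es.ne
  have hcz := es32_cz F.es
  have hcz' := es32_cz' F.es
  obtain ⟨i, j, k, l, m, rfl⟩ := F.dec g
  cases i <;> cases j <;> cases k <;> cases l
  all_goals try (
    exfalso
    (cases m <;> simp [rep, F.es.sqm, F.es.b1, F.es.b2, F.he, F.he', F.hc, F.hc', F.h11, F.h12,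
      F.h21, F.h22, F.h11', F.h12', F.h21', F.h22', F.he₁, F.he₂, F.hc₁, F.hc₂, hz, hne, hcz,
      hcz'] at hsq)
    done)
  · exfalso
    cases m
    · exact hg1 (by simp [rep])
    · exact hgz (by simp [rep])
  · exact ⟨1, by cases m <;> simp [rep, r5]⟩
  · exact ⟨0, by cases m <;> simp [rep, r5]⟩
  · exact ⟨3, by cases m <;> simp [rep, r5, mul_assoc]⟩
  · exact ⟨2, by cases m <;> simp [rep, r5, mul_assoc]⟩
  · exact ⟨4, by cases m <;> simp [rep, r5, mul_assoc]⟩

theorem Fr32.det (F : Fr32 P z e₁ e₂ c₁ c₂) (φ ψ : MulAut P)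
    (h0 : φ (r5 e₁ e₂ c₁ c₂ 0) = ψ (r5 e₁ e₂ c₁ c₂ 0))
    (h1 : φ (r5 e₁ e₂ c₁ c₂ 1) = ψ (r5 e₁ e₂ c₁ c₂ 1))
    (h2 : φ (r5 e₁ e₂ c₁ c₂ 2) = ψ (r5 e₁ e₂ c₁ c₂ 2))
    (h3 : φ (r5 e₁ e₂ c₁ c₂ 3) = ψ (r5 e₁ e₂ c₁ c₂ 3)) : φ = ψ := by
  have k1 : φ e₁ = ψ e₁ := h0
  have k2 : φ e₂ = ψ e₂ := h1
  have k3 : φ c₁ = ψ c₁ := by
    have : φ (e₁ * e₂ * c₁) = ψ (e₁ * e₂ * c₁) := h2
    rw [map_mul, map_mul, map_mul, map_mul, k1, k2] at this
    exact mul_left_cancel this
  have k4 : φ c₂ = ψ c₂ := by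
    have : φ (e₁ * e₂ * c₂) = ψ (e₁ * e₂ * c₂) := h3
    rw [map_mul, map_mul, map_mul, map_mul, k1, k2] at this
    exact mul_left_cancel this
  have k5 : φ z = ψ z := by
    rw [← F.he, map_commutatorElement, map_commutatorElement, k1, k2]
  have key : ∀ (b : Bool) (x : P), φ x = ψ x →
      φ (if b then x else 1) = ψ (if b then x else 1) := by
    intro b x hx
    cases b
    · simp
    · simpa using hx
  apply MulEquiv.ext
  intro g
  obtain ⟨i, j, k, l, m, rfl⟩ := F.dec g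
  simp only [rep, map_mul]
  rw [key i e₁ k1, key j e₂ k2, key k c₁ k3, key l c₂ k4, key m z k5]

end fr

section main

variable {P : Type*} [Group P] [Finite P]

omit [Finite P] in
theorem es32_fix_z {z : P} (h : ES P z) (φ : MulAut P) : φ z = z := by
  have hcen : ∀ g : P, φ z * g = g * φ z := by
    intro g
    have h1 := congrArg φ (h.cen (φ.symm g))
    rw [map_mul, map_mul, MulEquiv.apply_symm_apply] at h1
    exact h1
  rcases h.cens _ hcen with e | e
  · exfalso
    exact h.ne (φ.injective (e.trans (map_one φ).symm))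
  · exact e

theorem es32_main {z e₁ e₂ c₁ c₂ : P} (F : Fr32 P z e₁ e₂ c₁ c₂) (h32 : Nat.card P = 32)
    (hcen : Nat.card (Subgroup.center P) = 2)
    [(MulAut.conj : P →* MulAut P).range.Normal] :
    Nat.card ↥(MulAut.conj : P →* MulAut P).range = 16 ∧ Nat.card (MulAut P) = 1920 ∧
      Nonempty ((MulAut P ⧸ (MulAut.conj : P →* MulAut P).range) ≃* Equiv.Perm (Fin 5)) := by
  classical
  haveI : Finite (MulAut P) :=
    Finite.of_injective (fun φ : MulAut P => (φ : P → P)) DFunLike.coe_injective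
  have h := F.es
  have R1 := F.R1
  have R2 := F.R2
  have R3 := F.R3
  have hdet := F.det
  generalize r5 e₁ e₂ c₁ c₂ = r at R1 R2 R3 hdet
  have hU : ∀ (g : P) (k l : Fin 5), (g = r k ∨ g = r k * z) → (g = r l ∨ g = r l * z) →
      k = l := by
    intro g k l hk hl
    by_contra hkl
    have h1 : ⁅g, r k⁆ = 1 := by
      rcases hk with rfl | rfl
      · exact commutatorElement_self _
      · rw [h.b1, commutatorElement_self, es32_cz h, one_mul]
    have h2 : ⁅g, r k⁆ = z := by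
      rcases hl with rfl | rfl
      · exact R2 l k (Ne.symm hkl)
      · rw [h.b1, R2 l k (Ne.symm hkl), es32_cz h, mul_one]
    exact h.ne (h2.symm.trans h1)
  have hnc : ∀ k, r k ≠ 1 ∧ r k ≠ z := by
    intro k
    obtain ⟨l, hl⟩ : ∃ l : Fin 5, k ≠ l := by
      revert k
      decide
    have h1 := R2 k l hl
    constructor
    · intro e
      rw [e, commutatorElement_one_left] at h1
      exact h.ne h1.symm
    · intro e
      rw [e, es32_cz h] at h1
      exact h.ne h1.symm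
  have hex : ∀ (φ : MulAut P) (k : Fin 5), ∃ l, φ (r k) = r l ∨ φ (r k) = r l * z := by
    intro φ k
    apply R3
    · rw [← map_mul, R1, map_one]
    · intro e
      exact (hnc k).1 (φ.injective (e.trans (map_one φ).symm))
    · intro e
      exact (hnc k).2 (φ.injective (e.trans (es32_fix_z h φ).symm))
  choose σ hσ using hex
  have hone : ∀ k, σ 1 k = k := by
    intro k
    exact hU (r k) _ _ (hσ 1 k) (Or.inl rfl)
  have hmulσ : ∀ (φ ψ : MulAut P) (k : Fin 5), σ (φ * ψ) k = σ φ (σ ψ k) := by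
    intro φ ψ k
    apply hU ((φ * ψ) (r k)) _ _ (hσ (φ * ψ) k)
    rw [MulAut.mul_apply]
    rcases hσ ψ k with e | e
    · rw [e]
      exact hσ φ _
    · rw [e, map_mul, es32_fix_z h φ]
      rcases hσ φ (σ ψ k) with e' | e'
      · right
        rw [e']
      · left
        rw [e', mul_assoc, h.sq, mul_one]
  letI act : MulAction (MulAut P) (Fin 5) :=
    { smul := σ
      one_smul := hone
      mul_smul := hmulσ }
  let ρ : MulAut P →* Equiv.Perm (Fin 5) := MulAction.toPermHom (MulAut P) (Fin 5)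
  have hρ : ∀ φ k, ρ φ k = σ φ k := fun φ k => rfl
  have hInn : (MulAut.conj : P →* MulAut P).range ≤ ρ.ker := by
    rintro _ ⟨g, rfl⟩
    rw [MonoidHom.mem_ker]
    apply Equiv.ext
    intro k
    rw [hρ]
    show σ (MulAut.conj g) k = k
    apply hU (MulAut.conj g (r k)) _ _ (hσ _ k)
    rw [MulAut.conj_apply]
    have e : g * r k * g⁻¹ = ⁅g, r k⁆ * r k := by
      rw [commutatorElement_def]
      group
    rcases h.comms g (r k) with e1 | e1
    · left
      rw [e, e1, one_mul]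
    · right
      rw [e, e1, h.cen]
  have hswap : ∀ k l : Fin 5, k ≠ l → ∃ φ : MulAut P, ρ φ = Equiv.swap k l := by
    intro k l hkl
    have hy : (r k * r l) * (r k * r l) = z := by
      rw [h.sqm, R1, R1, R2 l k (Ne.symm hkl), one_mul, one_mul]
    obtain ⟨α, hα⟩ := es32_alpha h (r k * r l) hy
    have hk : α (r k) = r l := by
      rw [(hα (r k)).2 (by rw [h.b2, commutatorElement_self, R2 k l hkl, one_mul]),
        ← mul_assoc, R1, one_mul]
    have hl : α (r l) = r k * z := by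
      rw [(hα (r l)).2 (by rw [h.b2, commutatorElement_self, R2 l k (Ne.symm hkl), mul_one])]
      have h1 := R2 l k (Ne.symm hkl)
      rw [commutatorElement_def, inv_eq_of_mul_eq_one_right (R1 l),
        inv_eq_of_mul_eq_one_right (R1 k)] at h1
      calc r l * (r k * r l) = (r l * r k * r l * r k) * r k := by
            rw [mul_assoc (r l * r k * r l), R1, mul_one, mul_assoc]
        _ = r k * z := by rw [h1, h.cen]
    have hm : ∀ m, m ≠ k → m ≠ l → α (r m) = r m := by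
      intro m hmk hml
      exact (hα (r m)).1 (by rw [h.b2, R2 m k hmk, R2 m l hml, h.sq])
    refine ⟨α, ?_⟩
    apply Equiv.ext
    intro m
    rw [hρ]
    by_cases hmk : m = k
    · rw [hmk, Equiv.swap_apply_left]
      exact hU (α (r k)) _ _ (hσ α k) (Or.inl hk)
    · by_cases hml : m = l
      · rw [hml, Equiv.swap_apply_right]
        exact hU (α (r l)) _ _ (hσ α l) (Or.inr hl)
      · rw [Equiv.swap_apply_of_ne_of_ne hmk hml]
        exact hU (α (r m)) _ _ (hσ α m) (Or.inl (hm m hmk hml))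
  have hsurj : Function.Surjective ρ := by
    rw [← MonoidHom.range_eq_top, eq_top_iff, ← Equiv.Perm.closure_isSwap, Subgroup.closure_le]
    rintro τ ⟨k, l, hkl, rfl⟩
    exact hswap k l hkl
  have hkerσ : ∀ φ ∈ ρ.ker, ∀ k, φ (r k) = r k ∨ φ (r k) = r k * z := by
    intro φ hφ k
    have h1 : σ φ k = k := by
      have := congrArg (fun τ : Equiv.Perm (Fin 5) => τ k) (MonoidHom.mem_ker.mp hφ)
      exact this
    have h2 := hσ φ k
    rw [h1] at h2
    exact h2
  have hker16 : Nat.card ρ.ker ≤ 16 := by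
    let f : ρ.ker → Bool × Bool × Bool × Bool := fun φ =>
      (decide ((φ : MulAut P) (r 0) = r 0), decide ((φ : MulAut P) (r 1) = r 1),
        decide ((φ : MulAut P) (r 2) = r 2), decide ((φ : MulAut P) (r 3) = r 3))
    have hf : Function.Injective f := by
      intro φ ψ hfe
      have key : ∀ k, (decide ((φ : MulAut P) (r k) = r k) =
          decide ((ψ : MulAut P) (r k) = r k)) →
          (φ : MulAut P) (r k) = (ψ : MulAut P) (r k) := by
        intro k hd
        have hiff : ((φ : MulAut P) (r k) = r k) ↔ ((ψ : MulAut P) (r k) = r k) := by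
          simpa using hd
        have hzne : r k * z ≠ r k := by
          intro e
          exact h.ne (mul_left_cancel (e.trans (mul_one _).symm))
        rcases hkerσ φ φ.2 k with e | e
        · rw [e, hiff.mp e]
        · rcases hkerσ ψ ψ.2 k with e' | e'
          · exfalso
            rw [hiff.mpr e'] at e
            exact hzne e.symm
          · rw [e, e']
      apply Subtype.ext
      simp only [f, Prod.mk.injEq] at hfe
      exact hdet _ _ (key 0 hfe.1) (key 1 hfe.2.1) (key 2 hfe.2.2.1) (key 3 hfe.2.2.2)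
    have := Nat.card_le_card_of_injective f hf
    simpa [Nat.card_eq_fintype_card] using this
  have hInn16 : Nat.card (MulAut.conj : P →* MulAut P).range = 16 := by
    have hker : (MulAut.conj : P →* MulAut P).ker = Subgroup.center P := by
      ext g
      rw [MonoidHom.mem_ker, Subgroup.mem_center_iff]
      constructor
      · intro hg x
        have h1 := congrArg (fun f : MulAut P => f x) hg
        simp only [MulAut.conj_apply, MulAut.one_apply] at h1
        calc x * g = g * x * g⁻¹ * g := by rw [h1]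
          _ = g * x := by group
      · intro hg
        apply MulEquiv.ext
        intro x
        rw [MulAut.conj_apply, MulAut.one_apply, ← hg x]
        group
    have h1 := Subgroup.card_mul_index (MulAut.conj : P →* MulAut P).ker
    rw [Subgroup.index_ker, hker, hcen, h32] at h1
    omega
  have hkerEq : (MulAut.conj : P →* MulAut P).range = ρ.ker :=
    Subgroup.eq_of_le_of_card_ge hInn (by rw [hInn16]; exact hker16)
  have e1 : MulAut P ⧸ ρ.ker ≃* Equiv.Perm (Fin 5) :=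
    QuotientGroup.quotientKerEquivOfSurjective ρ hsurj
  refine ⟨hInn16, ?_, ⟨(QuotientGroup.quotientMulEquivOfEq hkerEq).trans e1⟩⟩
  have h2 := Subgroup.card_eq_card_quotient_mul_card_subgroup ρ.ker
  have h3 : Nat.card (Equiv.Perm (Fin 5)) = 120 := by
    rw [Nat.card_eq_fintype_card, Fintype.card_perm, Fintype.card_fin]
    rfl
  rw [Nat.card_congr e1.toEquiv, ← hkerEq, hInn16, h3] at h2
  rw [h2]

/-- The outer automorphism group of the extraspecial group `2^{1+4}_-`. -/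
theorem es32_out (hex : Cfsg.IsExtraspecial 2 P) (h32 : Nat.card P = 32)
    (hminus : ∀ A : Subgroup P, Cfsg.IsElementaryAbelian 2 A → Nat.card ↥A ≤ 4)
    [(MulAut.conj : P →* MulAut P).range.Normal] :
    Nat.card ↥(MulAut.conj : P →* MulAut P).range = 16 ∧ Nat.card (MulAut P) = 1920 ∧
      Nonempty ((MulAut P ⧸ (MulAut.conj : P →* MulAut P).range) ≃* Equiv.Perm (Fin 5)) := by
  obtain ⟨z, hz, -⟩ := of_extraspecial hex
  obtain ⟨e₁, e₂, c₁, c₂, h1, h2, h3, h4, h5, h6, h7, h8, h9, h10, hdec⟩ :=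
    es32_frame hz h32 hminus
  exact es32_main ⟨hz, h1, h2, h3, h4, h5, h6, h7, h8, h9, h10, hdec⟩ h32 hex.2

end main

end Cfsg.Agent.Lib.helper14
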