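import Mathlib
import Cfsg.Agent.Lib.helper1.Solv
import Cfsg.Agent.Lib.helper1.Fitting
import Cfsg.Agent.Lib.helper3.Thompson
import Cfsg.Agent.Lib.helper3.Normalizer
import Cfsg.Agent.Lib.helper3.FFOffender
import Cfsg.Agent.Lib.helper15.SubnSyl

set_option autoImplicit false

namespace Cfsg.Agent.Lib.helper14

open scoped commutatorElement

/-- A nontrivial finite abelian group without involutions, acted on by a finite family of commuting
involutive endomorphisms, has a common "eigenvector": a nonidentity element which each member of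
the family fixes or inverts. -/
theorem exists_eigen_of_commuting_involutions {Q : Type*} [Group Q] [Finite Q]
    (hc : ∀ a b : Q, a * b = b * a) (hodd : ∀ q : Q, q * q = 1 → q = 1) (hnt : ∃ q : Q, q ≠ 1)
    {ι : Type*} [Finite ι] (φ : ι → Q →* Q) (hinv : ∀ s q, φ s (φ s q) = q)
    (hcomm : ∀ s u q, φ s (φ u q) = φ u (φ s q)) :
    ∃ q : Q, q ≠ 1 ∧ ∀ s, φ s q = q ∨ φ s q = q⁻¹ := by
  classical
  let E : Q → Set ι := fun q => {s | φ s q = q ∨ φ s q = q⁻¹}
  obtain ⟨q0, hq0⟩ := hnt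
  have : Nonempty {q : Q // q ≠ 1} := ⟨⟨q0, hq0⟩⟩
  obtain ⟨⟨q, hq⟩, hmax⟩ := Finite.exists_max (fun q : {q : Q // q ≠ 1} => (E q.1).ncard)
  refine ⟨q, hq, ?_⟩
  by_contra hcon
  push Not at hcon
  obtain ⟨s, hs1, hs2⟩ := hcon
  have key : ∀ q' : Q, q' ≠ 1 → (φ s q' = q' ∨ φ s q' = q'⁻¹) →
      (∀ u, u ∈ E q → u ∈ E q') → False := by
    intro q' hq' hs' hsub
    have h1 : E q ⊂ E q' := by
      refine ⟨hsub, fun h => ?_⟩
      have h3 : s ∈ E q := h hs'
      rcases h3 with h | h
      · exact hs1 h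
      · exact hs2 h
    have h2 : (E q).ncard < (E q').ncard := Set.ncard_lt_ncard h1 (Set.toFinite _)
    exact absurd (hmax ⟨q', hq'⟩) (not_le.mpr h2)
  by_cases h1 : q * φ s q = 1
  · have h2 : q * (φ s q)⁻¹ ≠ 1 := by
      intro h2
      apply hq; apply hodd
      have e1 : φ s q = q⁻¹ := by rw [← mul_eq_one_iff_eq_inv']; exact h1
      rw [e1, inv_inv] at h2
      exact h2
    apply key _ h2
    · right
      rw [map_mul, map_inv, hinv, mul_inv_rev, inv_inv, hc]
    · intro u hu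
      rcases hu with hu | hu
      · left
        show φ u (q * (φ s q)⁻¹) = q * (φ s q)⁻¹
        rw [map_mul, map_inv, hcomm u s q, hu]
      · right
        show φ u (q * (φ s q)⁻¹) = (q * (φ s q)⁻¹)⁻¹
        rw [map_mul, map_inv, hcomm u s q, hu, map_inv, mul_inv_rev, inv_inv, hc]
  · apply key _ h1
    · left
      rw [map_mul, hinv, hc]
    · intro u hu
      rcases hu with hu | hu
      · left
        show φ u (q * (φ s q)) = q * (φ s q)
        rw [map_mul, hcomm u s q, hu]
      · right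
        show φ u (q * (φ s q)) = (q * (φ s q))⁻¹
        rw [map_mul, hcomm u s q, hu, map_inv, mul_inv_rev, hc]

/-- Conjugation by an element normalizing `W`, as an endomorphism of `W`. -/
def conjEnd {S : Type*} [Group S] (W : Subgroup S) (s : S)
    (hs : s ∈ Subgroup.normalizer (W : Set S)) : ↥W →* ↥W where
  toFun w := ⟨s * w * s⁻¹, (Subgroup.mem_normalizer_iff.mp hs w).mp w.2⟩
  map_one' := by ext; simp
  map_mul' a b := by ext; simp

theorem conjEnd_coe {S : Type*} [Group S] (W : Subgroup S) (s : S)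
    (hs : s ∈ Subgroup.normalizer (W : Set S)) (w : ↥W) :
    ((conjEnd W s hs w : ↥W) : S) = s * w * s⁻¹ := rfl

theorem exists_eigen_mod {S : Type*} [Group S] [Finite S] (I W A : Subgroup S)
    (hI2 : ∀ s ∈ I, s * s = 1) (hIc : ∀ s ∈ I, ∀ u ∈ I, s * u = u * s)
    (hWA : W ≤ Subgroup.normalizer (A : Set S)) (hcomm : ⁅W, W⁆ ≤ A)
    (hIW : I ≤ Subgroup.normalizer (W : Set S)) (hIA : I ≤ Subgroup.normalizer (A : Set S))
    (hnle : ¬ W ≤ A) (hodd : Odd (Nat.card W)) :
    ∃ d ∈ W, d ∉ A ∧ ∀ s ∈ I, (d⁻¹ * (s * d * s⁻¹) ∈ A ∨ d * (s * d * s⁻¹) ∈ A) := by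
  have hN : (A.subgroupOf W).Normal := by
    constructor
    intro n hn g
    rw [Subgroup.mem_subgroupOf] at hn ⊢
    exact (Subgroup.mem_normalizer_iff.mp (hWA g.2) n).mp hn
  let f : ↥I → ↥W →* ↥W := fun s => conjEnd W s (hIW s.2)
  have hf : ∀ s, A.subgroupOf W ≤ (A.subgroupOf W).comap (f s) := by
    intro s w hw
    rw [Subgroup.mem_comap, Subgroup.mem_subgroupOf]
    rw [Subgroup.mem_subgroupOf] at hw
    exact (Subgroup.mem_normalizer_iff.mp (hIA s.2) w).mp hw
  let φ : ↥I → (↥W ⧸ A.subgroupOf W) →* (↥W ⧸ A.subgroupOf W) :=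
    fun s => QuotientGroup.map _ _ (f s) (hf s)
  have hφ : ∀ s (w : ↥W), φ s (QuotientGroup.mk w) = QuotientGroup.mk (f s w) := fun s w => rfl
  have hQc : ∀ a b : ↥W ⧸ A.subgroupOf W, a * b = b * a := by
    intro a b
    induction a using QuotientGroup.induction_on with | _ a => ?_
    induction b using QuotientGroup.induction_on with | _ b => ?_
    rw [← QuotientGroup.mk_mul, ← QuotientGroup.mk_mul, QuotientGroup.eq, Subgroup.mem_subgroupOf]
    have h1 : ⁅(a : S)⁻¹, (b : S)⁻¹⁆ ∈ A :=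
      hcomm (Subgroup.commutator_mem_commutator (W.inv_mem a.2) (W.inv_mem b.2))
    have e : (((a * b)⁻¹ * (b * a) : ↥W) : S) = ⁅(b : S)⁻¹, (a : S)⁻¹⁆ := by
      rw [commutatorElement_def]; push_cast; group
    rw [e]
    exact hcomm (Subgroup.commutator_mem_commutator (W.inv_mem b.2) (W.inv_mem a.2))
  have hQodd : ∀ q : ↥W ⧸ A.subgroupOf W, q * q = 1 → q = 1 := by
    intro q hq
    have h1 : orderOf q ∣ 2 := by rw [orderOf_dvd_iff_pow_eq_one, pow_two]; exact hq
    have h2 : orderOf q ∣ Nat.card (↥W ⧸ A.subgroupOf W) := orderOf_dvd_natCard q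
    have h3 : Nat.card (↥W ⧸ A.subgroupOf W) ∣ Nat.card W :=
      ⟨Nat.card (A.subgroupOf W), (Subgroup.card_eq_card_quotient_mul_card_subgroup _)⟩
    have h4 : Odd (orderOf q) := hodd.of_dvd_nat (h2.trans h3)
    have h5 : orderOf q = 1 := by
      rcases (Nat.dvd_prime Nat.prime_two).mp h1 with h | h
      · exact h
      · rw [h] at h4; exact absurd h4 (by decide)
    exact orderOf_eq_one_iff.mp h5
  have hQnt : ∃ q : ↥W ⧸ A.subgroupOf W, q ≠ 1 := by
    obtain ⟨w, hwW, hwA⟩ := SetLike.not_le_iff_exists.mp hnle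
    refine ⟨QuotientGroup.mk ⟨w, hwW⟩, ?_⟩
    rw [Ne, QuotientGroup.eq_one_iff, Subgroup.mem_subgroupOf]
    exact hwA
  obtain ⟨q, hq1, hq⟩ := exists_eigen_of_commuting_involutions hQc hQodd hQnt φ (by
    intro s q
    induction q using QuotientGroup.induction_on with | _ w => ?_
    rw [hφ, hφ]
    congr 1
    ext
    show (s : S) * ((s : S) * w * (s : S)⁻¹) * (s : S)⁻¹ = w
    have := hI2 s s.2
    calc (s : S) * ((s : S) * w * (s : S)⁻¹) * (s : S)⁻¹
        = ((s : S) * s) * w * ((s : S) * s)⁻¹ := by group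
      _ = w := by rw [this]; group) (by
    intro s u q
    induction q using QuotientGroup.induction_on with | _ w => ?_
    rw [hφ, hφ, hφ, hφ]
    congr 1
    ext
    show (s : S) * ((u : S) * w * (u : S)⁻¹) * (s : S)⁻¹ = (u : S) * ((s : S) * w * (s : S)⁻¹) * (u : S)⁻¹
    have := hIc s s.2 u u.2
    calc (s : S) * ((u : S) * w * (u : S)⁻¹) * (s : S)⁻¹
        = ((s : S) * u) * w * ((s : S) * u)⁻¹ := by group
      _ = ((u : S) * s) * w * ((u : S) * s)⁻¹ := by rw [this]
      _ = _ := by group)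
  induction q using QuotientGroup.induction_on with | _ d => ?_
  refine ⟨d, d.2, ?_, ?_⟩
  · intro hdA
    apply hq1
    rw [QuotientGroup.eq_one_iff, Subgroup.mem_subgroupOf]
    exact hdA
  · intro s hs
    rcases hq ⟨s, hs⟩ with h | h
    · left
      rw [hφ] at h
      have h2 := QuotientGroup.eq.mp h.symm
      rw [Subgroup.mem_subgroupOf] at h2
      exact h2
    · right
      rw [hφ, ← QuotientGroup.mk_inv] at h
      have h2 := QuotientGroup.eq.mp h.symm
      rw [Subgroup.mem_subgroupOf] at h2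
      simpa [f, conjEnd_coe] using h2

theorem commutator_lt_of_nilpotent' {S : Type*} [Group S] (W F : Subgroup S) (hWF : W ≤ F)
    (hFW : F ≤ Subgroup.normalizer (W : Set S)) (hW1 : W ≠ ⊥) [hnil : Group.IsNilpotent ↥F] :
    ⁅W, F⁆ < W := by
  have hle : ⁅W, F⁆ ≤ W := by
    rw [Subgroup.commutator_le]
    intro w hw x hx
    rw [commutatorElement_def]
    have h1 : x * w⁻¹ * x⁻¹ ∈ W := (Subgroup.mem_normalizer_iff.mp (hFW hx) _).mp (W.inv_mem hw)
    have e : w * x * w⁻¹ * x⁻¹ = w * (x * w⁻¹ * x⁻¹) := by group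
    rw [e]; exact W.mul_mem hw h1
  refine lt_of_le_of_ne hle (fun heq => hW1 ?_)
  obtain ⟨n, hn⟩ := (Subgroup.nilpotent_iff_lowerCentralSeries).mp hnil
  have hN : ∀ k, W.subgroupOf F ≤ (⊤ : Subgroup ↥F).lowerCentralSeries k := by
    intro k
    induction k with
    | zero => simp
    | succ k ih =>
      have e : W.subgroupOf F = ⁅W.subgroupOf F, (⊤ : Subgroup ↥F)⁆ := by
        apply Subgroup.map_injective F.subtype_injective
        rw [Subgroup.map_commutator, Subgroup.map_subgroupOf_eq_of_le hWF, ← MonoidHom.range_eq_map,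
          Subgroup.range_subtype]
        exact heq.symm
      rw [e, Subgroup.lowerCentralSeries_succ]
      exact Subgroup.commutator_mono ih le_rfl
  have h1 := hN n
  rw [hn, le_bot_iff] at h1
  rw [eq_bot_iff]
  intro w hw
  have h2 : (⟨w, hWF hw⟩ : ↥F) ∈ W.subgroupOf F := by rw [Subgroup.mem_subgroupOf]; exact hw
  rw [h1, Subgroup.mem_bot] at h2
  rw [Subgroup.mem_bot]
  exact congrArg Subtype.val h2

theorem exists_faithful_abelian {S : Type*} [Group S] [Finite S] [Group.IsSolvable S]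
    (hF : Odd (Nat.card ↥(Cfsg.fittingSubgroup S))) (I : Subgroup S)
    (hI2 : ∀ s ∈ I, s * s = 1) (hIc : ∀ s ∈ I, ∀ u ∈ I, s * u = u * s) :
    ∃ A : Subgroup S, A ≤ Cfsg.fittingSubgroup S ∧ (∀ a ∈ A, ∀ b ∈ A, a * b = b * a) ∧
      I ≤ Subgroup.normalizer (A : Set S) ∧ I ⊓ Subgroup.centralizer (A : Set S) = ⊥ := by
  set F := Cfsg.fittingSubgroup S with hFdef
  have hFn : F.Normal := Cfsg.Agent.Lib.helper1.fitting_normal S
  have hnil : Group.IsNilpotent ↥F := Cfsg.Agent.Lib.helper1.fitting_isNilpotent S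
  have hoddF : ∀ x ∈ F, x * x = 1 → x = 1 := by
    intro x hx hxx
    have h1 : orderOf x ∣ 2 := by rw [orderOf_dvd_iff_pow_eq_one, pow_two]; exact hxx
    have h2 : orderOf x ∣ Nat.card F := by
      have := orderOf_dvd_natCard (⟨x, hx⟩ : ↥F)
      rwa [Subgroup.orderOf_mk] at this
    have h4 : Odd (orderOf x) := hF.of_dvd_nat h2
    have h5 : orderOf x = 1 := by
      rcases (Nat.dvd_prime Nat.prime_two).mp h1 with h | h
      · exact h
      · rw [h] at h4; exact absurd h4 (by decide)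
    exact orderOf_eq_one_iff.mp h5
  have hnormtop : ∀ X : Subgroup S, X ≤ Subgroup.normalizer ((⊥ : Subgroup S) : Set S) := by
    intro X x _
    rw [Subgroup.mem_normalizer_iff]
    intro h
    simp [Subgroup.mem_bot]
  obtain ⟨A, -, hAmax⟩ := Finite.exists_le_maximal
    (p := fun A : Subgroup S => A ≤ F ∧ (∀ a ∈ A, ∀ b ∈ A, a * b = b * a) ∧
      F ≤ Subgroup.normalizer (A : Set S) ∧ I ≤ Subgroup.normalizer (A : Set S)) (a := ⊥)
    ⟨bot_le, by
      intro a ha b hb
      rw [Subgroup.mem_bot] at ha hb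
      rw [ha, hb], hnormtop F, hnormtop I⟩
  obtain ⟨hAF, hAc, hFA, hIA⟩ := hAmax.prop
  have hIF : I ≤ Subgroup.normalizer (F : Set S) := by
    rw [Subgroup.normalizer_eq_top]; exact le_top
  refine ⟨A, hAF, hAc, hIA, ?_⟩
  have hCA : F ⊓ Subgroup.centralizer (A : Set S) ≤ A := by
    by_contra hCnA
    have hnC : ∀ X : Subgroup S, X ≤ Subgroup.normalizer (F : Set S) →
        X ≤ Subgroup.normalizer (A : Set S) →
        X ≤ Subgroup.normalizer ((F ⊓ Subgroup.centralizer (A : Set S) : Subgroup S) : Set S) := by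
      intro X hXF hXA
      apply Cfsg.Agent.Lib.helper3.le_normalizer_of_conj_mem
      intro g hg c hc
      refine Subgroup.mem_inf.mpr ⟨(Subgroup.mem_normalizer_iff.mp (hXF hg) c).mp hc.1, ?_⟩
      rw [Subgroup.mem_centralizer_iff]
      intro a ha
      have h1 : g⁻¹ * a * g ∈ A := by
        have := (Subgroup.mem_normalizer_iff.mp (hXA (X.inv_mem hg)) a).mp ha
        simpa using this
      have h2 := (Subgroup.mem_centralizer_iff.mp hc.2) _ h1
      calc a * (g * c * g⁻¹) = g * ((g⁻¹ * a * g) * c) * g⁻¹ := by group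
        _ = g * (c * (g⁻¹ * a * g)) * g⁻¹ := by rw [h2]
        _ = g * c * g⁻¹ * a := by group
    obtain ⟨W, hWC, hWmin⟩ := Finite.exists_le_minimal
      (p := fun W : Subgroup S => W ≤ F ⊓ Subgroup.centralizer (A : Set S) ∧ ¬ W ≤ A ∧
        F ≤ Subgroup.normalizer (W : Set S) ∧ I ≤ Subgroup.normalizer (W : Set S))
      (a := F ⊓ Subgroup.centralizer (A : Set S))
      ⟨le_rfl, hCnA, hnC F Subgroup.le_normalizer hFA, hnC I hIF hIA⟩
    obtain ⟨hWC', hWA, hFW, hIW⟩ := hWmin.prop
    have hWF : W ≤ F := hWC'.trans inf_le_left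
    have hW1 : W ≠ ⊥ := by rintro rfl; exact hWA bot_le
    have hlt := commutator_lt_of_nilpotent' W F hWF hFW hW1
    have hWFA : ⁅W, F⁆ ≤ A := by
      by_contra hn
      have h1 := hWmin.le_of_le ⟨hlt.le.trans hWC', hn,
        Cfsg.Agent.Lib.helper3.le_normalizer_of_conj_mem (fun g hg =>
          Cfsg.Agent.Lib.helper3.conj_commutator_mem
            (fun a ha => (Subgroup.mem_normalizer_iff.mp (hFW hg) a).mp ha)
            (fun a ha => (Subgroup.mem_normalizer_iff.mp (Subgroup.le_normalizer hg) a).mp ha)),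
        Cfsg.Agent.Lib.helper3.le_normalizer_of_conj_mem (fun g hg =>
          Cfsg.Agent.Lib.helper3.conj_commutator_mem
            (fun a ha => (Subgroup.mem_normalizer_iff.mp (hIW hg) a).mp ha)
            (fun a ha => (Subgroup.mem_normalizer_iff.mp (hIF hg) a).mp ha))⟩ hlt.le
      exact absurd h1 (not_le_of_gt hlt)
    have hoddW : Odd (Nat.card W) := hF.of_dvd_nat (Subgroup.card_dvd_of_le hWF)
    obtain ⟨d, hdW, hdA, hd⟩ := exists_eigen_mod I W A hI2 hIc (hWF.trans hFA)
      ((Subgroup.commutator_mono le_rfl hWF).trans hWFA) hIW hIA hWA hoddW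
    have hdC : d ∈ Subgroup.centralizer (A : Set S) := (hWC' hdW).2
    have hAleC : A ≤ Subgroup.centralizer (A : Set S) := by
      intro a ha
      rw [Subgroup.mem_centralizer_iff]
      intro b hb
      exact hAc b hb a ha
    have hzd : Subgroup.zpowers d ≤ Subgroup.centralizer ((Subgroup.zpowers d : Subgroup S) : Set S) := by
      rw [Subgroup.zpowers_le, Subgroup.mem_centralizer_iff]
      intro h hh
      obtain ⟨k, rfl⟩ := Subgroup.mem_zpowers_iff.mp hh
      exact ((Commute.refl d).zpow_left k).eq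
    have hT1 : A ⊔ Subgroup.zpowers d ≤ Subgroup.centralizer (A : Set S) :=
      sup_le hAleC (Subgroup.zpowers_le.mpr hdC)
    have hT2 : A ⊔ Subgroup.zpowers d ≤
        Subgroup.centralizer ((Subgroup.zpowers d : Subgroup S) : Set S) :=
      sup_le (Subgroup.le_centralizer_iff.mp (Subgroup.zpowers_le.mpr hdC)) hzd
    have hT3 : A ⊔ Subgroup.zpowers d ≤
        Subgroup.centralizer ((A ⊔ Subgroup.zpowers d : Subgroup S) : Set S) :=
      sup_le (Subgroup.le_centralizer_iff.mp hT1) (Subgroup.le_centralizer_iff.mp hT2)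
    have hnT : ∀ X : Subgroup S, X ≤ Subgroup.normalizer (A : Set S) →
        (∀ x ∈ X, x * d * x⁻¹ ∈ A ⊔ Subgroup.zpowers d) →
        X ≤ Subgroup.normalizer ((A ⊔ Subgroup.zpowers d : Subgroup S) : Set S) := by
      intro X hXA hXd
      apply Cfsg.Agent.Lib.helper3.le_normalizer_of_conj_mem
      intro x hx g hg
      have h1 : (A ⊔ Subgroup.zpowers d).map (MulAut.conj x).toMonoidHom ≤ A ⊔ Subgroup.zpowers d := by
        rw [Subgroup.map_sup]
        refine sup_le ?_ ?_
        · rintro _ ⟨a, ha, rfl⟩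
          exact Subgroup.mem_sup_left ((Subgroup.mem_normalizer_iff.mp (hXA hx) a).mp ha)
        · rw [MonoidHom.map_zpowers, Subgroup.zpowers_le]
          exact hXd x hx
      exact h1 (Subgroup.mem_map.mpr ⟨g, hg, rfl⟩)
    have hD : A ⊔ Subgroup.zpowers d ≤ F ∧
        (∀ a ∈ A ⊔ Subgroup.zpowers d, ∀ b ∈ A ⊔ Subgroup.zpowers d, a * b = b * a) ∧
        F ≤ Subgroup.normalizer ((A ⊔ Subgroup.zpowers d : Subgroup S) : Set S) ∧
        I ≤ Subgroup.normalizer ((A ⊔ Subgroup.zpowers d : Subgroup S) : Set S) := by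
      refine ⟨sup_le hAF (Subgroup.zpowers_le.mpr (hWF hdW)), ?_, ?_, ?_⟩
      · intro a ha b hb
        exact (Subgroup.mem_centralizer_iff.mp (hT3 hb)) a ha
      · apply hnT F hFA
        intro x hx
        have h1 : ⁅x, d⁆ ∈ A := by
          apply hWFA
          rw [Subgroup.commutator_comm]
          exact Subgroup.commutator_mem_commutator hx hdW
        have e : x * d * x⁻¹ = ⁅x, d⁆ * d := by rw [commutatorElement_def]; group
        rw [e]
        exact Subgroup.mul_mem _ (Subgroup.mem_sup_left h1)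
          (Subgroup.mem_sup_right (Subgroup.mem_zpowers d))
      · apply hnT I hIA
        intro s hs
        rcases hd s hs with h | h
        · have e : s * d * s⁻¹ = d * (d⁻¹ * (s * d * s⁻¹)) := by group
          rw [e]
          exact Subgroup.mul_mem _ (Subgroup.mem_sup_right (Subgroup.mem_zpowers d))
            (Subgroup.mem_sup_left h)
        · have e : s * d * s⁻¹ = d⁻¹ * (d * (s * d * s⁻¹)) := by group
          rw [e]
          exact Subgroup.mul_mem _ (Subgroup.mem_sup_right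
            (Subgroup.inv_mem _ (Subgroup.mem_zpowers d))) (Subgroup.mem_sup_left h)
    have h9 := hAmax.le_of_ge hD le_sup_left
    exact hdA (h9 (Subgroup.mem_sup_right (Subgroup.mem_zpowers d)))
  rw [eq_bot_iff]
  rintro t ⟨htI, htC⟩
  rw [Subgroup.mem_bot]
  have htC' := Subgroup.mem_centralizer_iff.mp htC
  have htF : ∀ x ∈ F, x * t = t * x := by
    intro x hx
    have hcF : t * x * t⁻¹ * x⁻¹ ∈ F := F.mul_mem (hFn.conj_mem x hx t) (F.inv_mem hx)
    have hcC : t * x * t⁻¹ * x⁻¹ ∈ Subgroup.centralizer (A : Set S) := by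
      rw [Subgroup.mem_centralizer_iff]
      intro a ha
      have h1 : x⁻¹ * a * x ∈ A := by
        have := (Subgroup.mem_normalizer_iff.mp (hFA (F.inv_mem hx)) a).mp ha
        simpa using this
      have h2 : Commute (x⁻¹ * a * x) t := htC' _ h1
      have h3 : Commute a t := htC' a ha
      calc a * (t * x * t⁻¹ * x⁻¹) = (a * t) * x * t⁻¹ * x⁻¹ := by group
        _ = (t * a) * x * t⁻¹ * x⁻¹ := by rw [h3.eq]
        _ = t * x * ((x⁻¹ * a * x) * t⁻¹) * x⁻¹ := by group
        _ = t * x * (t⁻¹ * (x⁻¹ * a * x)) * x⁻¹ := by rw [h2.inv_right.eq]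
        _ = t * x * t⁻¹ * x⁻¹ * a := by group
    have hcA : t * x * t⁻¹ * x⁻¹ ∈ A := hCA (Subgroup.mem_inf.mpr ⟨hcF, hcC⟩)
    have h4 : Commute (t * x * t⁻¹ * x⁻¹) t := htC' _ hcA
    have htt := hI2 t htI
    have h5 : (t * x * t⁻¹ * x⁻¹) * (t * x * t⁻¹ * x⁻¹) = 1 := by
      have e1 : t * x * t⁻¹ = (t * x * t⁻¹ * x⁻¹) * x := by group
      have e2 : x = (t * t) * x * (t * t)⁻¹ := by rw [htt]; group
      have e3 : (t * t) * x * (t * t)⁻¹ = t * (t * x * t⁻¹) * t⁻¹ := by group
      have e4 : t * ((t * x * t⁻¹ * x⁻¹) * x) * t⁻¹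
          = (t * (t * x * t⁻¹ * x⁻¹)) * x * t⁻¹ := by group
      have e5 : x = (t * x * t⁻¹ * x⁻¹) * (t * x * t⁻¹ * x⁻¹) * x := by
        calc x = t * (t * x * t⁻¹) * t⁻¹ := by rw [← e3, ← e2]
          _ = t * ((t * x * t⁻¹ * x⁻¹) * x) * t⁻¹ := by rw [← e1]
          _ = (t * (t * x * t⁻¹ * x⁻¹)) * x * t⁻¹ := e4
          _ = ((t * x * t⁻¹ * x⁻¹) * t) * x * t⁻¹ := by rw [h4.eq]
          _ = (t * x * t⁻¹ * x⁻¹) * (t * x * t⁻¹) := by group
          _ = (t * x * t⁻¹ * x⁻¹) * ((t * x * t⁻¹ * x⁻¹) * x) := by rw [← e1]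
          _ = _ := by group
      have e6 : (t * x * t⁻¹ * x⁻¹) * (t * x * t⁻¹ * x⁻¹) * x = 1 * x := by rw [one_mul]; exact e5.symm
      exact mul_right_cancel e6
    have h6 := hoddF _ hcF h5
    have e7 : t * x = (t * x * t⁻¹ * x⁻¹) * (x * t) := by group
    rw [e7, h6, one_mul]
  have htZ : t ∈ Subgroup.centralizer (F : Set S) := by
    rw [Subgroup.mem_centralizer_iff]; exact htF
  have htF' : t ∈ F := Cfsg.Agent.Lib.helper1.centralizer_fitting_le S htZ
  exact hoddF t htF' (hI2 t htI)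

theorem exists_prime_eigen {S : Type*} [Group S] [Finite S] (I V : Subgroup S)
    (hI2 : ∀ s ∈ I, s * s = 1) (hIc : ∀ s ∈ I, ∀ u ∈ I, s * u = u * s)
    (hVc : ∀ a ∈ V, ∀ b ∈ V, a * b = b * a)
    (hIV : I ≤ Subgroup.normalizer (V : Set S)) (hV1 : V ≠ ⊥) (hodd : Odd (Nat.card V)) :
    ∃ d ∈ V, (orderOf d).Prime ∧ ∀ s ∈ I, (s * d * s⁻¹ = d ∨ s * d * s⁻¹ = d⁻¹) := by
  have hnormtop : ∀ X : Subgroup S, X ≤ Subgroup.normalizer ((⊥ : Subgroup S) : Set S) := by
    intro X x _
    rw [Subgroup.mem_normalizer_iff]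
    intro h
    simp [Subgroup.mem_bot]
  have hcomm : ⁅V, V⁆ ≤ ⊥ := by
    rw [Subgroup.commutator_le]
    intro a ha b hb
    rw [Subgroup.mem_bot, commutatorElement_eq_one_iff_mul_comm]
    exact hVc a ha b hb
  obtain ⟨d, hdV, hd1, hd⟩ := exists_eigen_mod I V ⊥ hI2 hIc (hnormtop V) hcomm hIV (hnormtop I)
    (fun h => hV1 (le_bot_iff.mp h)) hodd
  rw [Subgroup.mem_bot] at hd1
  have hm : orderOf d ≠ 1 := fun h => hd1 (orderOf_eq_one_iff.mp h)
  have hm0 : orderOf d ≠ 0 := (orderOf_pos d).ne'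
  have hp := Nat.minFac_prime hm
  have ho := orderOf_pow_orderOf_div hm0 (Nat.minFac_dvd (orderOf d))
  refine ⟨d ^ (orderOf d / (orderOf d).minFac), V.pow_mem hdV _, by rw [ho]; exact hp, ?_⟩
  intro s hs
  rw [← conj_pow]
  rcases hd s hs with h | h
  · left
    rw [Subgroup.mem_bot, inv_mul_eq_one] at h
    rw [← h]
  · right
    rw [Subgroup.mem_bot, mul_eq_one_iff_eq_inv'] at h
    rw [h, inv_pow]

theorem iSup_fin_cons' {S : Type*} [Group S] {k : ℕ} (D : Subgroup S) (f : Fin k → Subgroup S) :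
    (⨆ i, (Fin.cons D f : Fin (k + 1) → Subgroup S) i) = D ⊔ ⨆ i, f i := by
  apply le_antisymm
  · apply iSup_le
    intro i
    refine Fin.cases ?_ (fun j => ?_) i
    · rw [Fin.cons_zero]; exact le_sup_left
    · rw [Fin.cons_succ]; exact le_sup_of_le_right (le_iSup f j)
  · refine sup_le ?_ (iSup_le fun j => ?_)
    · have := le_iSup (Fin.cons D f : Fin (k + 1) → Subgroup S) 0
      rwa [Fin.cons_zero] at this
    · have := le_iSup (Fin.cons D f : Fin (k + 1) → Subgroup S) j.succ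
      rwa [Fin.cons_succ] at this

theorem eigen_chain {S : Type*} [Group S] [Finite S] (I A : Subgroup S)
    (hI2 : ∀ s ∈ I, s * s = 1) (hIc : ∀ s ∈ I, ∀ u ∈ I, s * u = u * s)
    (hAc : ∀ a ∈ A, ∀ b ∈ A, a * b = b * a) (hIA : I ≤ Subgroup.normalizer (A : Set S))
    (hfaith : I ⊓ Subgroup.centralizer (A : Set S) = ⊥) (hodd : Odd (Nat.card A))
    (n : ℕ) (hIn : Nat.card I = 2 ^ n) :
    ∀ k ≤ n, ∃ f : Fin k → Subgroup S, (∀ i, (Nat.card ↥(f i)).Prime) ∧ (∀ i, f i ≤ A) ∧
      (∀ i, I ≤ Subgroup.normalizer ((f i) : Set S)) ∧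
      Nat.card ↥(⨆ i, f i) = ∏ i, Nat.card ↥(f i) ∧
      Nat.card ↥(I ⊓ Subgroup.centralizer ((⨆ i, f i : Subgroup S) : Set S)) * 2 ^ k = 2 ^ n := by
  have hoddA : ∀ x ∈ A, x * x = 1 → x = 1 := by
    intro x hx hxx
    have h1 : orderOf x ∣ 2 := by rw [orderOf_dvd_iff_pow_eq_one, pow_two]; exact hxx
    have h2 : orderOf x ∣ Nat.card A := by
      have := orderOf_dvd_natCard (⟨x, hx⟩ : ↥A)
      rwa [Subgroup.orderOf_mk] at this
    have h4 : Odd (orderOf x) := hodd.of_dvd_nat h2
    have h5 : orderOf x = 1 := by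
      rcases (Nat.dvd_prime Nat.prime_two).mp h1 with h | h
      · exact h
      · rw [h] at h4; exact absurd h4 (by decide)
    exact orderOf_eq_one_iff.mp h5
  intro k
  induction k with
  | zero =>
    intro _
    refine ⟨fun _ => ⊥, fun i => i.elim0, fun i => i.elim0, fun i => i.elim0, ?_, ?_⟩
    · rw [iSup_of_empty]; simp
    · rw [iSup_of_empty]
      have e : Subgroup.centralizer (((⊥ : Subgroup S) : Subgroup S) : Set S) = ⊤ := by
        rw [Subgroup.centralizer_eq_top_iff_subset]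
        intro x hx
        have hx1 : x = 1 := Subgroup.mem_bot.mp hx
        rw [hx1]; exact Subgroup.one_mem _
      rw [e, inf_top_eq, hIn, pow_zero, mul_one]
  | succ k ih =>
    intro hk
    obtain ⟨f, hfp, hfA, hfI, hfcard, hfJ⟩ := ih (by omega)
    set B := ⨆ i, f i with hB
    have hBA : B ≤ A := iSup_le hfA
    have hJ1 : I ⊓ Subgroup.centralizer (B : Set S) ≠ ⊥ := by
      intro h
      rw [h, Subgroup.card_bot, one_mul] at hfJ
      have := Nat.pow_right_injective (le_refl 2) hfJ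
      omega
    obtain ⟨t, ht1⟩ := (Subgroup.ne_bot_iff_exists_ne_one).mp hJ1
    have ht1' : (t : S) ≠ 1 := fun h => ht1 (Subtype.ext h)
    have htI : (t : S) ∈ I := (Subgroup.mem_inf.mp t.2).1
    have htB : (t : S) ∈ Subgroup.centralizer (B : Set S) := (Subgroup.mem_inf.mp t.2).2
    have htA : (t : S) ∉ Subgroup.centralizer (A : Set S) := by
      intro h
      have : (t : S) ∈ I ⊓ Subgroup.centralizer (A : Set S) := Subgroup.mem_inf.mpr ⟨htI, h⟩
      rw [hfaith, Subgroup.mem_bot] at this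
      exact ht1' this
    have htN := Subgroup.mem_normalizer_iff.mp (hIA htI)
    have htt := hI2 t htI
    let V : Subgroup S :=
      { carrier := {a | a ∈ A ∧ (t : S) * a * (t : S)⁻¹ = a⁻¹}
        mul_mem' := by
          rintro a b ⟨ha, ha'⟩ ⟨hb, hb'⟩
          refine ⟨A.mul_mem ha hb, ?_⟩
          have e : (t : S) * (a * b) * (t : S)⁻¹
              = ((t : S) * a * (t : S)⁻¹) * ((t : S) * b * (t : S)⁻¹) := by group
          rw [e, ha', hb', mul_inv_rev, hAc _ (A.inv_mem hb) _ (A.inv_mem ha)]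
        one_mem' := ⟨A.one_mem, by simp⟩
        inv_mem' := by
          rintro a ⟨ha, ha'⟩
          refine ⟨A.inv_mem ha, ?_⟩
          have e : (t : S) * a⁻¹ * (t : S)⁻¹ = ((t : S) * a * (t : S)⁻¹)⁻¹ := by group
          rw [e, ha'] }
    have hVA : V ≤ A := fun a ha => ha.1
    have hV1 : V ≠ ⊥ := by
      intro hV
      apply htA
      rw [Subgroup.mem_centralizer_iff]
      intro a ha
      have hta : (t : S) * a * (t : S)⁻¹ ∈ A := (htN a).mp ha
      have hb : a⁻¹ * ((t : S) * a * (t : S)⁻¹) ∈ V := by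
        refine ⟨A.mul_mem (A.inv_mem ha) hta, ?_⟩
        have e1 : (t : S) * (a⁻¹ * ((t : S) * a * (t : S)⁻¹)) * (t : S)⁻¹
            = ((t : S) * a * (t : S)⁻¹)⁻¹ * (((t : S) * t) * a * ((t : S) * t)⁻¹) := by group
        rw [e1, htt]
        group
      rw [hV, Subgroup.mem_bot, inv_mul_eq_one] at hb
      nth_rw 1 [hb]; group
    have hIV : I ≤ Subgroup.normalizer (V : Set S) := by
      apply Cfsg.Agent.Lib.helper3.le_normalizer_of_conj_mem
      intro s hs v hv
      refine ⟨(Subgroup.mem_normalizer_iff.mp (hIA hs) v).mp hv.1, ?_⟩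
      have h1 := hIc t htI s hs
      calc (t : S) * (s * v * s⁻¹) * (t : S)⁻¹ = ((t : S) * s) * v * ((t : S) * s)⁻¹ := by group
        _ = (s * t) * v * (s * t)⁻¹ := by rw [h1]
        _ = s * ((t : S) * v * (t : S)⁻¹) * s⁻¹ := by group
        _ = s * v⁻¹ * s⁻¹ := by rw [hv.2]
        _ = (s * v * s⁻¹)⁻¹ := by group
    have hVodd : Odd (Nat.card V) := hodd.of_dvd_nat (Subgroup.card_dvd_of_le hVA)
    obtain ⟨d, hdV, hdp, hd⟩ := exists_prime_eigen I V hI2 hIc
      (fun a ha b hb => hAc a (hVA ha) b (hVA hb)) hIV hV1 hVodd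
    have hdA : d ∈ A := hVA hdV
    have hd1 : d ≠ 1 := by
      rintro rfl
      rw [orderOf_one] at hdp
      exact Nat.not_prime_one hdp
    have hdd : d⁻¹ ≠ d := by
      intro h
      apply hd1
      apply hoddA d hdA
      nth_rw 1 [← h]
      exact inv_mul_cancel d
    have hDA : Subgroup.zpowers d ≤ A := Subgroup.zpowers_le.mpr hdA
    have hDV : Subgroup.zpowers d ≤ V := Subgroup.zpowers_le.mpr hdV
    have hDB : Subgroup.zpowers d ⊓ B = ⊥ := by
      rw [eq_bot_iff]
      rintro x ⟨hxD, hxB⟩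
      rw [Subgroup.mem_bot]
      apply hoddA x (hBA hxB)
      have h1 : (t : S) * x * (t : S)⁻¹ = x⁻¹ := (hDV hxD).2
      have h2 : x * (t : S) = (t : S) * x := (Subgroup.mem_centralizer_iff.mp htB) x hxB
      have h3 : (t : S) * x * (t : S)⁻¹ = x := by rw [← h2]; group
      rw [h3] at h1
      nth_rw 1 [h1]
      exact inv_mul_cancel x
    have hDnB : Subgroup.zpowers d ≤ Subgroup.normalizer (B : Set S) := by
      apply Cfsg.Agent.Lib.helper3.le_normalizer_of_conj_mem
      intro g hg b hb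
      have e : g * b * g⁻¹ = b := by
        rw [hAc g (hDA hg) b (hBA hb)]; group
      rw [e]; exact hb
    have hcard := Cfsg.Agent.Lib.helper15.card_sup_mul_card_inf (Subgroup.zpowers d) B hDnB
    rw [hDB, Subgroup.card_bot, mul_one] at hcard
    -- eigen behaviour on zpowers d
    have hcentD : ∀ s : S, s * d * s⁻¹ = d →
        s ∈ Subgroup.centralizer ((Subgroup.zpowers d : Subgroup S) : Set S) := by
      intro s hs
      have : Subgroup.zpowers d ≤ Subgroup.centralizer ({s} : Set S) := by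
        rw [Subgroup.zpowers_le, Subgroup.mem_centralizer_iff]
        intro x hx
        rw [Set.mem_singleton_iff] at hx
        rw [hx]
        nth_rw 2 [← hs]
        group
      rw [Subgroup.mem_centralizer_iff]
      intro x hx
      have := (Subgroup.mem_centralizer_iff.mp (this hx)) s rfl
      exact this.symm
    refine ⟨Fin.cons (Subgroup.zpowers d) f, ?_, ?_, ?_, ?_, ?_⟩
    · intro i
      refine Fin.cases ?_ (fun j => ?_) i
      · rw [Fin.cons_zero, Nat.card_zpowers]; exact hdp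
      · rw [Fin.cons_succ]; exact hfp j
    · intro i
      refine Fin.cases ?_ (fun j => ?_) i
      · rw [Fin.cons_zero]; exact hDA
      · rw [Fin.cons_succ]; exact hfA j
    · intro i
      refine Fin.cases ?_ (fun j => ?_) i
      · rw [Fin.cons_zero]
        apply Cfsg.Agent.Lib.helper3.le_normalizer_of_conj_mem
        intro s hs g hg
        have h1 : (Subgroup.zpowers d).map (MulAut.conj s).toMonoidHom ≤ Subgroup.zpowers d := by
          rw [MonoidHom.map_zpowers, Subgroup.zpowers_le]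
          show s * d * s⁻¹ ∈ _
          rcases hd s hs with h | h
          · rw [h]; exact Subgroup.mem_zpowers d
          · rw [h]; exact Subgroup.inv_mem _ (Subgroup.mem_zpowers d)
        exact h1 (Subgroup.mem_map.mpr ⟨g, hg, rfl⟩)
      · rw [Fin.cons_succ]; exact hfI j
    · rw [iSup_fin_cons', Fin.prod_univ_succ, hcard]
      simp only [Fin.cons_zero, Fin.cons_succ]
      rw [hfcard]
    · rw [iSup_fin_cons']
      have hJ'le : I ⊓ Subgroup.centralizer ((Subgroup.zpowers d ⊔ B : Subgroup S) : Set S)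
          ≤ I ⊓ Subgroup.centralizer (B : Set S) :=
        inf_le_inf_left _ (Subgroup.centralizer_le (by exact_mod_cast (le_sup_right : B ≤ Subgroup.zpowers d ⊔ B)))
      have hidx : (I ⊓ Subgroup.centralizer ((Subgroup.zpowers d ⊔ B : Subgroup S) : Set S)).relIndex
          (I ⊓ Subgroup.centralizer (B : Set S)) = 2 := by
        rw [Subgroup.relIndex, Subgroup.index_eq_two_iff]
        refine ⟨t, ?_⟩
        intro b
        have hbI : (b : S) ∈ I := (Subgroup.mem_inf.mp b.2).1
        have hbB : (b : S) ∈ Subgroup.centralizer (B : Set S) := (Subgroup.mem_inf.mp b.2).2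
        have htd : (t : S) * d * (t : S)⁻¹ = d⁻¹ := hdV.2
        have hnot : ∀ s : S, s * d * s⁻¹ = d⁻¹ →
            s ∉ I ⊓ Subgroup.centralizer ((Subgroup.zpowers d ⊔ B : Subgroup S) : Set S) := by
          intro s hs hmem
          have h1 := (Subgroup.mem_centralizer_iff.mp (Subgroup.mem_inf.mp hmem).2) d
            (Subgroup.mem_sup_left (Subgroup.mem_zpowers d))
          apply hdd
          rw [← hs, ← h1]; group
        have hyes : ∀ s : S, s ∈ I ⊓ Subgroup.centralizer (B : Set S) → s * d * s⁻¹ = d →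
            s ∈ I ⊓ Subgroup.centralizer ((Subgroup.zpowers d ⊔ B : Subgroup S) : Set S) := by
          intro s hs hsd
          exact Subgroup.mem_inf.mpr ⟨(Subgroup.mem_inf.mp hs).1,
            Cfsg.Agent.Lib.helper3.mem_centralizer_sup (hcentD s hsd) (Subgroup.mem_inf.mp hs).2⟩
        rcases hd b hbI with h | h
        · right
          refine ⟨by rw [Subgroup.mem_subgroupOf]; exact hyes b b.2 h, ?_⟩
          rw [Subgroup.mem_subgroupOf]
          apply hnot
          rw [Subgroup.coe_mul]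
          calc (b : S) * t * d * ((b : S) * t)⁻¹ = (b : S) * ((t : S) * d * (t : S)⁻¹) * (b : S)⁻¹ := by group
            _ = (b : S) * d⁻¹ * (b : S)⁻¹ := by rw [htd]
            _ = ((b : S) * d * (b : S)⁻¹)⁻¹ := by group
            _ = d⁻¹ := by rw [h]
        · left
          refine ⟨?_, by rw [Subgroup.mem_subgroupOf]; exact hnot b h⟩
          rw [Subgroup.mem_subgroupOf]
          apply hyes _ (b * t).2
          rw [Subgroup.coe_mul]
          calc (b : S) * t * d * ((b : S) * t)⁻¹ = (b : S) * ((t : S) * d * (t : S)⁻¹) * (b : S)⁻¹ := by group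
            _ = (b : S) * d⁻¹ * (b : S)⁻¹ := by rw [htd]
            _ = ((b : S) * d * (b : S)⁻¹)⁻¹ := by group
            _ = d := by rw [h, inv_inv]
      have h2 := Cfsg.Agent.Lib.helper3.card_mul_relIndex_of_le hJ'le
      rw [hidx] at h2
      rw [← hfJ, ← h2]
      ring

end Cfsg.Agent.Lib.helper14
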