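import Mathlib
import Cfsg.Agent.Lib.helper14.EigenInv
import Cfsg.Agent.Lib.helper14.FFStruct
import Cfsg.Agent.Lib.helper14.Hol
import Cfsg.Agent.Lib.helper9.Generation

/-!
# Elementary abelian 2-groups acting on odd p-groups (library, helper14)
-/

set_option autoImplicit false
set_option linter.style.haveILetI false
set_option linter.unusedVariables false
set_option linter.unusedSectionVars false

namespace Cfsg.Agent.Lib.helper14

open scoped commutatorElement

theorem exists_faithful_abelian_of_normal {S : Type*} [Group S] [Finite S] (F : Subgroup S)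
    [hFn : F.Normal] (hnil : Group.IsNilpotent ↥F) (hF : Odd (Nat.card ↥F)) (I : Subgroup S)
    (hI2 : ∀ s ∈ I, s * s = 1) (hIc : ∀ s ∈ I, ∀ u ∈ I, s * u = u * s)
    (hfaithF : I ⊓ Subgroup.centralizer (F : Set S) = ⊥) :
    ∃ A : Subgroup S, A ≤ F ∧ (∀ a ∈ A, ∀ b ∈ A, a * b = b * a) ∧
      I ≤ Subgroup.normalizer (A : Set S) ∧ I ⊓ Subgroup.centralizer (A : Set S) = ⊥ := by
  haveI := hnil
  have hoddF : ∀ x ∈ F, x * x = 1 → x = 1 := by
    intro x hx hxx
    have h1 : orderOf x ∣ 2 := by rw [orderOf_dvd_iff_pow_eq_one, pow_two]; exact hxx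
    have h2 : orderOf x ∣ Nat.card F := by
      have := orderOf_dvd_natCard (⟨x, hx⟩ : ↥F)
      rwa [Subgroup.orderOf_mk] at this
    have h4 : Odd (orderOf x) := hF.of_dvd_nat h2
    have h5 : orderOf x = 1 := by
      rcases (Nat.dvd_prime Nat.prime_two).mp h1 with h | h
      · exact h
      · rw [h] at h4; exact absurd h4 (by decide)
    exact orderOf_eq_one_iff.mp h5
  have hnormtop : ∀ X : Subgroup S, X ≤ Subgroup.normalizer ((⊥ : Subgroup S) : Set S) := by
    intro X x _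
    rw [Subgroup.mem_normalizer_iff]
    intro h
    simp [Subgroup.mem_bot]
  obtain ⟨A, -, hAmax⟩ := Finite.exists_le_maximal
    (p := fun A : Subgroup S => A ≤ F ∧ (∀ a ∈ A, ∀ b ∈ A, a * b = b * a) ∧
      F ≤ Subgroup.normalizer (A : Set S) ∧ I ≤ Subgroup.normalizer (A : Set S)) (a := ⊥)
    ⟨bot_le, by
      intro a ha b hb
      rw [Subgroup.mem_bot] at ha hb
      rw [ha, hb], hnormtop F, hnormtop I⟩
  obtain ⟨hAF, hAc, hFA, hIA⟩ := hAmax.prop
  have hIF : I ≤ Subgroup.normalizer (F : Set S) := by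
    rw [Subgroup.normalizer_eq_top]; exact le_top
  refine ⟨A, hAF, hAc, hIA, ?_⟩
  have hCA : F ⊓ Subgroup.centralizer (A : Set S) ≤ A := by
    by_contra hCnA
    have hnC : ∀ X : Subgroup S, X ≤ Subgroup.normalizer (F : Set S) →
        X ≤ Subgroup.normalizer (A : Set S) →
        X ≤ Subgroup.normalizer ((F ⊓ Subgroup.centralizer (A : Set S) : Subgroup S) : Set S) := by
      intro X hXF hXA
      apply Cfsg.Agent.Lib.helper3.le_normalizer_of_conj_mem
      intro g hg c hc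
      refine Subgroup.mem_inf.mpr ⟨(Subgroup.mem_normalizer_iff.mp (hXF hg) c).mp hc.1, ?_⟩
      rw [Subgroup.mem_centralizer_iff]
      intro a ha
      have h1 : g⁻¹ * a * g ∈ A := by
        have := (Subgroup.mem_normalizer_iff.mp (hXA (X.inv_mem hg)) a).mp ha
        simpa using this
      have h2 := (Subgroup.mem_centralizer_iff.mp hc.2) _ h1
      calc a * (g * c * g⁻¹) = g * ((g⁻¹ * a * g) * c) * g⁻¹ := by group
        _ = g * (c * (g⁻¹ * a * g)) * g⁻¹ := by rw [h2]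
        _ = g * c * g⁻¹ * a := by group
    obtain ⟨W, hWC, hWmin⟩ := Finite.exists_le_minimal
      (p := fun W : Subgroup S => W ≤ F ⊓ Subgroup.centralizer (A : Set S) ∧ ¬ W ≤ A ∧
        F ≤ Subgroup.normalizer (W : Set S) ∧ I ≤ Subgroup.normalizer (W : Set S))
      (a := F ⊓ Subgroup.centralizer (A : Set S))
      ⟨le_rfl, hCnA, hnC F Subgroup.le_normalizer hFA, hnC I hIF hIA⟩
    obtain ⟨hWC', hWA, hFW, hIW⟩ := hWmin.prop
    have hWF : W ≤ F := hWC'.trans inf_le_left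
    have hW1 : W ≠ ⊥ := by rintro rfl; exact hWA bot_le
    have hlt := commutator_lt_of_nilpotent' W F hWF hFW hW1
    have hWFA : ⁅W, F⁆ ≤ A := by
      by_contra hn
      have h1 := hWmin.le_of_le ⟨hlt.le.trans hWC', hn,
        Cfsg.Agent.Lib.helper3.le_normalizer_of_conj_mem (fun g hg =>
          Cfsg.Agent.Lib.helper3.conj_commutator_mem
            (fun a ha => (Subgroup.mem_normalizer_iff.mp (hFW hg) a).mp ha)
            (fun a ha => (Subgroup.mem_normalizer_iff.mp (Subgroup.le_normalizer hg) a).mp ha)),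
        Cfsg.Agent.Lib.helper3.le_normalizer_of_conj_mem (fun g hg =>
          Cfsg.Agent.Lib.helper3.conj_commutator_mem
            (fun a ha => (Subgroup.mem_normalizer_iff.mp (hIW hg) a).mp ha)
            (fun a ha => (Subgroup.mem_normalizer_iff.mp (hIF hg) a).mp ha))⟩ hlt.le
      exact absurd h1 (not_le_of_gt hlt)
    have hoddW : Odd (Nat.card W) := hF.of_dvd_nat (Subgroup.card_dvd_of_le hWF)
    obtain ⟨d, hdW, hdA, hd⟩ := exists_eigen_mod I W A hI2 hIc (hWF.trans hFA)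
      ((Subgroup.commutator_mono le_rfl hWF).trans hWFA) hIW hIA hWA hoddW
    have hdC : d ∈ Subgroup.centralizer (A : Set S) := (hWC' hdW).2
    have hAleC : A ≤ Subgroup.centralizer (A : Set S) := by
      intro a ha
      rw [Subgroup.mem_centralizer_iff]
      intro b hb
      exact hAc b hb a ha
    have hzd : Subgroup.zpowers d ≤ Subgroup.centralizer ((Subgroup.zpowers d : Subgroup S) : Set S) := by
      rw [Subgroup.zpowers_le, Subgroup.mem_centralizer_iff]
      intro h hh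
      obtain ⟨k, rfl⟩ := Subgroup.mem_zpowers_iff.mp hh
      exact ((Commute.refl d).zpow_left k).eq
    have hT1 : A ⊔ Subgroup.zpowers d ≤ Subgroup.centralizer (A : Set S) :=
      sup_le hAleC (Subgroup.zpowers_le.mpr hdC)
    have hT2 : A ⊔ Subgroup.zpowers d ≤
        Subgroup.centralizer ((Subgroup.zpowers d : Subgroup S) : Set S) :=
      sup_le (Subgroup.le_centralizer_iff.mp (Subgroup.zpowers_le.mpr hdC)) hzd
    have hT3 : A ⊔ Subgroup.zpowers d ≤
        Subgroup.centralizer ((A ⊔ Subgroup.zpowers d : Subgroup S) : Set S) :=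
      sup_le (Subgroup.le_centralizer_iff.mp hT1) (Subgroup.le_centralizer_iff.mp hT2)
    have hnT : ∀ X : Subgroup S, X ≤ Subgroup.normalizer (A : Set S) →
        (∀ x ∈ X, x * d * x⁻¹ ∈ A ⊔ Subgroup.zpowers d) →
        X ≤ Subgroup.normalizer ((A ⊔ Subgroup.zpowers d : Subgroup S) : Set S) := by
      intro X hXA hXd
      apply Cfsg.Agent.Lib.helper3.le_normalizer_of_conj_mem
      intro x hx g hg
      have h1 : (A ⊔ Subgroup.zpowers d).map (MulAut.conj x).toMonoidHom ≤ A ⊔ Subgroup.zpowers d := by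
        rw [Subgroup.map_sup]
        refine sup_le ?_ ?_
        · rintro _ ⟨a, ha, rfl⟩
          exact Subgroup.mem_sup_left ((Subgroup.mem_normalizer_iff.mp (hXA hx) a).mp ha)
        · rw [MonoidHom.map_zpowers, Subgroup.zpowers_le]
          exact hXd x hx
      exact h1 (Subgroup.mem_map.mpr ⟨g, hg, rfl⟩)
    have hD : A ⊔ Subgroup.zpowers d ≤ F ∧
        (∀ a ∈ A ⊔ Subgroup.zpowers d, ∀ b ∈ A ⊔ Subgroup.zpowers d, a * b = b * a) ∧
        F ≤ Subgroup.normalizer ((A ⊔ Subgroup.zpowers d : Subgroup S) : Set S) ∧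
        I ≤ Subgroup.normalizer ((A ⊔ Subgroup.zpowers d : Subgroup S) : Set S) := by
      refine ⟨sup_le hAF (Subgroup.zpowers_le.mpr (hWF hdW)), ?_, ?_, ?_⟩
      · intro a ha b hb
        exact (Subgroup.mem_centralizer_iff.mp (hT3 hb)) a ha
      · apply hnT F hFA
        intro x hx
        have h1 : ⁅x, d⁆ ∈ A := by
          apply hWFA
          rw [Subgroup.commutator_comm]
          exact Subgroup.commutator_mem_commutator hx hdW
        have e : x * d * x⁻¹ = ⁅x, d⁆ * d := by rw [commutatorElement_def]; group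
        rw [e]
        exact Subgroup.mul_mem _ (Subgroup.mem_sup_left h1)
          (Subgroup.mem_sup_right (Subgroup.mem_zpowers d))
      · apply hnT I hIA
        intro s hs
        rcases hd s hs with h | h
        · have e : s * d * s⁻¹ = d * (d⁻¹ * (s * d * s⁻¹)) := by group
          rw [e]
          exact Subgroup.mul_mem _ (Subgroup.mem_sup_right (Subgroup.mem_zpowers d))
            (Subgroup.mem_sup_left h)
        · have e : s * d * s⁻¹ = d⁻¹ * (d * (s * d * s⁻¹)) := by group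
          rw [e]
          exact Subgroup.mul_mem _ (Subgroup.mem_sup_right
            (Subgroup.inv_mem _ (Subgroup.mem_zpowers d))) (Subgroup.mem_sup_left h)
    have h9 := hAmax.le_of_ge hD le_sup_left
    exact hdA (h9 (Subgroup.mem_sup_right (Subgroup.mem_zpowers d)))
  rw [eq_bot_iff]
  rintro t ⟨htI, htC⟩
  rw [Subgroup.mem_bot]
  have htC' := Subgroup.mem_centralizer_iff.mp htC
  have htF : ∀ x ∈ F, x * t = t * x := by
    intro x hx
    have hcF : t * x * t⁻¹ * x⁻¹ ∈ F := F.mul_mem (hFn.conj_mem x hx t) (F.inv_mem hx)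
    have hcC : t * x * t⁻¹ * x⁻¹ ∈ Subgroup.centralizer (A : Set S) := by
      rw [Subgroup.mem_centralizer_iff]
      intro a ha
      have h1 : x⁻¹ * a * x ∈ A := by
        have := (Subgroup.mem_normalizer_iff.mp (hFA (F.inv_mem hx)) a).mp ha
        simpa using this
      have h2 : Commute (x⁻¹ * a * x) t := htC' _ h1
      have h3 : Commute a t := htC' a ha
      calc a * (t * x * t⁻¹ * x⁻¹) = (a * t) * x * t⁻¹ * x⁻¹ := by group
        _ = (t * a) * x * t⁻¹ * x⁻¹ := by rw [h3.eq]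
        _ = t * x * ((x⁻¹ * a * x) * t⁻¹) * x⁻¹ := by group
        _ = t * x * (t⁻¹ * (x⁻¹ * a * x)) * x⁻¹ := by rw [h2.inv_right.eq]
        _ = t * x * t⁻¹ * x⁻¹ * a := by group
    have hcA : t * x * t⁻¹ * x⁻¹ ∈ A := hCA (Subgroup.mem_inf.mpr ⟨hcF, hcC⟩)
    have h4 : Commute (t * x * t⁻¹ * x⁻¹) t := htC' _ hcA
    have htt := hI2 t htI
    have h5 : (t * x * t⁻¹ * x⁻¹) * (t * x * t⁻¹ * x⁻¹) = 1 := by
      have e1 : t * x * t⁻¹ = (t * x * t⁻¹ * x⁻¹) * x := by group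
      have e2 : x = (t * t) * x * (t * t)⁻¹ := by rw [htt]; group
      have e3 : (t * t) * x * (t * t)⁻¹ = t * (t * x * t⁻¹) * t⁻¹ := by group
      have e4 : t * ((t * x * t⁻¹ * x⁻¹) * x) * t⁻¹
          = (t * (t * x * t⁻¹ * x⁻¹)) * x * t⁻¹ := by group
      have e5 : x = (t * x * t⁻¹ * x⁻¹) * (t * x * t⁻¹ * x⁻¹) * x := by
        calc x = t * (t * x * t⁻¹) * t⁻¹ := by rw [← e3, ← e2]
          _ = t * ((t * x * t⁻¹ * x⁻¹) * x) * t⁻¹ := by rw [← e1]
          _ = (t * (t * x * t⁻¹ * x⁻¹)) * x * t⁻¹ := e4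
          _ = ((t * x * t⁻¹ * x⁻¹) * t) * x * t⁻¹ := by rw [h4.eq]
          _ = (t * x * t⁻¹ * x⁻¹) * (t * x * t⁻¹) := by group
          _ = (t * x * t⁻¹ * x⁻¹) * ((t * x * t⁻¹ * x⁻¹) * x) := by rw [← e1]
          _ = _ := by group
      have e6 : (t * x * t⁻¹ * x⁻¹) * (t * x * t⁻¹ * x⁻¹) * x = 1 * x := by rw [one_mul]; exact e5.symm
      exact mul_right_cancel e6
    have h6 := hoddF _ hcF h5
    have e7 : t * x = (t * x * t⁻¹ * x⁻¹) * (x * t) := by group
    rw [e7, h6, one_mul]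
  have htZ : t ∈ Subgroup.centralizer (F : Set S) := by
    rw [Subgroup.mem_centralizer_iff]; exact htF
  have h9 : t ∈ I ⊓ Subgroup.centralizer (F : Set S) := Subgroup.mem_inf.mpr ⟨htI, htZ⟩
  rw [hfaithF, Subgroup.mem_bot] at h9
  exact h9


theorem eigen_of_prime_card {S : Type*} [Group S] [Finite S] (D : Subgroup S)
    (hD : (Nat.card D).Prime) (hDc : ∀ a ∈ D, ∀ b ∈ D, a * b = b * a) (s : S)
    (hs : s ∈ Subgroup.normalizer (D : Set S)) (hss : s * s = 1) (x : S) (hx : x ∈ D) :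
    s * x * s⁻¹ = x ∨ s * x * s⁻¹ = x⁻¹ := by
  have hsx : s * x * s⁻¹ ∈ D := (Subgroup.mem_normalizer_iff.mp hs x).mp hx
  by_cases hy : x * (s * x * s⁻¹) = 1
  · right; exact (eq_inv_of_mul_eq_one_right hy)
  · left
    obtain ⟨y, hydef⟩ : ∃ y, y = x * (s * x * s⁻¹) := ⟨_, rfl⟩
    rw [← hydef] at hy
    have hyD : y ∈ D := by rw [hydef]; exact D.mul_mem hx hsx
    have hsy : s * y * s⁻¹ = y := by
      have e : s * y * s⁻¹ = (s * x * s⁻¹) * ((s * s) * x * (s * s)⁻¹) := by rw [hydef]; group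
      rw [e, hss, hydef, inv_one, mul_one, one_mul]
      exact hDc _ hsx _ hx
    have hz : Subgroup.zpowers y = D := by
      apply Subgroup.eq_of_le_of_card_ge (Subgroup.zpowers_le.mpr hyD)
      rw [Nat.card_zpowers]
      have h1 : orderOf y ∣ Nat.card D := by
        have := orderOf_dvd_natCard (⟨y, hyD⟩ : ↥D)
        rwa [Subgroup.orderOf_mk] at this
      rcases (Nat.dvd_prime hD).mp h1 with h | h
      · exact absurd (orderOf_eq_one_iff.mp h) hy
      · rw [h]
    rw [← hz] at hx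
    obtain ⟨k, hk⟩ := Subgroup.mem_zpowers_iff.mp hx
    have h2 : s * y ^ k * s⁻¹ = y ^ k := by rw [← conj_zpow, hsy]
    rw [← hk]
    exact h2

theorem exists_prime_eigen_pgroup {S : Type*} [Group S] [Finite S] {p : ℕ} [Fact p.Prime]
    (hp2 : p ≠ 2) (I Q : Subgroup S) (hI2 : ∀ s ∈ I, s * s = 1)
    (hIc : ∀ s ∈ I, ∀ u ∈ I, s * u = u * s) (hQ : IsPGroup p Q) (hQ1 : Q ≠ ⊥)
    (hIQ : I ≤ Subgroup.normalizer (Q : Set S)) :
    ∃ b ∈ Q, orderOf b = p ∧ ∀ s ∈ I, (s * b * s⁻¹ = b ∨ s * b * s⁻¹ = b⁻¹) := by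
  have hp : p.Prime := Fact.out
  have hIV : I ≤ Subgroup.normalizer ((Q ⊓ Subgroup.centralizer (Q : Set S) : Subgroup S) : Set S) :=
    fun s hs => mem_normalizer_inf_centralizer Q Q (hIQ hs) (hIQ hs)
  have hVc : ∀ a ∈ Q ⊓ Subgroup.centralizer (Q : Set S), ∀ b ∈ Q ⊓ Subgroup.centralizer (Q : Set S),
      a * b = b * a := by
    intro a ha b hb
    exact (Subgroup.mem_centralizer_iff.mp hb.2) a ha.1
  have hV1 : Q ⊓ Subgroup.centralizer (Q : Set S) ≠ ⊥ := by
    haveI : Nontrivial ↥Q := (Subgroup.nontrivial_iff_ne_bot Q).mpr hQ1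
    have h1 := hQ.bot_lt_center
    obtain ⟨z, hz, hz1⟩ := SetLike.exists_of_lt h1
    intro hbot
    apply hz1
    have h2 : (z : S) ∈ Q ⊓ Subgroup.centralizer (Q : Set S) := by
      refine Subgroup.mem_inf.mpr ⟨z.2, ?_⟩
      rw [Subgroup.mem_centralizer_iff]
      intro h hh
      have := (Subgroup.mem_center_iff.mp hz) ⟨h, hh⟩
      exact congrArg Subtype.val this
    rw [hbot, Subgroup.mem_bot] at h2
    rw [Subgroup.mem_bot]
    exact Subtype.ext h2
  have hodd : Odd (Nat.card ↥(Q ⊓ Subgroup.centralizer (Q : Set S))) := by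
    obtain ⟨n, hn⟩ := IsPGroup.iff_card.mp (hQ.to_le inf_le_left)
    rw [hn]
    exact (hp.odd_of_ne_two hp2).pow
  obtain ⟨d, hdV, hdp, hd⟩ := exists_prime_eigen I _ hI2 hIc hVc hIV hV1 hodd
  refine ⟨d, hdV.1, ?_, hd⟩
  obtain ⟨n, hn⟩ := IsPGroup.iff_card.mp hQ
  have h1 : orderOf d ∣ p ^ n := by
    rw [← hn]
    have := orderOf_dvd_natCard (⟨d, hdV.1⟩ : ↥Q)
    rwa [Subgroup.orderOf_mk] at this
  exact (Nat.prime_dvd_prime_iff_eq hdp hp).mp (hdp.dvd_of_dvd_pow h1)

theorem mem_zpowers_of_mem_zpowers {S : Type*} [Group S] [Finite S] {p : ℕ} [Fact p.Prime]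
    (g x y : S) (hx : x ∈ Subgroup.zpowers g) (hy : y ∈ Subgroup.zpowers g) (hxo : orderOf x = p)
    (hyo : y ^ p = 1) : y ∈ Subgroup.zpowers x := by
  classical
  have hp : p.Prime := Fact.out
  haveI : Fintype ↥(Subgroup.zpowers g) := Fintype.ofFinite _
  set x' : ↥(Subgroup.zpowers g) := ⟨x, hx⟩ with hx'
  set y' : ↥(Subgroup.zpowers g) := ⟨y, hy⟩ with hy'
  have h1 := IsCyclic.card_pow_eq_one_le (α := ↥(Subgroup.zpowers g)) hp.pos
  have hsub : (Finset.univ.filter (fun a : ↥(Subgroup.zpowers g) => a ∈ Subgroup.zpowers x')) ⊆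
      (Finset.univ.filter (fun a : ↥(Subgroup.zpowers g) => a ^ p = 1)) := by
    intro a ha
    rw [Finset.mem_filter] at ha ⊢
    refine ⟨Finset.mem_univ _, ?_⟩
    obtain ⟨k, hk⟩ := Subgroup.mem_zpowers_iff.mp ha.2
    rw [← hk, ← zpow_natCast, ← zpow_mul, mul_comm, zpow_mul, zpow_natCast]
    have : x' ^ p = 1 := by
      apply Subtype.ext
      rw [Subgroup.coe_pow, Subgroup.coe_one, ← hxo]
      exact pow_orderOf_eq_one x
    rw [this, one_zpow]
  have hcard : (Finset.univ.filter (fun a : ↥(Subgroup.zpowers g) => a ∈ Subgroup.zpowers x')).card = p := by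
    rw [← Fintype.card_subtype, ← Nat.card_eq_fintype_card]
    have : Nat.card {a : ↥(Subgroup.zpowers g) // a ∈ Subgroup.zpowers x'} = orderOf x' :=
      Nat.card_zpowers x'
    rw [this, Subgroup.orderOf_mk, hxo]
  have heq := Finset.eq_of_subset_of_card_le hsub (by rw [hcard]; exact h1)
  have hy2 : y' ∈ Finset.univ.filter (fun a : ↥(Subgroup.zpowers g) => a ^ p = 1) := by
    rw [Finset.mem_filter]
    refine ⟨Finset.mem_univ _, ?_⟩
    apply Subtype.ext
    rw [Subgroup.coe_pow, Subgroup.coe_one]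
    exact hyo
  rw [← heq, Finset.mem_filter] at hy2
  obtain ⟨k, hk⟩ := Subgroup.mem_zpowers_iff.mp hy2.2
  rw [Subgroup.mem_zpowers_iff]
  refine ⟨k, ?_⟩
  have := congrArg Subtype.val hk
  rw [Subgroup.coe_zpow] at this
  exact this

theorem inverts_of_fpf {S : Type*} [Group S] [Finite S] (Q : Subgroup S) (σ : S)
    (hσ : σ ∈ Subgroup.normalizer (Q : Set S)) (hσσ : σ * σ = 1)
    (hfpf : Q ⊓ Subgroup.centralizer ({σ} : Set S) = ⊥) :
    (∀ x ∈ Q, σ * x * σ⁻¹ = x⁻¹) ∧ ∀ x ∈ Q, ∀ y ∈ Q, x * y = y * x := by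
  have hconj : ∀ x ∈ Q, σ * x * σ⁻¹ ∈ Q := fun x hx => (Subgroup.mem_normalizer_iff.mp hσ x).mp hx
  let ψ : ↥Q → ↥Q := fun x => ⟨(x : S)⁻¹ * (σ * x * σ⁻¹), Q.mul_mem (Q.inv_mem x.2) (hconj x x.2)⟩
  have hinj : Function.Injective ψ := by
    intro x y hxy
    have h1 : (x : S)⁻¹ * (σ * x * σ⁻¹) = (y : S)⁻¹ * (σ * y * σ⁻¹) := congrArg Subtype.val hxy
    have h2 : (y : S) * (x : S)⁻¹ ∈ Q ⊓ Subgroup.centralizer ({σ} : Set S) := by
      refine Subgroup.mem_inf.mpr ⟨Q.mul_mem y.2 (Q.inv_mem x.2), ?_⟩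
      rw [Subgroup.mem_centralizer_iff]
      intro h hh
      rw [Set.mem_singleton_iff] at hh
      rw [hh]
      have e : σ * ((y : S) * (x : S)⁻¹) = (y : S) * ((y : S)⁻¹ * (σ * y * σ⁻¹)) * (σ * (x : S)⁻¹) := by
        group
      rw [e, ← h1]; group
    rw [hfpf, Subgroup.mem_bot] at h2
    apply Subtype.ext
    have : (y : S) = (y : S) * (x : S)⁻¹ * x := by group
    rw [this, h2, one_mul]
  have hsurj : Function.Surjective ψ := Finite.injective_iff_surjective.mp hinj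
  have hinv : ∀ x ∈ Q, σ * x * σ⁻¹ = x⁻¹ := by
    intro w hw
    obtain ⟨x, hx⟩ := hsurj ⟨w, hw⟩
    have hw' : w = (x : S)⁻¹ * (σ * x * σ⁻¹) := (congrArg Subtype.val hx).symm
    have e : σ * ((x : S)⁻¹ * (σ * x * σ⁻¹)) * σ⁻¹
        = (σ * (x : S) * σ⁻¹)⁻¹ * ((σ * σ) * (x : S) * (σ * σ)⁻¹) := by group
    rw [hw', e, hσσ]; group
  refine ⟨hinv, ?_⟩
  intro x hx y hy
  have h1 := hinv (x * y) (Q.mul_mem hx hy)
  have e : σ * (x * y) * σ⁻¹ = (σ * x * σ⁻¹) * (σ * y * σ⁻¹) := by group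
  rw [e, hinv x hx, hinv y hy, mul_inv_rev] at h1
  have h2 := congrArg (fun z => z⁻¹) h1
  simp only [mul_inv_rev, inv_inv] at h2
  exact h2.symm

theorem exists_zpowers_eq_of_le_zpowers {S : Type*} [Group S] {H : Subgroup S} {g : S}
    (h : H ≤ Subgroup.zpowers g) : ∃ c ∈ H, H = Subgroup.zpowers c := by
  haveI : IsCyclic ↥H := Subgroup.isCyclic_of_le h
  obtain ⟨c, hc⟩ := IsCyclic.exists_generator (α := ↥H)
  refine ⟨c, c.2, le_antisymm ?_ (Subgroup.zpowers_le.mpr c.2)⟩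
  intro x hx
  obtain ⟨k, hk⟩ := Subgroup.mem_zpowers_iff.mp (hc ⟨x, hx⟩)
  rw [Subgroup.mem_zpowers_iff]
  refine ⟨k, ?_⟩
  have := congrArg Subtype.val hk
  rw [Subgroup.coe_zpow] at this
  exact this

theorem not_two_generated {S : Type*} [Group S] [Finite S] {p : ℕ} [Fact p.Prime] (P E : Subgroup S)
    (hPc : ∀ a ∈ P, ∀ b ∈ P, a * b = b * a) (hEP : E ≤ P) (hEp : ∀ e ∈ E, e ^ p = 1)
    (hEcard : p ^ 2 < Nat.card E) (x y : S) (hxy : Subgroup.closure {x, y} = P) : False := by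
  have hp : p.Prime := Fact.out
  have hx : x ∈ P := by rw [← hxy]; exact Subgroup.subset_closure (by simp)
  have hy : y ∈ P := by rw [← hxy]; exact Subgroup.subset_closure (by simp)
  letI : CommGroup ↥P :=
    { (inferInstance : Group ↥P) with
      mul_comm := fun a b => Subtype.ext (hPc a a.2 b b.2) }
  set φ : ↥P →* ↥P := powMonoidHom p with hφ
  have h1 : Nat.card ↥φ.ker * Nat.card ↥φ.range = Nat.card ↥P := by
    have := card_inf_ker_mul_card_map φ ⊤
    rwa [inf_top_eq, ← MonoidHom.range_eq_map, Subgroup.card_top] at this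
  have h2 : Nat.card E ≤ Nat.card ↥φ.ker := by
    have e1 : Nat.card (E.subgroupOf P) = Nat.card E :=
      Nat.card_congr (Subgroup.subgroupOfEquivOfLe hEP).toEquiv
    rw [← e1]
    apply Subgroup.card_le_of_le
    intro a ha
    rw [Subgroup.mem_subgroupOf] at ha
    rw [MonoidHom.mem_ker]
    apply Subtype.ext
    show ((a ^ p : ↥P) : S) = 1
    rw [Subgroup.coe_pow]
    exact hEp _ ha
  have h3 : Nat.card (↥P ⧸ φ.range) * Nat.card ↥φ.range = Nat.card ↥P :=
    (Subgroup.card_eq_card_quotient_mul_card_subgroup φ.range).symm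
  have h4 : Nat.card (↥P ⧸ φ.range) ≤ p ^ 2 := by
    set x' : ↥P := ⟨x, hx⟩ with hx'
    set y' : ↥P := ⟨y, hy⟩ with hy'
    have hcl : Subgroup.closure ({x', y'} : Set ↥P) = ⊤ := by
      apply Subgroup.map_injective P.subtype_injective
      have e1 : (P.subtype : ↥P → S) '' ({x', y'} : Set ↥P) = {x, y} := by
        rw [Set.image_pair]
        rfl
      rw [MonoidHom.map_closure, e1, hxy, ← MonoidHom.range_eq_map, Subgroup.range_subtype]
    have hcl2 : Subgroup.zpowers (QuotientGroup.mk x' : ↥P ⧸ φ.range) ⊔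
        Subgroup.zpowers (QuotientGroup.mk y' : ↥P ⧸ φ.range) = ⊤ := by
      have h5 : (Subgroup.closure ({x', y'} : Set ↥P)).map (QuotientGroup.mk' φ.range) = ⊤ := by
        rw [hcl]
        exact Subgroup.map_top_of_surjective _ (QuotientGroup.mk'_surjective _)
      rw [MonoidHom.map_closure, Set.image_pair] at h5
      rw [← h5, Subgroup.zpowers_eq_closure, Subgroup.zpowers_eq_closure, ← Subgroup.closure_union,
        Set.singleton_union]
      rfl
    have hord : ∀ w : ↥P, Nat.card (Subgroup.zpowers (QuotientGroup.mk w : ↥P ⧸ φ.range)) ≤ p := by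
      intro w
      rw [Nat.card_zpowers]
      apply Nat.le_of_dvd hp.pos
      rw [orderOf_dvd_iff_pow_eq_one, ← QuotientGroup.mk_pow, QuotientGroup.eq_one_iff]
      exact ⟨w, rfl⟩
    have h6 := Cfsg.Agent.Lib.helper15.card_sup_mul_card_inf
      (Subgroup.zpowers (QuotientGroup.mk x' : ↥P ⧸ φ.range))
      (Subgroup.zpowers (QuotientGroup.mk y' : ↥P ⧸ φ.range)) (by
        rw [Subgroup.normalizer_eq_top]; exact le_top)
    rw [hcl2, Subgroup.card_top] at h6
    have h7 : 0 < Nat.card ↥(Subgroup.zpowers (QuotientGroup.mk x' : ↥P ⧸ φ.range) ⊓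
        Subgroup.zpowers (QuotientGroup.mk y' : ↥P ⧸ φ.range)) := Nat.card_pos
    calc Nat.card (↥P ⧸ φ.range) ≤ Nat.card (↥P ⧸ φ.range) *
          Nat.card ↥(Subgroup.zpowers (QuotientGroup.mk x' : ↥P ⧸ φ.range) ⊓
            Subgroup.zpowers (QuotientGroup.mk y' : ↥P ⧸ φ.range)) := Nat.le_mul_of_pos_right _ h7
      _ = _ := h6
      _ ≤ p * p := Nat.mul_le_mul (hord x') (hord y')
      _ = p ^ 2 := (pow_two p).symm
  have h8 : 0 < Nat.card ↥φ.range := Nat.card_pos
  have h9 : Nat.card ↥φ.ker = Nat.card (↥P ⧸ φ.range) :=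
    Nat.eq_of_mul_eq_mul_right h8 (h1.trans h3.symm)
  omega


theorem fix_mul_iff {S : Type*} [Group S] (x s u : S) (hx : x ≠ x⁻¹)
    (hs : s * x * s⁻¹ = x ∨ s * x * s⁻¹ = x⁻¹) (hu : u * x * u⁻¹ = x ∨ u * x * u⁻¹ = x⁻¹) :
    (s * u) * x * (s * u)⁻¹ = x ↔ (s * x * s⁻¹ = x ↔ u * x * u⁻¹ = x) := by
  have e : (s * u) * x * (s * u)⁻¹ = s * (u * x * u⁻¹) * s⁻¹ := by group
  have e2 : s * x⁻¹ * s⁻¹ = (s * x * s⁻¹)⁻¹ := by group
  rw [e]
  rcases hu with hu | hu <;> rcases hs with hs | hs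
  · rw [hu, hs]; simp
  · rw [hu, hs]; simp
  · rw [hu, e2, hs]
    constructor
    · intro h; exact absurd h.symm hx
    · intro h; exact absurd (h.mp rfl).symm hx
  · rw [hu, e2, hs, inv_inv]; simp

theorem ne_inv_of_orderOf_odd {S : Type*} [Group S] {p : ℕ} [Fact p.Prime] (hp2 : p ≠ 2) (x : S)
    (hx : orderOf x = p) : x ≠ x⁻¹ := by
  intro h
  have h1 : x * x = 1 := by nth_rewrite 2 [h]; exact mul_inv_cancel x
  have h2 : orderOf x ∣ 2 := by rw [orderOf_dvd_iff_pow_eq_one, pow_two]; exact h1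
  rw [hx] at h2
  exact hp2 ((Nat.prime_dvd_prime_iff_eq Fact.out Nat.prime_two).mp h2)

theorem mem_centralizer_singleton_iff' {S : Type*} [Group S] (s x : S) :
    x ∈ Subgroup.centralizer ({s} : Set S) ↔ s * x * s⁻¹ = x := by
  rw [Subgroup.mem_centralizer_iff]
  constructor
  · intro h; rw [h s rfl]; group
  · intro h y hy
    rw [Set.mem_singleton_iff] at hy
    rw [hy]
    calc s * x = (s * x * s⁻¹) * s := by group
      _ = x * s := by rw [h]

theorem mem_centralizer_singleton_iff'' {S : Type*} [Group S] (s x : S) :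
    s ∈ Subgroup.centralizer ({x} : Set S) ↔ s * x * s⁻¹ = x := by
  rw [Subgroup.mem_centralizer_iff]
  constructor
  · intro h; rw [← h x rfl]; group
  · intro h y hy
    rw [Set.mem_singleton_iff] at hy
    rw [hy]
    calc x * s = (s * x * s⁻¹) * s := by rw [h]
      _ = s * x := by group

theorem conj_zpowers_fix {S : Type*} [Group S] (s x y : S) (hy : y ∈ Subgroup.zpowers x)
    (h : s * x * s⁻¹ = x) : s * y * s⁻¹ = y := by
  obtain ⟨k, rfl⟩ := Subgroup.mem_zpowers_iff.mp hy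
  rw [← conj_zpow, h]

theorem conj_zpowers_inv {S : Type*} [Group S] (s x y : S) (hy : y ∈ Subgroup.zpowers x)
    (h : s * x * s⁻¹ = x⁻¹) : s * y * s⁻¹ = y⁻¹ := by
  obtain ⟨k, rfl⟩ := Subgroup.mem_zpowers_iff.mp hy
  rw [← conj_zpow, h, inv_zpow]

theorem le_normalizer_inf_centralizer_set {S : Type*} [Group S] (I P : Subgroup S) (X : Set S)
    (hIP : I ≤ Subgroup.normalizer (P : Set S)) (hX : ∀ s ∈ I, ∀ x ∈ X, s * x = x * s) :
    I ≤ Subgroup.normalizer ((P ⊓ Subgroup.centralizer X : Subgroup S) : Set S) := by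
  apply Cfsg.Agent.Lib.helper3.le_normalizer_of_conj_mem
  intro s hs c hc
  refine Subgroup.mem_inf.mpr ⟨(Subgroup.mem_normalizer_iff.mp (hIP hs) c).mp hc.1, ?_⟩
  rw [Subgroup.mem_centralizer_iff]
  intro x hx
  have h1 := hX s hs x hx
  have h2 := Subgroup.mem_centralizer_iff.mp hc.2 x hx
  have h3 : x * s⁻¹ = s⁻¹ * x := by
    calc x * s⁻¹ = s⁻¹ * (s * x) * s⁻¹ := by group
      _ = s⁻¹ * (x * s) * s⁻¹ := by rw [h1]
      _ = s⁻¹ * x := by group
  calc x * (s * c * s⁻¹) = (x * s) * c * s⁻¹ := by group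
    _ = (s * x) * c * s⁻¹ := by rw [h1]
    _ = s * (x * c) * s⁻¹ := by group
    _ = s * (c * x) * s⁻¹ := by rw [h2]
    _ = s * c * (x * s⁻¹) := by group
    _ = s * c * (s⁻¹ * x) := by rw [h3]
    _ = s * c * s⁻¹ * x := by group

theorem mem_centralizer_iSup_zpowers {S : Type*} [Group S] {ι : Type*} (a : ι → S) (g : S)
    (h : ∀ i, g * a i * g⁻¹ = a i) :
    g ∈ Subgroup.centralizer ((⨆ i, Subgroup.zpowers (a i) : Subgroup S) : Set S) := by
  have h1 : (⨆ i, Subgroup.zpowers (a i)) ≤ Subgroup.centralizer ({g} : Set S) := by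
    rw [iSup_le_iff]
    intro i
    rw [Subgroup.zpowers_le]
    exact (mem_centralizer_singleton_iff' g (a i)).mpr (h i)
  rw [Subgroup.mem_centralizer_iff]
  intro x hx
  exact ((Subgroup.mem_centralizer_iff.mp (h1 hx)) g (Set.mem_singleton g)).symm

theorem fin3_forall (P : Fin 3 → Prop) : (∀ i, P i) ↔ P 0 ∧ P 1 ∧ P 2 := by
  constructor
  · intro h; exact ⟨h 0, h 1, h 2⟩
  · rintro ⟨h0, h1, h2⟩ i
    have key : ∀ k : Fin 3, k = 0 ∨ k = 1 ∨ k = 2 := by decide
    rcases key i with rfl | rfl | rfl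
    exacts [h0, h1, h2]

/-- The fixed points of `t` on `P` form a cyclic group. -/
def cycC {G : Type*} [Group G] (P : Subgroup G) (t : G) : Prop :=
  ∃ g, P ⊓ Subgroup.centralizer ({t} : Set G) = Subgroup.zpowers g


set_option maxHeartbeats 1000000 in
theorem el8_internal {G : Type*} [Group G] [Finite G] {p : ℕ} [Fact p.Prime] (hp2 : p ≠ 2)
    (P : Subgroup G) [hPn : P.Normal] (hP : IsPGroup p P) (I : Subgroup G)
    (hI2 : ∀ s ∈ I, s * s = 1) (hIc : ∀ s ∈ I, ∀ u ∈ I, s * u = u * s) (hI8 : Nat.card I = 8)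
    (hfaith : I ⊓ Subgroup.centralizer (P : Set G) = ⊥)
    (I0 : Subgroup G) (hI0 : I0 < I)
    (hdisj : ∀ t ∈ I0, t ≠ 1 → cycC P t)
    (hprod : ∀ t ∈ I, ∀ t' ∈ I, t ≠ 1 → t' ≠ 1 → ¬ cycC P t → ¬ cycC P t' → t * t' ∈ I0) :
    (∀ a ∈ P, ∀ b ∈ P, a * b = b * a) ∧
    (∃ c1 c2 c3, Subgroup.closure {c1, c2, c3} = P) ∧
    (¬ ∃ c1 c2, Subgroup.closure {c1, c2} = P) ∧
    ∃ t1 t2 t3, t1 ≠ t2 ∧ t1 ≠ t3 ∧ t2 ≠ t3 ∧
      (∀ t, (t ∈ I ∧ t ≠ 1 ∧ ¬ cycC P t) ↔ (t = t1 ∨ t = t2 ∨ t = t3)) ∧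
      I ≤ Subgroup.closure {t1, t2, t3} ∧
      (∀ t ∈ I0, ∃ u v, (u = t1 ∨ u = t2 ∨ u = t3) ∧ (v = t1 ∨ v = t2 ∨ v = t3) ∧ t = u * v) := by
  classical
  have hp : p.Prime := Fact.out
  have hpodd : Odd p := hp.odd_of_ne_two hp2
  have hIP : I ≤ Subgroup.normalizer (P : Set G) := by
    rw [Subgroup.normalizer_eq_top]; exact le_top
  have hoddP : Odd (Nat.card P) := by
    obtain ⟨n, hn⟩ := IsPGroup.iff_card.mp hP
    rw [hn]; exact hpodd.pow
  have hnil : Group.IsNilpotent ↥P := hP.isNilpotent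
  obtain ⟨A, hAP, hAc, hIA, hfaithA⟩ :=
    exists_faithful_abelian_of_normal P hnil hoddP I hI2 hIc hfaith
  have hoddA : Odd (Nat.card A) := hoddP.of_dvd_nat (Subgroup.card_dvd_of_le hAP)
  obtain ⟨f, hfp, hfA, hfI, hfcard, hfJ⟩ :=
    eigen_chain I A hI2 hIc hAc hIA hfaithA hoddA 3 (by rw [hI8]; norm_num) 3 le_rfl
  have hEbot : I ⊓ Subgroup.centralizer ((⨆ i, f i : Subgroup G) : Set G) = ⊥ := by
    have h1 : Nat.card ↥(I ⊓ Subgroup.centralizer ((⨆ i, f i : Subgroup G) : Set G)) = 1 := by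
      omega
    exact Subgroup.card_eq_one.mp h1
  have hfP : ∀ i, f i ≤ P := fun i => (hfA i).trans hAP
  have hfcardp : ∀ i, Nat.card (f i) = p := by
    intro i
    obtain ⟨m, hm⟩ := IsPGroup.iff_card.mp (hP.to_le (hfP i))
    have h1 := hfp i
    rw [hm] at h1 ⊢
    have hm0 : m ≠ 0 := by rintro rfl; rw [pow_zero] at h1; exact Nat.not_prime_one h1
    have h2 : p ∣ p ^ m := dvd_pow_self p hm0
    exact ((Nat.prime_dvd_prime_iff_eq hp h1).mp h2).symm
  have hex : ∀ i, ∃ a, a ∈ f i ∧ orderOf a = p := by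
    intro i
    obtain ⟨x, hx⟩ := exists_prime_orderOf_dvd_card' (G := ↥(f i)) p (by rw [hfcardp i])
    exact ⟨x, x.2, by rw [← hx, Subgroup.orderOf_coe]⟩
  choose a ha hao using hex
  have haP : ∀ i, a i ∈ P := fun i => hfP i (ha i)
  have hfz : ∀ i, Subgroup.zpowers (a i) = f i := by
    intro i
    apply Subgroup.eq_of_le_of_card_ge (Subgroup.zpowers_le.mpr (ha i))
    rw [Nat.card_zpowers, hao i, hfcardp i]
  have hane : ∀ i, a i ≠ (a i)⁻¹ := fun i => ne_inv_of_orderOf_odd hp2 (a i) (hao i)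
  have eig : ∀ s ∈ I, ∀ i, s * a i * s⁻¹ = a i ∨ s * a i * s⁻¹ = (a i)⁻¹ := by
    intro s hs i
    exact eigen_of_prime_card (f i) (hfp i) (fun x hx y hy => hAc x (hfA i hx) y (hfA i hy)) s
      (hfI i hs) (hI2 s hs) (a i) (ha i)
  have hmul : ∀ s ∈ I, ∀ u ∈ I, ∀ i, (s * u) * a i * (s * u)⁻¹ = a i ↔
      (s * a i * s⁻¹ = a i ↔ u * a i * u⁻¹ = a i) := fun s hs u hu i =>
    fix_mul_iff (a i) s u (hane i) (eig s hs i) (eig u hu i)
  have hinj : ∀ s ∈ I, ∀ u ∈ I, (∀ i, s * a i * s⁻¹ = a i ↔ u * a i * u⁻¹ = a i) → s = u := by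
    intro s hs u hu h
    have h1 : s * u ∈ I ⊓ Subgroup.centralizer ((⨆ i, f i : Subgroup G) : Set G) := by
      refine Subgroup.mem_inf.mpr ⟨I.mul_mem hs hu, ?_⟩
      have h2 := mem_centralizer_iSup_zpowers a (s * u) (fun i => (hmul s hs u hu i).mpr (h i))
      simp only [hfz] at h2
      exact h2
    rw [hEbot, Subgroup.mem_bot] at h1
    have h3 : u⁻¹ = u := inv_eq_of_mul_eq_one_left (hI2 u hu)
    calc s = (s * u) * u⁻¹ := by group
      _ = u⁻¹ := by rw [h1, one_mul]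
      _ = u := h3
  have hsurj : ∀ v : Fin 3 → Bool, ∃ s ∈ I, ∀ i, (s * a i * s⁻¹ = a i ↔ v i = true) := by
    let Φ : ↥I → (Fin 3 → Bool) := fun s i => decide ((s : G) * a i * (s : G)⁻¹ = a i)
    have hΦinj : Function.Injective Φ := by
      intro s u hsu
      apply Subtype.ext
      apply hinj s s.2 u u.2
      intro i
      have := congrFun hsu i
      simp only [Φ, decide_eq_decide] at this
      exact this
    have hΦbij : Function.Bijective Φ := by
      apply Function.Injective.bijective_of_nat_card_le hΦinj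
      rw [hI8]; simp
    intro v
    obtain ⟨s, hs⟩ := hΦbij.2 v
    refine ⟨s, s.2, fun i => ?_⟩
    have := congrFun hs i
    rw [← this]
    exact decide_eq_true_iff.symm
  have hsurj' : ∀ k : Fin 3, ∃ s ∈ I, ∀ i, (s * a i * s⁻¹ = a i ↔ i ≠ k) := by
    intro k
    obtain ⟨s, hs, h⟩ := hsurj (fun i => decide (i ≠ k))
    exact ⟨s, hs, fun i => by rw [h i, decide_eq_true_iff]⟩
  choose t htI ht using hsurj'
  have htinv : ∀ k, t k * a k * (t k)⁻¹ = (a k)⁻¹ := by
    intro k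
    rcases eig (t k) (htI k) k with h | h
    · exact absurd rfl ((ht k k).mp h)
    · exact h
  have ht1 : ∀ k, t k ≠ 1 := by
    intro k h
    have h1 : t k * a k * (t k)⁻¹ = a k := by rw [h]; group
    exact (ht k k).mp h1 rfl
  have hmulT : ∀ i j m, (t i * t j) * a m * (t i * t j)⁻¹ = a m ↔ (m ≠ i ↔ m ≠ j) := by
    intro i j m
    rw [hmul (t i) (htI i) (t j) (htI j) m, ht i m, ht j m]
  have hmemC : ∀ s x, x ∈ P → s * x * s⁻¹ = x → x ∈ P ⊓ Subgroup.centralizer ({s} : Set G) :=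
    fun s x hx h => Subgroup.mem_inf.mpr ⟨hx, (mem_centralizer_singleton_iff' s x).mpr h⟩
  have key3 : ∀ k : Fin 3, ∃ i j : Fin 3, i ≠ k ∧ j ≠ k ∧ i ≠ j := by decide
  have key2 : ∀ i j : Fin 3, ∃ k : Fin 3, k ≠ i ∧ k ≠ j := by decide
  have hbroad : ∀ k, ¬ cycC P (t k) := by
    rintro k ⟨g, hg⟩
    obtain ⟨i, j, hik, hjk, hij⟩ := key3 k
    have h1 : a i ∈ Subgroup.zpowers g := by
      rw [← hg]; exact hmemC _ _ (haP i) ((ht k i).mpr hik)
    have h2 : a j ∈ Subgroup.zpowers g := by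
      rw [← hg]; exact hmemC _ _ (haP j) ((ht k j).mpr hjk)
    have h3 : a j ∈ Subgroup.zpowers (a i) :=
      mem_zpowers_of_mem_zpowers g (a i) (a j) h1 h2 (hao i)
        (by rw [← hao j]; exact pow_orderOf_eq_one _)
    have h4 := conj_zpowers_inv (t i) (a i) (a j) h3 (htinv i)
    have h5 : t i * a j * (t i)⁻¹ = a j := (ht i j).mpr hij.symm
    rw [h5] at h4
    exact hane j h4
  have hI0mem : ∀ i j, t i * t j ∈ I0 := fun i j =>
    hprod _ (htI i) _ (htI j) (ht1 i) (ht1 j) (hbroad i) (hbroad j)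
  have hne1 : ∀ i j, i ≠ j → t i * t j ≠ 1 := by
    intro i j hij h
    have h1 : (t i * t j) * a i * (t i * t j)⁻¹ = a i := by rw [h]; group
    rw [hmulT] at h1
    exact (h1.mpr hij) rfl
  have hcycT : ∀ i j, i ≠ j → cycC P (t i * t j) := fun i j hij =>
    hdisj _ (hI0mem i j) (hne1 i j hij)
  have hstar : ∀ b ∈ P, orderOf b = p → (∀ s ∈ I, s * b * s⁻¹ = b ∨ s * b * s⁻¹ = b⁻¹) →
      ∃ k, b ∈ Subgroup.zpowers (a k) := by
    intro b hbP hbo hb
    have hbne : b ≠ b⁻¹ := ne_inv_of_orderOf_odd hp2 b hbo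
    have hpig : ∃ i j : Fin 3, i ≠ j ∧ (t i * b * (t i)⁻¹ = b ↔ t j * b * (t j)⁻¹ = b) := by
      by_cases h0 : t 0 * b * (t 0)⁻¹ = b <;> by_cases h1 : t 1 * b * (t 1)⁻¹ = b <;>
        by_cases h2 : t 2 * b * (t 2)⁻¹ = b
      · exact ⟨0, 1, by decide, iff_of_true h0 h1⟩
      · exact ⟨0, 1, by decide, iff_of_true h0 h1⟩
      · exact ⟨0, 2, by decide, iff_of_true h0 h2⟩
      · exact ⟨1, 2, by decide, iff_of_false h1 h2⟩
      · exact ⟨1, 2, by decide, iff_of_true h1 h2⟩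
      · exact ⟨0, 2, by decide, iff_of_false h0 h2⟩
      · exact ⟨0, 1, by decide, iff_of_false h0 h1⟩
      · exact ⟨0, 1, by decide, iff_of_false h0 h1⟩
    obtain ⟨i, j, hij, hiff⟩ := hpig
    have h1 : (t i * t j) * b * (t i * t j)⁻¹ = b :=
      (fix_mul_iff b (t i) (t j) hbne (hb _ (htI i)) (hb _ (htI j))).mpr hiff
    obtain ⟨k, hki, hkj⟩ := key2 i j
    obtain ⟨g, hg⟩ := hcycT i j hij
    have h2 : a k ∈ Subgroup.zpowers g := by
      rw [← hg]; exact hmemC _ _ (haP k) ((hmulT i j k).mpr (iff_of_true hki hkj))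
    have h3 : b ∈ Subgroup.zpowers g := by rw [← hg]; exact hmemC _ _ hbP h1
    exact ⟨k, mem_zpowers_of_mem_zpowers g (a k) b h2 h3 (hao k)
      (by rw [← hbo]; exact pow_orderOf_eq_one _)⟩
  have hE0 : ∀ Q : Subgroup G, Q ≤ P → Q ≠ ⊥ → I ≤ Subgroup.normalizer (Q : Set G) →
      ∃ k, ∃ b ∈ Q, orderOf b = p ∧ b ∈ Subgroup.zpowers (a k) := by
    intro Q hQP hQ1 hIQ
    obtain ⟨b, hbQ, hbo, hb⟩ := exists_prime_eigen_pgroup hp2 I Q hI2 hIc (hP.to_le hQP) hQ1 hIQ
    obtain ⟨k, hk⟩ := hstar b (hQP hbQ) hbo hb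
    exact ⟨k, b, hbQ, hbo, hk⟩
  have hL2 : ∀ k b, orderOf b = p → b ∈ Subgroup.zpowers (a k) → ∀ s ∈ I, s * b * s⁻¹ = b →
      s * a k * s⁻¹ = a k := by
    intro k b hbo hbk s hs hsb
    rcases eig s hs k with h | h
    · exact h
    · exfalso
      have h1 := conj_zpowers_inv s (a k) b hbk h
      rw [hsb] at h1
      exact ne_inv_of_orderOf_odd hp2 b hbo h1
  have hmul3 : ∀ m, (t 0 * t 1 * t 2) * a m * (t 0 * t 1 * t 2)⁻¹ = a m ↔
      ((m ≠ 0 ↔ m ≠ 1) ↔ m ≠ 2) := by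
    intro m
    rw [hmul (t 0 * t 1) (I.mul_mem (htI 0) (htI 1)) (t 2) (htI 2) m, hmulT, ht]
  have hclass : ∀ s ∈ I, s = 1 ∨ s = t 0 ∨ s = t 1 ∨ s = t 2 ∨ s = t 0 * t 1 ∨ s = t 0 * t 2 ∨
      s = t 1 * t 2 ∨ s = t 0 * t 1 * t 2 := by
    intro s hs
    have hone : ∀ i, (1 : G) * a i * (1 : G)⁻¹ = a i := fun i => by group
    by_cases h0 : s * a 0 * s⁻¹ = a 0 <;> by_cases h1 : s * a 1 * s⁻¹ = a 1 <;>
      by_cases h2 : s * a 2 * s⁻¹ = a 2
    · left
      apply hinj s hs 1 I.one_mem; rw [fin3_forall]; simp [h0, h1, h2, hone]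
    · right; right; right; left
      apply hinj s hs _ (htI 2); rw [fin3_forall]; simp only [h0, h1, h2, ht]; decide
    · right; right; left
      apply hinj s hs _ (htI 1); rw [fin3_forall]; simp only [h0, h1, h2, ht]; decide
    · right; right; right; right; right; right; left
      apply hinj s hs _ (I.mul_mem (htI 1) (htI 2)); rw [fin3_forall]; simp only [h0, h1, h2, hmulT]; decide
    · right; left
      apply hinj s hs _ (htI 0); rw [fin3_forall]; simp only [h0, h1, h2, ht]; decide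
    · right; right; right; right; right; left
      apply hinj s hs _ (I.mul_mem (htI 0) (htI 2)); rw [fin3_forall]; simp only [h0, h1, h2, hmulT]; decide
    · right; right; right; right; left
      apply hinj s hs _ (I.mul_mem (htI 0) (htI 1)); rw [fin3_forall]; simp only [h0, h1, h2, hmulT]; decide
    · right; right; right; right; right; right; right
      apply hinj s hs _ (I.mul_mem (I.mul_mem (htI 0) (htI 1)) (htI 2)); rw [fin3_forall]
      simp only [h0, h1, h2, hmul3]; decide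
  have hI_norm_cent : ∀ (Q : Subgroup G) (X : Set G), I ≤ Subgroup.normalizer (Q : Set G) →
      (∀ x ∈ X, x ∈ I) →
      I ≤ Subgroup.normalizer ((Q ⊓ Subgroup.centralizer X : Subgroup G) : Set G) :=
    fun Q X hQ hX => le_normalizer_inf_centralizer_set I Q X hQ
      (fun s hs x hx => hIc s hs x (hX x hx))
  have hzI : t 0 * t 1 * t 2 ∈ I := I.mul_mem (I.mul_mem (htI 0) (htI 1)) (htI 2)
  have hsing : ∀ x ∈ I, ∀ y ∈ ({x} : Set G), y ∈ I := by
    intro x hx y hy
    rw [Set.mem_singleton_iff] at hy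
    rw [hy]; exact hx
  have hzcyc : cycC P (t 0 * t 1 * t 2) := by
    refine ⟨1, ?_⟩
    rw [Subgroup.zpowers_one_eq_bot]
    by_contra hne
    obtain ⟨k, b, hbQ, hbo, hbk⟩ := hE0 _ inf_le_left hne (hI_norm_cent P _ hIP (hsing _ hzI))
    have h1 := hL2 k b hbo hbk _ hzI ((mem_centralizer_singleton_iff' _ _).mp hbQ.2)
    rw [hmul3] at h1
    have key : ∀ m : Fin 3, ¬ ((m ≠ 0 ↔ m ≠ 1) ↔ m ≠ 2) := by decide
    exact key k h1
  have hbroad_iff : ∀ s, (s ∈ I ∧ s ≠ 1 ∧ ¬ cycC P s) ↔ (s = t 0 ∨ s = t 1 ∨ s = t 2) := by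
    intro s
    constructor
    · rintro ⟨hs, hs1, hsc⟩
      rcases hclass s hs with h | h | h | h | h | h | h | h
      · exact absurd h hs1
      · exact Or.inl h
      · exact Or.inr (Or.inl h)
      · exact Or.inr (Or.inr h)
      · rw [h] at hsc; exact absurd (hcycT 0 1 (by decide)) hsc
      · rw [h] at hsc; exact absurd (hcycT 0 2 (by decide)) hsc
      · rw [h] at hsc; exact absurd (hcycT 1 2 (by decide)) hsc
      · rw [h] at hsc; exact absurd hzcyc hsc
    · rintro (h | h | h) <;> rw [h]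
      exacts [⟨htI 0, ht1 0, hbroad 0⟩, ⟨htI 1, ht1 1, hbroad 1⟩, ⟨htI 2, ht1 2, hbroad 2⟩]
  have hdist : ∀ i j, i ≠ j → t i ≠ t j := by
    intro i j hij h
    have h1 : t i * a j * (t i)⁻¹ = a j := (ht i j).mpr hij.symm
    rw [h] at h1
    exact (ht j j).mp h1 rfl
  have hgen : I ≤ Subgroup.closure {t 0, t 1, t 2} := by
    intro s hs
    have m0 : t 0 ∈ Subgroup.closure ({t 0, t 1, t 2} : Set G) := Subgroup.subset_closure (by simp)
    have m1 : t 1 ∈ Subgroup.closure ({t 0, t 1, t 2} : Set G) := Subgroup.subset_closure (by simp)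
    have m2 : t 2 ∈ Subgroup.closure ({t 0, t 1, t 2} : Set G) := Subgroup.subset_closure (by simp)
    rcases hclass s hs with h | h | h | h | h | h | h | h <;> rw [h]
    · exact Subgroup.one_mem _
    · exact m0
    · exact m1
    · exact m2
    · exact Subgroup.mul_mem _ m0 m1
    · exact Subgroup.mul_mem _ m0 m2
    · exact Subgroup.mul_mem _ m1 m2
    · exact Subgroup.mul_mem _ (Subgroup.mul_mem _ m0 m1) m2
  have hI0desc : ∀ s ∈ I0, ∃ u v, (u = t 0 ∨ u = t 1 ∨ u = t 2) ∧ (v = t 0 ∨ v = t 1 ∨ v = t 2) ∧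
      s = u * v := by
    intro s hs0
    have hnot : ∀ k, t k ∉ I0 := fun k hk => hbroad k (hdisj _ hk (ht1 k))
    rcases hclass s (hI0.le hs0) with h | h | h | h | h | h | h | h
    · exact ⟨t 0, t 0, Or.inl rfl, Or.inl rfl, by rw [h, hI2 _ (htI 0)]⟩
    · rw [h] at hs0; exact absurd hs0 (hnot 0)
    · rw [h] at hs0; exact absurd hs0 (hnot 1)
    · rw [h] at hs0; exact absurd hs0 (hnot 2)
    · exact ⟨t 0, t 1, Or.inl rfl, Or.inr (Or.inl rfl), h⟩
    · exact ⟨t 0, t 2, Or.inl rfl, Or.inr (Or.inr rfl), h⟩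
    · exact ⟨t 1, t 2, Or.inr (Or.inl rfl), Or.inr (Or.inr rfl), h⟩
    · exfalso
      rw [h] at hs0
      have h1 : (t 0 * t 1 * t 2) * (t 1 * t 2) ∈ I0 := I0.mul_mem hs0 (hI0mem 1 2)
      have h2 : (t 0 * t 1 * t 2) * (t 1 * t 2) = t 0 := by
        have := hI2 _ (I.mul_mem (htI 1) (htI 2))
        calc (t 0 * t 1 * t 2) * (t 1 * t 2) = t 0 * ((t 1 * t 2) * (t 1 * t 2)) := by group
          _ = t 0 := by rw [this, mul_one]
      rw [h2] at h1
      exact hnot 0 h1
  -- generation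
  have hBmem : ∀ k s, s ∈ I → s * a k * s⁻¹ = a k → s ∈ I ⊓ Subgroup.centralizer ({a k} : Set G) :=
    fun k s hs h => Subgroup.mem_inf.mpr ⟨hs, (mem_centralizer_singleton_iff'' s (a k)).mpr h⟩
  have hcardB : ∀ B : Subgroup G, B ≤ I → (∃ a' ∈ I, B ⊔ Subgroup.zpowers a' = I) →
      4 ≤ Nat.card B := by
    rintro B hBI ⟨a', ha', hsup⟩
    have hN : B ≤ Subgroup.normalizer ((Subgroup.zpowers a' : Subgroup G) : Set G) := by
      apply Cfsg.Agent.Lib.helper3.le_normalizer_of_conj_mem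
      intro g hg c hc
      have : g * c * g⁻¹ = c := conj_zpowers_fix g a' c hc (by rw [hIc g (hBI hg) a' ha']; group)
      rw [this]; exact hc
    have h6 := Cfsg.Agent.Lib.helper15.card_sup_mul_card_inf B (Subgroup.zpowers a') hN
    rw [hsup, hI8, Nat.card_zpowers] at h6
    have h7 : orderOf a' ≤ 2 :=
      orderOf_le_of_pow_eq_one (by norm_num) (by rw [pow_two]; exact hI2 a' ha')
    have h8 : 0 < Nat.card ↥(B ⊓ Subgroup.zpowers a') := Nat.card_pos
    have h9 : Nat.card B * orderOf a' ≤ Nat.card B * 2 := Nat.mul_le_mul_left _ h7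
    omega
  have hBk_card : ∀ k, Nat.card ↥(I ⊓ Subgroup.centralizer ({a k} : Set G)) ≤ 4 := by
    intro k
    have h1 : I ⊓ Subgroup.centralizer ({a k} : Set G) ≤ I := inf_le_left
    have h2 := Subgroup.card_dvd_of_le h1
    rw [hI8] at h2
    have h3 : Nat.card ↥(I ⊓ Subgroup.centralizer ({a k} : Set G)) ≠ 8 := by
      intro h
      have h4 := Subgroup.eq_of_le_of_card_ge h1 (by rw [h, hI8])
      have h5 : t k ∈ I ⊓ Subgroup.centralizer ({a k} : Set G) := by rw [h4]; exact htI k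
      exact (ht k k).mp ((mem_centralizer_singleton_iff'' _ _).mp h5.2) rfl
    obtain ⟨m, hm⟩ := h2
    rcases m with _ | _ | m
    · omega
    · omega
    · have : Nat.card ↥(I ⊓ Subgroup.centralizer ({a k} : Set G)) * 2 ≤
          Nat.card ↥(I ⊓ Subgroup.centralizer ({a k} : Set G)) * (m + 1 + 1) :=
        Nat.mul_le_mul_left _ (by omega)
      omega
  have hDcyc : ∀ k, ∃ c ∈ P ⊓ Subgroup.centralizer
        ((I ⊓ Subgroup.centralizer ({a k} : Set G) : Subgroup G) : Set G),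
      P ⊓ Subgroup.centralizer ((I ⊓ Subgroup.centralizer ({a k} : Set G) : Subgroup G) : Set G)
        = Subgroup.zpowers c := by
    intro k
    obtain ⟨i, j, hik, hjk, hij⟩ := key3 k
    obtain ⟨g, hg⟩ := hcycT i j hij
    apply exists_zpowers_eq_of_le_zpowers (g := g)
    rw [← hg]
    refine inf_le_inf_left P ?_
    apply Subgroup.centralizer_le
    rw [Set.singleton_subset_iff]
    exact hBmem k _ (I.mul_mem (htI i) (htI j)) ((hmulT i j k).mpr (iff_of_true hik.symm hjk.symm))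
  choose c hcD hc using hDcyc
  have hcop : (Nat.card I).Coprime (Nat.card P) := by
    rw [hI8]
    have h1 : Nat.Coprime (2 ^ 3) (Nat.card P) := Nat.Coprime.pow_left 3 (Nat.coprime_two_left.mpr hoddP)
    exact h1
  haveI : IsMulCommutative ↥I := ⟨⟨fun x y => Subtype.ext (hIc x x.2 y y.2)⟩⟩
  have keyc : ∀ k : Fin 3, c k ∈ ({c 0, c 1, c 2} : Set G) := by
    intro k
    have key : ∀ k : Fin 3, k = 0 ∨ k = 1 ∨ k = 2 := by decide
    rcases key k with rfl | rfl | rfl <;> simp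
  have hPT : P ≤ Subgroup.closure {c 0, c 1, c 2} := by
    apply Cfsg.Agent.Lib.helper9.gen_main I P hIP hcop
    intro B hBI hB
    by_cases hQ : P ⊓ Subgroup.centralizer (B : Set G) = ⊥
    · rw [hQ]; exact bot_le
    · obtain ⟨k, b, hbQ, hbo, hbk⟩ := hE0 _ inf_le_left hQ (hI_norm_cent P _ hIP (fun x hx => hBI hx))
      have h1 : B ≤ I ⊓ Subgroup.centralizer ({a k} : Set G) := by
        intro s hs
        apply hBmem k s (hBI hs)
        apply hL2 k b hbo hbk s (hBI hs)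
        have := (Subgroup.mem_centralizer_iff.mp hbQ.2) s hs
        rw [this]; group
      have h2 : B = I ⊓ Subgroup.centralizer ({a k} : Set G) :=
        Subgroup.eq_of_le_of_card_ge h1 ((hBk_card k).trans (hcardB B hBI hB))
      rw [h2, hc k, Subgroup.zpowers_le]
      exact Subgroup.subset_closure (keyc k)
  have hclP : Subgroup.closure {c 0, c 1, c 2} = P := by
    apply le_antisymm _ hPT
    rw [Subgroup.closure_le]
    intro x hx
    rcases hx with h | h | h
    · rw [h]; exact (hcD 0).1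
    · rw [h]; exact (hcD 1).1
    · rw [Set.mem_singleton_iff] at h; rw [h]; exact (hcD 2).1
  have hcc : ∀ i j, c i * c j = c j * c i := by
    intro i j
    by_cases hij : i = j
    · rw [hij]
    · obtain ⟨k, hki, hkj⟩ := key2 i j
      have hQn : I ≤ Subgroup.normalizer
          ((P ⊓ Subgroup.centralizer ({t k} : Set G) : Subgroup G) : Set G) :=
        hI_norm_cent P _ hIP (hsing _ (htI k))
      have hσI : t i * t j ∈ I := I.mul_mem (htI i) (htI j)
      have hfpf : (P ⊓ Subgroup.centralizer ({t k} : Set G)) ⊓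
          Subgroup.centralizer ({t i * t j} : Set G) = ⊥ := by
        by_contra hne
        obtain ⟨m, b, hbQ, hbo, hbm⟩ := hE0 _ (inf_le_left.trans inf_le_left) hne
          (hI_norm_cent _ _ hQn (hsing _ hσI))
        have h1 := hL2 m b hbo hbm _ (htI k) ((mem_centralizer_singleton_iff' _ _).mp hbQ.1.2)
        have h2 := hL2 m b hbo hbm _ hσI ((mem_centralizer_singleton_iff' _ _).mp hbQ.2)
        rw [ht] at h1
        rw [hmulT] at h2
        have key : ∀ i j k m : Fin 3, i ≠ j → k ≠ i → k ≠ j → m ≠ k → (m ≠ i ↔ m ≠ j) → False := by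
          decide
        exact key i j k m hij hki hkj h1 h2
      obtain ⟨-, hQc⟩ := inverts_of_fpf _ (t i * t j) (hQn hσI) (hI2 _ hσI) hfpf
      apply hQc
      · refine Subgroup.mem_inf.mpr ⟨(hcD i).1, ?_⟩
        exact Subgroup.centralizer_le (Set.singleton_subset_iff.mpr
          (hBmem i (t k) (htI k) ((ht k i).mpr (Ne.symm hki)))) (hcD i).2
      · refine Subgroup.mem_inf.mpr ⟨(hcD j).1, ?_⟩
        exact Subgroup.centralizer_le (Set.singleton_subset_iff.mpr
          (hBmem j (t k) (htI k) ((ht k j).mpr (Ne.symm hkj)))) (hcD j).2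
  have hPc : ∀ x ∈ P, ∀ y ∈ P, x * y = y * x := by
    have hmemc : ∀ x ∈ ({c 0, c 1, c 2} : Set G), ∃ i, x = c i := by
      intro x hx
      rcases hx with h | h | h
      exacts [⟨0, h⟩, ⟨1, h⟩, ⟨2, h⟩]
    have h1 : Subgroup.closure {c 0, c 1, c 2} ≤ Subgroup.centralizer ({c 0, c 1, c 2} : Set G) := by
      rw [Subgroup.closure_le]
      intro x hx
      rw [SetLike.mem_coe, Subgroup.mem_centralizer_iff]
      intro y hy
      obtain ⟨i, rfl⟩ := hmemc x hx
      obtain ⟨j, rfl⟩ := hmemc y hy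
      exact hcc j i
    have h2 : Subgroup.closure {c 0, c 1, c 2} ≤
        Subgroup.centralizer ((Subgroup.closure {c 0, c 1, c 2} : Subgroup G) : Set G) := by
      rw [Subgroup.closure_le]
      intro x hx
      rw [SetLike.mem_coe, Subgroup.mem_centralizer_iff]
      intro y hy
      exact ((Subgroup.mem_centralizer_iff.mp (h1 hy)) x hx).symm
    rw [hclP] at h2
    intro x hx y hy
    exact (Subgroup.mem_centralizer_iff.mp (h2 hy)) x hx
  have hnot2 : ¬ ∃ c1 c2, Subgroup.closure {c1, c2} = P := by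
    rintro ⟨x, y, hxy⟩
    have hEP : (⨆ i, f i) ≤ P := iSup_le hfP
    have hEp : ∀ e ∈ (⨆ i, f i), e ^ p = 1 := by
      let K : Subgroup G :=
        { carrier := {x | x ∈ P ∧ x ^ p = 1}
          mul_mem' := by
            intro x y hx hy
            refine ⟨P.mul_mem hx.1 hy.1, ?_⟩
            have hcomm : Commute x y := hPc x hx.1 y hy.1
            rw [hcomm.mul_pow, hx.2, hy.2, one_mul]
          one_mem' := ⟨P.one_mem, one_pow p⟩
          inv_mem' := by
            intro x hx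
            exact ⟨P.inv_mem hx.1, by rw [inv_pow, hx.2, inv_one]⟩ }
      have hK : (⨆ i, f i) ≤ K := by
        apply iSup_le
        intro i x hx
        refine ⟨hfP i hx, ?_⟩
        have h1 := pow_card_eq_one' (G := ↥(f i)) (x := ⟨x, hx⟩)
        rw [hfcardp i] at h1
        have h2 := congrArg Subtype.val h1
        rw [Subgroup.coe_pow, Subgroup.coe_one] at h2
        exact h2
      intro e he
      exact (hK he).2
    have hEcard : p ^ 2 < Nat.card ↥(⨆ i, f i) := by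
      rw [hfcard]
      simp only [hfcardp, Finset.prod_const, Finset.card_univ, Fintype.card_fin]
      exact Nat.pow_lt_pow_right hp.one_lt (by norm_num)
    exact not_two_generated P _ hPc hEP hEp hEcard x y hxy
  exact ⟨hPc, ⟨c 0, c 1, c 2, hclP⟩, hnot2, t 0, t 1, t 2, hdist 0 1 (by decide),
    hdist 0 2 (by decide), hdist 1 2 (by decide), hbroad_iff, hgen, hI0desc⟩

end Cfsg.Agent.Lib.helper14
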