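import Cfsg.Agent.Lib.helper14.Hol
import Cfsg.Agent.Lib.helper3.PSolvPair
import Cfsg.Agent.Lib.helper3.FFOffender
import Cfsg.Agent.Lib.helper3.Thompson
import Cfsg.Agent.Lib.helper16.PSolv
import Cfsg.Agent.Lib.helper15.CharP

set_option autoImplicit false
open Cfsg

namespace Cfsg.Agent.Lib.helper14

universe u

theorem card_holV {G : Type u} [Group G] (V : Subgroup G) : Nat.card ↥(holV V) = Nat.card V := by
  unfold holV
  rw [MonoidHom.range_eq_map, Subgroup.card_map_of_injective SemidirectProduct.inl_injective,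
    Subgroup.card_top]

/-- In a `p`-solvable group with `O_p(G/C_G(V)) = 1`, the image of `G` in the holomorph of `V`
satisfies the hypotheses of the failure-of-factorization machinery. -/
theorem hol_range_S1 {G : Type u} [Group G] [Finite G] {p : ℕ} [Fact p.Prime]
    (hsep : IsPSolvable p G) (V : Subgroup G) [V.Normal]
    (hO : pCore p (G ⧸ Subgroup.centralizer (V : Set G)) = ⊥) :
    Subgroup.centralizer (pPrimeCore p ↥(holHom V).range : Set ↥(holHom V).range) ≤
      pPrimeCore p ↥(holHom V).range := by
  have hsolH : IsPSolvable p ↥(holHom V).range :=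
    Cfsg.Agent.Lib.helper16.isPSolvable_of_surjective (holHom V).rangeRestrict
      (holHom V).rangeRestrict_surjective hsep
  have hcore : pCore p ↥(holHom V).range = ⊥ := by
    have e : G ⧸ Subgroup.centralizer (V : Set G) ≃* ↥(holHom V).range :=
      (QuotientGroup.quotientMulEquivOfEq (holHom_ker V).symm).trans
        (QuotientGroup.quotientKerEquivRange (holHom V))
    rw [← Cfsg.Agent.Lib.helper15.pCore_map_equiv p e, hO, Subgroup.map_bot]
  exact Cfsg.Agent.Lib.helper3.centralizer_pPrimeCore_le_of_pSolvable hsolH hcore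

/-- No over-offenders: in a `p`-solvable group with `O_p(G/C_G(V)) = 1`, every best offender
`A` on `V` satisfies `|A| |C_V(A)| = |C_A(V)| |V|`. -/
theorem hol_offender_card {G : Type u} [Group G] [Finite G] {p : ℕ} [Fact p.Prime]
    (hsep : IsPSolvable p G) (V : Subgroup G) [V.Normal] (hV : IsElementaryAbelian p V)
    (hO : pCore p (G ⧸ Subgroup.centralizer (V : Set G)) = ⊥) (A : Subgroup G)
    (hA : IsBestOffenderOn p V A) :
    Nat.card A * Nat.card ↥(V ⊓ Subgroup.centralizer (A : Set G)) =
      Nat.card ↥(Subgroup.centralizer (V : Set G) ⊓ A) * Nat.card V := by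
  have hS1 := hol_range_S1 hsep V hO
  have h𝒱 := holV_elemAb V hV
  have h𝒱n := holV_normal V
  have hHV : (holHom V).range ≤ Subgroup.normalizer (holV V : Set (Hol V)) := by
    rw [Subgroup.normalizer_eq_top]; exact le_top
  have hf : (holHom V).range ⊓ Subgroup.centralizer (holV V : Set (Hol V)) = ⊥ := by
    rw [MonoidHom.range_eq_map]; exact hol_faithful V ⊤
  have h1 := Cfsg.Agent.Lib.helper3.ff_offender_card (holV V) (holHom V).range h𝒱 hHV hf hS1 _
    (A.map (holHom V)) rfl (Subgroup.map_le_range (holHom V) A) (hol_bestOffender V A hA)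
  have h2 := card_inf_ker_mul_card_map (holHom V) A
  rw [holHom_ker] at h2
  rw [hol_cent_card, card_holV] at h1
  rw [← h2, mul_assoc, h1]

end Cfsg.Agent.Lib.helper14
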