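import Mathlib
import Cfsg.Prelude.Def_Transfer
import Cfsg.Prelude.Def_MonsterType
import Cfsg.Agent.Lib.helper8.CoprimeAction
import Cfsg.Agent.Lib.helper1.PGroup

set_option autoImplicit false

namespace Cfsg.Agent.Lib.helper14

open scoped commutatorElement
open Cfsg.Agent.Lib.helper8

universe u

section LES

variable {G : Type u} [Group G]

/-- `g` is in the centre of the subgroup `Q`. -/
def ZQ (Q : Subgroup G) (g : G) : Prop := g ∈ Q ∧ ∀ q ∈ Q, q * g = g * q

theorem mem_center_map_iff (Q : Subgroup G) (g : G) :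
    g ∈ (Subgroup.center ↥Q).map Q.subtype ↔ ZQ Q g := by
  constructor
  · rintro ⟨x, hx, rfl⟩
    refine ⟨x.2, fun q hq => ?_⟩
    have := Subgroup.mem_center_iff.mp hx ⟨q, hq⟩
    exact congrArg Subtype.val this
  · rintro ⟨hg, h⟩
    refine ⟨⟨g, hg⟩, ?_, rfl⟩
    rw [SetLike.mem_coe, Subgroup.mem_center_iff]
    intro q
    exact Subtype.ext (h q.1 q.2)

theorem zq_comm [Finite G] (Q : Subgroup G) (hQ : Cfsg.IsExtraspecial 2 ↥Q) {x y : G} (hx : x ∈ Q)
    (hy : y ∈ Q) : ZQ Q ⁅x, y⁆ := by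
  have hcm : commutator ↥Q = Subgroup.center ↥Q := hQ.1.2.2
  have h1 : ⁅(⟨x, hx⟩ : ↥Q), ⟨y, hy⟩⁆ ∈ commutator ↥Q := by
    rw [commutator_def]
    exact Subgroup.commutator_mem_commutator (Subgroup.mem_top _) (Subgroup.mem_top _)
  rw [hcm] at h1
  rw [← mem_center_map_iff]
  exact ⟨_, h1, rfl⟩

theorem zq_sq [Finite G] (Q : Subgroup G) (hQ : Cfsg.IsExtraspecial 2 ↥Q) {x : G} (hx : x ∈ Q) :
    ZQ Q (x ^ 2) := by
  have hfr : frattini ↥Q = Subgroup.center ↥Q := hQ.1.2.1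
  have h1 := Cfsg.Agent.Lib.helper1.pow_mem_frattini 2 hQ.1.1 (⟨x, hx⟩ : ↥Q)
  rw [hfr] at h1
  rw [← mem_center_map_iff]
  exact ⟨_, h1, rfl⟩

theorem zq_unique (Q : Subgroup G) (hQ : Cfsg.IsExtraspecial 2 ↥Q) {g h : G} (hg : ZQ Q g)
    (hh : ZQ Q h) (hg1 : g ≠ 1) (hh1 : h ≠ 1) : g = h := by
  have hc2 : Nat.card (Subgroup.center ↥Q) = 2 := hQ.2
  obtain ⟨y, -, hy⟩ := (Nat.card_eq_two_iff' (1 : Subgroup.center ↥Q)).mp hc2
  have mk : ∀ k : G, ZQ Q k → k ≠ 1 → ∃ w : Subgroup.center ↥Q, (w : ↥Q).1 = k ∧ w ≠ 1 := by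
    intro k hk hk1
    refine ⟨⟨⟨k, hk.1⟩, ?_⟩, rfl, ?_⟩
    · rw [Subgroup.mem_center_iff]
      intro q
      exact Subtype.ext (hk.2 q.1 q.2)
    · intro h
      apply hk1
      have := congrArg (fun w : Subgroup.center ↥Q => (w : ↥Q).1) h
      simpa using this
  obtain ⟨w₁, e₁, n₁⟩ := mk g hg hg1
  obtain ⟨w₂, e₂, n₂⟩ := mk h hh hh1
  rw [← e₁, ← e₂, hy w₁ n₁, hy w₂ n₂]

theorem zq_one (Q : Subgroup G) : ZQ Q 1 := ⟨Q.one_mem, fun q _ => by simp⟩

/-- A nonabelian subgroup of an extraspecial 2-group whose centre lies in the centre of the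
big group is extraspecial. -/
theorem extraspecial_sub [Finite G] (Q : Subgroup G) (hQ : Cfsg.IsExtraspecial 2 ↥Q) (R : Subgroup G)
    (hRQ : R ≤ Q) (hnc : ∃ x ∈ R, ∃ y ∈ R, x * y ≠ y * x)
    (hZ : ∀ g ∈ R, (∀ h ∈ R, h * g = g * h) → ZQ Q g) :
    Cfsg.IsExtraspecial 2 ↥R := by
  obtain ⟨x, hx, y, hy, hxy⟩ := hnc
  have hc1 : ⁅x, y⁆ ≠ 1 := by
    intro h
    exact hxy (commutatorElement_eq_one_iff_mul_comm.mp h)
  have hcZ : ZQ Q ⁅x, y⁆ := zq_comm Q hQ (hRQ hx) (hRQ hy)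
  have hcR : ⁅x, y⁆ ∈ R := by
    rw [commutatorElement_def]
    exact R.mul_mem (R.mul_mem (R.mul_mem hx hy) (R.inv_mem hx)) (R.inv_mem hy)
  have hcen : ∀ g : ↥R, g ∈ Subgroup.center ↥R ↔ ZQ Q g.1 := by
    intro g
    rw [Subgroup.mem_center_iff]
    constructor
    · intro h
      apply hZ g.1 g.2
      intro k hk
      exact congrArg Subtype.val (h ⟨k, hk⟩)
    · intro h k
      exact Subtype.ext (h.2 k.1 (hRQ k.2))
  have hcard : Nat.card (Subgroup.center ↥R) = 2 := by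
    rw [Nat.card_eq_two_iff' (1 : Subgroup.center ↥R)]
    refine ⟨⟨⟨⁅x, y⁆, hcR⟩, (hcen _).mpr hcZ⟩, ?_, ?_⟩
    · intro h
      apply hc1
      have := congrArg (fun w : Subgroup.center ↥R => (w : ↥R).1) h
      simpa using this
    · intro w hw
      apply Subtype.ext
      apply Subtype.ext
      refine zq_unique Q hQ ((hcen _).mp w.2) hcZ ?_ hc1
      intro h
      apply hw
      apply Subtype.ext
      apply Subtype.ext
      simpa using h
  have hcomm : commutator ↥R = Subgroup.center ↥R := by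
    apply le_antisymm
    · rw [commutator_def, Subgroup.commutator_le]
      intro g₁ _ g₂ _
      rw [hcen]
      have e : (⁅g₁, g₂⁆ : ↥R).1 = ⁅g₁.1, g₂.1⁆ := by
        simp [commutatorElement_def]
      rw [e]
      exact zq_comm Q hQ (hRQ g₁.2) (hRQ g₂.2)
    · intro g hg
      by_cases hg1 : g.1 = 1
      · have : g = 1 := Subtype.ext hg1
        rw [this]; exact Subgroup.one_mem _
      · have e := zq_unique Q hQ ((hcen g).mp hg) hcZ hg1 hc1
        have e2 : g = ⁅(⟨x, hx⟩ : ↥R), ⟨y, hy⟩⁆ := by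
          apply Subtype.ext
          rw [e]
          simp [commutatorElement_def]
        rw [e2, commutator_def]
        exact Subgroup.commutator_mem_commutator (Subgroup.mem_top _) (Subgroup.mem_top _)
  have hP : IsPGroup 2 ↥R := hQ.1.1.to_le hRQ
  have hfr : frattini ↥R = Subgroup.center ↥R := by
    apply le_antisymm
    · apply Cfsg.Agent.Lib.helper1.frattini_le_of_elementary_quotient 2 (Subgroup.center ↥R)
      · rw [hcomm]
      · intro g
        rw [hcen]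
        have e : ((g ^ 2 : ↥R) : G) = g.1 ^ 2 := by simp
        rw [e]
        exact zq_sq Q hQ (hRQ g.2)
    · rw [← hcomm]
      exact Cfsg.Agent.Lib.helper1.commutator_le_frattini 2 hP
  exact ⟨⟨hP, hfr, hcomm⟩, hcard⟩

theorem large_es_decomp [Finite G] (Q : Subgroup G) (hQ : Cfsg.IsLargeExtraspecial Q) (A : Subgroup G)
    (hA : A ≤ Subgroup.normalizer (Q : Set G)) (hAodd : Odd (Nat.card ↥A)) (hA1 : A ≠ ⊥) :
    (Q ⊓ Subgroup.centralizer (A : Set G)) ⊔ ⁅Q, A⁆ = Q ∧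
    (∀ x ∈ Q ⊓ Subgroup.centralizer (A : Set G), ∀ y ∈ ⁅Q, A⁆, x * y = y * x) ∧
    Cfsg.IsExtraspecial 2 ↥⁅Q, A⁆ ∧
    (Q ⊓ Subgroup.centralizer (A : Set G) = ((Subgroup.center ↥Q).map Q.subtype) ∨
      Cfsg.IsExtraspecial 2 ↥(Q ⊓ Subgroup.centralizer (A : Set G))) := by
  obtain ⟨hE, hCQ, -, -⟩ := hQ
  have hP : IsPGroup 2 ↥Q := hE.1.1
  have hcop : (Nat.card A).Coprime (Nat.card Q) := by
    obtain ⟨k, hk⟩ := IsPGroup.iff_card.mp hP
    rw [hk]
    exact Nat.Coprime.pow_right k (Nat.coprime_two_right.mpr hAodd)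
  have hsolv : Group.IsSolvable ↥A ∨ Group.IsSolvable ↥Q := by
    right
    have := hP.isNilpotent
    infer_instance
  have h1 := commutator_sup_fixed A Q hA hcop hsolv
  have h2 := commutator_commutator_eq A Q hA hcop hsolv
  have hQ1Q : ⁅Q, A⁆ ≤ Q := commutator_le_of_le_normalizer hA
  -- A centralizes the centre
  have hAZ : ∀ w : G, ZQ Q w → ∀ a ∈ A, a * w = w * a := by
    intro w hw a ha
    by_cases hw1 : w = 1
    · rw [hw1]; simp
    · have hc : ZQ Q (a * w * a⁻¹) := by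
        refine ⟨conj_mem_of_mem_normalizer (hA ha) hw.1, fun q hq => ?_⟩
        have hq' : a⁻¹ * q * a ∈ Q := conj_mem_of_mem_normalizer' (hA ha) hq
        have := hw.2 _ hq'
        calc q * (a * w * a⁻¹) = a * ((a⁻¹ * q * a) * w) * a⁻¹ := by group
          _ = a * (w * (a⁻¹ * q * a)) * a⁻¹ := by rw [this]
          _ = a * w * a⁻¹ * q := by group
      have hne : a * w * a⁻¹ ≠ 1 := by
        intro h
        apply hw1
        have : w = a⁻¹ * (a * w * a⁻¹) * a := by group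
        rw [this, h]; group
      have := zq_unique Q hE hc hw hne hw1
      calc a * w = a * w * a⁻¹ * a := by group
        _ = w * a := by rw [this]
  -- elementwise commutation
  have hcomm : ∀ x ∈ Q ⊓ Subgroup.centralizer (A : Set G), ∀ y ∈ ⁅Q, A⁆, x * y = y * x := by
    intro x hx
    have hxQ : x ∈ Q := hx.1
    have hxA : ∀ a ∈ A, a * x = x * a := fun a ha => Subgroup.mem_centralizer_iff.mp hx.2 a ha
    have hle : ⁅Q, A⁆ ≤ Subgroup.centralizer ({x} : Set G) := by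
      rw [Subgroup.commutator_le]
      intro q hq a ha
      rw [Subgroup.mem_centralizer_singleton_iff]
      -- x * ⁅q,a⁆ = ⁅q,a⁆ * x
      have hw : ZQ Q ⁅x, q⁆ := zq_comm Q hE hxQ hq
      have hwa := hAZ _ hw a ha
      have hqa : ⁅q, a⁆ ∈ Q := hQ1Q (Subgroup.commutator_mem_commutator hq ha)
      have hwq := hw.2 _ hqa
      have hxa := hxA a ha
      have hxa' : a⁻¹ * x = x * a⁻¹ := by
        have : a⁻¹ * x = a⁻¹ * (x * a) * a⁻¹ := by group
        rw [this, ← hxa]; group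
      have hwa' : ⁅x, q⁆⁻¹ * a⁻¹ = a⁻¹ * ⁅x, q⁆⁻¹ := by
        have : ⁅x, q⁆⁻¹ * a⁻¹ = (a * ⁅x, q⁆)⁻¹ := by group
        rw [this, hwa]; group
      symm
      calc x * ⁅q, a⁆ = ⁅x, q⁆ * q * (x * a) * q⁻¹ * a⁻¹ := by
            simp only [commutatorElement_def]; group
        _ = ⁅x, q⁆ * q * (a * x) * q⁻¹ * a⁻¹ := by rw [hxa]
        _ = ⁅x, q⁆ * q * a * q⁻¹ * ⁅x, q⁆⁻¹ * (x * a⁻¹) := by
            simp only [commutatorElement_def]; group
        _ = ⁅x, q⁆ * q * a * q⁻¹ * ⁅x, q⁆⁻¹ * (a⁻¹ * x) := by rw [← hxa']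
        _ = ⁅x, q⁆ * q * a * q⁻¹ * (⁅x, q⁆⁻¹ * a⁻¹) * x := by group
        _ = ⁅x, q⁆ * q * a * q⁻¹ * (a⁻¹ * ⁅x, q⁆⁻¹) * x := by rw [hwa']
        _ = (⁅x, q⁆ * ⁅q, a⁆) * ⁅x, q⁆⁻¹ * x := by
            simp only [commutatorElement_def]; group
        _ = (⁅q, a⁆ * ⁅x, q⁆) * ⁅x, q⁆⁻¹ * x := by rw [hwq]
        _ = ⁅q, a⁆ * x := by group
    intro y hy
    exact (Subgroup.mem_centralizer_singleton_iff.mp (hle hy)).symm
  -- centre of pieces lie in the centre of Q
  have hsup : ∀ g : G, (∀ h ∈ ⁅Q, A⁆, h * g = g * h) →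
      (∀ h ∈ Q ⊓ Subgroup.centralizer (A : Set G), h * g = g * h) → ∀ q ∈ Q, q * g = g * q := by
    intro g hg1 hg2 q hq
    have hle : Q ≤ Subgroup.centralizer ({g} : Set G) := by
      rw [← h1]
      apply sup_le
      · intro h hh
        rw [Subgroup.mem_centralizer_singleton_iff]
        exact hg1 h hh
      · intro h hh
        rw [Subgroup.mem_centralizer_singleton_iff]
        exact hg2 h hh
    exact Subgroup.mem_centralizer_singleton_iff.mp (hle hq)
  have hZ1 : ∀ g ∈ ⁅Q, A⁆, (∀ h ∈ ⁅Q, A⁆, h * g = g * h) → ZQ Q g := by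
    intro g hg hc
    exact ⟨hQ1Q hg, hsup g hc (fun h hh => hcomm h hh g hg)⟩
  have hZ2 : ∀ g ∈ Q ⊓ Subgroup.centralizer (A : Set G),
      (∀ h ∈ Q ⊓ Subgroup.centralizer (A : Set G), h * g = g * h) → ZQ Q g := by
    intro g hg hc
    exact ⟨hg.1, hsup g (fun h hh => (hcomm g hg h hh).symm) hc⟩
  -- [Q, A] is nonabelian
  have hnc1 : ∃ x ∈ ⁅Q, A⁆, ∃ y ∈ ⁅Q, A⁆, x * y ≠ y * x := by
    by_contra hcon
    push Not at hcon
    have hle : ⁅Q, A⁆ ≤ (Subgroup.center ↥Q).map Q.subtype := by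
      intro g hg
      rw [mem_center_map_iff]
      exact hZ1 g hg (fun h hh => hcon h hh g hg)
    have hbot : ⁅Q, A⁆ = ⊥ := by
      rw [← h2, eq_bot_iff, Subgroup.commutator_le]
      intro g hg a ha
      rw [Subgroup.mem_bot, commutatorElement_eq_one_iff_mul_comm]
      exact (hAZ g ((mem_center_map_iff Q g).mp (hle hg)) a ha).symm
    have hAC : A ≤ Subgroup.centralizer (Q : Set G) := by
      intro a ha
      rw [Subgroup.mem_centralizer_iff]
      intro q hq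
      have : ⁅q, a⁆ ∈ ⁅Q, A⁆ := Subgroup.commutator_mem_commutator hq ha
      rw [hbot, Subgroup.mem_bot, commutatorElement_eq_one_iff_mul_comm] at this
      exact this
    rw [hCQ] at hAC
    apply hA1
    rw [eq_bot_iff]
    intro a ha
    rw [Subgroup.mem_bot]
    have ha2 : a ^ 2 = 1 := by
      have hz := (mem_center_map_iff Q a).mp (hAC ha)
      by_contra hne
      have hsq := zq_sq Q hE hz.1
      have := zq_unique Q hE hsq hz hne (fun h => hne (by rw [h]; simp))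
      apply hne
      have : a = 1 := by
        rw [pow_two] at this
        exact mul_eq_left.mp this
      rw [this]; simp
    have hcard : a ^ Nat.card A = 1 := by
      have h := pow_card_eq_one' (G := ↥A) (x := ⟨a, ha⟩)
      have h' := congrArg Subtype.val h
      rw [Subgroup.coe_pow] at h'
      exact h'
    obtain ⟨k, hk⟩ := hAodd
    rw [hk, pow_succ, pow_mul, ha2, one_pow, one_mul] at hcard
    exact hcard
  refine ⟨?_, hcomm, extraspecial_sub Q hE _ hQ1Q hnc1 hZ1, ?_⟩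
  · rw [sup_comm]; exact h1
  · by_cases hab : ∃ x ∈ Q ⊓ Subgroup.centralizer (A : Set G),
        ∃ y ∈ Q ⊓ Subgroup.centralizer (A : Set G), x * y ≠ y * x
    · right
      exact extraspecial_sub Q hE _ inf_le_left hab hZ2
    · left
      push Not at hab
      apply le_antisymm
      · intro g hg
        rw [mem_center_map_iff]
        exact hZ2 g hg (fun h hh => hab h hh g hg)
      · intro g hg
        rw [mem_center_map_iff] at hg
        refine Subgroup.mem_inf.mpr ⟨hg.1, ?_⟩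
        rw [Subgroup.mem_centralizer_iff]
        intro a ha
        exact hAZ g hg a ha

end LES

end Cfsg.Agent.Lib.helper14
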