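import Mathlib
import Cfsg.Prelude.Def_Transfer
import Cfsg.Prelude.Def_MonsterType
import Cfsg.Agent.Lib.helper14.LargeES

set_option autoImplicit false

namespace Cfsg.Agent.Lib.helper14

universe u

section LES2

variable {G : Type u} [Group G]

/-- Abstract data of an extraspecial 2-subgroup `P` with central involution `c`, containing its
centralizer and normalized by the centralizer of `c`. -/
structure ES2 (P : Subgroup G) (c : G) : Prop where
  mem : c ∈ P
  ne : c ≠ 1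
  sq : c * c = 1
  cen : ∀ x ∈ P, x * c = c * x
  comm : ∀ x ∈ P, ∀ y ∈ P, x * y * x⁻¹ * y⁻¹ = 1 ∨ x * y * x⁻¹ * y⁻¹ = c
  sqs : ∀ x ∈ P, x * x = 1 ∨ x * x = c
  zen : ∀ x ∈ P, (∀ y ∈ P, y * x = x * y) → x = 1 ∨ x = c
  self : ∀ h : G, (∀ y ∈ P, h * y = y * h) → h ∈ P
  nor : ∀ h : G, h * c = c * h → ∀ y ∈ P, h * y * h⁻¹ ∈ P

theorem mem_conj_iff (P : Subgroup G) (g x : G) :
    x ∈ P.map (MulAut.conj g).toMonoidHom ↔ g⁻¹ * x * g ∈ P := by
  constructor
  · rintro ⟨y, hy, rfl⟩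
    have : g⁻¹ * ((MulAut.conj g).toMonoidHom y) * g = y := by
      show g⁻¹ * (g * y * g⁻¹) * g = y
      group
    rw [this]; exact hy
  · intro h
    refine ⟨g⁻¹ * x * g, h, ?_⟩
    show g * (g⁻¹ * x * g) * g⁻¹ = x
    group

theorem conj_mem_conj (P : Subgroup G) (g : G) {y : G} (hy : y ∈ P) :
    g * y * g⁻¹ ∈ P.map (MulAut.conj g).toMonoidHom := by
  rw [mem_conj_iff]
  have : g⁻¹ * (g * y * g⁻¹) * g = y := by group
  rw [this]; exact hy

theorem ES2.conj {P : Subgroup G} {c : G} (h : ES2 P c) (g : G) :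
    ES2 (P.map (MulAut.conj g).toMonoidHom) (g * c * g⁻¹) := by
  have key : ∀ x, x ∈ P.map (MulAut.conj g).toMonoidHom ↔ g⁻¹ * x * g ∈ P := mem_conj_iff P g
  refine ⟨conj_mem_conj P g h.mem, ?_, ?_, ?_, ?_, ?_, ?_, ?_, ?_⟩
  · intro e
    apply h.ne
    calc c = g⁻¹ * (g * c * g⁻¹) * g := by group
      _ = 1 := by rw [e]; group
  · calc g * c * g⁻¹ * (g * c * g⁻¹) = g * (c * c) * g⁻¹ := by group
      _ = 1 := by rw [h.sq]; group
  · intro x hx
    rw [key] at hx
    have := h.cen _ hx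
    calc x * (g * c * g⁻¹) = g * ((g⁻¹ * x * g) * c) * g⁻¹ := by group
      _ = g * (c * (g⁻¹ * x * g)) * g⁻¹ := by rw [this]
      _ = g * c * g⁻¹ * x := by group
  · intro x hx y hy
    rw [key] at hx hy
    have e0 : x * y * x⁻¹ * y⁻¹ = g * ((g⁻¹ * x * g) * (g⁻¹ * y * g) * (g⁻¹ * x * g)⁻¹ *
        (g⁻¹ * y * g)⁻¹) * g⁻¹ := by group
    rcases h.comm _ hx _ hy with e | e
    · left
      rw [e0, e]; group
    · right
      rw [e0, e]
  · intro x hx
    rw [key] at hx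
    have e0 : x * x = g * ((g⁻¹ * x * g) * (g⁻¹ * x * g)) * g⁻¹ := by group
    rcases h.sqs _ hx with e | e
    · left
      rw [e0, e]; group
    · right
      rw [e0, e]
  · intro x hx hc
    rw [key] at hx
    have h1 := h.zen _ hx (by
      intro y hy
      have := hc _ (conj_mem_conj P g hy)
      calc y * (g⁻¹ * x * g) = g⁻¹ * ((g * y * g⁻¹) * x) * g := by group
        _ = g⁻¹ * (x * (g * y * g⁻¹)) * g := by rw [this]
        _ = g⁻¹ * x * g * y := by group)
    rcases h1 with e | e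
    · left
      calc x = g * (g⁻¹ * x * g) * g⁻¹ := by group
        _ = 1 := by rw [e]; group
    · right
      calc x = g * (g⁻¹ * x * g) * g⁻¹ := by group
        _ = g * c * g⁻¹ := by rw [e]
  · intro k hk
    rw [key]
    apply h.self
    intro y hy
    have := hk _ (conj_mem_conj P g hy)
    calc g⁻¹ * k * g * y = g⁻¹ * (k * (g * y * g⁻¹)) * g := by group
      _ = g⁻¹ * ((g * y * g⁻¹) * k) * g := by rw [this]
      _ = y * (g⁻¹ * k * g) := by group
  · intro k hk y hy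
    rw [key] at hy ⊢
    have hk' : (g⁻¹ * k * g) * c = c * (g⁻¹ * k * g) := by
      calc (g⁻¹ * k * g) * c = g⁻¹ * (k * (g * c * g⁻¹)) * g := by group
        _ = g⁻¹ * ((g * c * g⁻¹) * k) * g := by rw [hk]
        _ = c * (g⁻¹ * k * g) := by group
    have := h.nor _ hk' _ hy
    have e : g⁻¹ * (k * y * k⁻¹) * g = (g⁻¹ * k * g) * (g⁻¹ * y * g) * (g⁻¹ * k * g)⁻¹ := by
      group
    rw [e]; exact this

theorem ES2.of_extraspecial [Finite G] (Q : Subgroup G) (hE : Cfsg.IsExtraspecial 2 ↥Q) (z : G)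
    (hz : ZQ Q z) (hz1 : z ≠ 1)
    (hC : Subgroup.centralizer (Q : Set G) ≤ Q)
    (hN : Subgroup.centralizer ({z} : Set G) ≤ Subgroup.normalizer (Q : Set G)) : ES2 Q z := by
  have hu : ∀ w, ZQ Q w → w = 1 ∨ w = z := by
    intro w hw
    by_cases h : w = 1
    · left; exact h
    · right; exact zq_unique Q hE hw hz h hz1
  refine ⟨hz.1, hz1, ?_, fun x hx => hz.2 x hx, ?_, ?_, ?_, ?_, ?_⟩
  · have h := zq_sq Q hE hz.1
    rcases hu _ h with e | e
    · rw [pow_two] at e; exact e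
    · exfalso
      apply hz1
      rw [pow_two] at e
      exact mul_eq_left.mp e
  · intro x hx y hy
    have h := zq_comm Q hE hx hy
    rw [commutatorElement_def] at h
    exact hu _ h
  · intro x hx
    have h := zq_sq Q hE hx
    rw [pow_two] at h
    exact hu _ h
  · intro x hx hc
    exact hu x ⟨hx, hc⟩
  · intro h hh
    apply hC
    rw [Subgroup.mem_centralizer_iff]
    intro y hy
    exact (hh y hy).symm
  · intro h hh y hy
    have : h ∈ Subgroup.centralizer ({z} : Set G) := by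
      rw [Subgroup.mem_centralizer_singleton_iff]; exact hh
    exact (Subgroup.mem_normalizer_iff.mp (hN this) y).mp hy

/-! ### The symmetric-orthogonality lemma -/

/-- The setting for the proof by contradiction of the symmetry lemma. -/
structure LSet (Q P : Subgroup G) (z a g : G) : Prop where
  hQ : ES2 Q z
  hP : ES2 P a
  ha : a ∈ Q
  haz : a ≠ z
  hzn : z ∉ P
  hag : a = g * z * g⁻¹
  hPm : ∀ x, x ∈ P ↔ g⁻¹ * x * g ∈ Q

namespace LSet

variable {Q P : Subgroup G} {z a g : G} (S : LSet Q P z a g)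
include S

theorem zinv : z⁻¹ = z := inv_eq_of_mul_eq_one_left S.hQ.sq
theorem ainv : a⁻¹ = a := inv_eq_of_mul_eq_one_left S.hP.sq
theorem az : a * z = z * a := S.hQ.cen a S.ha

theorem exists_v : ∃ v ∈ Q, v * a * v⁻¹ = z * a := by
  by_contra hcon
  push Not at hcon
  have h1 : ∀ y ∈ Q, y * a = a * y := by
    intro y hy
    rcases S.hQ.comm y hy a S.ha with e | e
    · calc y * a = (y * a * y⁻¹ * a⁻¹) * a * y := by group
        _ = a * y := by rw [e]; group
    · exfalso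
      apply hcon y hy
      calc y * a * y⁻¹ = (y * a * y⁻¹ * a⁻¹) * a := by group
        _ = z * a := by rw [e]
  rcases S.hQ.zen a S.ha h1 with e | e
  · exact S.hP.ne e
  · exact S.haz e

theorem idx {v : G} (hv : v * a * v⁻¹ = z * a) {q : G} (hq : q ∈ Q) :
    q * a = a * q ∨ (v⁻¹ * q) * a = a * (v⁻¹ * q) := by
  rcases S.hQ.comm q hq a S.ha with e | e
  · left
    calc q * a = (q * a * q⁻¹ * a⁻¹) * a * q := by group
      _ = a * q := by rw [e]; group
  · right
    have e1 : q * a * q⁻¹ = v * a * v⁻¹ := by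
      rw [hv]
      calc q * a * q⁻¹ = (q * a * q⁻¹ * a⁻¹) * a := by group
        _ = z * a := by rw [e]
    calc (v⁻¹ * q) * a = v⁻¹ * (q * a * q⁻¹) * q := by group
      _ = v⁻¹ * (v * a * v⁻¹) * q := by rw [e1]
      _ = a * (v⁻¹ * q) := by group

theorem hav {v : G} (hv : v * a * v⁻¹ = z * a) : a * v = z * (v * a) := by
  calc a * v = (z * z) * a * v := by rw [S.hQ.sq, one_mul]
    _ = z * (z * a) * v := by group
    _ = z * (v * a * v⁻¹) * v := by rw [hv]
    _ = z * (v * a) := by group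

theorem cen_crit {v : G} (hvQ : v ∈ Q) (hv : v * a * v⁻¹ = z * a) {m : G} (hm : m ∈ Q)
    (hmv : m * v = v * m) (hmR : ∀ r ∈ Q, r * a = a * r → m * r = r * m) :
    ∀ q ∈ Q, q * m = m * q := by
  intro q hq
  rcases S.idx hv hq with e | e
  · exact (hmR q hq e).symm
  · have h2 := hmR (v⁻¹ * q) (Q.mul_mem (Q.inv_mem hvQ) hq) e
    calc q * m = v * ((v⁻¹ * q) * m) := by group
      _ = v * (m * (v⁻¹ * q)) := by rw [h2]
      _ = (v * m) * v⁻¹ * q := by group
      _ = (m * v) * v⁻¹ * q := by rw [hmv]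
      _ = m * q := by group

theorem zR {v : G} (hvQ : v ∈ Q) (hv : v * a * v⁻¹ = z * a) {n : G} (hn : n ∈ Q)
    (hnR : ∀ r ∈ Q, r * a = a * r → n * r = r * n) :
    n = 1 ∨ n = z ∨ n = a ∨ n = a * z := by
  rcases S.hQ.comm n hn v hvQ with e | e
  · have h1 : n * v = v * n := by
      calc n * v = (n * v * n⁻¹ * v⁻¹) * v * n := by group
        _ = v * n := by rw [e]; group
    rcases S.hQ.zen n hn (S.cen_crit hvQ hv hn h1 hnR) with h | h
    · left; exact h
    · right; left; exact h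
  · have hnv : n * v = z * v * n := by
      calc n * v = (n * v * n⁻¹ * v⁻¹) * v * n := by group
        _ = z * v * n := by rw [e]
    have hna : (n * a) * v = v * (n * a) := by
      calc (n * a) * v = n * (a * v) := by group
        _ = n * (z * (v * a)) := by rw [S.hav hv]
        _ = (n * z) * v * a := by group
        _ = (z * n) * v * a := by rw [S.hQ.cen n hn]
        _ = z * (n * v) * a := by group
        _ = z * (z * v * n) * a := by rw [hnv]
        _ = (z * z) * v * n * a := by group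
        _ = v * (n * a) := by rw [S.hQ.sq]; group
    have hnaR : ∀ r ∈ Q, r * a = a * r → (n * a) * r = r * (n * a) := by
      intro r hr hra
      calc (n * a) * r = n * (a * r) := by group
        _ = n * (r * a) := by rw [hra]
        _ = (n * r) * a := by group
        _ = (r * n) * a := by rw [hnR r hr hra]
        _ = r * (n * a) := by group
    rcases S.hQ.zen (n * a) (Q.mul_mem hn S.ha) (S.cen_crit hvQ hv (Q.mul_mem hn S.ha) hna hnaR)
      with h | h
    · right; right; left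
      calc n = (n * a) * a⁻¹ := by group
        _ = a := by rw [h, S.ainv, one_mul]
    · right; right; right
      calc n = (n * a) * a⁻¹ := by group
        _ = z * a := by rw [h, S.ainv]
        _ = a * z := S.az.symm

theorem inter {n : G} (hnQ : n ∈ Q) (hnP : n ∈ P) : n = 1 ∨ n = a := by
  obtain ⟨v, hvQ, hv⟩ := S.exists_v
  have hnR : ∀ r ∈ Q, r * a = a * r → n * r = r * n := by
    intro r hr hra
    rcases S.hQ.comm n hnQ r hr with e | e
    · calc n * r = (n * r * n⁻¹ * r⁻¹) * r * n := by group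
        _ = r * n := by rw [e]; group
    · exfalso
      apply S.hzn
      rw [← e]
      have h1 : r * n⁻¹ * r⁻¹ ∈ P := S.hP.nor r hra n⁻¹ (P.inv_mem hnP)
      have : n * r * n⁻¹ * r⁻¹ = n * (r * n⁻¹ * r⁻¹) := by group
      rw [this]
      exact P.mul_mem hnP h1
  rcases S.zR hvQ hv hnQ hnR with h | h | h | h
  · left; exact h
  · exfalso; apply S.hzn; rw [← h]; exact hnP
  · right; exact h
  · exfalso; apply S.hzn
    have : z = a⁻¹ * n := by rw [h]; group
    rw [this]; exact P.mul_mem (P.inv_mem S.hP.mem) hnP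

theorem vinv {v : G} (hvQ : v ∈ Q) (hv : v * a * v⁻¹ = z * a) : v⁻¹ * a * v = z * a := by
  have hzv : v⁻¹ * z = z * v⁻¹ := S.hQ.cen _ (Q.inv_mem hvQ)
  calc v⁻¹ * a * v = (z * z) * (v⁻¹ * a * v) := by rw [S.hQ.sq, one_mul]
    _ = z * (z * v⁻¹) * a * v := by group
    _ = z * (v⁻¹ * z) * a * v := by rw [hzv]
    _ = z * (v⁻¹ * (z * a) * v) := by group
    _ = z * (v⁻¹ * (v * a * v⁻¹) * v) := by rw [hv]
    _ = z * a := by group

theorem claim2 {x : G} (hx : x ∈ P) : x * z * x⁻¹ ≠ a * z := by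
  intro e
  obtain ⟨v, hvQ, hv⟩ := S.exists_v
  apply S.hzn
  have hcz : ((v * g)⁻¹ * x) * z = z * ((v * g)⁻¹ * x) := by
    have h1 : v⁻¹ * (a * z) * v = a := by
      rw [S.az, ← hv]; group
    have h2 : g⁻¹ * a * g = z := by rw [S.hag]; group
    calc ((v * g)⁻¹ * x) * z = (v * g)⁻¹ * (x * z * x⁻¹) * x := by group
      _ = (v * g)⁻¹ * (a * z) * x := by rw [e]
      _ = g⁻¹ * (v⁻¹ * (a * z) * v) * g * ((v * g)⁻¹ * x) := by group
      _ = g⁻¹ * a * g * ((v * g)⁻¹ * x) := by rw [h1]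
      _ = z * ((v * g)⁻¹ * x) := by rw [h2]
  have h3 : ((v * g)⁻¹ * x) * a * ((v * g)⁻¹ * x)⁻¹ ∈ Q := S.hQ.nor _ hcz a S.ha
  have hxa : x * a = a * x := S.hP.cen x hx
  have h4 : ((v * g)⁻¹ * x) * a * ((v * g)⁻¹ * x)⁻¹ = g⁻¹ * (v⁻¹ * a * v) * g := by
    calc ((v * g)⁻¹ * x) * a * ((v * g)⁻¹ * x)⁻¹ = (v * g)⁻¹ * (x * a) * x⁻¹ * (v * g) := by group
      _ = (v * g)⁻¹ * (a * x) * x⁻¹ * (v * g) := by rw [hxa]
      _ = g⁻¹ * (v⁻¹ * a * v) * g := by group
  rw [h4, ← S.hPm, S.vinv hvQ hv] at h3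
  have : z = (z * a) * a⁻¹ := by group
  rw [this]
  exact P.mul_mem h3 (P.inv_mem S.hP.mem)

theorem tr {t r : G} (ht : t ∈ P) (htz : t * z = z * t) (hr : r ∈ Q) (hra : r * a = a * r) :
    t * r * t⁻¹ * r⁻¹ = 1 ∨ t * r * t⁻¹ * r⁻¹ = a := by
  apply S.inter
  · exact Q.mul_mem (S.hQ.nor t htz r hr) (Q.inv_mem hr)
  · have h1 := S.hP.nor r hra t⁻¹ (P.inv_mem ht)
    have : t * r * t⁻¹ * r⁻¹ = t * (r * t⁻¹ * r⁻¹) := by group
    rw [this]; exact P.mul_mem ht h1

theorem e1 {x : G} (hx : x ∈ P) (h : z * x * z⁻¹ * x⁻¹ = 1 ∨ z * x * z⁻¹ * x⁻¹ = a) :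
    z * x = x * z := by
  rcases h with e | e
  · calc z * x = (z * x * z⁻¹ * x⁻¹) * x * z := by group
      _ = x * z := by rw [e]; group
  · exfalso
    apply S.claim2 hx
    calc x * z * x⁻¹ = (z * x * z⁻¹ * x⁻¹)⁻¹ * z := by group
      _ = a⁻¹ * z := by rw [e]
      _ = a * z := by rw [S.ainv]

theorem zP {w : G} (hw : w ∈ P) : z * w * z⁻¹ ∈ P := S.hP.nor z S.az.symm w hw

theorem ycomm {x : G} (hx : x ∈ P) :
    z * (z * x * z⁻¹ * x⁻¹) = (z * x * z⁻¹ * x⁻¹) * z := by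
  have hy : z * x * z⁻¹ * x⁻¹ ∈ P := P.mul_mem (S.zP hx) (P.inv_mem hx)
  apply S.e1 hy
  have h0 : z * (z * x * z⁻¹ * x⁻¹) * z⁻¹ * (z * x * z⁻¹ * x⁻¹) = 1 := by
    calc z * (z * x * z⁻¹ * x⁻¹) * z⁻¹ * (z * x * z⁻¹ * x⁻¹)
        = (z * z) * x * (z * z)⁻¹ * x⁻¹ := by group
      _ = 1 := by rw [S.hQ.sq]; group
  have h1 : z * (z * x * z⁻¹ * x⁻¹) * z⁻¹ = (z * x * z⁻¹ * x⁻¹)⁻¹ :=
    eq_inv_of_mul_eq_one_left h0
  rw [h1]
  rcases S.hP.sqs _ hy with e | e
  · left
    rw [← mul_inv_rev, e, inv_one]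
  · right
    rw [← mul_inv_rev, e, S.ainv]

theorem e3 {r : G} (hr : r ∈ Q) (hra : r * a = a * r) (hrr : r * r = z) {x : G} (hx : x ∈ P)
    (hc : z * (r * x * r⁻¹ * x⁻¹) = (r * x * r⁻¹ * x⁻¹) * z) : z * x = x * z := by
  have hcP : r * x * r⁻¹ * x⁻¹ ∈ P := P.mul_mem (S.hP.nor r hra x hx) (P.inv_mem hx)
  apply S.e1 hx
  have hid : z * x * z⁻¹ * x⁻¹ = ((r * x * r⁻¹ * x⁻¹) * r * (r * x * r⁻¹ * x⁻¹)⁻¹ * r⁻¹)⁻¹ *
      ((r * x * r⁻¹ * x⁻¹) * (r * x * r⁻¹ * x⁻¹)) := by
    rw [← hrr]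
    simp only [mul_inv_rev, inv_inv, mul_assoc, inv_mul_cancel_left, mul_inv_cancel_left,
      mul_inv_cancel, inv_mul_cancel, mul_one, one_mul]
  rw [hid]
  rcases S.tr hcP hc.symm hr hra with e | e <;> rcases S.hP.sqs _ hcP with f | f
  · left; rw [e, f]; simp
  · right; rw [e, f]; simp
  · right; rw [e, f, S.ainv]; simp
  · left; rw [e, f, S.ainv, S.hP.sq]

theorem cent_of_r {r : G} (hr : r ∈ Q) (hra : r * a = a * r) (hrr : r * r = z) {x : G}
    (hx : x ∈ P) : z * x = x * z := by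
  have hc1P : r * x * r⁻¹ * x⁻¹ ∈ P := P.mul_mem (S.hP.nor r hra x hx) (P.inv_mem hx)
  apply S.e3 hr hra hrr hx
  apply S.e3 hr hra hrr hc1P
  have hid : r * (r * x * r⁻¹ * x⁻¹) * r⁻¹ * (r * x * r⁻¹ * x⁻¹)⁻¹ =
      (z * x * z⁻¹ * x⁻¹) * ((x * (r * x * r⁻¹)⁻¹) * (x * (r * x * r⁻¹)⁻¹)) := by
    rw [← hrr]
    simp only [mul_inv_rev, inv_inv, mul_assoc, inv_mul_cancel_left, mul_inv_cancel_left,
      mul_inv_cancel, inv_mul_cancel, mul_one, one_mul]
  rw [hid]
  have hsP : x * (r * x * r⁻¹)⁻¹ ∈ P := P.mul_mem hx (P.inv_mem (S.hP.nor r hra x hx))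
  have hy := S.ycomm hx
  rcases S.hP.sqs _ hsP with f | f
  · rw [f, mul_one]; exact hy
  · rw [f]
    calc z * (z * x * z⁻¹ * x⁻¹ * a) = (z * (z * x * z⁻¹ * x⁻¹)) * a := by group
      _ = ((z * x * z⁻¹ * x⁻¹) * z) * a := by rw [hy]
      _ = (z * x * z⁻¹ * x⁻¹) * (z * a) := by group
      _ = (z * x * z⁻¹ * x⁻¹) * (a * z) := by rw [S.az]
      _ = (z * x * z⁻¹ * x⁻¹ * a) * z := by group

/-- An element centralizing `z` and `C_Q(a)` lies in `Q`. -/
theorem al {v : G} (hvQ : v ∈ Q) (hv : v * a * v⁻¹ = z * a) {y : G} (hyz : y * z = z * y)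
    (hyR : ∀ r ∈ Q, r * a = a * r → y * r = r * y) : y ∈ Q := by
  have hya : y * a = a * y := hyR a S.ha rfl
  have hwQ : y * v * y⁻¹ ∈ Q := S.hQ.nor y hyz v hvQ
  have hkQ : v⁻¹ * (y * v * y⁻¹) ∈ Q := Q.mul_mem (Q.inv_mem hvQ) hwQ
  -- `k = v⁻¹ * w` centralizes `C_Q(a)`
  have hkR : ∀ r ∈ Q, r * a = a * r → (v⁻¹ * (y * v * y⁻¹)) * r = r * (v⁻¹ * (y * v * y⁻¹)) := by
    intro r hr hra
    -- v r v⁻¹ r⁻¹ ∈ {1,z} commutes with y
    have hyr : y⁻¹ * r * y = r := by
      calc y⁻¹ * r * y = y⁻¹ * (r * y) := by group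
        _ = y⁻¹ * (y * r) := by rw [hyR r hr hra]
        _ = r := by group
    have hcy : y * (v * r * v⁻¹ * r⁻¹) * y⁻¹ = v * r * v⁻¹ * r⁻¹ := by
      rcases S.hQ.comm v hvQ r hr with e | e
      · rw [e]; group
      · rw [e]
        calc y * z * y⁻¹ = (z * y) * y⁻¹ := by rw [hyz]
          _ = z := by group
    -- (y v y⁻¹) r (y v y⁻¹)⁻¹ = y v (y⁻¹ r y) v⁻¹ y⁻¹ = y (v r v⁻¹) y⁻¹ = y ([v,r] r) y⁻¹ = [v,r] r
    have h1 : (y * v * y⁻¹) * r = v * r * v⁻¹ * (y * v * y⁻¹) := by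
      calc (y * v * y⁻¹) * r = y * v * (y⁻¹ * r * y) * y⁻¹ := by group
        _ = y * v * r * y⁻¹ := by rw [hyr]
        _ = (y * (v * r * v⁻¹ * r⁻¹) * y⁻¹) * (y * r * y⁻¹) * (y * v * y⁻¹) := by group
        _ = (v * r * v⁻¹ * r⁻¹) * (y * r * y⁻¹) * (y * v * y⁻¹) := by rw [hcy]
        _ = (v * r * v⁻¹ * r⁻¹) * ((y * r) * y⁻¹) * (y * v * y⁻¹) := by group
        _ = (v * r * v⁻¹ * r⁻¹) * ((r * y) * y⁻¹) * (y * v * y⁻¹) := by rw [hyR r hr hra]
        _ = v * r * v⁻¹ * (y * v * y⁻¹) := by group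
    calc (v⁻¹ * (y * v * y⁻¹)) * r = v⁻¹ * ((y * v * y⁻¹) * r) := by group
      _ = v⁻¹ * (v * r * v⁻¹ * (y * v * y⁻¹)) := by rw [h1]
      _ = r * (v⁻¹ * (y * v * y⁻¹)) := by group
  have hvv : y * (v * v) * y⁻¹ = v * v := by
    rcases S.hQ.sqs v hvQ with e | e
    · rw [e]; group
    · rw [e]
      calc y * z * y⁻¹ = (z * y) * y⁻¹ := by rw [hyz]
        _ = z := by group
  have hww : (y * v * y⁻¹) * (y * v * y⁻¹) = v * v := by
    rw [← hvv]; group
  have hva2 : (v * a) * (v * a) = z * (v * v) := by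
    have hvva : (v * v) * a = a * (v * v) := by
      rcases S.hQ.sqs v hvQ with e | e
      · rw [e]; group
      · rw [e]; exact S.az.symm
    calc (v * a) * (v * a) = (v * a * v⁻¹) * ((v * v) * a) := by group
      _ = (z * a) * (a * (v * v)) := by rw [hv, hvva]
      _ = z * (a * a) * (v * v) := by group
      _ = z * (v * v) := by rw [S.hP.sq, mul_one]
  have hz1 : z * (v * v) ≠ v * v := by
    intro h
    exact S.hQ.ne (mul_eq_right.mp h)
  rcases S.zR hvQ hv hkQ hkR with h | h | h | h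
  · -- y commutes with v
    have hyv : y * v = v * y := by
      calc y * v = v * (v⁻¹ * (y * v * y⁻¹)) * y := by group
        _ = v * y := by rw [h, mul_one]
    apply S.hQ.self
    intro q hq
    rcases S.idx hv hq with e | e
    · exact hyR q hq e
    · have h2 := hyR (v⁻¹ * q) (Q.mul_mem (Q.inv_mem hvQ) hq) e
      calc y * q = (y * v) * v⁻¹ * q := by group
        _ = (v * y) * v⁻¹ * q := by rw [hyv]
        _ = v * (y * (v⁻¹ * q)) := by group
        _ = v * ((v⁻¹ * q) * y) := by rw [h2]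
        _ = q * y := by group
  · -- a * y commutes with v
    have hyv : y * v = v * z * y := by
      calc y * v = v * (v⁻¹ * (y * v * y⁻¹)) * y := by group
        _ = v * z * y := by rw [h]
    have hayv : (a * y) * v = v * (a * y) := by
      calc (a * y) * v = a * (y * v) := by group
        _ = a * (v * z * y) := by rw [hyv]
        _ = (a * v) * z * y := by group
        _ = (z * (v * a)) * z * y := by rw [S.hav hv]
        _ = z * v * (a * z) * y := by group
        _ = z * v * (z * a) * y := by rw [S.az]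
        _ = z * (v * z) * a * y := by group
        _ = z * (z * v) * a * y := by rw [S.hQ.cen v hvQ]
        _ = (z * z) * v * a * y := by group
        _ = v * (a * y) := by rw [S.hQ.sq]; group
    have hayQ : a * y ∈ Q := by
      apply S.hQ.self
      intro q hq
      have hayR : ∀ r ∈ Q, r * a = a * r → (a * y) * r = r * (a * y) := by
        intro r hr hra
        calc (a * y) * r = a * (y * r) := by group
          _ = a * (r * y) := by rw [hyR r hr hra]
          _ = (a * r) * y := by group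
          _ = (r * a) * y := by rw [hra]
          _ = r * (a * y) := by group
      rcases S.idx hv hq with e | e
      · exact hayR q hq e
      · have h2 := hayR (v⁻¹ * q) (Q.mul_mem (Q.inv_mem hvQ) hq) e
        calc (a * y) * q = ((a * y) * v) * v⁻¹ * q := by group
          _ = (v * (a * y)) * v⁻¹ * q := by rw [hayv]
          _ = v * ((a * y) * (v⁻¹ * q)) := by group
          _ = v * ((v⁻¹ * q) * (a * y)) := by rw [h2]
          _ = q * (a * y) := by group
    have : y = a⁻¹ * (a * y) := by group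
    rw [this]
    exact Q.mul_mem (Q.inv_mem S.ha) hayQ
  · exfalso
    apply hz1
    have hw : y * v * y⁻¹ = v * a := by
      calc y * v * y⁻¹ = v * (v⁻¹ * (y * v * y⁻¹)) := by group
        _ = v * a := by rw [h]
    rw [← hva2, ← hw, hww]
  · exfalso
    apply hz1
    have hw : y * v * y⁻¹ = v * (a * z) := by
      calc y * v * y⁻¹ = v * (v⁻¹ * (y * v * y⁻¹)) := by group
        _ = v * (a * z) := by rw [h]
    have h2 : (v * (a * z)) * (v * (a * z)) = (v * a) * (v * a) := by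
      calc (v * (a * z)) * (v * (a * z)) = v * a * (z * v) * (a * z) := by group
        _ = v * a * (v * z) * (a * z) := by rw [S.hQ.cen v hvQ]
        _ = v * a * v * (z * a) * z := by group
        _ = v * a * v * (a * z) * z := by rw [S.az]
        _ = (v * a) * (v * a) * (z * z) := by group
        _ = (v * a) * (v * a) := by rw [S.hQ.sq, mul_one]
    rw [← hva2, ← h2, ← hw, hww]

theorem no_r (hno : ∀ r ∈ Q, r * a = a * r → r * r ≠ z) : False := by
  obtain ⟨v, hvQ, hv⟩ := S.exists_v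
  have hsq : ∀ r ∈ Q, r * a = a * r → r * r = 1 := by
    intro r hr hra
    rcases S.hQ.sqs r hr with e | e
    · exact e
    · exact absurd e (hno r hr hra)
  have hab : ∀ r₁ ∈ Q, r₁ * a = a * r₁ → ∀ r₂ ∈ Q, r₂ * a = a * r₂ → r₁ * r₂ = r₂ * r₁ := by
    intro r₁ h₁ h₁a r₂ h₂ h₂a
    have h12 : (r₁ * r₂) * a = a * (r₁ * r₂) := by
      calc (r₁ * r₂) * a = r₁ * (r₂ * a) := by group
        _ = r₁ * (a * r₂) := by rw [h₂a]
        _ = (r₁ * a) * r₂ := by group
        _ = (a * r₁) * r₂ := by rw [h₁a]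
        _ = a * (r₁ * r₂) := by group
    have e1 := hsq r₁ h₁ h₁a
    have e2 := hsq r₂ h₂ h₂a
    have e3 := hsq (r₁ * r₂) (Q.mul_mem h₁ h₂) h12
    symm
    calc r₂ * r₁ = r₂ * r₁ * ((r₁ * r₂) * (r₁ * r₂)) := by rw [e3, mul_one]
      _ = r₂ * (r₁ * r₁) * r₂ * r₁ * r₂ := by group
      _ = (r₂ * r₂) * r₁ * r₂ := by rw [e1]; group
      _ = r₁ * r₂ := by rw [e2, one_mul]
  have hfour : ∀ r ∈ Q, r * a = a * r → r = 1 ∨ r = z ∨ r = a ∨ r = a * z := by
    intro r hr hra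
    exact S.zR hvQ hv hr (fun r' hr' hr'a => hab r hr hra r' hr' hr'a)
  -- an element of `C_P(z)` outside `{1, a}`
  have hx0P : g * v * g⁻¹ ∈ P := by
    rw [S.hPm]
    have : g⁻¹ * (g * v * g⁻¹) * g = v := by group
    rw [this]; exact hvQ
  have hv1 : v ≠ 1 := by
    intro h
    rw [h] at hv
    apply S.hQ.ne
    have : a = z * a := by
      calc a = 1 * a * 1⁻¹ := by group
        _ = z * a := hv
    exact (mul_eq_right.mp this.symm)
  have hvz : v ≠ z := by
    intro h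
    rw [h] at hv
    apply S.hQ.ne
    have : a = z * a := by
      calc a = (z * a) * z⁻¹ := by rw [← S.az]; group
        _ = z * a := hv
    exact (mul_eq_right.mp this.symm)
  have hx01 : g * v * g⁻¹ ≠ 1 := by
    intro h
    apply hv1
    calc v = g⁻¹ * (g * v * g⁻¹) * g := by group
      _ = 1 := by rw [h]; group
  have hx0a : g * v * g⁻¹ ≠ a := by
    intro h
    apply hvz
    calc v = g⁻¹ * (g * v * g⁻¹) * g := by group
      _ = z := by rw [h, S.hag]; group
  have hex : ∃ x ∈ P, z * x = x * z ∧ x ≠ 1 ∧ x ≠ a := by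
    by_cases hy : z * (g * v * g⁻¹) * z⁻¹ * (g * v * g⁻¹)⁻¹ = 1 ∨
        z * (g * v * g⁻¹) * z⁻¹ * (g * v * g⁻¹)⁻¹ = a
    · exact ⟨_, hx0P, S.e1 hx0P hy, hx01, hx0a⟩
    · push Not at hy
      exact ⟨_, P.mul_mem (S.zP hx0P) (P.inv_mem hx0P), S.ycomm hx0P, hy.1, hy.2⟩
  obtain ⟨x, hxP, hxz, hx1, hxa⟩ := hex
  have hxR : ∀ r ∈ Q, r * a = a * r → x * r = r * x := by
    intro r hr hra
    have hxa' : x * a = a * x := S.hP.cen x hxP
    rcases hfour r hr hra with h | h | h | h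
    · rw [h]; group
    · rw [h]; exact hxz.symm
    · rw [h]; exact hxa'
    · rw [h]
      calc x * (a * z) = (x * a) * z := by group
        _ = (a * x) * z := by rw [hxa']
        _ = a * (x * z) := by group
        _ = a * (z * x) := by rw [hxz]
        _ = a * z * x := by group
  have hxQ : x ∈ Q := S.al hvQ hv hxz.symm hxR
  rcases S.inter hxQ hxP with h | h
  · exact hx1 h
  · exact hxa h

end LSet

/-- **Symmetry of orthogonality** for large extraspecial 2-subgroups: if `g z g⁻¹ ∈ Q` then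
`z ∈ g Q g⁻¹`. -/
theorem les_sym {Q : Subgroup G} {z : G} (hQ : ES2 Q z) (g : G) (ha : g * z * g⁻¹ ∈ Q) :
    z ∈ Q.map (MulAut.conj g).toMonoidHom := by
  by_cases haz : g * z * g⁻¹ = z
  · have := conj_mem_conj Q g hQ.mem
    rw [haz] at this; exact this
  · by_contra hzn
    have S : LSet Q (Q.map (MulAut.conj g).toMonoidHom) z (g * z * g⁻¹) g :=
      ⟨hQ, hQ.conj g, ha, haz, hzn, rfl, mem_conj_iff Q g⟩
    by_cases hr : ∃ r ∈ Q, r * (g * z * g⁻¹) = (g * z * g⁻¹) * r ∧ r * r = z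
    · obtain ⟨r, hr, hra, hrr⟩ := hr
      exact hzn (S.hP.self z (fun y hy => S.cent_of_r hr hra hrr hy))
    · push Not at hr
      exact S.no_r hr

end LES2

end Cfsg.Agent.Lib.helper14
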