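import Mathlib
import Cfsg.Prelude.Def_Transfer
import Cfsg.Prelude.Def_MonsterType
import Cfsg.Prelude.Def_Amalgam
import Cfsg.Agent.Lib.helper14.LES2
import Cfsg.Agent.Lib.helper14.WeaklyClosed4
import Cfsg.Agent.Lib.helper14.Amalgam

set_option autoImplicit false

namespace Cfsg.Agent.Lib.helper14

universe u

theorem centralizer_conj_singleton {G : Type u} [Group G] (g z : G) :
    Subgroup.centralizer ({g * z * g⁻¹} : Set G) =
      (Subgroup.centralizer ({z} : Set G)).map (MulAut.conj g).toMonoidHom := by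
  ext x
  rw [mem_conj_iff, Subgroup.mem_centralizer_singleton_iff, Subgroup.mem_centralizer_singleton_iff]
  constructor
  · intro h
    calc g⁻¹ * x * g * z = g⁻¹ * (x * (g * z * g⁻¹)) * g := by group
      _ = g⁻¹ * ((g * z * g⁻¹) * x) * g := by rw [h]
      _ = z * (g⁻¹ * x * g) := by group
  · intro h
    calc x * (g * z * g⁻¹) = g * ((g⁻¹ * x * g) * z) * g⁻¹ := by group
      _ = g * (z * (g⁻¹ * x * g)) * g⁻¹ := by rw [h]
      _ = g * z * g⁻¹ * x := by group

theorem s5595_aux {G : Type u} [Group G] [Finite G]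
    (z : G) (hz : orderOf z = 2)
    (hE : Cfsg.IsExtraspecial 2 ↥(Cfsg.pCoreOf 2 (Subgroup.centralizer ({z} : Set G))))
    (hC : Subgroup.centralizer ((Cfsg.pCoreOf 2 (Subgroup.centralizer ({z} : Set G)) : Subgroup G) : Set G) ≤
      Cfsg.pCoreOf 2 (Subgroup.centralizer ({z} : Set G)))
    (g : G) (hx : g * z * g⁻¹ ∈ Cfsg.pCoreOf 2 (Subgroup.centralizer ({z} : Set G))) :
    z ∈ Cfsg.pCoreOf 2 (Subgroup.centralizer ({g * z * g⁻¹} : Set G)) := by
  have hz1 : z ≠ 1 := by
    intro h
    rw [h, orderOf_one] at hz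
    omega
  have hzz : z * z = 1 := by
    rw [← pow_two, ← hz]; exact pow_orderOf_eq_one z
  have hzQ : z ∈ Cfsg.pCoreOf 2 (Subgroup.centralizer ({z} : Set G)) := by
    have h1 : Subgroup.zpowers z ≤ Subgroup.centralizer ({z} : Set G) := by
      rw [Subgroup.zpowers_le, Subgroup.mem_centralizer_singleton_iff]
    have h2 : IsPGroup 2 (Subgroup.zpowers z) := by
      apply IsPGroup.of_card (n := 1)
      rw [Nat.card_zpowers, hz, pow_one]
    have h3 : Subgroup.centralizer ({z} : Set G) ≤ Subgroup.normalizer (Subgroup.zpowers z : Set G) := by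
      apply Cfsg.Agent.Lib.helper8.le_normalizer_of_conj_mem
      intro c hc n hn
      rw [Subgroup.mem_centralizer_singleton_iff] at hc
      obtain ⟨k, rfl⟩ := Subgroup.mem_zpowers_iff.mp hn
      have hcz : Commute c (z ^ k) := Commute.zpow_right hc k
      have : c * z ^ k * c⁻¹ = z ^ k := by rw [hcz.eq]; group
      rw [this]; exact hn
    exact le_pCoreOf _ _ h1 h2 h3 (Subgroup.mem_zpowers z)
  have hZQ : ZQ (Cfsg.pCoreOf 2 (Subgroup.centralizer ({z} : Set G))) z := by
    refine ⟨hzQ, ?_⟩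
    intro q hq
    obtain ⟨q', -, rfl⟩ := hq
    have := q'.2
    rw [Subgroup.mem_centralizer_singleton_iff] at this
    exact this
  have hES : ES2 (Cfsg.pCoreOf 2 (Subgroup.centralizer ({z} : Set G))) z :=
    ES2.of_extraspecial _ hE z hZQ hz1 hC (le_normalizer_pCoreOf 2 _)
  have := les_sym hES g hx
  rw [centralizer_conj_singleton, pCoreOf_map_equiv]
  exact this

end Cfsg.Agent.Lib.helper14
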