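import Mathlib
import Cfsg.Prelude.Def_Transfer
import Cfsg.Prelude.Def_MonsterType
import Cfsg.Agent.Lib.helper14.LES2
import Cfsg.Agent.Lib.helper8.CoprimeAction

set_option autoImplicit false

namespace Cfsg.Agent.Lib.helper14

universe u

section LES4

variable {G : Type u} [Group G]

theorem ES2.exists_v {Q : Subgroup G} {z : G} (hQ : ES2 Q z) {a : G} (ha : a ∈ Q) (ha1 : a ≠ 1)
    (haz : a ≠ z) : ∃ v ∈ Q, v * a * v⁻¹ = z * a := by
  by_contra hcon
  push Not at hcon
  have h1 : ∀ y ∈ Q, y * a = a * y := by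
    intro y hy
    rcases hQ.comm y hy a ha with e | e
    · calc y * a = (y * a * y⁻¹ * a⁻¹) * a * y := by group
        _ = a * y := by rw [e]; group
    · exfalso
      apply hcon y hy
      calc y * a * y⁻¹ = (y * a * y⁻¹ * a⁻¹) * a := by group
        _ = z * a := by rw [e]
  rcases hQ.zen a ha h1 with e | e
  · exact ha1 e
  · exact haz e

theorem ES2.pow_four {Q : Subgroup G} {z : G} (hQ : ES2 Q z) {x : G} (hx : x ∈ Q) : x ^ 4 = 1 := by
  have e : x ^ 4 = (x * x) * (x * x) := by
    simp only [pow_succ, pow_zero, one_mul, mul_assoc]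
  rw [e]
  rcases hQ.sqs x hx with h | h
  · rw [h, one_mul]
  · rw [h, hQ.sq]

theorem odd_elim [Finite G] (K : Subgroup G) (hodd : Odd (Nat.card K)) {x : G} (hx : x ∈ K)
    (h4 : x ^ 4 = 1) : x = 1 := by
  have h1 : orderOf x ∣ 4 := orderOf_dvd_of_pow_eq_one h4
  have h2 : orderOf x ∣ Nat.card K := by
    have := orderOf_dvd_natCard (⟨x, hx⟩ : K)
    rwa [Subgroup.orderOf_mk] at this
  have h3 : Nat.Coprime 4 (Nat.card K) := by
    have : Nat.Coprime 2 (Nat.card K) := Nat.coprime_two_left.mpr hodd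
    exact Nat.Coprime.pow_left 2 this
  have h4 : orderOf x ∣ 1 := by
    have := Nat.dvd_gcd h1 h2
    rwa [h3] at this
  exact orderOf_eq_one_iff.mp (Nat.dvd_one.mp h4)

/-- An involution acting without fixed points on a finite group inverts it. -/
theorem involution_inverts [Finite G] (K : Subgroup G) (t : G) (htt : t * t = 1)
    (hn : ∀ k ∈ K, t * k * t⁻¹ ∈ K) (hfix : ∀ k ∈ K, t * k = k * t → k = 1) :
    ∀ k ∈ K, t * k * t⁻¹ = k⁻¹ := by
  let f : K → K := fun k => ⟨k.1⁻¹ * (t * k.1 * t⁻¹), K.mul_mem (K.inv_mem k.2) (hn k.1 k.2)⟩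
  have hinj : Function.Injective f := by
    intro k h hkh
    have e : k.1⁻¹ * (t * k.1 * t⁻¹) = h.1⁻¹ * (t * h.1 * t⁻¹) := congrArg Subtype.val hkh
    have e2 : t * (h.1 * k.1⁻¹) = (h.1 * k.1⁻¹) * t := by
      calc t * (h.1 * k.1⁻¹) = h.1 * (h.1⁻¹ * (t * h.1 * t⁻¹)) * t * k.1⁻¹ := by group
        _ = h.1 * (k.1⁻¹ * (t * k.1 * t⁻¹)) * t * k.1⁻¹ := by rw [e]
        _ = (h.1 * k.1⁻¹) * t := by group
    have e3 := hfix _ (K.mul_mem h.2 (K.inv_mem k.2)) e2
    apply Subtype.ext
    exact (mul_inv_eq_one.mp e3).symm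
  have hsurj : Function.Surjective f := Finite.injective_iff_surjective.mp hinj
  intro m hm
  obtain ⟨k, hk⟩ := hsurj ⟨m, hm⟩
  have e : k.1⁻¹ * (t * k.1 * t⁻¹) = m := congrArg Subtype.val hk
  rw [← e]
  have hti : t⁻¹ = t := inv_eq_of_mul_eq_one_left htt
  simp only [mul_inv_rev, inv_inv, hti, mul_assoc, htt, mul_one]

/-- Largeness: no nontrivial subgroup of odd order is normalized by `Q`. -/
theorem ES2.large [Finite G] {Q : Subgroup G} {z : G} (hQ : ES2 Q z) (g : G)
    (ha : g * z * g⁻¹ ∈ Q) (haz : g * z * g⁻¹ ≠ z) (K : Subgroup G) (hodd : Odd (Nat.card K))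
    (hQK : Q ≤ Subgroup.normalizer (K : Set G)) : K = ⊥ := by
  have hnor : ∀ q ∈ Q, ∀ k ∈ K, q * k * q⁻¹ ∈ K := fun q hq k hk =>
    (Subgroup.mem_normalizer_iff.mp (hQK hq) k).mp hk
  have hP := hQ.conj g
  have hzP : z ∈ Q.map (MulAut.conj g).toMonoidHom := les_sym hQ g ha
  have ha1 : g * z * g⁻¹ ≠ 1 := hP.ne
  set a := g * z * g⁻¹ with hadef
  -- step 2
  have h2 : ∀ k ∈ K, z * k = k * z → k = 1 := by
    intro k hk hzk
    have hkQ : k ∈ Q := by
      apply hQ.self
      intro q hq
      have hc : k * q * k⁻¹ * q⁻¹ = 1 := by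
        apply odd_elim K hodd
        · have : k * q * k⁻¹ * q⁻¹ = k * (q * k⁻¹ * q⁻¹) := by group
          rw [this]
          exact K.mul_mem hk (hnor q hq _ (K.inv_mem hk))
        · exact hQ.pow_four (Q.mul_mem (hQ.nor k hzk.symm q hq) (Q.inv_mem hq))
      calc k * q = (k * q * k⁻¹ * q⁻¹) * q * k := by group
        _ = q * k := by rw [hc]; group
    exact odd_elim K hodd hk (hQ.pow_four hkQ)
  have h3 := involution_inverts K z hQ.sq (hnor z hQ.mem) h2
  have h4 : ∀ k ∈ K, a * k = k * a → k = 1 := by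
    intro k hk hak
    have hc : z * k * z⁻¹ * k⁻¹ = 1 := by
      apply odd_elim K hodd
      · exact K.mul_mem (hnor z hQ.mem k hk) (K.inv_mem hk)
      · apply hP.pow_four
        have : z * k * z⁻¹ * k⁻¹ = z * (k * z⁻¹ * k⁻¹) := by group
        rw [this]
        exact Subgroup.mul_mem _ hzP (hP.nor k hak.symm _ (Subgroup.inv_mem _ hzP))
    rw [h3 k hk] at hc
    apply odd_elim K hodd hk
    have e : k ^ 4 = ((k⁻¹ * k⁻¹)⁻¹) ^ 2 := by group
    rw [e, hc]; simp
  have h5 := involution_inverts K a hP.sq (hnor a ha) h4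
  obtain ⟨v, hvQ, hv⟩ := hQ.exists_v ha ha1 haz
  rw [Subgroup.eq_bot_iff_forall]
  intro k hk
  apply h4 k hk
  -- v k v⁻¹ ∈ K commutes with z * a = v a v⁻¹
  have hk' : v * k * v⁻¹ ∈ K := hnor v hvQ k hk
  have e1 : (z * a) * (v * k * v⁻¹) * (z * a)⁻¹ = v * k * v⁻¹ := by
    calc (z * a) * (v * k * v⁻¹) * (z * a)⁻¹ = z * (a * (v * k * v⁻¹) * a⁻¹) * z⁻¹ := by group
      _ = z * (v * k * v⁻¹)⁻¹ * z⁻¹ := by rw [h5 _ hk']
      _ = (z * (v * k * v⁻¹) * z⁻¹)⁻¹ := by group
      _ = v * k * v⁻¹ := by rw [h3 _ hk', inv_inv]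
  rw [← hv] at e1
  calc a * k = v⁻¹ * ((v * a * v⁻¹) * (v * k * v⁻¹) * (v * a * v⁻¹)⁻¹) * v * a := by group
    _ = k * a := by rw [e1]; group

/-- A pair of group elements (a private copy of `G × G` carrying the conjugation action). -/
structure Pair2 (G : Type u) where
  fst : G
  snd : G

theorem Pair2.ext_iff' {p q : Pair2 G} : p = q ↔ p.fst = q.fst ∧ p.snd = q.snd := by
  cases p; cases q; simp

/-- Componentwise conjugation action of a subgroup on pairs. -/
def pairAct (N : Subgroup G) : MulAction ↥N (Pair2 G) where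
  smul n p := ⟨(n : G) * p.fst * (n : G)⁻¹, (n : G) * p.snd * (n : G)⁻¹⟩
  one_smul p := by
    show (⟨((1 : ↥N) : G) * p.fst * ((1 : ↥N) : G)⁻¹, ((1 : ↥N) : G) * p.snd * ((1 : ↥N) : G)⁻¹⟩ :
      Pair2 G) = p
    cases p; simp
  mul_smul n m p := by
    show (⟨((n * m : ↥N) : G) * p.fst * ((n * m : ↥N) : G)⁻¹,
      ((n * m : ↥N) : G) * p.snd * ((n * m : ↥N) : G)⁻¹⟩ : Pair2 G) =
      ⟨(n : G) * ((m : G) * p.fst * (m : G)⁻¹) * (n : G)⁻¹,
        (n : G) * ((m : G) * p.snd * (m : G)⁻¹) * (n : G)⁻¹⟩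
    rw [Pair2.ext_iff']
    constructor
    · show ((n : G) * (m : G)) * p.fst * ((n : G) * (m : G))⁻¹ = _
      group
    · show ((n : G) * (m : G)) * p.snd * ((n : G) * (m : G))⁻¹ = _
      group

/-- The normalizer of a four-group `{1, z, a, za}` induces `S₃` when two suitable transpositions
are present. -/
theorem relIndex_six [Finite G] (V : Subgroup G) (z a u v : G)
    (hV : ∀ x, x ∈ V ↔ x = 1 ∨ x = z ∨ x = a ∨ x = z * a)
    (hz1 : z ≠ 1) (ha1 : a ≠ 1) (haz : a ≠ z) (hzz : z * z = 1) (haa : a * a = 1)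
    (hcomm : a * z = z * a)
    (huz : u * z * u⁻¹ = z * a) (hua : u * a * u⁻¹ = a)
    (hvz : v * z * v⁻¹ = z) (hva : v * a * v⁻¹ = z * a) :
    (Subgroup.centralizer (V : Set G)).relIndex (Subgroup.normalizer (V : Set G)) = 6 := by
  classical
  have hza1 : z * a ≠ 1 := by
    intro h
    apply haz
    calc a = z * (z * a) := by rw [← mul_assoc, hzz, one_mul]
      _ = z := by rw [h, mul_one]
  have hzaz : z * a ≠ z := fun h => ha1 (mul_eq_left.mp h)
  have hzaa : z * a ≠ a := fun h => hz1 (mul_eq_right.mp h)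
  -- conjugation by elements of the normalizer permutes `{z, a, za}`
  have hperm : ∀ n ∈ Subgroup.normalizer (V : Set G), ∀ x, (x = z ∨ x = a ∨ x = z * a) →
      (n * x * n⁻¹ = z ∨ n * x * n⁻¹ = a ∨ n * x * n⁻¹ = z * a) := by
    intro n hn x hx
    have hxV : x ∈ V := (hV x).mpr (Or.inr hx)
    have hx1 : x ≠ 1 := by
      rcases hx with rfl | rfl | rfl
      · exact hz1
      · exact ha1
      · exact hza1
    have h1 : n * x * n⁻¹ ∈ V := (Subgroup.mem_normalizer_iff.mp hn x).mp hxV
    rcases (hV _).mp h1 with h | h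
    · exfalso
      apply hx1
      calc x = n⁻¹ * (n * x * n⁻¹) * n := by group
        _ = 1 := by rw [h]; group
    · exact h
  have hinj : ∀ n x y : G, n * x * n⁻¹ = n * y * n⁻¹ → x = y := by
    intro n x y h
    calc x = n⁻¹ * (n * x * n⁻¹) * n := by group
      _ = n⁻¹ * (n * y * n⁻¹) * n := by rw [h]
      _ = y := by group
  -- membership in the normalizer from the action on the generators
  have hmemN : ∀ n : G, (n * z * n⁻¹ ∈ V) → (n * a * n⁻¹ ∈ V) →
      n ∈ Subgroup.normalizer (V : Set G) := by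
    intro n hnz hna
    have hsub : ∀ x ∈ V, n * x * n⁻¹ ∈ V := by
      intro x hx
      rcases (hV x).mp hx with rfl | rfl | rfl | rfl
      · have : n * 1 * n⁻¹ = 1 := by group
        rw [this]; exact V.one_mem
      · exact hnz
      · exact hna
      · have : n * (z * a) * n⁻¹ = (n * z * n⁻¹) * (n * a * n⁻¹) := by group
        rw [this]; exact V.mul_mem hnz hna
    rw [Subgroup.mem_normalizer_iff]
    intro x
    refine ⟨hsub x, ?_⟩
    intro hx
    -- conjugation by n is injective on the finite set V, hence surjective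
    let f : V → V := fun x => ⟨n * x.1 * n⁻¹, hsub x.1 x.2⟩
    have hfi : Function.Injective f := by
      intro x y hxy
      apply Subtype.ext
      exact hinj n _ _ (congrArg Subtype.val hxy)
    obtain ⟨y, hy⟩ := (Finite.injective_iff_surjective.mp hfi) ⟨n * x * n⁻¹, hx⟩
    have : y.1 = x := hinj n _ _ (congrArg Subtype.val hy)
    rw [← this]; exact y.2
  have hzV : z ∈ V := (hV z).mpr (Or.inr (Or.inl rfl))
  have haV : a ∈ V := (hV a).mpr (Or.inr (Or.inr (Or.inl rfl)))
  have hzaV : z * a ∈ V := (hV _).mpr (Or.inr (Or.inr (Or.inr rfl)))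
  have huN : u ∈ Subgroup.normalizer (V : Set G) := hmemN u (by rw [huz]; exact hzaV)
    (by rw [hua]; exact haV)
  have hvN : v ∈ Subgroup.normalizer (V : Set G) := hmemN v (by rw [hvz]; exact hzV)
    (by rw [hva]; exact hzaV)
  have huza : u * (z * a) * u⁻¹ = z := by
    calc u * (z * a) * u⁻¹ = (u * z * u⁻¹) * (u * a * u⁻¹) := by group
      _ = z * (a * a) := by rw [huz, hua]; group
      _ = z := by rw [haa, mul_one]
  have hvza : v * (z * a) * v⁻¹ = a := by
    calc v * (z * a) * v⁻¹ = (v * z * v⁻¹) * (v * a * v⁻¹) := by group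
      _ = (z * z) * a := by rw [hvz, hva]; group
      _ = a := by rw [hzz, one_mul]
  set N := Subgroup.normalizer (V : Set G) with hN
  letI act : MulAction ↥N (Pair2 G) := pairAct N
  have hsmul : ∀ (n : ↥N) (p : Pair2 G),
      n • p = ⟨(n : G) * p.fst * (n : G)⁻¹, (n : G) * p.snd * (n : G)⁻¹⟩ := fun n p => rfl
  have hstab : MulAction.stabilizer ↥N (⟨z, a⟩ : Pair2 G) =
      (Subgroup.centralizer (V : Set G)).subgroupOf N := by
    ext n
    rw [MulAction.mem_stabilizer_iff, hsmul, Subgroup.mem_subgroupOf, Subgroup.mem_centralizer_iff,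
      Pair2.ext_iff']
    constructor
    · rintro ⟨h1, h2⟩
      replace h1 : (n : G) * z * (n : G)⁻¹ = z := h1
      replace h2 : (n : G) * a * (n : G)⁻¹ = a := h2
      have c1 : (n : G) * z = z * (n : G) := by
        calc (n : G) * z = ((n : G) * z * (n : G)⁻¹) * (n : G) := by group
          _ = z * (n : G) := by rw [h1]
      have c2 : (n : G) * a = a * (n : G) := by
        calc (n : G) * a = ((n : G) * a * (n : G)⁻¹) * (n : G) := by group
          _ = a * (n : G) := by rw [h2]
      intro x hx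
      rcases (hV x).mp hx with rfl | rfl | rfl | rfl
      · simp
      · exact c1.symm
      · exact c2.symm
      · calc z * a * (n : G) = z * (a * (n : G)) := by group
          _ = z * ((n : G) * a) := by rw [c2]
          _ = (z * (n : G)) * a := by group
          _ = ((n : G) * z) * a := by rw [c1]
          _ = (n : G) * (z * a) := by group
    · intro h
      have c1 := h z hzV
      have c2 := h a haV
      constructor
      · show (n : G) * z * (n : G)⁻¹ = z
        calc (n : G) * z * (n : G)⁻¹ = (z * (n : G)) * (n : G)⁻¹ := by rw [c1]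
          _ = z := by group
      · show (n : G) * a * (n : G)⁻¹ = a
        calc (n : G) * a * (n : G)⁻¹ = (a * (n : G)) * (n : G)⁻¹ := by rw [c2]
          _ = a := by group
  rw [Subgroup.relIndex, ← hstab, MulAction.index_stabilizer]
  have horb : MulAction.orbit ↥N (⟨z, a⟩ : Pair2 G) =
      (fun q : G × G => (⟨q.1, q.2⟩ : Pair2 G)) '' ↑(({z, a, z * a} : Finset G).offDiag) := by
    ext p
    rw [Set.mem_image]
    constructor
    · rintro ⟨n, rfl⟩
      refine ⟨((n : G) * z * (n : G)⁻¹, (n : G) * a * (n : G)⁻¹), ?_, rfl⟩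
      rw [Finset.mem_coe, Finset.mem_offDiag]
      simp only [Finset.mem_insert, Finset.mem_singleton]
      refine ⟨hperm n.1 n.2 z (Or.inl rfl), hperm n.1 n.2 a (Or.inr (Or.inl rfl)), ?_⟩
      intro h
      exact haz (hinj _ _ _ h).symm
    · -- the orbit is stable under u and v
      have hu_orb : ∀ q : Pair2 G, q ∈ MulAction.orbit ↥N (⟨z, a⟩ : Pair2 G) →
          (⟨u * q.fst * u⁻¹, u * q.snd * u⁻¹⟩ : Pair2 G) ∈
            MulAction.orbit ↥N (⟨z, a⟩ : Pair2 G) := by
        intro q hq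
        exact MulAction.mem_orbit_of_mem_orbit (⟨u, huN⟩ : ↥N) hq
      have hv_orb : ∀ q : Pair2 G, q ∈ MulAction.orbit ↥N (⟨z, a⟩ : Pair2 G) →
          (⟨v * q.fst * v⁻¹, v * q.snd * v⁻¹⟩ : Pair2 G) ∈
            MulAction.orbit ↥N (⟨z, a⟩ : Pair2 G) := by
        intro q hq
        exact MulAction.mem_orbit_of_mem_orbit (⟨v, hvN⟩ : ↥N) hq
      have o1 : (⟨z, a⟩ : Pair2 G) ∈ MulAction.orbit ↥N (⟨z, a⟩ : Pair2 G) :=
        MulAction.mem_orbit_self _
      have o2 : (⟨z, z * a⟩ : Pair2 G) ∈ MulAction.orbit ↥N (⟨z, a⟩ : Pair2 G) := by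
        have := hv_orb _ o1
        rwa [hvz, hva] at this
      have o3 : (⟨z * a, a⟩ : Pair2 G) ∈ MulAction.orbit ↥N (⟨z, a⟩ : Pair2 G) := by
        have := hu_orb _ o1
        rwa [huz, hua] at this
      have o4 : (⟨z * a, z⟩ : Pair2 G) ∈ MulAction.orbit ↥N (⟨z, a⟩ : Pair2 G) := by
        have := hu_orb _ o2
        rwa [huz, huza] at this
      have o5 : (⟨a, z * a⟩ : Pair2 G) ∈ MulAction.orbit ↥N (⟨z, a⟩ : Pair2 G) := by
        have := hv_orb _ o3
        rwa [hvza, hva] at this
      have o6 : (⟨a, z⟩ : Pair2 G) ∈ MulAction.orbit ↥N (⟨z, a⟩ : Pair2 G) := by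
        have := hu_orb _ o5
        rwa [hua, huza] at this
      rintro ⟨⟨p1, p2⟩, hp, rfl⟩
      rw [Finset.mem_coe, Finset.mem_offDiag] at hp
      simp only [Finset.mem_insert, Finset.mem_singleton] at hp
      obtain ⟨h1 | h1 | h1, h2 | h2 | h2, h3⟩ := hp
      · exact absurd (h1.trans h2.symm) h3
      · rw [show p1 = z from h1, show p2 = a from h2]; exact o1
      · rw [show p1 = z from h1, show p2 = z * a from h2]; exact o2
      · rw [show p1 = a from h1, show p2 = z from h2]; exact o6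
      · exact absurd (h1.trans h2.symm) h3
      · rw [show p1 = a from h1, show p2 = z * a from h2]; exact o5
      · rw [show p1 = z * a from h1, show p2 = z from h2]; exact o4
      · rw [show p1 = z * a from h1, show p2 = a from h2]; exact o3
      · exact absurd (h1.trans h2.symm) h3
  have hinjP : Function.Injective (fun q : G × G => (⟨q.1, q.2⟩ : Pair2 G)) := by
    intro q1 q2 h
    rw [Pair2.ext_iff'] at h
    exact Prod.ext h.1 h.2
  rw [horb, Set.ncard_image_of_injective _ hinjP, Set.ncard_coe_finset, Finset.offDiag_card]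
  have h3 : ({z, a, z * a} : Finset G).card = 3 := by
    rw [Finset.card_insert_of_notMem, Finset.card_insert_of_notMem, Finset.card_singleton]
    · simp only [Finset.mem_singleton]
      exact fun h => hzaa h.symm
    · simp only [Finset.mem_insert, Finset.mem_singleton]
      rintro (h | h)
      · exact haz h.symm
      · exact hzaz h.symm
  rw [h3]

/-- Extraction of the central involution of an extraspecial 2-subgroup. -/
theorem exists_central_involution [Finite G] (Q : Subgroup G) (hL1 : Cfsg.IsExtraspecial 2 ↥Q) :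
    ∃ z : G, ZQ Q z ∧ z ≠ 1 ∧ ∀ x, x ∈ (Subgroup.center ↥Q).map Q.subtype ↔ x = 1 ∨ x = z := by
  have hc2 : Nat.card (Subgroup.center ↥Q) = 2 := hL1.2
  obtain ⟨z0, hz0, -⟩ := (Nat.card_eq_two_iff' (1 : Subgroup.center ↥Q)).mp hc2
  have hzZ : ZQ Q (z0 : ↥Q).1 := (mem_center_map_iff Q _).mp ⟨z0.1, z0.2, rfl⟩
  have hz1 : (z0 : ↥Q).1 ≠ 1 := by
    intro h
    apply hz0
    apply Subtype.ext
    apply Subtype.ext
    simpa using h
  refine ⟨(z0 : ↥Q).1, hzZ, hz1, ?_⟩
  intro x
  rw [mem_center_map_iff]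
  constructor
  · intro hx
    by_cases h : x = 1
    · left; exact h
    · right; exact zq_unique Q hL1 hx hzZ h hz1
  · rintro (rfl | rfl)
    · exact zq_one Q
    · exact hzZ

theorem s5422_aux [Finite G] (Q : Subgroup G) (hL1 : Cfsg.IsExtraspecial 2 ↥Q)
    (hL2 : Subgroup.centralizer (Q : Set G) = ((Subgroup.center ↥Q).map Q.subtype))
    (hL3 : Subgroup.centralizer (((Subgroup.center ↥Q).map Q.subtype) : Set G) ≤
      Subgroup.normalizer (Q : Set G))
    (g : G) (hg : g ∉ Subgroup.normalizer (((Subgroup.center ↥Q).map Q.subtype) : Set G))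
    (hZg : (((Subgroup.center ↥Q).map Q.subtype)).map (MulAut.conj g).toMonoidHom ≤ Q) :
    ((Subgroup.center ↥Q).map Q.subtype) ≤ (Q).map (MulAut.conj g).toMonoidHom ∧
    (Subgroup.centralizer ((((Subgroup.center ↥Q).map Q.subtype) ⊔
      (((Subgroup.center ↥Q).map Q.subtype)).map (MulAut.conj g).toMonoidHom : Subgroup G) :
        Set G)).relIndex (Subgroup.normalizer ((((Subgroup.center ↥Q).map Q.subtype) ⊔
      (((Subgroup.center ↥Q).map Q.subtype)).map (MulAut.conj g).toMonoidHom : Subgroup G) :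
        Set G)) = 6 ∧ Cfsg.IsLargeExtraspecial Q := by
  obtain ⟨z, hzZ, hz1, hZm⟩ := exists_central_involution Q hL1
  set Zm := (Subgroup.center ↥Q).map Q.subtype with hZmdef
  have hzZm : z ∈ Zm := (hZm z).mpr (Or.inr rfl)
  have hC : Subgroup.centralizer (Q : Set G) ≤ Q := by
    rw [hL2]; exact Subgroup.map_subtype_le _
  have hcz : Subgroup.centralizer ({z} : Set G) ≤ Subgroup.centralizer (Zm : Set G) := by
    intro x hx
    rw [Subgroup.mem_centralizer_singleton_iff] at hx
    rw [Subgroup.mem_centralizer_iff]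
    intro y hy
    rcases (hZm y).mp hy with rfl | rfl
    · simp
    · exact hx.symm
  have hN : Subgroup.centralizer ({z} : Set G) ≤ Subgroup.normalizer (Q : Set G) :=
    hcz.trans hL3
  have hES : ES2 Q z := ES2.of_extraspecial Q hL1 z hzZ hz1 hC hN
  have ha : g * z * g⁻¹ ∈ Q := hZg (conj_mem_conj Zm g hzZm)
  have haz : g * z * g⁻¹ ≠ z := by
    intro h
    apply hg
    apply Subgroup.centralizer_le_normalizer
    apply hcz
    rw [Subgroup.mem_centralizer_singleton_iff]
    calc g * z = (g * z * g⁻¹) * g := by group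
      _ = z * g := by rw [h]
  have hP := hES.conj g
  have hzP : z ∈ Q.map (MulAut.conj g).toMonoidHom := les_sym hES g ha
  have ha1 : g * z * g⁻¹ ≠ 1 := hP.ne
  refine ⟨?_, ?_, hL1, hL2, hL3, fun K hodd hQK => hES.large g ha haz K hodd hQK⟩
  · intro x hx
    rcases (hZm x).mp hx with rfl | rfl
    · exact Subgroup.one_mem _
    · exact hzP
  · set a := g * z * g⁻¹ with hadef
    have hcomm : a * z = z * a := hES.cen a ha
    have hAm : ∀ x, x ∈ Zm.map (MulAut.conj g).toMonoidHom ↔ x = 1 ∨ x = a := by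
      intro x
      rw [mem_conj_iff, hZm]
      constructor
      · rintro (h | h)
        · left
          calc x = g * (g⁻¹ * x * g) * g⁻¹ := by group
            _ = 1 := by rw [h]; group
        · right
          calc x = g * (g⁻¹ * x * g) * g⁻¹ := by group
            _ = a := by rw [h]
      · rintro (rfl | rfl)
        · left; group
        · right; rw [hadef]; group
    have hAn : Zm.map (MulAut.conj g).toMonoidHom ≤ Subgroup.normalizer (Zm : Set G) := by
      intro x hx
      apply Subgroup.centralizer_le_normalizer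
      rw [Subgroup.mem_centralizer_iff]
      intro y hy
      rcases (hZm y).mp hy with rfl | rfl <;> rcases (hAm x).mp hx with rfl | rfl
      · simp
      · simp
      · simp
      · exact hcomm.symm
    have hV : ∀ x, x ∈ Zm ⊔ Zm.map (MulAut.conj g).toMonoidHom ↔
        x = 1 ∨ x = z ∨ x = a ∨ x = z * a := by
      intro x
      rw [Cfsg.Agent.Lib.helper8.mem_sup_iff_of_le_normalizer hAn]
      constructor
      · rintro ⟨n, hn, b, hb, rfl⟩
        rcases (hZm n).mp hn with rfl | rfl <;> rcases (hAm b).mp hb with rfl | rfl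
        · left; simp
        · right; right; left; simp
        · right; left; simp
        · right; right; right; rfl
      · rintro (h | h | h | h)
        · rw [h]; exact ⟨1, Subgroup.one_mem _, 1, Subgroup.one_mem _, by simp⟩
        · rw [h]; exact ⟨z, hzZm, 1, Subgroup.one_mem _, by simp⟩
        · rw [h]; exact ⟨1, Subgroup.one_mem _, a, (hAm a).mpr (Or.inr rfl), by simp⟩
        · rw [h]; exact ⟨z, hzZm, a, (hAm a).mpr (Or.inr rfl), rfl⟩
    obtain ⟨v, hvQ, hv⟩ := hES.exists_v ha ha1 haz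
    obtain ⟨u, huP, hu⟩ := hP.exists_v hzP hz1 (fun h => haz h.symm)
    have hvz : v * z * v⁻¹ = z := by
      calc v * z * v⁻¹ = (v * z) * v⁻¹ := by group
        _ = (z * v) * v⁻¹ := by rw [hES.cen v hvQ]
        _ = z := by group
    have hua : u * a * u⁻¹ = a := by
      calc u * a * u⁻¹ = (u * a) * u⁻¹ := by group
        _ = (a * u) * u⁻¹ := by rw [hP.cen u huP]
        _ = a := by group
    exact relIndex_six _ z a u v hV hz1 ha1 haz hES.sq hP.sq hcomm (by rw [hu, hcomm]) hua hvz hv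

end LES4

end Cfsg.Agent.Lib.helper14
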