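import Mathlib
import Cfsg.Prelude.Def_Transfer
import Cfsg.Prelude.Def_MonsterType
import Cfsg.Prelude.Def_Amalgam
import Cfsg.Agent.Lib.helper14.LES3
import Cfsg.Agent.Lib.helper14.LES4

set_option autoImplicit false

namespace Cfsg.Agent.Lib.helper14

universe u

section LES5

variable {G : Type u} [Group G]

theorem es2_pCoreOf [Finite G] (z : G) (hz : orderOf z = 2)
    (hE : Cfsg.IsExtraspecial 2 ↥(Cfsg.pCoreOf 2 (Subgroup.centralizer ({z} : Set G))))
    (hC : Subgroup.centralizer ((Cfsg.pCoreOf 2 (Subgroup.centralizer ({z} : Set G)) : Subgroup G) : Set G) ≤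
      Cfsg.pCoreOf 2 (Subgroup.centralizer ({z} : Set G))) :
    ES2 (Cfsg.pCoreOf 2 (Subgroup.centralizer ({z} : Set G))) z := by
  have hz1 : z ≠ 1 := by
    intro h
    rw [h, orderOf_one] at hz
    omega
  have hzQ : z ∈ Cfsg.pCoreOf 2 (Subgroup.centralizer ({z} : Set G)) := by
    have h1 : Subgroup.zpowers z ≤ Subgroup.centralizer ({z} : Set G) := by
      rw [Subgroup.zpowers_le, Subgroup.mem_centralizer_singleton_iff]
    have h2 : IsPGroup 2 (Subgroup.zpowers z) := by
      apply IsPGroup.of_card (n := 1)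
      rw [Nat.card_zpowers, hz, pow_one]
    have h3 : Subgroup.centralizer ({z} : Set G) ≤ Subgroup.normalizer (Subgroup.zpowers z : Set G) := by
      apply Cfsg.Agent.Lib.helper8.le_normalizer_of_conj_mem
      intro c hc n hn
      rw [Subgroup.mem_centralizer_singleton_iff] at hc
      obtain ⟨k, rfl⟩ := Subgroup.mem_zpowers_iff.mp hn
      have hcz : Commute c (z ^ k) := Commute.zpow_right hc k
      have : c * z ^ k * c⁻¹ = z ^ k := by rw [hcz.eq]; group
      rw [this]; exact hn
    exact le_pCoreOf _ _ h1 h2 h3 (Subgroup.mem_zpowers z)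
  have hZQ : ZQ (Cfsg.pCoreOf 2 (Subgroup.centralizer ({z} : Set G))) z := by
    refine ⟨hzQ, ?_⟩
    intro q hq
    obtain ⟨q', -, rfl⟩ := hq
    have := q'.2
    rw [Subgroup.mem_centralizer_singleton_iff] at this
    exact this
  exact ES2.of_extraspecial _ hE z hZQ hz1 hC (le_normalizer_pCoreOf 2 _)

/-- Abstract singular setting: a conjugation-compatible family `Q x` with `Q z` an `ES2`. -/
structure SingSet (Q : G → Subgroup G) (z : G) : Prop where
  es : ES2 (Q z) z
  conj : ∀ g x, Q (g * x * g⁻¹) = (Q x).map (MulAut.conj g).toMonoidHom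

theorem SingSet.of_hyp [Finite G] (Q : G → Subgroup G)
    (hQ : ∀ x : G, Q x = (Cfsg.pCore 2 ↥(Subgroup.centralizer ({x} : Set G))).map
      (Subgroup.centralizer ({x} : Set G)).subtype)
    (z : G) (hz : orderOf z = 2) (hE : Cfsg.IsExtraspecial 2 ↥(Q z))
    (hC : Subgroup.centralizer ((Q z : Subgroup G) : Set G) ≤ Q z) : SingSet Q z := by
  have h1 : ∀ x : G, Q x = Cfsg.pCoreOf 2 (Subgroup.centralizer ({x} : Set G)) := fun x => hQ x
  constructor
  · rw [h1] at hE hC ⊢
    exact es2_pCoreOf z hz hE hC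
  · intro g x
    rw [h1, h1, centralizer_conj_singleton, pCoreOf_map_equiv]

variable {Q : G → Subgroup G} {z : G}

theorem SingSet.es_of (S : SingSet Q z) {u : G} (hu : ∃ g, g * z * g⁻¹ = u) : ES2 (Q u) u := by
  obtain ⟨g, rfl⟩ := hu
  rw [S.conj]; exact S.es.conj g

theorem SingSet.sym (S : SingSet Q z) {u v : G} (hu : ∃ g, g * z * g⁻¹ = u)
    (hv : ∃ g, g * z * g⁻¹ = v) (hvu : v ∈ Q u) : u ∈ Q v := by
  have hES := S.es_of hu
  obtain ⟨g, rfl⟩ := hu
  obtain ⟨h, rfl⟩ := hv
  have e : h * z * h⁻¹ = (h * g⁻¹) * (g * z * g⁻¹) * (h * g⁻¹)⁻¹ := by group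
  rw [e] at hvu ⊢
  rw [S.conj (h * g⁻¹)]
  exact les_sym hES (h * g⁻¹) hvu

theorem SingSet.inter_le (S : SingSet Q z) {u v : G} (hu : ∃ g, g * z * g⁻¹ = u)
    (hv : ∃ g, g * z * g⁻¹ = v) (hvu : v ∈ Q u) (hne : v ≠ u) : Q u ⊓ Q v ≤ Q (u * v) := by
  have hES := S.es_of hu
  have hESv := S.es_of hv
  obtain ⟨q, hq, hqv⟩ := hES.exists_v hvu hESv.ne hne
  have huv : ∃ g, g * z * g⁻¹ = u * v := by
    obtain ⟨h, rfl⟩ := hv
    refine ⟨q * h, ?_⟩
    rw [← hqv]; group
  have h1 : u ∈ Q (u * v) := S.sym hu huv (Subgroup.mul_mem _ hES.mem hvu)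
  have h2 : Q (u * v) = (Q v).map (MulAut.conj q).toMonoidHom := by
    rw [← hqv, S.conj]
  intro x hx
  have hx1 : x ∈ Q u := hx.1
  have hx2 : x ∈ Q v := hx.2
  have h3 : q * x * q⁻¹ ∈ Q (u * v) := by rw [h2]; exact conj_mem_conj _ q hx2
  rcases hES.comm q hq x hx1 with e | e
  · have : x = q * x * q⁻¹ := by
      calc x = (q * x * q⁻¹ * x⁻¹)⁻¹ * (q * x * q⁻¹) := by group
        _ = q * x * q⁻¹ := by rw [e]; group
    rw [this]; exact h3
  · have : x = u⁻¹ * (q * x * q⁻¹) := by
      calc x = (q * x * q⁻¹ * x⁻¹)⁻¹ * (q * x * q⁻¹) := by group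
        _ = u⁻¹ * (q * x * q⁻¹) := by rw [e]
    rw [this]; exact Subgroup.mul_mem _ (Subgroup.inv_mem _ h1) h3

theorem s5598_aux (S : SingSet Q z) (U : Subgroup G) (hU2 : ∀ u ∈ U, u * u = 1)
    (hS : ∀ u ∈ U, u ≠ 1 → ∃ g : G, g * z * g⁻¹ = u)
    (hO : ∀ u ∈ U, ∀ v ∈ U, u ≠ 1 → v ≠ 1 → v ∈ Q u)
    (T : Set G) (hT : Subgroup.closure T = U) (hT1 : (1 : G) ∉ T) :
    (⨅ u ∈ ((U : Set G) \ {1}), Q u) = ⨅ t ∈ T, Q t := by
  apply le_antisymm
  · apply le_iInf₂
    intro t ht
    have htU : t ∈ U := by rw [← hT]; exact Subgroup.subset_closure ht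
    have ht1 : t ≠ 1 := fun h => hT1 (h ▸ ht)
    exact iInf₂_le t ⟨htU, ht1⟩
  · apply le_iInf₂
    intro u hu
    have key : ∀ w ∈ Subgroup.closure T, w = 1 ∨ (⨅ t ∈ T, Q t) ≤ Q w := by
      intro w hw
      induction hw using Subgroup.closure_induction with
      | mem t ht => right; exact iInf₂_le t ht
      | one => left; rfl
      | mul x y hx hy ihx ihy =>
        rw [hT] at hx hy
        by_cases hx1 : x = 1
        · rw [hx1, one_mul]; exact ihy
        by_cases hy1 : y = 1
        · rw [hy1, mul_one]; exact ihx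
        by_cases hxy : y = x
        · left; rw [hxy]; exact hU2 x hx
        right
        have ihx' := ihx.resolve_left hx1
        have ihy' := ihy.resolve_left hy1
        exact (le_inf ihx' ihy').trans
          (S.inter_le (hS x hx hx1) (hS y hy hy1) (hO x hx y hy hx1 hy1) hxy)
      | inv x hx ih =>
        rw [hT] at hx
        have : x⁻¹ = x := inv_eq_of_mul_eq_one_left (hU2 x hx)
        rw [this]; exact ih
    rcases key u (by rw [hT]; exact hu.1) with h | h
    · exact absurd (Set.mem_singleton_iff.mpr h) hu.2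
    · exact h

/-- Double centralizer property in an extraspecial 2-group (generator form). -/
theorem ES2.double_cent {Q : Subgroup G} {z : G} (hQ : ES2 Q z) (L : Finset G) :
    (∀ y ∈ L, y ∈ Q) → ∀ x ∈ Q, (∀ a ∈ Q, (∀ y ∈ L, a * y = y * a) → a * x = x * a) →
      x ∈ Subgroup.closure (insert z (L : Set G)) := by
  classical
  induction L using Finset.induction_on with
  | empty =>
    intro _ x hx h
    have h1 : ∀ a ∈ Q, a * x = x * a := fun a ha => h a ha (by simp)
    rcases hQ.zen x hx h1 with e | e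
    · rw [e]; exact Subgroup.one_mem _
    · rw [e]; exact Subgroup.subset_closure (by simp)
  | insert y L hyL ih =>
    intro hLQ x hx h
    have hyQ : y ∈ Q := hLQ y (Finset.mem_insert_self y L)
    have hLQ' : ∀ y' ∈ L, y' ∈ Q := fun y' hy' => hLQ y' (Finset.mem_insert_of_mem hy')
    have hmono : Subgroup.closure (insert z (L : Set G)) ≤
        Subgroup.closure (insert z ((insert y L : Finset G) : Set G)) := by
      apply Subgroup.closure_mono
      intro w hw
      rcases hw with rfl | hw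
      · exact Set.mem_insert _ _
      · right
        rw [Finset.mem_coe] at hw ⊢
        exact Finset.mem_insert_of_mem hw
    have hyC : y ∈ Subgroup.closure (insert z ((insert y L : Finset G) : Set G)) :=
      Subgroup.subset_closure (by simp)
    by_cases hall : ∀ a ∈ Q, (∀ y' ∈ L, a * y' = y' * a) → a * y = y * a
    · apply hmono
      apply ih hLQ' x hx
      intro a ha haL
      apply h a ha
      intro y' hy'
      rcases Finset.mem_insert.mp hy' with rfl | hy'
      · exact hall a ha haL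
      · exact haL y' hy'
    · push Not at hall
      obtain ⟨a₀, ha₀, ha₀L, ha₀y⟩ := hall
      have hc0 : a₀ * y * a₀⁻¹ * y⁻¹ = z := by
        rcases hQ.comm a₀ ha₀ y hyQ with e | e
        · exfalso; apply ha₀y
          calc a₀ * y = (a₀ * y * a₀⁻¹ * y⁻¹) * y * a₀ := by group
            _ = y * a₀ := by rw [e]; group
        · exact e
      have red : ∀ w ∈ Q, (∀ a ∈ Q, (∀ y' ∈ insert y L, a * y' = y' * a) → a * w = w * a) →
          a₀ * w = w * a₀ → ∀ a ∈ Q, (∀ y' ∈ L, a * y' = y' * a) → a * w = w * a := by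
        intro w hw hw1 hw2 a ha haL
        rcases hQ.comm a ha y hyQ with e | e
        · have hay : a * y = y * a := by
            calc a * y = (a * y * a⁻¹ * y⁻¹) * y * a := by group
              _ = y * a := by rw [e]; group
          apply hw1 a ha
          intro y' hy'
          rcases Finset.mem_insert.mp hy' with rfl | hy'
          · exact hay
          · exact haL y' hy'
        · have h1 : (a₀⁻¹ * a) * y = y * (a₀⁻¹ * a) := by
            have e1 : a * y * a⁻¹ = a₀ * y * a₀⁻¹ := by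
              calc a * y * a⁻¹ = (a * y * a⁻¹ * y⁻¹) * y := by group
                _ = (a₀ * y * a₀⁻¹ * y⁻¹) * y := by rw [e, hc0]
                _ = a₀ * y * a₀⁻¹ := by group
            calc (a₀⁻¹ * a) * y = a₀⁻¹ * (a * y * a⁻¹) * a := by group
              _ = a₀⁻¹ * (a₀ * y * a₀⁻¹) * a := by rw [e1]
              _ = y * (a₀⁻¹ * a) := by group
          have h2 : (a₀⁻¹ * a) * w = w * (a₀⁻¹ * a) := by
            apply hw1 _ (Q.mul_mem (Q.inv_mem ha₀) ha)
            intro y' hy'
            rcases Finset.mem_insert.mp hy' with rfl | hy'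
            · exact h1
            · have e1 := ha₀L y' hy'
              have e2 := haL y' hy'
              calc (a₀⁻¹ * a) * y' = a₀⁻¹ * (a * y') := by group
                _ = a₀⁻¹ * (y' * a) := by rw [e2]
                _ = a₀⁻¹ * (y' * a₀) * a₀⁻¹ * a := by group
                _ = a₀⁻¹ * (a₀ * y') * a₀⁻¹ * a := by rw [e1]
                _ = y' * (a₀⁻¹ * a) := by group
          calc a * w = a₀ * ((a₀⁻¹ * a) * w) := by group
            _ = a₀ * (w * (a₀⁻¹ * a)) := by rw [h2]
            _ = (a₀ * w) * a₀⁻¹ * a := by group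
            _ = (w * a₀) * a₀⁻¹ * a := by rw [hw2]
            _ = w * a := by group
      by_cases hxa : a₀ * x = x * a₀
      · apply hmono
        exact ih hLQ' x hx (red x hx h hxa)
      · have hcx : a₀ * x * a₀⁻¹ * x⁻¹ = z := by
          rcases hQ.comm a₀ ha₀ x hx with e | e
          · exfalso; apply hxa
            calc a₀ * x = (a₀ * x * a₀⁻¹ * x⁻¹) * x * a₀ := by group
              _ = x * a₀ := by rw [e]; group
          · exact e
        have hx'Q : x * y⁻¹ ∈ Q := Q.mul_mem hx (Q.inv_mem hyQ)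
        have hx'1 : ∀ a ∈ Q, (∀ y' ∈ insert y L, a * y' = y' * a) →
            a * (x * y⁻¹) = (x * y⁻¹) * a := by
          intro a ha haL
          have e1 := h a ha haL
          have e2 := haL y (Finset.mem_insert_self y L)
          calc a * (x * y⁻¹) = (a * x) * y⁻¹ := by group
            _ = (x * a) * y⁻¹ := by rw [e1]
            _ = x * y⁻¹ * (y * a) * y⁻¹ := by group
            _ = x * y⁻¹ * (a * y) * y⁻¹ := by rw [e2]
            _ = (x * y⁻¹) * a := by group
        have hx'2 : a₀ * (x * y⁻¹) = (x * y⁻¹) * a₀ := by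
          have ex : a₀ * x * a₀⁻¹ = z * x := by
            calc a₀ * x * a₀⁻¹ = (a₀ * x * a₀⁻¹ * x⁻¹) * x := by group
              _ = z * x := by rw [hcx]
          have ey : a₀ * y * a₀⁻¹ = z * y := by
            calc a₀ * y * a₀⁻¹ = (a₀ * y * a₀⁻¹ * y⁻¹) * y := by group
              _ = z * y := by rw [hc0]
          have ez : z * (x * y⁻¹) = (x * y⁻¹) * z := (hQ.cen _ hx'Q).symm
          calc a₀ * (x * y⁻¹) = (a₀ * x * a₀⁻¹) * (a₀ * y * a₀⁻¹)⁻¹ * a₀ := by group
            _ = (z * x) * (z * y)⁻¹ * a₀ := by rw [ex, ey]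
            _ = (z * (x * y⁻¹)) * z⁻¹ * a₀ := by group
            _ = ((x * y⁻¹) * z) * z⁻¹ * a₀ := by rw [ez]
            _ = (x * y⁻¹) * a₀ := by group
        have h5 := ih hLQ' (x * y⁻¹) hx'Q (red _ hx'Q hx'1 hx'2)
        have e : x = (x * y⁻¹) * y := by group
        rw [e]
        exact Subgroup.mul_mem _ (hmono h5) hyC

/-- Double centralizer property, subgroup form. -/
theorem ES2.double_cent' [Finite G] {Q : Subgroup G} {z : G} (hQ : ES2 Q z) (U : Subgroup G)
    (hUQ : U ≤ Q) (hzU : z ∈ U) {x : G} (hx : x ∈ Q)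
    (h : ∀ a ∈ Q, (∀ y ∈ U, a * y = y * a) → a * x = x * a) : x ∈ U := by
  classical
  have hfin : (U : Set G).Finite := Set.toFinite _
  have h1 := hQ.double_cent hfin.toFinset (fun y hy => hUQ (by simpa using hy)) x hx
    (fun a ha hay => h a ha (fun y hy => hay y (by simpa using hy)))
  rw [Set.Finite.coe_toFinset, Set.insert_eq_of_mem (by exact hzU), Subgroup.closure_eq] at h1
  exact h1

theorem s5597_aux [Finite G] (S : SingSet Q z) (U : Subgroup G)
    (hS : ∀ u ∈ U, u ≠ 1 → ∃ g : G, g * z * g⁻¹ = u)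
    (hO : ∀ u ∈ U, ∀ v ∈ U, u ≠ 1 → v ≠ 1 → v ∈ Q u) :
    (∀ g ∈ (⨆ u ∈ ((U : Set G) \ {1}), Q u), ∀ x ∈ (⨅ u ∈ ((U : Set G) \ {1}), Q u),
      g * x * g⁻¹ * x⁻¹ ∈ U) ∧
    ∀ x ∈ (⨅ u ∈ ((U : Set G) \ {1}), Q u), x ∉ U → ∀ u ∈ U,
      ∃ g ∈ (⨆ u ∈ ((U : Set G) \ {1}), Q u) ⊓ Subgroup.centralizer (U : Set G),
        g * x * g⁻¹ = x * u := by
  have hUQu : ∀ u ∈ U, u ≠ 1 → U ≤ Q u := by
    intro u hu hu1 v hv
    by_cases hv1 : v = 1
    · rw [hv1]; exact Subgroup.one_mem _
    · exact hO u hu v hv hu1 hv1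
  have hQUle : ∀ u ∈ U, u ≠ 1 → (⨅ u ∈ ((U : Set G) \ {1}), Q u) ≤ Q u := fun u hu hu1 =>
    iInf₂_le u ⟨hu, hu1⟩
  have hleLU : ∀ u ∈ U, u ≠ 1 → Q u ≤ (⨆ u ∈ ((U : Set G) \ {1}), Q u) := fun u hu hu1 =>
    le_iSup₂ (f := fun u (_ : u ∈ ((U : Set G) \ {1})) => Q u) u ⟨hu, hu1⟩
  have hUQU : U ≤ (⨅ u ∈ ((U : Set G) \ {1}), Q u) := by
    apply le_iInf₂
    intro u hu
    exact hUQu u hu.1 hu.2
  constructor
  · -- the subgroup of elements acting trivially on QU / U
    let T : Subgroup G :=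
      { carrier := {g | ∀ x ∈ (⨅ u ∈ ((U : Set G) \ {1}), Q u),
          g * x * g⁻¹ * x⁻¹ ∈ U ∧ g⁻¹ * x * g * x⁻¹ ∈ U}
        one_mem' := by
          intro x _
          constructor
          · have : (1 : G) * x * 1⁻¹ * x⁻¹ = 1 := by group
            rw [this]; exact U.one_mem
          · have : (1 : G)⁻¹ * x * 1 * x⁻¹ = 1 := by group
            rw [this]; exact U.one_mem
        mul_mem' := by
          intro g h hg hh x hx
          constructor
          · have hc := (hh x hx).1
            have e : g * h * x * (g * h)⁻¹ * x⁻¹ =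
                (g * (h * x * h⁻¹ * x⁻¹) * g⁻¹ * (h * x * h⁻¹ * x⁻¹)⁻¹) * (h * x * h⁻¹ * x⁻¹) *
                  (g * x * g⁻¹ * x⁻¹) := by group
            rw [e]
            exact U.mul_mem (U.mul_mem (hg _ (hUQU hc)).1 hc) (hg x hx).1
          · have hd := (hg x hx).2
            have e : (g * h)⁻¹ * x * (g * h) * x⁻¹ =
                (h⁻¹ * (g⁻¹ * x * g * x⁻¹) * h * (g⁻¹ * x * g * x⁻¹)⁻¹) * (g⁻¹ * x * g * x⁻¹) *
                  (h⁻¹ * x * h * x⁻¹) := by group
            rw [e]
            exact U.mul_mem (U.mul_mem (hh _ (hUQU hd)).2 hd) (hh x hx).2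
        inv_mem' := by
          intro g hg x hx
          constructor
          · have := (hg x hx).2
            rwa [inv_inv]
          · have := (hg x hx).1
            rwa [inv_inv] }
    have hLT : (⨆ u ∈ ((U : Set G) \ {1}), Q u) ≤ T := by
      apply iSup₂_le
      intro u hu g hg x hx
      have hES := S.es_of (hS u hu.1 hu.2)
      have hxQ : x ∈ Q u := hQUle u hu.1 hu.2 hx
      have huU : u ∈ U := hu.1
      constructor
      · rcases hES.comm g hg x hxQ with e | e
        · rw [e]; exact U.one_mem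
        · rw [e]; exact huU
      · have := hES.comm g⁻¹ (Subgroup.inv_mem _ hg) x hxQ
        rw [inv_inv] at this
        rcases this with e | e
        · rw [e]; exact U.one_mem
        · rw [e]; exact huU
    intro g hg x hx
    exact (hLT hg x hx).1
  · intro x hx hxU u hu
    by_cases hu1 : u = 1
    · refine ⟨1, Subgroup.one_mem _, ?_⟩
      rw [hu1]; group
    · have hES := S.es_of (hS u hu hu1)
      have hxQ : x ∈ Q u := hQUle u hu hu1 hx
      have hex : ∃ a ∈ Q u, (∀ y ∈ U, a * y = y * a) ∧ a * x ≠ x * a := by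
        by_contra hcon
        push Not at hcon
        exact hxU (hES.double_cent' U (hUQu u hu hu1) hu hxQ hcon)
      obtain ⟨a, ha, haU, hax⟩ := hex
      refine ⟨a, Subgroup.mem_inf.mpr ⟨hleLU u hu hu1 ha, ?_⟩, ?_⟩
      · rw [Subgroup.mem_centralizer_iff]
        intro y hy
        exact (haU y hy).symm
      · rcases hES.comm a ha x hxQ with e | e
        · exfalso; apply hax
          calc a * x = (a * x * a⁻¹ * x⁻¹) * x * a := by group
            _ = x * a := by rw [e]; group
        · calc a * x * a⁻¹ = (a * x * a⁻¹ * x⁻¹) * x := by group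
            _ = u * x := by rw [e]
            _ = x * u := (hES.cen x hxQ).symm

end LES5

end Cfsg.Agent.Lib.helper14
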