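import Mathlib
import Cfsg.Prelude.Def_Transfer
import Cfsg.Prelude.Def_MonsterType
import Cfsg.Prelude.Def_Amalgam
import Cfsg.Agent.Lib.helper14.LES5

set_option autoImplicit false

namespace Cfsg.Agent.Lib.helper14

open Cfsg.Agent.Lib.helper8

universe u

section LES6

variable {G : Type u} [Group G]

theorem mem_zpowers_of_sq {w : G} (hw : w * w = 1) (a : G) :
    a ∈ Subgroup.zpowers w ↔ a = 1 ∨ a = w := by
  constructor
  · intro h
    obtain ⟨k, rfl⟩ := Subgroup.mem_zpowers_iff.mp h
    have hw2 : w ^ (2 : ℤ) = 1 := by rw [zpow_two]; exact hw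
    rcases Int.even_or_odd' k with ⟨m, rfl | rfl⟩
    · left; rw [zpow_mul, hw2, one_zpow]
    · right; rw [zpow_add, zpow_mul, hw2, one_zpow, one_mul, zpow_one]
  · rintro (rfl | rfl)
    · exact Subgroup.one_mem _
    · exact Subgroup.mem_zpowers _

theorem comm_of_sq (U : Subgroup G) (hU2 : ∀ u ∈ U, u * u = 1) :
    ∀ x ∈ U, ∀ y ∈ U, x * y = y * x := by
  intro x hx y hy
  have e1 := hU2 x hx
  have e2 := hU2 y hy
  have e3 := hU2 (x * y) (U.mul_mem hx hy)
  symm
  calc y * x = y * x * ((x * y) * (x * y)) := by rw [e3, mul_one]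
    _ = y * (x * x) * y * x * y := by group
    _ = (y * y) * x * y := by rw [e1]; group
    _ = x * y := by rw [e2, one_mul]

variable {Q : G → Subgroup G} {z : G}

theorem s5596_aux [Finite G] (S : SingSet Q z) (U : Subgroup G) (hU2 : ∀ u ∈ U, u * u = 1)
    (hS : ∀ u ∈ U, u ≠ 1 → ∃ g : G, g * z * g⁻¹ = u)
    (hO : ∀ u ∈ U, ∀ v ∈ U, u ≠ 1 → v ≠ 1 → v ∈ Q u)
    (hne : ∃ u ∈ U, u ≠ 1) :
    U ≤ (⨅ u ∈ ((U : Set G) \ {1}), Q u) ∧
    (⨅ u ∈ ((U : Set G) \ {1}), Q u) ≤ (⨆ u ∈ ((U : Set G) \ {1}), Q u) ∧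
    (⨆ u ∈ ((U : Set G) \ {1}), Q u) ≤ Subgroup.normalizer (U : Set G) ∧
      ∀ φ : ↥U ≃* ↥U, ∃ g ∈ (⨆ u ∈ ((U : Set G) \ {1}), Q u),
        ∀ u : ↥U, g * (u : G) * g⁻¹ = ((φ u : ↥U) : G) := by
  have hcommU := comm_of_sq U hU2
  have hUQu : ∀ u ∈ U, u ≠ 1 → U ≤ Q u := by
    intro u hu hu1 v hv
    by_cases hv1 : v = 1
    · rw [hv1]; exact Subgroup.one_mem _
    · exact hO u hu v hv hu1 hv1
  have hQUle : ∀ u ∈ U, u ≠ 1 → (⨅ u ∈ ((U : Set G) \ {1}), Q u) ≤ Q u := fun u hu hu1 =>
    iInf₂_le u ⟨hu, hu1⟩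
  have hleLU : ∀ u ∈ U, u ≠ 1 → Q u ≤ (⨆ u ∈ ((U : Set G) \ {1}), Q u) := fun u hu hu1 =>
    le_iSup₂ (f := fun u (_ : u ∈ ((U : Set G) \ {1})) => Q u) u ⟨hu, hu1⟩
  have hUQU : U ≤ (⨅ u ∈ ((U : Set G) \ {1}), Q u) := by
    apply le_iInf₂
    intro u hu
    exact hUQu u hu.1 hu.2
  have hLN : (⨆ u ∈ ((U : Set G) \ {1}), Q u) ≤ Subgroup.normalizer (U : Set G) := by
    apply iSup₂_le
    intro u hu
    have hES := S.es_of (hS u hu.1 hu.2)
    apply le_normalizer_of_conj_mem
    intro q hq x hx
    have hxQ : x ∈ Q u := hUQu u hu.1 hu.2 hx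
    have e : q * x * q⁻¹ = (q * x * q⁻¹ * x⁻¹) * x := by group
    rw [e]
    rcases hES.comm q hq x hxQ with h | h
    · rw [h, one_mul]; exact hx
    · rw [h]; exact U.mul_mem hu.1 hx
  refine ⟨hUQU, ?_, hLN, ?_⟩
  · obtain ⟨u, hu, hu1⟩ := hne
    exact (hQUle u hu hu1).trans (hleLU u hu hu1)
  intro φ
  classical
  have key : ∀ L : Finset G, (∀ y ∈ L, y ∈ U) → ∃ g ∈ (⨆ u ∈ ((U : Set G) \ {1}), Q u),
      ∀ y ∈ L, ∀ hy : y ∈ U, g * y * g⁻¹ = ((φ ⟨y, hy⟩ : ↥U) : G) := by
    intro L
    induction L using Finset.induction_on with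
    | empty => intro _; exact ⟨1, Subgroup.one_mem _, by simp⟩
    | insert y L hyL ih =>
      intro hLU
      have hyU : y ∈ U := hLU y (Finset.mem_insert_self y L)
      have hLU' : ∀ y' ∈ L, y' ∈ U := fun y' hy' => hLU y' (Finset.mem_insert_of_mem hy')
      obtain ⟨g', hg', hg'L⟩ := ih hLU'
      have hLcl : Subgroup.closure (L : Set G) ≤ U := by
        rw [Subgroup.closure_le]
        intro t ht
        exact hLU' t ht
      have hW' : ∀ w ∈ Subgroup.closure (L : Set G), ∀ hw : w ∈ U,
          g' * w * g'⁻¹ = ((φ ⟨w, hw⟩ : ↥U) : G) := by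
        intro w hw
        induction hw using Subgroup.closure_induction with
        | mem t ht => intro hw; exact hg'L t ht hw
        | one =>
          intro hw
          have : (⟨1, hw⟩ : ↥U) = 1 := rfl
          rw [this, map_one]; simp
        | mul x y hx hy ihx ihy =>
          intro hw
          have hxU : x ∈ U := hLcl hx
          have hyU' : y ∈ U := hLcl hy
          have : (⟨x * y, hw⟩ : ↥U) = ⟨x, hxU⟩ * ⟨y, hyU'⟩ := rfl
          rw [this, map_mul, Subgroup.coe_mul, ← ihx hxU, ← ihy hyU']; group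
        | inv x hx ih =>
          intro hw
          have hxU : x ∈ U := hLcl hx
          have : (⟨x⁻¹, hw⟩ : ↥U) = (⟨x, hxU⟩)⁻¹ := rfl
          rw [this, map_inv, Subgroup.coe_inv, ← ih hxU]; group
      by_cases hyW : y ∈ Subgroup.closure (L : Set G)
      · refine ⟨g', hg', ?_⟩
        intro y'' hy'' hy''U
        rcases Finset.mem_insert.mp hy'' with h | h
        · subst h
          exact hW' _ hyW hy''U
        · exact hg'L y'' h hy''U
      · obtain ⟨y', hy'def⟩ : ∃ y', y' = g'⁻¹ * ((φ ⟨y, hyU⟩ : ↥U) : G) * g' := ⟨_, rfl⟩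
        have hy'U : y' ∈ U := by
          rw [hy'def]
          exact conj_mem_of_mem_normalizer' (hLN hg') (φ ⟨y, hyU⟩).2
        have hgy' : g' * y' * g'⁻¹ = ((φ ⟨y, hyU⟩ : ↥U) : G) := by rw [hy'def]; group
        have hy'W : y' ∉ Subgroup.closure (L : Set G) := by
          intro h
          have h1 := hW' y' h hy'U
          rw [hgy'] at h1
          have h2 : (⟨y, hyU⟩ : ↥U) = ⟨y', hy'U⟩ := φ.injective (Subtype.ext h1)
          have h3 : y = y' := congrArg Subtype.val h2
          exact hyW (h3 ▸ h)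
        by_cases hyy : y' = y
        · refine ⟨g', hg', ?_⟩
          intro y'' hy'' hy''U
          rcases Finset.mem_insert.mp hy'' with h | h
          · subst h
            rw [← hgy', hyy]
          · exact hg'L y'' h hy''U
        · have hy2 : y * y = 1 := hU2 y hyU
          have hyinv : y⁻¹ = y := inv_eq_of_mul_eq_one_left hy2
          obtain ⟨w, hwdef⟩ : ∃ w, w = y * y' := ⟨_, rfl⟩
          have hwU : w ∈ U := by rw [hwdef]; exact U.mul_mem hyU hy'U
          have hw1 : w ≠ 1 := by
            intro h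
            apply hyy
            calc y' = y⁻¹ * (y * y') := by group
              _ = y := by rw [← hwdef, h, mul_one, hyinv]
          have hES := S.es_of (hS w hwU hw1)
          have hUQw := hUQu w hwU hw1
          have hyW'' : y ∉ Subgroup.closure (insert w (L : Set G)) := by
            intro h
            rw [Set.insert_eq, Subgroup.closure_union, ← Subgroup.zpowers_eq_closure, sup_comm] at h
            have hn : Subgroup.zpowers w ≤
                Subgroup.normalizer (Subgroup.closure (L : Set G) : Set G) := by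
              rw [Subgroup.zpowers_le]
              apply Subgroup.centralizer_le_normalizer
              rw [Subgroup.mem_centralizer_iff]
              intro t ht
              exact hcommU t (hLcl ht) w hwU
            obtain ⟨n, hn', a, ha, hyna⟩ := (mem_sup_iff_of_le_normalizer hn y).mp h
            rcases (mem_zpowers_of_sq (hU2 w hwU) a).mp ha with h1 | h1
            · apply hyW; rw [hyna, h1, mul_one]; exact hn'
            · apply hy'W
              have hnw : n * w = w * n := hcommU n (hLcl hn') w hwU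
              have : y' = n⁻¹ := by
                calc y' = y⁻¹ * (y * y') := by group
                  _ = (n * w)⁻¹ * w := by rw [← hwdef, hyna, h1]
                  _ = (w * n)⁻¹ * w := by rw [hnw]
                  _ = n⁻¹ := by group
              rw [this]; exact Subgroup.inv_mem _ hn'
          have hex : ∃ q ∈ Q w, (∀ t ∈ L, q * t = t * q) ∧ q * y ≠ y * q := by
            by_contra hcon
            push Not at hcon
            exact hyW'' (hES.double_cent L (fun t ht => hUQw (hLU' t ht)) y (hUQw hyU) hcon)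
          obtain ⟨q, hq, hqL, hqy⟩ := hex
          have hqy' : q * y * q⁻¹ = y' := by
            rcases hES.comm q hq y (hUQw hyU) with e | e
            · exfalso; apply hqy
              calc q * y = (q * y * q⁻¹ * y⁻¹) * y * q := by group
                _ = y * q := by rw [e]; group
            · have hyy' : y * y' = y' * y := hcommU y hyU y' hy'U
              calc q * y * q⁻¹ = (q * y * q⁻¹ * y⁻¹) * y := by group
                _ = (y * y') * y := by rw [e, hwdef]
                _ = (y' * y) * y := by rw [hyy']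
                _ = y' * (y * y) := by group
                _ = y' := by rw [hy2, mul_one]
          refine ⟨g' * q, Subgroup.mul_mem _ hg' (hleLU w hwU hw1 hq), ?_⟩
          intro y'' hy'' hy''U
          rcases Finset.mem_insert.mp hy'' with h | h
          · subst h
            calc g' * q * y'' * (g' * q)⁻¹ = g' * (q * y'' * q⁻¹) * g'⁻¹ := by group
              _ = g' * y' * g'⁻¹ := by rw [hqy']
              _ = _ := hgy'
          · have e := hqL y'' h
            calc g' * q * y'' * (g' * q)⁻¹ = g' * (q * y'') * q⁻¹ * g'⁻¹ := by group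
              _ = g' * (y'' * q) * q⁻¹ * g'⁻¹ := by rw [e]
              _ = g' * y'' * g'⁻¹ := by group
              _ = _ := hg'L y'' h hy''U
  have hfin : (U : Set G).Finite := Set.toFinite _
  obtain ⟨g, hg, hgL⟩ := key hfin.toFinset (fun y hy => by simpa using hy)
  refine ⟨g, hg, ?_⟩
  intro u
  exact hgL u.1 (by simp) u.2

end LES6

end Cfsg.Agent.Lib.helper14
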