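import Mathlib
import Cfsg.Agent.Lib.helper14.FFStruct4
import Cfsg.Agent.Lib.helper3.Thompson
import Cfsg.Agent.Lib.helper3.Normalizer

/-!
# Linear groups over `𝔽_p` as subgroups of a semidirect product (library, helper14)

Translation of a linear action `ρ : H →* (V ≃ₗ[ZMod p] V)` into the internal language of the
failure-of-factorization library: the semidirect product `V ⋊ H`.
-/

set_option autoImplicit false
set_option linter.style.haveILetI false
set_option linter.unusedVariables false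
set_option linter.unusedSectionVars false

namespace Cfsg.Agent.Lib.helper14

open scoped commutatorElement

namespace LinSD

variable {p : ℕ} {V : Type*} [AddCommGroup V] [Module (ZMod p) V] {H : Type*} [Group H]

/-- the action of `H` on `Multiplicative V` induced by a linear representation -/
abbrev act (ρ : H →* (V ≃ₗ[ZMod p] V)) : H →* MulAut (Multiplicative V) :=
  (MulAutMultiplicative V).symm.toMonoidHom.comp
    ((DistribMulAction.toAddAut (V ≃ₗ[ZMod p] V) V).comp ρ)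

theorem act_apply (ρ : H →* (V ≃ₗ[ZMod p] V)) (h : H) (v : V) :
    act ρ h (Multiplicative.ofAdd v) = Multiplicative.ofAdd (ρ h v) := rfl

/-- the semidirect product `V ⋊ H` -/
abbrev SD (ρ : H →* (V ≃ₗ[ZMod p] V)) := Multiplicative V ⋊[act ρ] H

/-- the element of `V ⋊ H` given by a vector -/
def vec (ρ : H →* (V ≃ₗ[ZMod p] V)) (v : V) : SD ρ :=
  (SemidirectProduct.inl : Multiplicative V →* SD ρ) (Multiplicative.ofAdd v)

/-- the element of `V ⋊ H` given by a group element -/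
def elt (ρ : H →* (V ≃ₗ[ZMod p] V)) (h : H) : SD ρ :=
  (SemidirectProduct.inr : H →* SD ρ) h

/-- the normal subgroup `V` -/
def sdV (ρ : H →* (V ≃ₗ[ZMod p] V)) : Subgroup (SD ρ) :=
  (SemidirectProduct.inl : Multiplicative V →* SD ρ).range

/-- the complement `H` -/
def sdH (ρ : H →* (V ≃ₗ[ZMod p] V)) : Subgroup (SD ρ) :=
  (SemidirectProduct.inr : H →* SD ρ).range

theorem vec_add (ρ : H →* (V ≃ₗ[ZMod p] V)) (v w : V) : vec ρ (v + w) = vec ρ v * vec ρ w := by
  unfold vec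
  rw [← map_mul]; rfl

theorem vec_zero (ρ : H →* (V ≃ₗ[ZMod p] V)) : vec ρ 0 = 1 := by
  unfold vec
  rw [ofAdd_zero, map_one]

theorem vec_neg (ρ : H →* (V ≃ₗ[ZMod p] V)) (v : V) : vec ρ (-v) = (vec ρ v)⁻¹ := by
  unfold vec
  rw [← map_inv]; rfl

theorem vec_injective (ρ : H →* (V ≃ₗ[ZMod p] V)) : Function.Injective (vec ρ) := by
  intro v w h
  exact Multiplicative.ofAdd.injective (SemidirectProduct.inl_injective h)

theorem elt_injective (ρ : H →* (V ≃ₗ[ZMod p] V)) : Function.Injective (elt ρ) :=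
  SemidirectProduct.inr_injective

theorem elt_mul (ρ : H →* (V ≃ₗ[ZMod p] V)) (a b : H) : elt ρ (a * b) = elt ρ a * elt ρ b :=
  map_mul _ a b

theorem elt_inv (ρ : H →* (V ≃ₗ[ZMod p] V)) (a : H) : elt ρ a⁻¹ = (elt ρ a)⁻¹ :=
  map_inv _ a

theorem elt_pow (ρ : H →* (V ≃ₗ[ZMod p] V)) (a : H) (n : ℕ) : elt ρ (a ^ n) = (elt ρ a) ^ n :=
  map_pow _ a n

theorem elt_one (ρ : H →* (V ≃ₗ[ZMod p] V)) : elt ρ 1 = 1 := map_one _

theorem mem_sdV (ρ : H →* (V ≃ₗ[ZMod p] V)) (x : SD ρ) : x ∈ sdV ρ ↔ ∃ v, vec ρ v = x := by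
  constructor
  · rintro ⟨y, rfl⟩
    exact ⟨Multiplicative.toAdd y, rfl⟩
  · rintro ⟨v, rfl⟩
    exact ⟨Multiplicative.ofAdd v, rfl⟩

theorem mem_sdH (ρ : H →* (V ≃ₗ[ZMod p] V)) (x : SD ρ) : x ∈ sdH ρ ↔ ∃ h, elt ρ h = x := Iff.rfl

theorem vec_mem (ρ : H →* (V ≃ₗ[ZMod p] V)) (v : V) : vec ρ v ∈ sdV ρ := ⟨_, rfl⟩

theorem elt_mem (ρ : H →* (V ≃ₗ[ZMod p] V)) (h : H) : elt ρ h ∈ sdH ρ := ⟨_, rfl⟩

theorem conj_vec (ρ : H →* (V ≃ₗ[ZMod p] V)) (h : H) (v : V) :
    elt ρ h * vec ρ v * (elt ρ h)⁻¹ = vec ρ (ρ h v) := by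
  unfold elt vec
  rw [← map_inv, ← SemidirectProduct.inl_aut, act_apply]

instance sdV_normal (ρ : H →* (V ≃ₗ[ZMod p] V)) : (sdV ρ).Normal := by
  unfold sdV
  rw [SemidirectProduct.range_inl_eq_ker_rightHom]
  infer_instance

theorem sdV_elemAb (ρ : H →* (V ≃ₗ[ZMod p] V)) : Cfsg.IsElementaryAbelian p (sdV ρ) := by
  rw [Cfsg.Agent.Lib.helper3.isEA_iff]
  constructor
  · intro a ha b hb
    obtain ⟨v, rfl⟩ := (mem_sdV ρ a).mp ha
    obtain ⟨w, rfl⟩ := (mem_sdV ρ b).mp hb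
    rw [← vec_add, ← vec_add, add_comm]
  · intro a ha
    obtain ⟨v, rfl⟩ := (mem_sdV ρ a).mp ha
    unfold vec
    rw [← map_pow, ← ofAdd_nsmul, ZModModule.char_nsmul_eq_zero p v, ofAdd_zero, map_one]

theorem card_sdV (ρ : H →* (V ≃ₗ[ZMod p] V)) : Nat.card (sdV ρ) = Nat.card V := by
  have e1 : Nat.card (sdV ρ) = Nat.card (Multiplicative V) :=
    (Nat.card_congr (MonoidHom.ofInjective
      (f := (SemidirectProduct.inl : Multiplicative V →* SD ρ))
      SemidirectProduct.inl_injective).toEquiv).symm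
  rw [e1]
  exact Nat.card_congr Multiplicative.toAdd

instance sd_finite [Finite V] [Finite H] (ρ : H →* (V ≃ₗ[ZMod p] V)) : Finite (SD ρ) :=
  Finite.of_equiv _ (SemidirectProduct.equivProd (φ := act ρ)).symm

theorem faithful (ρ : H →* (V ≃ₗ[ZMod p] V)) (hρ : Function.Injective ρ) :
    sdH ρ ⊓ Subgroup.centralizer (sdV ρ : Set (SD ρ)) = ⊥ := by
  rw [eq_bot_iff]
  rintro x ⟨hx1, hx2⟩
  obtain ⟨h, rfl⟩ := (mem_sdH ρ x).mp hx1
  rw [Subgroup.mem_bot]
  have h1 : ρ h = 1 := by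
    ext v
    have h2 := (Subgroup.mem_centralizer_iff.mp hx2) (vec ρ v) (vec_mem ρ v)
    have h3 : elt ρ h * vec ρ v * (elt ρ h)⁻¹ = vec ρ v := by rw [← h2]; group
    rw [conj_vec] at h3
    exact vec_injective ρ h3
  have h4 : h = 1 := hρ (by rw [h1, map_one])
  rw [h4, elt_one]

/-- the image of the subspace `(ρ h - 1) V` in `V ⋊ H` -/
def rangeSub (ρ : H →* (V ≃ₗ[ZMod p] V)) (h : H) : Subgroup (SD ρ) where
  carrier := {x | ∃ w ∈ LinearMap.range (((ρ h : V ≃ₗ[ZMod p] V) : V →ₗ[ZMod p] V) - LinearMap.id),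
    vec ρ w = x}
  mul_mem' := by
    rintro _ _ ⟨w1, hw1, rfl⟩ ⟨w2, hw2, rfl⟩
    exact ⟨w1 + w2, Submodule.add_mem _ hw1 hw2, vec_add ρ w1 w2⟩
  one_mem' := ⟨0, Submodule.zero_mem _, vec_zero ρ⟩
  inv_mem' := by
    rintro _ ⟨w, hw, rfl⟩
    exact ⟨-w, Submodule.neg_mem _ hw, vec_neg ρ w⟩

theorem card_rangeSub (ρ : H →* (V ≃ₗ[ZMod p] V)) (h : H) :
    Nat.card (rangeSub ρ h) =
      Nat.card (LinearMap.range (((ρ h : V ≃ₗ[ZMod p] V) : V →ₗ[ZMod p] V) - LinearMap.id)) := by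
  symm
  apply Nat.card_congr
  refine Equiv.ofBijective (fun w => ⟨vec ρ w.1, ⟨w.1, w.2, rfl⟩⟩) ⟨?_, ?_⟩
  · intro a b hab
    exact Subtype.ext (vec_injective ρ (congrArg Subtype.val hab))
  · rintro ⟨_, ⟨w, hw, rfl⟩⟩
    exact ⟨⟨w, hw⟩, rfl⟩

theorem commutator_eq_rangeSub (ρ : H →* (V ≃ₗ[ZMod p] V)) (h : H) :
    ⁅sdV ρ, Subgroup.zpowers (elt ρ h)⁆ = rangeSub ρ h := by
  set M := LinearMap.range (((ρ h : V ≃ₗ[ZMod p] V) : V →ₗ[ZMod p] V) - LinearMap.id) with hM
  -- the subgroup of elements acting trivially modulo `M`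
  let K : Subgroup H :=
    { carrier := {g | ∀ v, ρ g v - v ∈ M}
      mul_mem' := by
        intro a b ha hb v
        have e : ρ (a * b) v - v = (ρ a (ρ b v) - ρ b v) + (ρ b v - v) := by
          rw [map_mul]; simp
        rw [e]
        exact Submodule.add_mem _ (ha _) (hb v)
      one_mem' := by
        intro v
        simp
      inv_mem' := by
        intro a ha v
        have e : ρ a⁻¹ v - v = -(ρ a (ρ a⁻¹ v) - ρ a⁻¹ v) := by
          have : ρ a (ρ a⁻¹ v) = v := by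
            rw [← LinearEquiv.mul_apply, ← map_mul, mul_inv_cancel, map_one]; rfl
          rw [this]; abel
        rw [e]
        exact Submodule.neg_mem _ (ha _) }
  have hK : Subgroup.zpowers h ≤ K := by
    rw [Subgroup.zpowers_le]
    intro v
    exact ⟨v, by simp⟩
  apply le_antisymm
  · rw [Subgroup.commutator_le]
    intro x hx y hy
    obtain ⟨v, rfl⟩ := (mem_sdV ρ x).mp hx
    obtain ⟨k, rfl⟩ := Subgroup.mem_zpowers_iff.mp hy
    have e1 : (elt ρ h) ^ k = elt ρ (h ^ k) := (map_zpow _ h k).symm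
    rw [e1]
    have e2 : ⁅vec ρ v, elt ρ (h ^ k)⁆ = vec ρ v * (elt ρ (h ^ k) * (vec ρ v)⁻¹ * (elt ρ (h ^ k))⁻¹) := by
      rw [commutatorElement_def]; group
    rw [e2, ← vec_neg, conj_vec, ← vec_add]
    refine ⟨_, ?_, rfl⟩
    have h1 := hK (Subgroup.zpow_mem_zpowers h k) v
    have e3 : v + ρ (h ^ k) (-v) = -(ρ (h ^ k) v - v) := by
      rw [map_neg]; abel
    rw [e3]
    exact Submodule.neg_mem _ h1
  · rintro _ ⟨w, ⟨v, rfl⟩, rfl⟩
    have e2 : ⁅vec ρ (-v), elt ρ h⁆ = vec ρ (-v) * (elt ρ h * (vec ρ (-v))⁻¹ * (elt ρ h)⁻¹) := by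
      rw [commutatorElement_def]; group
    have e3 : vec ρ ((((ρ h : V ≃ₗ[ZMod p] V) : V →ₗ[ZMod p] V) - LinearMap.id :
        V →ₗ[ZMod p] V) v) = ⁅vec ρ (-v), elt ρ h⁆ := by
      rw [e2, ← vec_neg, conj_vec, ← vec_add]
      congr 1
      rw [neg_neg, LinearMap.sub_apply, LinearMap.id_apply, LinearEquiv.coe_coe]
      abel
    rw [e3]
    exact Subgroup.commutator_mem_commutator (vec_mem ρ _) (Subgroup.mem_zpowers _)

/-- The failure-of-factorization setup attached to a faithful linear group with a normal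
self-centralizing `p'`-subgroup. -/
theorem ffSetup [Finite V] [Finite H] (ρ : H →* (V ≃ₗ[ZMod p] V)) (hρ : Function.Injective ρ)
    (Q : Subgroup H) [hQn : Q.Normal] (hQ : (Nat.card Q).Coprime p)
    (hsc : Subgroup.centralizer (Q : Set H) ≤ Q) :
    FFSetup p (sdV ρ) (sdH ρ) (Q.map (SemidirectProduct.inr : H →* SD ρ)) := by
  refine ⟨sdV_elemAb ρ, ?_, faithful ρ hρ, Subgroup.map_le_range _ _, ?_, ?_, ?_⟩
  · rw [Subgroup.normalizer_eq_top]; exact le_top
  · apply Cfsg.Agent.Lib.helper3.le_normalizer_of_conj_mem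
    rintro _ ⟨h, rfl⟩ _ ⟨q, hq, rfl⟩
    refine ⟨h * q * h⁻¹, hQn.conj_mem q hq h, ?_⟩
    rw [map_mul, map_mul, map_inv]
  · have e : Nat.card (Q.map (SemidirectProduct.inr : H →* SD ρ)) = Nat.card Q :=
      (Nat.card_congr (Q.equivMapOfInjective _ SemidirectProduct.inr_injective).toEquiv).symm
    rw [e]; exact hQ
  · rintro _ ⟨h, rfl⟩ hcomm
    refine ⟨h, hsc ?_, rfl⟩
    rw [Subgroup.mem_centralizer_iff]
    intro q hq
    have h1 := hcomm _ (Subgroup.mem_map_of_mem _ hq)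
    rw [← map_mul, ← map_mul] at h1
    exact SemidirectProduct.inr_injective h1

end LinSD

/-- An element of order dividing `4` normalizing a group of order `4` has its square centralizing
the group. -/
theorem sq_centralizes_of_card_four {G : Type*} [Group G] (W : Subgroup G) (hW : Nat.card W = 4)
    (g : G) (hg : g ∈ Subgroup.normalizer (W : Set G)) (hg4 : g ^ 4 = 1) :
    g ^ 2 ∈ Subgroup.centralizer (W : Set G) := by
  classical
  rw [Subgroup.mem_centralizer_iff]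
  intro w hw
  by_contra hne
  have hc : ∀ k : ℕ, g ^ k * w * (g ^ k)⁻¹ ∈ W := fun k =>
    (Subgroup.mem_normalizer_iff.mp (Subgroup.pow_mem _ hg k) w).mp hw
  have hcomm : ∀ d : ℕ, 0 < d → d < 4 → g ^ d * w = w * g ^ d → False := by
    intro d hd0 hd4 hd
    interval_cases d
    · apply hne
      have h1 : Commute g w := by rw [pow_one] at hd; exact hd
      exact (h1.pow_left 2).eq.symm
    · exact hne hd.symm
    · apply hne
      have e : g ^ 3 = g⁻¹ := by
        rw [eq_inv_iff_mul_eq_one, ← pow_succ]; exact hg4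
      rw [e] at hd
      have h1 : Commute g⁻¹ w := hd
      have h2 : Commute g w := by simpa using h1.inv_left
      exact (h2.pow_left 2).eq.symm
  have hw1 : w ≠ 1 := by
    rintro rfl
    exact hne (by simp)
  have hx1 : ∀ k : ℕ, g ^ k * w * (g ^ k)⁻¹ ≠ 1 := by
    intro k h
    apply hw1
    have : w = (g ^ k)⁻¹ * (g ^ k * w * (g ^ k)⁻¹) * g ^ k := by group
    rw [this, h]; group
  have hxx : ∀ i j : ℕ, i < j → j < 4 → g ^ i * w * (g ^ i)⁻¹ ≠ g ^ j * w * (g ^ j)⁻¹ := by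
    intro i j hij hj h
    apply hcomm (j - i) (by omega) (by omega)
    have e : g ^ j = g ^ i * g ^ (j - i) := by rw [← pow_add]; congr 1; omega
    rw [e] at h
    have h2 : w = g ^ (j - i) * w * (g ^ (j - i))⁻¹ := by
      have : g ^ (j - i) * w * (g ^ (j - i))⁻¹
          = (g ^ i)⁻¹ * (g ^ i * g ^ (j - i) * w * (g ^ i * g ^ (j - i))⁻¹) * g ^ i := by group
      rw [this, ← h]; group
    nth_rw 2 [h2]; group
  haveI : Finite W := Nat.finite_of_card_ne_zero (by omega)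
  let f : Fin 5 → ↥W := fun k =>
    if (k : ℕ) < 4 then ⟨g ^ (k : ℕ) * w * (g ^ (k : ℕ))⁻¹, hc k⟩ else 1
  have hf : Function.Injective f := by
    have key : ∀ a b : Fin 5, (a : ℕ) < b → f a ≠ f b := by
      intro a b hab h
      have ha4 : (a : ℕ) < 4 := by omega
      by_cases hb4 : (b : ℕ) < 4
      · simp only [f, ha4, hb4, if_true] at h
        exact hxx a b hab hb4 (congrArg Subtype.val h)
      · simp only [f, ha4, hb4, if_true, if_false] at h
        exact hx1 a (congrArg Subtype.val h)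
    intro a b hab
    by_contra hne'
    rcases lt_or_gt_of_ne (Fin.val_ne_of_ne hne') with h | h
    · exact key a b h hab
    · exact key b a h hab.symm
  have h5 := Nat.card_le_card_of_injective f hf
  rw [Nat.card_fin, hW] at h5
  omega

end Cfsg.Agent.Lib.helper14
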