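import Mathlib
import Cfsg.Agent.Lib.helper8.CoprimeAction
import Cfsg.Agent.Lib.helper3.Frattini
import Cfsg.Agent.Lib.helper1.PGroup

/-!
# Coprime action: Maschke for abelian groups, invariant Sylow subgroups (library, seat helper14)
-/

set_option autoImplicit false
set_option linter.style.haveILetI false
set_option linter.deprecated false

namespace Cfsg.Agent.Lib.helper14

/-- Maschke's theorem for a coprime action on a finite abelian group: an invariant subgroup with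
a complement has an invariant complement. -/
theorem maschke_comm {V A : Type*} [Group V] [Finite V] [Group A] [Finite A]
    (hcomm : ∀ x y : V, x * y = y * x)
    (φ : A →* MulAut V) (hcop : (Nat.card A).Coprime (Nat.card V)) (W K₀ : Subgroup V)
    (hW : ∀ a : A, ∀ w ∈ W, φ a w ∈ W) (h1 : W ⊓ K₀ = ⊥) (h2 : W ⊔ K₀ = ⊤) :
    ∃ K : Subgroup V, (∀ a : A, ∀ k ∈ K, φ a k ∈ K) ∧ W ⊓ K = ⊥ ∧ W ⊔ K = ⊤ := by
  classical
  letI : CommGroup V := { ‹Group V› with mul_comm := hcomm }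
  haveI : Fintype A := Fintype.ofFinite A
  have hex : ∀ v : V, ∃ w ∈ W, w⁻¹ * v ∈ K₀ := by
    intro v
    have hv : v ∈ W ⊔ K₀ := h2 ▸ Subgroup.mem_top v
    obtain ⟨w, hw, k, hk, rfl⟩ := Subgroup.mem_sup.mp hv
    exact ⟨w, hw, by simpa using hk⟩
  choose π hπW hπK using hex
  have huniq : ∀ v w, w ∈ W → w⁻¹ * v ∈ K₀ → w = π v := by
    intro v w hw hk
    have hmem : w⁻¹ * π v ∈ W ⊓ K₀ := by
      refine Subgroup.mem_inf.mpr ⟨W.mul_mem (W.inv_mem hw) (hπW v), ?_⟩
      have e : w⁻¹ * π v = (w⁻¹ * v) * ((π v)⁻¹ * v)⁻¹ := by group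
      rw [e]
      exact K₀.mul_mem hk (K₀.inv_mem (hπK v))
    rw [h1, Subgroup.mem_bot] at hmem
    exact inv_mul_eq_one.mp hmem
  have hπid : ∀ w ∈ W, π w = w := fun w hw => (huniq w w hw (by simp)).symm
  let πh : V →* V :=
    { toFun := π
      map_one' := (huniq 1 1 W.one_mem (by simp)).symm
      map_mul' := fun x y => by
        refine (huniq (x * y) (π x * π y) (W.mul_mem (hπW x) (hπW y)) ?_).symm
        have e : (π x * π y)⁻¹ * (x * y) = ((π x)⁻¹ * x) * ((π y)⁻¹ * y) := by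
          rw [mul_inv, mul_mul_mul_comm]
        rw [e]
        exact K₀.mul_mem (hπK x) (hπK y) }
  have hπh : ∀ v, πh v = π v := fun v => rfl
  let N : V →* V := ∏ a : A, ((φ a).toMonoidHom.comp (πh.comp (φ a⁻¹).toMonoidHom))
  have hN : ∀ v, N v = ∏ a : A, φ a (π (φ a⁻¹ v)) := by
    intro v
    simp only [N]
    rw [MonoidHom.finset_prod_apply]
    rfl
  have hcancel : ∀ (a : A) (v : V), φ a (φ a⁻¹ v) = v := by
    intro a v
    rw [← MulAut.mul_apply, ← map_mul, mul_inv_cancel, map_one, MulAut.one_apply]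
  have hNW : ∀ v, N v ∈ W := by
    intro v
    rw [hN]
    exact Subgroup.prod_mem W (fun a _ => hW a _ (hπW _))
  have hNw : ∀ w ∈ W, N w = w ^ Fintype.card A := by
    intro w hw
    rw [hN]
    have : ∀ a : A, φ a (π (φ a⁻¹ w)) = w := by
      intro a
      rw [hπid _ (hW a⁻¹ w hw), hcancel]
    simp only [this, Finset.prod_const, Finset.card_univ]
  have hNeq : ∀ (b : A) (v : V), N (φ b v) = φ b (N v) := by
    intro b v
    rw [hN, hN, map_prod]
    refine Fintype.prod_equiv (Equiv.mulLeft b⁻¹) _ _ (fun a => ?_)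
    simp only [Equiv.coe_mulLeft]
    have e1 : φ a⁻¹ (φ b v) = φ (b⁻¹ * a)⁻¹ v := by
      rw [← MulAut.mul_apply, ← map_mul]
      congr 2
      group
    have e2 : φ b (φ (b⁻¹ * a) (π (φ (b⁻¹ * a)⁻¹ v))) = φ a (π (φ (b⁻¹ * a)⁻¹ v)) := by
      rw [← MulAut.mul_apply, ← map_mul]
      congr 2
      group
    rw [e1, e2]
  have hcardA : Fintype.card A = Nat.card A := (Nat.card_eq_fintype_card).symm
  refine ⟨N.ker, ?_, ?_, ?_⟩
  · intro a k hk
    rw [MonoidHom.mem_ker] at hk ⊢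
    rw [hNeq, hk, map_one]
  · rw [eq_bot_iff]
    intro w hw
    obtain ⟨hw1, hw2⟩ := Subgroup.mem_inf.mp hw
    rw [MonoidHom.mem_ker, hNw w hw1] at hw2
    have hd1 : orderOf w ∣ Nat.card A := hcardA ▸ orderOf_dvd_of_pow_eq_one hw2
    have hd2 : orderOf w ∣ Nat.card V := orderOf_dvd_natCard w
    have : orderOf w = 1 := Nat.eq_one_of_dvd_coprimes hcop hd1 hd2
    rw [Subgroup.mem_bot]
    exact orderOf_eq_one_iff.mp this
  · rw [eq_top_iff]
    intro v _
    have hc : (Fintype.card A).Coprime (orderOf (N v)) := by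
      rw [hcardA]
      exact Nat.Coprime.coprime_dvd_right (orderOf_dvd_natCard _) hcop
    obtain ⟨m, hm⟩ := exists_pow_eq_self_of_coprime hc
    have hwW : (N v) ^ m ∈ W := W.pow_mem (hNW v) m
    have hNw' : N ((N v) ^ m) = N v := by
      rw [hNw _ hwW, ← pow_mul, mul_comm, pow_mul, hm]
    have hk : ((N v) ^ m)⁻¹ * v ∈ N.ker := by
      rw [MonoidHom.mem_ker, map_mul, map_inv, hNw', inv_mul_cancel]
    have : v = (N v) ^ m * (((N v) ^ m)⁻¹ * v) := by group
    rw [this]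
    exact Subgroup.mul_mem_sup hwW hk

/-- Under a coprime action there is an invariant subgroup of Sylow order for each prime. -/
theorem exists_invariant_sylow_card {A G : Type*} [Group A] [Finite A] [Group G] [Finite G]
    [MulDistribMulAction A G] (hcop : (Nat.card A).Coprime (Nat.card G))
    (hsol : Group.IsSolvable A ∨ Group.IsSolvable G) (r : ℕ) [Fact r.Prime] :
    ∃ P : Subgroup G, (∀ a : A, ∀ x ∈ P, a • x ∈ P) ∧
      Nat.card P = r ^ (Nat.card G).factorization r := by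
  classical
  obtain ⟨φ, hφ⟩ : ∃ φ : A →* MulAut G, φ = MulDistribMulAction.toMulAut A G := ⟨_, rfl⟩
  have hφa : ∀ (a : A) (x : G), φ a x = a • x := by
    intro a x; rw [hφ]; rfl
  obtain ⟨K, hK⟩ : ∃ K : Subgroup (G ⋊[φ] A), K = (SemidirectProduct.inl : G →* G ⋊[φ] A).range :=
    ⟨_, rfl⟩
  obtain ⟨B, hB⟩ : ∃ B : Subgroup (G ⋊[φ] A), B = (SemidirectProduct.inr : A →* G ⋊[φ] A).range :=
    ⟨_, rfl⟩
  haveI : Finite (G ⋊[φ] A) := Finite.of_equiv _ SemidirectProduct.equivProd.symm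
  have hKc : Nat.card K = Nat.card G := by
    rw [hK]
    exact (Nat.card_congr (MonoidHom.ofInjective SemidirectProduct.inl_injective).toEquiv).symm
  have hBc : Nat.card B = Nat.card A := by
    rw [hB]
    exact (Nat.card_congr (MonoidHom.ofInjective SemidirectProduct.inr_injective).toEquiv).symm
  haveI hKn : K.Normal := by
    rw [hK, SemidirectProduct.range_inl_eq_ker_rightHom]; infer_instance
  have hBK : B ≤ Subgroup.normalizer (K : Set (G ⋊[φ] A)) := by
    rw [Subgroup.normalizer_eq_top]; exact le_top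
  have hsolv : Group.IsSolvable ↥B ∨ Group.IsSolvable ↥K := by
    rcases hsol with h | h
    · left
      rw [hB]
      exact solvable_of_surjective (f := (SemidirectProduct.inr : A →* G ⋊[φ] A).rangeRestrict)
        (MonoidHom.rangeRestrict_surjective _)
    · right
      rw [hK]
      exact solvable_of_surjective (f := (SemidirectProduct.inl : G →* G ⋊[φ] A).rangeRestrict)
        (MonoidHom.rangeRestrict_surjective _)
  obtain ⟨P, hP⟩ := Cfsg.Agent.Lib.helper8.exists_invariant_sylow (p := r) B K hBK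
    (by rw [hBc, hKc]; exact hcop) hsolv
  refine ⟨((P : Subgroup K).map K.subtype).comap (SemidirectProduct.inl : G →* G ⋊[φ] A), ?_, ?_⟩
  · intro a x hx
    rw [Subgroup.mem_comap] at hx ⊢
    have e : ((SemidirectProduct.inl : G →* G ⋊[φ] A) (a • x) : G ⋊[φ] A) =
        (SemidirectProduct.inr : A →* G ⋊[φ] A) a * (SemidirectProduct.inl : G →* G ⋊[φ] A) x *
          ((SemidirectProduct.inr : A →* G ⋊[φ] A) a)⁻¹ := by
      have h := SemidirectProduct.inl_aut (φ := φ) a x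
      rw [hφa] at h
      rw [h, map_inv]
    rw [e]
    have haB : ((SemidirectProduct.inr : A →* G ⋊[φ] A) a : G ⋊[φ] A) ∈ B := by
      rw [hB]; exact ⟨a, rfl⟩
    exact (Subgroup.mem_normalizer_iff.mp (hP haB) _).mp hx
  · have hle : (P : Subgroup K).map K.subtype ≤ (SemidirectProduct.inl : G →* G ⋊[φ] A).range :=
      hK ▸ Subgroup.map_subtype_le _
    have hinj : Function.Injective (SemidirectProduct.inl : G →* G ⋊[φ] A) :=
      SemidirectProduct.inl_injective
    rw [← Subgroup.card_map_of_injective hinj,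
      Subgroup.map_comap_eq_self hle, Cfsg.Agent.Lib.helper8.card_sylow_map K P, hKc]


section MaxInv

open scoped Pointwise commutatorElement

variable {A G : Type*} [Group A] [Finite A] [Group G] [Finite G] [MulDistribMulAction A G]

omit [Finite A] [Finite G] in
theorem inv_sup_of_inv (L₁ L₂ : Subgroup G) (h1 : ∀ a : A, ∀ x ∈ L₁, a • x ∈ L₁)
    (h2 : ∀ a : A, ∀ x ∈ L₂, a • x ∈ L₂) : ∀ a : A, ∀ x ∈ L₁ ⊔ L₂, a • x ∈ L₁ ⊔ L₂ := by
  intro a x hx
  have hle : L₁ ⊔ L₂ ≤ (L₁ ⊔ L₂).comap (MulDistribMulAction.toMonoidHom G a) := by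
    apply sup_le
    · intro y hy
      exact Subgroup.mem_comap.mpr ((le_sup_left : L₁ ≤ L₁ ⊔ L₂) (h1 a y hy))
    · intro y hy
      exact Subgroup.mem_comap.mpr ((le_sup_right : L₂ ≤ L₁ ⊔ L₂) (h2 a y hy))
  exact Subgroup.mem_comap.mp (hle hx)

omit [Finite A] [Finite G] in
theorem inv_frattini : ∀ a : A, ∀ x ∈ frattini G, a • x ∈ frattini G := by
  intro a x hx
  have h := Subgroup.characteristic_iff_comap_eq.mp
    (inferInstance : (frattini G).Characteristic) (MulDistribMulAction.toMulAut A G a)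
  rw [← h] at hx
  exact Subgroup.mem_comap.mp hx

omit [Finite A] in
theorem exists_maxInv_ge (L : Subgroup G) (hL : L ≠ ⊤) (hinv : ∀ a : A, ∀ x ∈ L, a • x ∈ L) :
    ∃ M : Subgroup G, L ≤ M ∧ (M ≠ ⊤ ∧ (∀ a : A, ∀ x ∈ M, a • x ∈ M) ∧
      ∀ L' : Subgroup G, M < L' → (∀ a : A, ∀ x ∈ L', a • x ∈ L') → L' = ⊤) := by
  obtain ⟨M, hLM, hM⟩ := Finite.exists_le_maximal
    (p := fun H : Subgroup G => H ≠ ⊤ ∧ ∀ a : A, ∀ x ∈ H, a • x ∈ H) (a := L) ⟨hL, hinv⟩
  refine ⟨M, hLM, hM.prop.1, hM.prop.2, fun L' hlt hL' => ?_⟩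
  by_contra hne
  exact absurd (hM.le_of_ge ⟨hne, hL'⟩ hlt.le) (not_le_of_gt hlt)

omit [Finite A] in
theorem frattini_le_maxInv (M : Subgroup G) (hM : M ≠ ⊤ ∧ (∀ a : A, ∀ x ∈ M, a • x ∈ M) ∧
      ∀ L' : Subgroup G, M < L' → (∀ a : A, ∀ x ∈ L', a • x ∈ L') → L' = ⊤) :
    frattini G ≤ M := by
  by_contra hle
  have hlt : M < M ⊔ frattini G := by
    apply lt_of_le_of_ne le_sup_left
    intro h
    apply hle
    rw [h]; exact le_sup_right
  have := hM.2.2 _ hlt (inv_sup_of_inv M (frattini G) hM.2.1 inv_frattini)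
  exact hM.1 (frattini_nongenerating this)

theorem pgroup_of_maxInv_conj (hcop : (Nat.card A).Coprime (Nat.card G))
    (hsol : Group.IsSolvable A ∨ Group.IsSolvable G)
    (hconj : ∀ M N : Subgroup G, (M ≠ ⊤ ∧ (∀ a : A, ∀ x ∈ M, a • x ∈ M) ∧
        ∀ L : Subgroup G, M < L → (∀ a : A, ∀ x ∈ L, a • x ∈ L) → L = ⊤) →
      (N ≠ ⊤ ∧ (∀ a : A, ∀ x ∈ N, a • x ∈ N) ∧
        ∀ L : Subgroup G, N < L → (∀ a : A, ∀ x ∈ L, a • x ∈ L) → L = ⊤) →
      ∃ c : G, (∀ a : A, a • c = c) ∧ N = MulAut.conj c • M) :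
    ∃ p : ℕ, p.Prime ∧ IsPGroup p G := by
  by_contra hnp
  push Not at hnp
  have hbot : (⊥ : Subgroup G) ≠ ⊤ := by
    intro h
    apply hnp 2 Nat.prime_two
    have h1 : Nat.card G = 1 := by
      rw [← Subgroup.card_top (G := G), ← h, Subgroup.card_bot]
    exact IsPGroup.of_card (n := 0) (by simpa using h1)
  obtain ⟨M, -, hM⟩ := exists_maxInv_ge (A := A) (⊥ : Subgroup G) hbot (fun a x hx => by
    rw [Subgroup.mem_bot] at hx ⊢; rw [hx, smul_one])
  have hdvd : Nat.card G ∣ Nat.card M := by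
    rw [← Nat.factorization_prime_le_iff_dvd Nat.card_pos.ne' Nat.card_pos.ne']
    intro r hr
    haveI := Fact.mk hr
    obtain ⟨P, hPinv, hPc⟩ := exists_invariant_sylow_card hcop hsol r
    have hPtop : P ≠ ⊤ := by
      intro h
      apply hnp r hr
      rw [h, Subgroup.card_top] at hPc
      exact IsPGroup.of_card hPc
    obtain ⟨N, hPN, hN⟩ := exists_maxInv_ge P hPtop hPinv
    obtain ⟨c, -, hc⟩ := hconj M N hM hN
    have hcard : Nat.card N = Nat.card M := by
      rw [hc]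
      exact (Nat.card_congr (Subgroup.equivSMul (MulAut.conj c) M).toEquiv).symm
    have h1 : r ^ (Nat.card G).factorization r ∣ Nat.card M := by
      rw [← hcard, ← hPc]; exact Subgroup.card_dvd_of_le hPN
    exact (hr.pow_dvd_iff_le_factorization Nat.card_pos.ne').mp h1
  apply hM.1
  exact Subgroup.eq_top_of_card_eq M (Nat.dvd_antisymm (Subgroup.card_subgroup_dvd_card M) hdvd)

theorem irr_of_maxInv_conj (hcop : (Nat.card A).Coprime (Nat.card G))
    {p : ℕ} [Fact p.Prime] (hG : IsPGroup p G)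
    (hconj : ∀ M N : Subgroup G, (M ≠ ⊤ ∧ (∀ a : A, ∀ x ∈ M, a • x ∈ M) ∧
        ∀ L : Subgroup G, M < L → (∀ a : A, ∀ x ∈ L, a • x ∈ L) → L = ⊤) →
      (N ≠ ⊤ ∧ (∀ a : A, ∀ x ∈ N, a • x ∈ N) ∧
        ∀ L : Subgroup G, N < L → (∀ a : A, ∀ x ∈ L, a • x ∈ L) → L = ⊤) →
      ∃ c : G, (∀ a : A, a • c = c) ∧ N = MulAut.conj c • M)
    (L : Subgroup G) (hL : frattini G < L) (hLinv : ∀ a : A, ∀ x ∈ L, a • x ∈ L) : L = ⊤ := by
  classical
  by_contra hLtop
  obtain ⟨M, hLM, hM⟩ := exists_maxInv_ge L hLtop hLinv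
  have hΦM : frattini G ≤ M := frattini_le_maxInv M hM
  haveI hMn : M.Normal := Subgroup.Normal.of_commutator_le G (H := M)
    ((Cfsg.Agent.Lib.helper1.commutator_le_frattini p hG).trans hΦM)
  have huniq : ∀ N : Subgroup G, (N ≠ ⊤ ∧ (∀ a : A, ∀ x ∈ N, a • x ∈ N) ∧
        ∀ L : Subgroup G, N < L → (∀ a : A, ∀ x ∈ L, a • x ∈ L) → L = ⊤) → N = M := by
    intro N hN
    obtain ⟨c, -, hc⟩ := hconj M N hM hN
    rw [hc, Subgroup.Normal.conj_smul_eq_self]
  obtain ⟨Φ, hΦ⟩ : ∃ Φ : Subgroup G, Φ = frattini G := ⟨_, rfl⟩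
  haveI hΦn : Φ.Normal := by rw [hΦ]; infer_instance
  rw [← hΦ] at hL hΦM
  have hqcomm : ∀ x y : G ⧸ Φ, x * y = y * x := by
    intro x y
    induction x using QuotientGroup.induction_on with
    | _ x =>
    induction y using QuotientGroup.induction_on with
    | _ y =>
    rw [← QuotientGroup.mk_mul, ← QuotientGroup.mk_mul, QuotientGroup.eq]
    have e : (x * y)⁻¹ * (y * x) = ⁅y⁻¹, x⁻¹⁆ := by
      rw [commutatorElement_def]; group
    rw [e, hΦ]
    apply Cfsg.Agent.Lib.helper1.commutator_le_frattini p hG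
    rw [commutator_def]
    exact Subgroup.commutator_mem_commutator (Subgroup.mem_top _) (Subgroup.mem_top _)
  have hqexp : ∀ x : G ⧸ Φ, x ^ p = 1 := by
    intro x
    induction x using QuotientGroup.induction_on with
    | _ x =>
    rw [← QuotientGroup.mk_pow, QuotientGroup.eq_one_iff, hΦ]
    exact Cfsg.Agent.Lib.helper1.pow_mem_frattini p hG x
  have hΦq : frattini (G ⧸ Φ) = ⊥ := by
    rw [eq_bot_iff]
    intro x hx
    rw [Subgroup.mem_bot]
    by_contra hx1
    obtain ⟨M', hM', hxM'⟩ := Cfsg.Agent.Lib.helper1.exists_coatom_not_mem p hqcomm hqexp x hx1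
    exact hxM' (frattini_le_coatom hM' hx)
  have hmap : ∀ a : A, Φ.map (MulDistribMulAction.toMulAut A G a).toMonoidHom = Φ := by
    intro a
    rw [hΦ]
    exact Subgroup.characteristic_iff_map_eq.mp inferInstance _
  let φ : A →* MulAut (G ⧸ Φ) :=
    { toFun := fun a => QuotientGroup.congr Φ Φ (MulDistribMulAction.toMulAut A G a) (hmap a)
      map_one' := by
        ext x
        induction x using QuotientGroup.induction_on with
        | _ x => simp
      map_mul' := fun a b => by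
        ext x
        induction x using QuotientGroup.induction_on with
        | _ x => simp [mul_smul] }
  have hφ : ∀ (a : A) (x : G), φ a (QuotientGroup.mk' Φ x) = QuotientGroup.mk' Φ (a • x) :=
    fun a x => rfl
  obtain ⟨W, hWdef⟩ : ∃ W : Subgroup (G ⧸ Φ), W = L.map (QuotientGroup.mk' Φ) := ⟨_, rfl⟩
  have hW : ∀ a : A, ∀ w ∈ W, φ a w ∈ W := by
    intro a w hw
    rw [hWdef] at hw ⊢
    obtain ⟨x, hx, rfl⟩ := hw
    rw [hφ]
    exact ⟨a • x, hLinv a x hx, rfl⟩
  haveI : W.Normal := ⟨fun n hn g => by rw [hqcomm g n, mul_inv_cancel_right]; exact hn⟩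
  obtain ⟨K₀, h2, h1⟩ := Cfsg.Agent.Lib.helper3.exists_complement_of_abelian_normal hΦq W
    (fun x _ y _ => hqcomm x y)
  have hcop' : (Nat.card A).Coprime (Nat.card (G ⧸ Φ)) :=
    Nat.Coprime.coprime_dvd_right (Subgroup.card_quotient_dvd_card Φ) hcop
  obtain ⟨K, hK, hWK1, hWK2⟩ := maschke_comm hqcomm φ hcop' W K₀ hW h1 h2
  obtain ⟨K', hK'⟩ : ∃ K' : Subgroup G, K' = K.comap (QuotientGroup.mk' Φ) := ⟨_, rfl⟩
  have hsurj := QuotientGroup.mk'_surjective Φ
  have hK'map : K'.map (QuotientGroup.mk' Φ) = K := by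
    rw [hK']; exact Subgroup.map_comap_eq_self_of_surjective hsurj K
  have hK'inv : ∀ a : A, ∀ x ∈ K', a • x ∈ K' := by
    intro a x hx
    rw [hK', Subgroup.mem_comap] at hx ⊢
    rw [← hφ]
    exact hK a _ hx
  have hK'top : K' ≠ ⊤ := by
    intro h
    have hKtop : K = ⊤ := by
      rw [← hK'map, h, ← MonoidHom.range_eq_map, MonoidHom.range_eq_top]
      exact hsurj
    rw [hKtop, inf_top_eq] at hWK1
    have hLΦ : L ≤ Φ := by
      intro x hx
      have hmem : QuotientGroup.mk' Φ x ∈ W := by rw [hWdef]; exact ⟨x, hx, rfl⟩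
      rw [hWK1, Subgroup.mem_bot] at hmem
      exact (QuotientGroup.eq_one_iff x).mp hmem
    exact lt_irrefl _ (lt_of_lt_of_le hL hLΦ)
  obtain ⟨M', hK'M', hM'⟩ := exists_maxInv_ge K' hK'top hK'inv
  rw [huniq M' hM'] at hK'M'
  have hMtop : M.map (QuotientGroup.mk' Φ) = ⊤ := by
    rw [eq_top_iff, ← hWK2]
    apply sup_le
    · rw [hWdef]; exact Subgroup.map_mono hLM
    · rw [← hK'map]; exact Subgroup.map_mono hK'M'
  have h3 : M ⊔ frattini G = ⊤ := by
    have := congrArg (Subgroup.comap (QuotientGroup.mk' Φ)) hMtop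
    rw [Subgroup.comap_map_eq, QuotientGroup.ker_mk', Subgroup.comap_top, hΦ] at this
    exact this
  exact hM.1 (frattini_nongenerating h3)

end MaxInv

end Cfsg.Agent.Lib.helper14
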