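import Cfsg.Agent.Lib.helper14.Trace
import Cfsg.Agent.Lib.helper9.PPrimeCore

set_option autoImplicit false
set_option linter.unusedSectionVars false
set_option linter.unusedVariables false

namespace Cfsg.Agent.Lib.helper14

open Cfsg
open scoped commutatorElement Pointwise

variable {G : Type*} [Group G]

/-- In a group of parabolic characteristic `p`, `O_{p'}(G)` meets every parabolic `p`-local trivially. -/
theorem parabolic_pPrimeCore_inf [Finite G] {p : ℕ} [Fact p.Prime]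
    (hG : IsOfParabolicCharacteristic p G) (S : Sylow p G) (R : Subgroup G) (hR : IsPGroup p R)
    (hR1 : R ≠ ⊥) (hSR : (S : Subgroup G) ≤ Subgroup.normalizer (R : Set G)) :
    pPrimeCore p G ⊓ Subgroup.normalizer (R : Set G) = ⊥ := by
  have hp : p.Prime := Fact.out
  obtain ⟨N, hN⟩ : ∃ N, N = Subgroup.normalizer (R : Set G) := ⟨_, rfl⟩
  rw [← hN] at hSR ⊢
  have hchar : N ⊓ Subgroup.centralizer (pCoreOf p N : Set G) ≤ pCoreOf p N := by
    apply charp_of
    rw [hN]
    exact hG R hR hR1 ⟨S, by rw [← hN]; exact hSR⟩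
  obtain ⟨O, hO⟩ : ∃ O, O = pPrimeCore p G := ⟨_, rfl⟩
  rw [← hO]
  have hOn : O.Normal := by rw [hO]; exact Cfsg.Agent.Lib.helper9.ppc_normal p G
  have hOc : (Nat.card O).Coprime p := by rw [hO]; exact Cfsg.Agent.Lib.helper9.pPrimeCore_coprime p G
  obtain ⟨Q, hQ⟩ : ∃ Q, Q = pCoreOf p N := ⟨_, rfl⟩
  rw [← hQ] at hchar
  have hQN : Q ≤ N := by rw [hQ]; exact pCoreOf_le p N
  have hNQ : N ≤ Subgroup.normalizer (Q : Set G) := by rw [hQ]; exact le_normalizer_pCoreOf p N
  have hQp : IsPGroup p Q := by rw [hQ]; exact isPGroup_pCoreOf p N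
  have hND : N ≤ Subgroup.normalizer ((O ⊓ N : Subgroup G) : Set G) := by
    apply le_normalizer_inf _ _ N _ Subgroup.le_normalizer
    rw [Subgroup.normalizer_eq_top]; exact le_top
  have hcomm : ⁅O ⊓ N, Q⁆ ≤ (O ⊓ N) ⊓ Q :=
    le_inf (commutator_le_of_le_normalizer _ Q (hQN.trans hND))
      (commutator_le_right_of_le_normalizer _ Q (inf_le_right.trans hNQ))
  have hdisj : (O ⊓ N) ⊓ Q = ⊥ := by
    apply Disjoint.eq_bot
    apply Subgroup.disjoint_of_coprime_natCard
    obtain ⟨n, hn⟩ := IsPGroup.iff_card.1 hQp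
    rw [hn]
    apply Nat.Coprime.pow_right
    exact Nat.Coprime.coprime_dvd_left (Subgroup.card_dvd_of_le inf_le_left) hOc
  rw [hdisj, le_bot_iff, Subgroup.commutator_eq_bot_iff_le_centralizer] at hcomm
  rw [eq_bot_iff, ← hdisj]
  intro x hx
  exact Subgroup.mem_inf.2 ⟨hx, hchar (Subgroup.mem_inf.2 ⟨(Subgroup.mem_inf.1 hx).2, hcomm hx⟩)⟩

/-- a fixed-point-free involutory automorphism inverts -/
theorem inverts_of_fixed_point_free [Finite G] (O : Subgroup G) (z : G) (hz : z * z = 1)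
    (hzO : ∀ x ∈ O, z * x * z⁻¹ ∈ O) (hfix : ∀ x ∈ O, z * x * z⁻¹ = x → x = 1) :
    ∀ x ∈ O, z * x * z⁻¹ = x⁻¹ := by
  have hzinv : z⁻¹ = z := inv_eq_of_mul_eq_one_left hz
  let f : ↥O → ↥O := fun x => ⟨(x : G)⁻¹ * (z * x * z⁻¹), O.mul_mem (O.inv_mem x.2) (hzO x x.2)⟩
  have hinj : Function.Injective f := by
    intro x y hxy
    have h1 : (x : G)⁻¹ * (z * x * z⁻¹) = (y : G)⁻¹ * (z * y * z⁻¹) := congrArg Subtype.val hxy
    have h2 : z * ((y : G) * (x : G)⁻¹) * z⁻¹ = (y : G) * (x : G)⁻¹ := by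
      have h0 : z * ((y : G) * (x : G)⁻¹) * z⁻¹ = (z * y * z⁻¹) * (z * x * z⁻¹)⁻¹ := by group
      rw [h0]
      have h3 : z * y * z⁻¹ = (y : G) * ((x : G)⁻¹ * (z * x * z⁻¹)) := by rw [h1]; group
      rw [h3]; group
    have h4 := hfix _ (O.mul_mem y.2 (O.inv_mem x.2)) h2
    apply Subtype.ext
    have h5 : (y : G) = x := mul_inv_eq_one.1 h4
    exact h5.symm
  have hsurj : Function.Surjective f := Finite.injective_iff_surjective.1 hinj
  intro x hx
  obtain ⟨w, hw⟩ := hsurj ⟨x, hx⟩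
  have hx' : x = (w : G)⁻¹ * (z * w * z⁻¹) := (congrArg Subtype.val hw).symm
  rw [hx', hzinv]
  have e1 : z * ((w : G)⁻¹ * (z * w * z)) * z = z * (w : G)⁻¹ * z * w * (z * z) := by group
  have e2 : ((w : G)⁻¹ * (z * w * z))⁻¹ = z⁻¹ * (w : G)⁻¹ * z⁻¹ * w := by group
  rw [e1, e2, hz, hzinv, mul_one]

/-- S2898 -/
theorem oddCore_eq_bot [Finite G] (h2 : 2 ∣ Nat.card G) (hG : IsOfParabolicCharacteristic 2 G)
    [hN : (oddCore G).Normal] (hZ : Subgroup.center (G ⧸ oddCore G) = ⊥) : oddCore G = ⊥ := by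
  have : Fact (Nat.Prime 2) := ⟨Nat.prime_two⟩
  obtain ⟨O, hO⟩ : ∃ O, O = oddCore G := ⟨_, rfl⟩
  have hOn : O.Normal := by rw [hO]; exact hN
  have hOc : (Nat.card O).Coprime 2 := by
    rw [hO]; exact Cfsg.Agent.Lib.helper9.pPrimeCore_coprime 2 G
  obtain ⟨S⟩ : Nonempty (Sylow 2 G) := inferInstance
  have hS1 : (S : Subgroup G) ≠ ⊥ := by
    intro h
    have h3 := S.card_eq_multiplicity
    rw [h, Subgroup.card_bot] at h3
    have hk : (Nat.card G).factorization 2 = 0 := by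
      by_contra hne
      have h4 : 2 ∣ 2 ^ (Nat.card G).factorization 2 := dvd_pow_self 2 hne
      rw [← h3] at h4; omega
    rcases (Nat.factorization_eq_zero_iff _ _).1 hk with h | h | h
    · exact h Nat.prime_two
    · exact h h2
    · exact Nat.card_pos.ne' h
  have hSp : IsPGroup 2 (S : Subgroup G) := S.isPGroup'
  have hinv : ∀ z : G, z ∈ (S : Subgroup G) → z ∈ Subgroup.centralizer ((S : Subgroup G) : Set G) →
      orderOf z = 2 → ∀ x ∈ O, z * x * z⁻¹ = x⁻¹ := by
    intro z hzS hzC hz2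
    have hzz : z * z = 1 := by rw [← pow_two, ← hz2]; exact pow_orderOf_eq_one z
    apply inverts_of_fixed_point_free O z hzz (fun x hx => hOn.conj_mem x hx z)
    intro x hx hfix
    have hR : IsPGroup 2 (Subgroup.zpowers z) :=
      hSp.to_le (by rw [Subgroup.zpowers_le]; exact hzS)
    have hR1 : Subgroup.zpowers z ≠ ⊥ := by
      intro h; rw [Subgroup.zpowers_eq_bot] at h; rw [h, orderOf_one] at hz2; omega
    have hSR : (S : Subgroup G) ≤ Subgroup.normalizer ((Subgroup.zpowers z : Subgroup G) : Set G) := by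
      intro s hs
      have hcomm : s * z = z * s := (Subgroup.mem_centralizer_iff.1 hzC) s hs
      apply mem_normalizer_of_map_conj_eq
      rw [MonoidHom.map_zpowers]
      congr 1
      show s * z * s⁻¹ = z
      rw [hcomm]; group
    have hbot := parabolic_pPrimeCore_inf hG S (Subgroup.zpowers z) hR hR1 hSR
    have hxN : x ∈ Subgroup.normalizer ((Subgroup.zpowers z : Subgroup G) : Set G) := by
      apply mem_normalizer_of_map_conj_eq
      rw [MonoidHom.map_zpowers]
      congr 1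
      show x * z * x⁻¹ = z
      have h5 : z * x = x * z := by
        calc z * x = (z * x * z⁻¹) * z := by group
          _ = x * z := by rw [hfix]
      rw [← h5]; group
    have h6 : x ∈ pPrimeCore 2 G ⊓ Subgroup.normalizer ((Subgroup.zpowers z : Subgroup G) : Set G) :=
      Subgroup.mem_inf.2 ⟨by rw [hO] at hx; exact hx, hxN⟩
    rw [hbot] at h6
    exact Subgroup.mem_bot.1 h6
  have hexinv : ∀ A : Subgroup G, A ≤ (S : Subgroup G) → A ≠ ⊥ → ∃ z ∈ A, orderOf z = 2 := by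
    intro A hAS hA1
    have hAp : IsPGroup 2 A := hSp.to_le hAS
    have hcard : 2 ∣ Nat.card A := by
      obtain ⟨n, hn⟩ := IsPGroup.iff_card.1 hAp
      rw [hn]
      apply dvd_pow_self
      rintro rfl
      rw [pow_zero] at hn
      exact hA1 (Subgroup.card_eq_one.1 hn)
    obtain ⟨a, ha⟩ := exists_prime_orderOf_dvd_card' 2 hcard
    exact ⟨a, a.2, by rw [← ha, Subgroup.orderOf_coe]⟩
  have hodd : ∀ x ∈ O, x * x = 1 → x = 1 := by
    intro x hx hxx
    have h1 : orderOf x ∣ 2 := orderOf_dvd_of_pow_eq_one (by rw [pow_two]; exact hxx)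
    have h2 : orderOf x ∣ Nat.card O := by
      have h3 := orderOf_dvd_natCard (⟨x, hx⟩ : O)
      rwa [Subgroup.orderOf_mk] at h3
    have h4 : orderOf x ∣ Nat.gcd (Nat.card O) 2 := Nat.dvd_gcd h2 h1
    rw [hOc] at h4
    exact orderOf_eq_one_iff.1 (Nat.dvd_one.1 h4)
  obtain ⟨C, hC⟩ : ∃ C, C = Subgroup.centralizer (O : Set G) := ⟨_, rfl⟩
  have hCN : (⊤ : Subgroup G) ≤ Subgroup.normalizer (C : Set G) := by
    rw [hC]; refine le_trans ?_ (normalizer_le_normalizer_centralizer O)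
    rw [Subgroup.normalizer_eq_top]
  by_cases hT : (S : Subgroup G) ⊓ C = ⊥
  · have hsyl := (sylIn_top S).inf C le_top hCN
    have hcard : Nat.card ((S : Subgroup G) ⊓ C : Subgroup G) = 1 := by
      rw [hT]; exact Subgroup.card_bot
    have hk : (Nat.card C).factorization 2 = 0 := by
      have h3 := hsyl.2; rw [hcard] at h3
      by_contra hne
      have h4 : 2 ∣ 2 ^ (Nat.card C).factorization 2 := dvd_pow_self 2 hne
      rw [← h3] at h4; omega
    have hCc : (Nat.card C).Coprime 2 := by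
      rcases (Nat.factorization_eq_zero_iff _ _).1 hk with h | h | h
      · exact absurd Nat.prime_two h
      · exact (Nat.coprime_comm.1 ((Nat.Prime.coprime_iff_not_dvd Nat.prime_two).2 h))
      · exact absurd h Nat.card_pos.ne'
    have hCO : C ≤ O := by
      rw [hO]
      exact Cfsg.Agent.Lib.helper9.le_pPrimeCore
        (Subgroup.normalizer_eq_top_iff.1 (top_le_iff.1 hCN)) hCc
    have hZS : (S : Subgroup G) ⊓ Subgroup.centralizer ((S : Subgroup G) : Set G) ≠ ⊥ :=
      inf_centralizer_ne_bot_of_le_normalizer (S : Subgroup G) (S : Subgroup G) hSp hSp hS1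
        Subgroup.le_normalizer
    obtain ⟨z, hz, hz2⟩ := hexinv _ inf_le_left hZS
    have hzS := (Subgroup.mem_inf.1 hz).1
    have hzC := (Subgroup.mem_inf.1 hz).2
    have hzinv := hinv z hzS hzC hz2
    have hzz : z * z = 1 := by rw [← pow_two, ← hz2]; exact pow_orderOf_eq_one z
    have hzi : z⁻¹ = z := inv_eq_of_mul_eq_one_left hzz
    have hcomm : ∀ g : G, ⁅z, g⁆ ∈ O := by
      intro g
      apply hCO
      rw [hC, Subgroup.mem_centralizer_iff]
      intro x hx
      have h1 : g⁻¹ * x * g ∈ O := by have := hOn.conj_mem x hx g⁻¹; simpa using this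
      have h2 := hzinv _ h1
      have h3 := hzinv _ (O.inv_mem hx)
      have h4 : ⁅z, g⁆ * x * ⁅z, g⁆⁻¹ = z * (g * (z⁻¹ * (g⁻¹ * x * g) * z⁻¹⁻¹) * g⁻¹) * z⁻¹ := by
        simp only [commutatorElement_def]; group
      have h5 : z⁻¹ * (g⁻¹ * x * g) * z⁻¹⁻¹ = (g⁻¹ * x * g)⁻¹ := by rw [hzi]; exact h2
      rw [h5] at h4
      have h6 : z * (g * (g⁻¹ * x * g)⁻¹ * g⁻¹) * z⁻¹ = z * x⁻¹ * z⁻¹ := by group
      rw [h6, h3, inv_inv] at h4
      calc x * ⁅z, g⁆ = (⁅z, g⁆ * x * ⁅z, g⁆⁻¹) * ⁅z, g⁆ := by rw [h4]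
        _ = ⁅z, g⁆ * x := by group
    have hcen : (QuotientGroup.mk z : G ⧸ oddCore G) ∈ Subgroup.center (G ⧸ oddCore G) := by
      rw [Subgroup.mem_center_iff]
      intro q
      obtain ⟨g, rfl⟩ := QuotientGroup.mk_surjective q
      rw [← QuotientGroup.mk_mul, ← QuotientGroup.mk_mul, QuotientGroup.eq]
      have h7 : (g * z)⁻¹ * (z * g) = ⁅z, g⁻¹⁆ := by
        rw [commutatorElement_def, mul_inv_rev, hzi, inv_inv]; group
      rw [h7, ← hO]; exact hcomm g⁻¹
    rw [hZ, Subgroup.mem_bot, QuotientGroup.eq_one_iff] at hcen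
    have h8 := hodd z (by rw [hO]; exact hcen) hzz
    rw [h8, orderOf_one] at hz2; omega
  · have hTn : (S : Subgroup G) ≤ Subgroup.normalizer (((S : Subgroup G) ⊓ C : Subgroup G) : Set G) :=
      le_normalizer_inf _ _ _ Subgroup.le_normalizer (le_top.trans hCN)
    have hne := inf_centralizer_ne_bot_of_le_normalizer ((S : Subgroup G) ⊓ C) (S : Subgroup G)
      (hSp.to_le inf_le_left) hSp hT hTn
    obtain ⟨z, hz, hz2⟩ := hexinv _ (inf_le_left.trans inf_le_left) hne
    have hzS := (Subgroup.mem_inf.1 (Subgroup.mem_inf.1 hz).1).1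
    have hzC := (Subgroup.mem_inf.1 (Subgroup.mem_inf.1 hz).1).2
    have hzCS := (Subgroup.mem_inf.1 hz).2
    have hzinv := hinv z hzS hzCS hz2
    rw [← hO, eq_bot_iff]
    intro x hx
    rw [Subgroup.mem_bot]
    apply hodd x hx
    have h1 := hzinv x hx
    rw [hC, Subgroup.mem_centralizer_iff] at hzC
    have h2 := hzC x hx
    have h3 : x⁻¹ = x := by rw [← h1, ← h2]; group
    calc x * x = x⁻¹ * x := by rw [h3]
      _ = 1 := inv_mul_cancel x

end Cfsg.Agent.Lib.helper14
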