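import Mathlib
import Cfsg.Agent.Lib.helper14.EigenInv2

/-!
# Groups of order 320 with extraspecial radical of minus type (library, helper14)
-/

set_option autoImplicit false
set_option linter.style.haveILetI false
set_option linter.unusedVariables false
set_option linter.unusedSectionVars false

namespace Cfsg.Agent.Lib.helper14

theorem conj_pow_of_central_commutator {G : Type*} [Group G] (u y c : G)
    (hc : ∀ g : G, g * c = c * g) (h : u * y * u⁻¹ = y * c) (n : ℕ) :
    u ^ n * y * (u ^ n)⁻¹ = y * c ^ n := by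
  induction n with
  | zero => simp
  | succ n ih =>
    have h1 : u * c ^ n * u⁻¹ = c ^ n := by
      have h2 : u * c ^ n = c ^ n * u := (Commute.pow_right (hc u) n).eq
      rw [h2]; group
    calc u ^ (n + 1) * y * (u ^ (n + 1))⁻¹ = u * (u ^ n * y * (u ^ n)⁻¹) * u⁻¹ := by
          rw [pow_succ']; group
      _ = u * (y * c ^ n) * u⁻¹ := by rw [ih]
      _ = (u * y * u⁻¹) * (u * c ^ n * u⁻¹) := by group
      _ = (y * c) * c ^ n := by rw [h, h1]
      _ = y * c ^ (n + 1) := by rw [pow_succ']; group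

theorem commute_of_pow_five {G : Type*} [Group G] (u y c : G) (hc : ∀ g : G, g * c = c * g)
    (hcc : c * c = 1) (hu : u ^ 5 = 1) (h : u * y * u⁻¹ = y * c) : u * y = y * u := by
  have h1 := conj_pow_of_central_commutator u y c hc h 5
  rw [hu] at h1
  have h2 : c ^ 5 = c := by
    have h5 : c ^ 5 = (c ^ 2) ^ 2 * c := by rw [← pow_mul, ← pow_succ]
    rw [h5, pow_two c, hcc, one_pow, one_mul]
  rw [h2] at h1
  have h3 : c = 1 := by
    have h4 : y = y * c := by simpa using h1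
    exact (mul_eq_left.mp h4.symm)
  rw [h3, mul_one] at h
  calc u * y = (u * y * u⁻¹) * u := by group
    _ = y * u := by rw [h]


set_option maxHeartbeats 1000000 in
theorem order320_internal {G : Type*} [Group G] [Finite G] (H Z : Subgroup G) [hHn : H.Normal]
    (hG : Nat.card G = 320) (hH32 : Nat.card H = 32) (hZ2 : Nat.card Z = 2) (hZH : Z ≤ H)
    (hZc : ∀ z ∈ Z, ∀ g : G, g * z = z * g)
    (hcomm : ∀ x ∈ H, ∀ y ∈ H, x * y * x⁻¹ * y⁻¹ ∈ Z) (hsq : ∀ x ∈ H, x * x ∈ Z)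
    (hCH : Subgroup.centralizer (H : Set G) ≤ H)
    (hmax : ∀ N : Subgroup G, N.Normal → IsPGroup 2 N → N ≤ H)
    (hminus : ∀ A : Subgroup G, A ≤ H → (∀ a ∈ A, a * a = 1) → Nat.card A ≤ 4)
    (T : G) (hT : T * T = 1) (hTH : T ∉ H) :
    Nat.card ↥(H ⊓ Subgroup.centralizer ({T} : Set G)) ≤ 4 := by
  classical
  haveI : Fact (Nat.Prime 5) := ⟨by norm_num⟩
  haveI : Fact (Nat.Prime 2) := ⟨Nat.prime_two⟩
  have hTinv : T⁻¹ = T := inv_eq_of_mul_eq_one_left hT
  have hZsq : ∀ c ∈ Z, c * c = 1 := by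
    intro c hc
    have h1 := pow_card_eq_one' (G := ↥Z) (x := ⟨c, hc⟩)
    rw [hZ2] at h1
    have h2 := congrArg Subtype.val h1
    rw [Subgroup.coe_pow, Subgroup.coe_one, pow_two] at h2
    exact h2
  haveI hZn : Z.Normal := ⟨fun c hc g => by rw [hZc c hc g, mul_inv_cancel_right]; exact hc⟩
  have hH2 : IsPGroup 2 ↥H := IsPGroup.of_card (n := 5) (by rw [hH32]; norm_num)
  obtain ⟨g, hg5⟩ := exists_prime_orderOf_dvd_card' (G := G) 5 (by rw [hG]; norm_num)
  have hg5' : g ^ 5 = 1 := by rw [← hg5]; exact pow_orderOf_eq_one g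
  have hgH : g ∉ H := by
    intro h
    have h1 : orderOf g ∣ Nat.card H := by
      have := orderOf_dvd_natCard (⟨g, h⟩ : ↥H)
      rwa [Subgroup.orderOf_mk] at this
    rw [hg5, hH32] at h1
    omega
  have hCg : ∀ y ∈ H, g * y = y * g → y ∈ Z := by
    letI act : MulAction ↥(Subgroup.zpowers g) ↥H :=
      MulAction.compHom ↥H ((MulAut.conjNormal (H := H)).comp (Subgroup.zpowers g).subtype)
    have hsmul : ∀ (k : ↥(Subgroup.zpowers g)) (y : ↥H),
        ((k • y : ↥H) : G) = (k : G) * y * (k : G)⁻¹ := by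
      intro k y; rfl
    have hP5 : IsPGroup 5 ↥(Subgroup.zpowers g) :=
      IsPGroup.of_card (n := 1) (by rw [Nat.card_zpowers, hg5]; norm_num)
    have hmod := hP5.card_modEq_card_fixedPoints ↥H
    set D : Subgroup ↥H := (Subgroup.centralizer ({g} : Set G)).subgroupOf H with hD
    have hfix : (MulAction.fixedPoints ↥(Subgroup.zpowers g) ↥H) = (D : Set ↥H) := by
      ext y
      rw [MulAction.mem_fixedPoints, SetLike.mem_coe, hD, Subgroup.mem_subgroupOf,
        mem_centralizer_singleton_iff']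
      constructor
      · intro h
        have h1 := h ⟨g, Subgroup.mem_zpowers g⟩
        have h2 := congrArg Subtype.val h1
        rw [hsmul] at h2
        exact h2
      · intro h k
        apply Subtype.ext
        rw [hsmul]
        have h1 : g ∈ Subgroup.centralizer ({(y : G)} : Set G) :=
          (mem_centralizer_singleton_iff'' g y).mpr h
        have h2 : (k : G) ∈ Subgroup.centralizer ({(y : G)} : Set G) :=
          (Subgroup.zpowers_le.mpr h1) k.2
        exact (mem_centralizer_singleton_iff'' _ _).mp h2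
    have hcardfix : Nat.card (MulAction.fixedPoints ↥(Subgroup.zpowers g) ↥H) = Nat.card D := by
      rw [hfix]; rfl
    rw [hcardfix, hH32] at hmod
    have hdvd : Nat.card D ∣ 32 := by rw [← hH32]; exact Subgroup.card_subgroup_dvd_card D
    have hD2 : Nat.card D = 2 ∨ Nat.card D = 32 := by
      have h32 : (32 : ℕ) = 2 ^ 5 := by norm_num
      rw [h32] at hdvd
      obtain ⟨m, hm, hmeq⟩ := (Nat.dvd_prime_pow Nat.prime_two).mp hdvd
      rw [hmeq] at hmod ⊢
      interval_cases m <;>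
        first | (exfalso; revert hmod; decide) | (left; rfl) | (right; rfl)
    have hDtop : Nat.card D ≠ 32 := by
      intro h
      have hDtop : D = ⊤ := Subgroup.eq_top_of_card_eq D (by rw [h, hH32])
      have hgC : g ∈ Subgroup.centralizer (H : Set G) := by
        rw [Subgroup.mem_centralizer_iff]
        intro y hy
        have h1 : (⟨y, hy⟩ : ↥H) ∈ D := by rw [hDtop]; exact Subgroup.mem_top _
        rw [hD, Subgroup.mem_subgroupOf] at h1
        exact ((Subgroup.mem_centralizer_iff.mp h1) g rfl).symm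
      exact hgH (hCH hgC)
    have hD2' : Nat.card D = 2 := by
      rcases hD2 with h | h
      · exact h
      · exact absurd h hDtop
    have hZD : Z.subgroupOf H ≤ D := by
      intro y hy
      rw [Subgroup.mem_subgroupOf] at hy
      rw [hD, Subgroup.mem_subgroupOf, Subgroup.mem_centralizer_iff]
      intro k hk
      rw [Set.mem_singleton_iff] at hk
      rw [hk]
      exact hZc _ hy g
    have hZD' : Z.subgroupOf H = D := by
      apply Subgroup.eq_of_le_of_card_ge hZD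
      rw [hD2']
      have : Nat.card (Z.subgroupOf H) = Nat.card Z :=
        Nat.card_congr (Subgroup.subgroupOfEquivOfLe hZH).toEquiv
      rw [this, hZ2]
    intro y hy hgy
    have h1 : (⟨y, hy⟩ : ↥H) ∈ D := by
      rw [hD, Subgroup.mem_subgroupOf, Subgroup.mem_centralizer_iff]
      intro k hk
      rw [Set.mem_singleton_iff] at hk
      rw [hk]; exact hgy
    rw [← hZD', Subgroup.mem_subgroupOf] at h1
    exact h1
  have hfpf : ∀ y ∈ H, g * y * g⁻¹ * y⁻¹ ∈ Z → y ∈ Z := by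
    intro y hy hc
    apply hCg y hy
    apply commute_of_pow_five g y (g * y * g⁻¹ * y⁻¹) (hZc _ hc) (hZsq _ hc) hg5'
    calc g * y * g⁻¹ = (g * y * g⁻¹ * y⁻¹) * y := by group
      _ = y * (g * y * g⁻¹ * y⁻¹) := (hZc _ hc y).symm
  have hinv : ∃ h ∈ H, T * g * T⁻¹ = g⁻¹ * h := by
    obtain ⟨π, hπ⟩ : ∃ π : G →* G ⧸ H, π = QuotientGroup.mk' H := ⟨_, rfl⟩
    have hπ1 : ∀ x : G, π x = 1 ↔ x ∈ H := by
      intro x; rw [hπ]; exact QuotientGroup.eq_one_iff x
    have hcardQ : Nat.card (G ⧸ H) = 10 := by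
      have := Subgroup.card_eq_card_quotient_mul_card_subgroup H
      rw [hG, hH32] at this
      omega
    have hπg : π g ≠ 1 := fun h => hgH ((hπ1 g).mp h)
    have hπg5 : orderOf (π g) = 5 := by
      have h1 : orderOf (π g) ∣ 5 := by
        rw [orderOf_dvd_iff_pow_eq_one, ← map_pow, hg5', map_one]
      rcases (Nat.dvd_prime (by norm_num : Nat.Prime 5)).mp h1 with h | h
      · exact absurd (orderOf_eq_one_iff.mp h) hπg
      · exact h
    have hN2 : (Subgroup.zpowers (π g)).index = 2 := by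
      have := Subgroup.card_mul_index (Subgroup.zpowers (π g))
      rw [Nat.card_zpowers, hπg5, hcardQ] at this
      omega
    haveI hNn : (Subgroup.zpowers (π g)).Normal := Subgroup.normal_of_index_eq_two hN2
    have hπT : π T ≠ 1 := fun h => hTH ((hπ1 T).mp h)
    have hπTT : π T * π T = 1 := by rw [← map_mul, hT, map_one]
    have hoT : orderOf (π T) = 2 := orderOf_eq_prime (by rw [pow_two]; exact hπTT) hπT
    have h1 : π T * π g * (π T)⁻¹ ∈ Subgroup.zpowers (π g) :=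
      hNn.conj_mem _ (Subgroup.mem_zpowers _) _
    obtain ⟨k, hk⟩ := Subgroup.mem_zpowers_iff.mp h1
    have h2 : π g ^ (k * k) = π g := by
      calc π g ^ (k * k) = (π g ^ k) ^ k := by rw [zpow_mul]
        _ = (π T * π g * (π T)⁻¹) ^ k := by rw [hk]
        _ = π T * π g ^ k * (π T)⁻¹ := by rw [conj_zpow]
        _ = π T * (π T * π g * (π T)⁻¹) * (π T)⁻¹ := by rw [hk]
        _ = (π T * π T) * π g * (π T * π T)⁻¹ := by group
        _ = π g := by rw [hπTT]; group
    have h3 : π g ^ (k * k - 1) = 1 := by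
      rw [zpow_sub, h2, zpow_one, mul_inv_cancel]
    have h4 : ((5 : ℕ) : ℤ) ∣ (k - 1) * (k + 1) := by
      have := orderOf_dvd_iff_zpow_eq_one.mpr h3
      rw [hπg5] at this
      have e : (k - 1) * (k + 1) = k * k - 1 := by ring
      rw [e]; exact this
    rcases Int.Prime.dvd_mul' (by norm_num : Nat.Prime 5) h4 with h5 | h5
    · exfalso
      have h6 : π g ^ (k - 1) = 1 := by
        rw [← hπg5] at h5; exact orderOf_dvd_iff_zpow_eq_one.mp h5
      have h7 : π g ^ k = π g := by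
        have : π g ^ k = π g ^ (k - 1) * π g := by
          rw [← zpow_add_one]; congr 1; ring
        rw [this, h6, one_mul]
      rw [h7] at hk
      have hcommTg : π T * π g = π g * π T := by
        calc π T * π g = (π T * π g * (π T)⁻¹) * π T := by group
          _ = π g * π T := by rw [← hk]
      have hcent : Subgroup.centralizer ({π T} : Set (G ⧸ H)) = ⊤ := by
        apply Subgroup.eq_top_of_card_eq
        rw [hcardQ]
        have d5 : 5 ∣ Nat.card (Subgroup.centralizer ({π T} : Set (G ⧸ H))) := by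
          have hle : Subgroup.zpowers (π g) ≤ Subgroup.centralizer ({π T} : Set (G ⧸ H)) := by
            rw [Subgroup.zpowers_le, Subgroup.mem_centralizer_iff]
            intro x hx; rw [Set.mem_singleton_iff] at hx; rw [hx]; exact hcommTg
          have := Subgroup.card_dvd_of_le hle
          rwa [Nat.card_zpowers, hπg5] at this
        have d2 : 2 ∣ Nat.card (Subgroup.centralizer ({π T} : Set (G ⧸ H))) := by
          have hle : Subgroup.zpowers (π T) ≤ Subgroup.centralizer ({π T} : Set (G ⧸ H)) := by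
            rw [Subgroup.zpowers_le, Subgroup.mem_centralizer_iff]
            intro x hx; rw [Set.mem_singleton_iff] at hx; rw [hx]
          have := Subgroup.card_dvd_of_le hle
          rwa [Nat.card_zpowers, hoT] at this
        have d10 : 10 ∣ Nat.card (Subgroup.centralizer ({π T} : Set (G ⧸ H))) := by omega
        have dle : Nat.card (Subgroup.centralizer ({π T} : Set (G ⧸ H))) ∣ 10 := by
          rw [← hcardQ]; exact Subgroup.card_subgroup_dvd_card _
        exact Nat.dvd_antisymm dle d10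
      have hTn : (Subgroup.zpowers (π T)).Normal := by
        refine ⟨fun n hn x => ?_⟩
        obtain ⟨m, rfl⟩ := Subgroup.mem_zpowers_iff.mp hn
        have hx : x ∈ Subgroup.centralizer ({π T} : Set (G ⧸ H)) := by
          rw [hcent]; exact Subgroup.mem_top _
        have hx' : π T * x = x * π T := (Subgroup.mem_centralizer_iff.mp hx) _ rfl
        have h8 : x * π T * x⁻¹ = π T := by rw [← hx']; group
        have h9 : x * π T ^ m * x⁻¹ = π T ^ m := by
          rw [← conj_zpow, h8]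
        rw [h9]; exact Subgroup.mem_zpowers_iff.mpr ⟨m, rfl⟩
      have hM2 : IsPGroup 2 ↥((Subgroup.zpowers (π T)).comap π) := by
        apply IsPGroup.comap_of_ker_isPGroup
        · exact IsPGroup.of_card (n := 1) (by rw [Nat.card_zpowers, hoT]; norm_num)
        · rw [hπ, QuotientGroup.ker_mk']; exact hH2
      have hMH := hmax _ (hTn.comap π) hM2
      exact hTH (hMH (Subgroup.mem_comap.mpr (Subgroup.mem_zpowers _)))
    · have h6 : π g ^ (k + 1) = 1 := by
        rw [← hπg5] at h5; exact orderOf_dvd_iff_zpow_eq_one.mp h5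
      have h7 : π g ^ k = (π g)⁻¹ := by
        have : π g ^ (k + 1) = π g ^ k * π g := zpow_add_one _ _
        rw [this] at h6
        exact eq_inv_of_mul_eq_one_left h6
      rw [h7] at hk
      refine ⟨g * (T * g * T⁻¹), ?_, by group⟩
      have : π (g * (T * g * T⁻¹)) = 1 := by
        rw [map_mul, map_mul, map_mul, map_inv, ← hk, mul_inv_cancel]
      exact (hπ1 _).mp this
  obtain ⟨ρ, hρ⟩ : ∃ ρ : G →* G ⧸ Z, ρ = QuotientGroup.mk' Z := ⟨_, rfl⟩
  have hρker : ∀ x : G, ρ x = 1 ↔ x ∈ Z := by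
    intro x; rw [hρ]; exact QuotientGroup.eq_one_iff x
  have hcomm_iff : ∀ u y : G, Commute (ρ u) (ρ y) ↔ u * y * u⁻¹ * y⁻¹ ∈ Z := by
    intro u y
    rw [← hρker, map_mul, map_mul, map_mul, map_inv, map_inv]
    constructor
    · intro h
      have : ρ u * ρ y = ρ y * ρ u := h
      rw [this]; group
    · intro h
      show ρ u * ρ y = ρ y * ρ u
      calc ρ u * ρ y = (ρ u * ρ y * (ρ u)⁻¹ * (ρ y)⁻¹) * (ρ y * ρ u) := by group
        _ = ρ y * ρ u := by rw [h, one_mul]
  have hHab : ∀ x ∈ H, ∀ y ∈ H, Commute (ρ x) (ρ y) := fun x hx y hy =>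
    (hcomm_iff x y).mpr (hcomm x hx y hy)
  obtain ⟨W, hW⟩ : ∃ W : G → Subgroup G, W = fun u =>
      H ⊓ (Subgroup.centralizer ({ρ u} : Set (G ⧸ Z))).comap ρ := ⟨_, rfl⟩
  have hWmem : ∀ u y, y ∈ W u ↔ (y ∈ H ∧ Commute (ρ u) (ρ y)) := by
    intro u y
    rw [hW]
    show y ∈ H ⊓ (Subgroup.centralizer ({ρ u} : Set (G ⧸ Z))).comap ρ ↔ _
    rw [Subgroup.mem_inf, Subgroup.mem_comap, Subgroup.mem_centralizer_iff]
    constructor
    · rintro ⟨h1, h2⟩; exact ⟨h1, h2 _ rfl⟩
    · rintro ⟨h1, h2⟩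
      refine ⟨h1, fun x hx => ?_⟩
      rw [Set.mem_singleton_iff] at hx; rw [hx]; exact h2
  have hZW : ∀ u, Z ≤ W u := by
    intro u c hc
    rw [hWmem]
    refine ⟨hZH hc, ?_⟩
    have : ρ c = 1 := (hρker c).mpr hc
    rw [this]; exact Commute.one_right _
  have hWH : ∀ u, W u ≤ H := by
    intro u y hy
    exact ((hWmem u y).mp hy).1
  have hW01 : W T ⊓ W (g * T * g⁻¹) ≤ Z := by
    intro y hy
    obtain ⟨hy0, hy1⟩ := Subgroup.mem_inf.mp hy
    rw [hWmem] at hy0 hy1
    obtain ⟨hyH, hc0⟩ := hy0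
    obtain ⟨-, hc1⟩ := hy1
    obtain ⟨h, hhH, hh⟩ := hinv
    apply hfpf y hyH
    rw [← hcomm_iff]
    have hc2 : Commute (ρ T * ρ (g * T * g⁻¹)) (ρ y) := hc0.mul_left hc1
    have e1 : T * (g * T * g⁻¹) = g⁻¹ * g⁻¹ * (g * h * g⁻¹) := by
      calc T * (g * T * g⁻¹) = (T * g * T⁻¹) * g⁻¹ := by rw [hTinv]; group
        _ = g⁻¹ * h * g⁻¹ := by rw [hh]
        _ = _ := by group
    rw [← map_mul, e1, map_mul, map_mul, map_inv] at hc2
    have hc3 : Commute (ρ (g * h * g⁻¹)) (ρ y) := hHab _ (hHn.conj_mem h hhH g) y hyH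
    have hc4 : Commute ((ρ g)⁻¹ * (ρ g)⁻¹) (ρ y) := by
      have := hc2.mul_left hc3.inv_left
      rwa [mul_inv_cancel_right] at this
    have hc5 : Commute (((ρ g)⁻¹ * (ρ g)⁻¹) ^ 2) (ρ y) := hc4.pow_left 2
    have e2 : ((ρ g)⁻¹ * (ρ g)⁻¹) ^ 2 = ρ g := by
      have h5 : ρ g ^ 5 = 1 := by rw [← map_pow, hg5', map_one]
      calc ((ρ g)⁻¹ * (ρ g)⁻¹) ^ 2 = ρ g * (ρ g ^ 5)⁻¹ := by group
        _ = ρ g := by rw [h5, inv_one, mul_one]
    rw [e2] at hc5
    exact hc5
  have hcardW : Nat.card (W T) ≤ 8 := by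
    have hN : W T ≤ Subgroup.normalizer ((W (g * T * g⁻¹) : Subgroup G) : Set G) := by
      apply Cfsg.Agent.Lib.helper3.le_normalizer_of_conj_mem
      intro x hx y hy
      have hxH := hWH _ hx
      have hyH := hWH _ hy
      have e : x * y * x⁻¹ = (x * y * x⁻¹ * y⁻¹) * y := by group
      rw [e]
      exact Subgroup.mul_mem _ (hZW _ (hcomm x hxH y hyH)) hy
    have h6 := Cfsg.Agent.Lib.helper15.card_sup_mul_card_inf (W T) (W (g * T * g⁻¹)) hN
    have hsup : Nat.card ↥(W T ⊔ W (g * T * g⁻¹)) ≤ 32 := by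
      rw [← hH32]; exact Subgroup.card_le_of_le (sup_le (hWH _) (hWH _))
    have hinf : Nat.card ↥(W T ⊓ W (g * T * g⁻¹)) ≤ 2 := by
      rw [← hZ2]; exact Subgroup.card_le_of_le hW01
    have heq : Nat.card (W T) = Nat.card (W (g * T * g⁻¹)) := by
      apply Nat.card_congr
      refine Equiv.subtypeEquiv (MulAut.conj g).toEquiv ?_
      intro y
      show y ∈ W T ↔ g * y * g⁻¹ ∈ W (g * T * g⁻¹)
      rw [hWmem, hWmem]
      constructor
      · rintro ⟨h1, h2⟩
        refine ⟨hHn.conj_mem y h1 g, ?_⟩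
        rw [map_mul, map_mul, map_mul, map_mul, map_inv]
        exact (Commute.conj_iff (ρ g)).mpr h2
      · rintro ⟨h1, h2⟩
        refine ⟨?_, ?_⟩
        · have h3 := hHn.conj_mem _ h1 g⁻¹
          have e : g⁻¹ * (g * y * g⁻¹) * g⁻¹⁻¹ = y := by group
          rw [e] at h3
          exact h3
        · rw [map_mul, map_mul, map_mul, map_mul, map_inv] at h2
          exact (Commute.conj_iff (ρ g)).mp h2
    rw [← heq] at h6
    by_contra hlt
    push Not at hlt
    have h81 : 9 * 9 ≤ Nat.card (W T) * Nat.card (W T) := Nat.mul_le_mul hlt hlt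
    have h64 : Nat.card ↥(W T ⊔ W (g * T * g⁻¹)) * Nat.card ↥(W T ⊓ W (g * T * g⁻¹)) ≤ 32 * 2 :=
      Nat.mul_le_mul hsup hinf
    omega
  by_contra hgt
  push Not at hgt
  obtain ⟨C, hC⟩ : ∃ C : Subgroup G, C = H ⊓ Subgroup.centralizer ({T} : Set G) := ⟨_, rfl⟩
  rw [← hC] at hgt
  have hCH' : C ≤ H := by rw [hC]; exact inf_le_left
  have hCT : ∀ y ∈ C, T * y * T⁻¹ = y := by
    intro y hy
    rw [hC] at hy
    exact (mem_centralizer_singleton_iff' T y).mp hy.2
  have hCW : C ≤ W T := by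
    intro y hy
    rw [hWmem]
    refine ⟨hCH' hy, ?_⟩
    rw [hcomm_iff, hCT y hy, mul_inv_cancel]
    exact Z.one_mem
  have hCdvd : Nat.card C ∣ 32 := by rw [← hH32]; exact Subgroup.card_dvd_of_le hCH'
  have hC8 : Nat.card C = 8 := by
    have h1 : Nat.card C ≤ 8 := (Subgroup.card_le_of_le hCW).trans hcardW
    have h32 : (32 : ℕ) = 2 ^ 5 := by norm_num
    rw [h32] at hCdvd
    obtain ⟨m, hm, hmeq⟩ := (Nat.dvd_prime_pow Nat.prime_two).mp hCdvd
    rw [hmeq] at h1 hgt ⊢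
    interval_cases m <;> first | omega | (exfalso; revert h1; decide) | (exfalso; revert hgt; decide)
  have hCW' : C = W T := Subgroup.eq_of_le_of_card_ge hCW (by rw [hC8]; exact hcardW)
  have hκH : ∀ x ∈ H, x * T * x⁻¹ * T⁻¹ ∈ H := by
    intro x hx
    have : x * T * x⁻¹ * T⁻¹ = x * (T * x⁻¹ * T⁻¹) := by group
    rw [this]; exact H.mul_mem hx (hHn.conj_mem _ (H.inv_mem hx) T)
  have hκinv : ∀ x : G, T * (x * T * x⁻¹ * T⁻¹) * T⁻¹ = (x * T * x⁻¹ * T⁻¹)⁻¹ := by
    intro x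
    rw [hTinv]
    have e1 : T * (x * T * x⁻¹ * T) * T = T * x * T * x⁻¹ * (T * T) := by group
    have e2 : (x * T * x⁻¹ * T)⁻¹ = T⁻¹ * x * T⁻¹ * x⁻¹ := by group
    rw [e1, e2, hT, hTinv, mul_one]
  have hκW : ∀ x ∈ H, x * T * x⁻¹ * T⁻¹ ∈ W T := by
    intro x hx
    rw [hWmem]
    refine ⟨hκH x hx, ?_⟩
    rw [hcomm_iff, hκinv]
    have h1 := hsq _ (hκH x hx)
    have e : (x * T * x⁻¹ * T⁻¹)⁻¹ * (x * T * x⁻¹ * T⁻¹)⁻¹ =
        ((x * T * x⁻¹ * T⁻¹) * (x * T * x⁻¹ * T⁻¹))⁻¹ := by group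
    rw [e]; exact Z.inv_mem h1
  have hκsq : ∀ x ∈ H, (x * T * x⁻¹ * T⁻¹) * (x * T * x⁻¹ * T⁻¹) = 1 := by
    intro x hx
    have h1 : x * T * x⁻¹ * T⁻¹ ∈ C := by rw [hCW']; exact hκW x hx
    have h2 := hCT _ h1
    rw [hκinv] at h2
    nth_rewrite 1 [← h2]
    exact inv_mul_cancel _
  let ψ : ↥H →* G ⧸ Z := MonoidHom.mk' (fun x => ρ ((x : G) * T * (x : G)⁻¹ * T⁻¹)) (by
    intro x x'
    show ρ (((x * x' : ↥H) : G) * T * ((x * x' : ↥H) : G)⁻¹ * T⁻¹) =
      ρ ((x : G) * T * (x : G)⁻¹ * T⁻¹) * ρ ((x' : G) * T * (x' : G)⁻¹ * T⁻¹)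
    rw [Subgroup.coe_mul]
    obtain ⟨a', ha'⟩ : ∃ a', a' = T * (x : G)⁻¹ * T⁻¹ := ⟨_, rfl⟩
    obtain ⟨b', hb'⟩ : ∃ b', b' = T * (x' : G)⁻¹ * T⁻¹ := ⟨_, rfl⟩
    have ha'H : a' ∈ H := by rw [ha']; exact hHn.conj_mem _ (H.inv_mem x.2) T
    have hb'H : b' ∈ H := by rw [hb']; exact hHn.conj_mem _ (H.inv_mem x'.2) T
    have e1 : (x : G) * x' * T * ((x : G) * x')⁻¹ * T⁻¹ = x * x' * b' * a' := by
      rw [ha', hb']; group
    have e2 : (x : G) * T * (x : G)⁻¹ * T⁻¹ = x * a' := by rw [ha']; group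
    have e3 : (x' : G) * T * (x' : G)⁻¹ * T⁻¹ = x' * b' := by rw [hb']; group
    rw [e1, e2, e3]
    simp only [map_mul]
    have c1 : Commute (ρ (x' : G) * ρ b') (ρ a') :=
      (hHab _ x'.2 _ ha'H).mul_left (hHab _ hb'H _ ha'H)
    calc ρ (x : G) * ρ (x' : G) * ρ b' * ρ a' = ρ (x : G) * ((ρ (x' : G) * ρ b') * ρ a') := by group
      _ = ρ (x : G) * (ρ a' * (ρ (x' : G) * ρ b')) := by rw [c1.eq]
      _ = ρ (x : G) * ρ a' * (ρ (x' : G) * ρ b') := by group)
  have hψ : ∀ x : ↥H, ψ x = ρ ((x : G) * T * (x : G)⁻¹ * T⁻¹) := fun x => rfl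
  have hker_card : Nat.card ψ.ker ≤ 8 := by
    have h1 : ψ.ker ≤ (W T).subgroupOf H := by
      intro x hx
      rw [MonoidHom.mem_ker, hψ, hρker] at hx
      rw [Subgroup.mem_subgroupOf, hWmem]
      exact ⟨x.2, ((hcomm_iff _ _).mpr hx).symm⟩
    have h2 : Nat.card ((W T).subgroupOf H) = Nat.card (W T) :=
      Nat.card_congr (Subgroup.subgroupOfEquivOfLe (hWH T)).toEquiv
    exact (Subgroup.card_le_of_le h1).trans (by rw [h2]; exact hcardW)
  have hrange_card : 4 ≤ Nat.card ψ.range := by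
    have h1 := card_inf_ker_mul_card_map ψ ⊤
    rw [inf_top_eq, ← MonoidHom.range_eq_map, Subgroup.card_top, hH32] at h1
    by_contra hlt
    push Not at hlt
    have : Nat.card ψ.ker * Nat.card ψ.range ≤ 8 * 3 := Nat.mul_le_mul hker_card (by omega)
    omega
  have hCmap_card : Nat.card (C.map ρ) = 4 := by
    have h1 := card_inf_ker_mul_card_map ρ C
    have hk : ρ.ker = Z := by rw [hρ, QuotientGroup.ker_mk']
    have hZC : Z ⊓ C = Z := inf_eq_left.mpr ((hZW T).trans (le_of_eq hCW'.symm))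
    rw [hk, hZC, hZ2, hC8] at h1
    omega
  have hrange_le : ψ.range ≤ C.map ρ := by
    rintro _ ⟨x, rfl⟩
    rw [hψ]
    exact Subgroup.mem_map_of_mem ρ (by rw [hCW']; exact hκW x x.2)
  have hrange_eq : ψ.range = C.map ρ :=
    Subgroup.eq_of_le_of_card_ge hrange_le (by rw [hCmap_card]; exact hrange_card)
  have hCexp : ∀ y ∈ C, y * y = 1 := by
    intro y hy
    have h1 : ρ y ∈ ψ.range := by rw [hrange_eq]; exact Subgroup.mem_map_of_mem ρ hy
    obtain ⟨x, hx⟩ := h1
    rw [hψ] at hx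
    obtain ⟨κ, hκ⟩ : ∃ κ, κ = (x : G) * T * (x : G)⁻¹ * T⁻¹ := ⟨_, rfl⟩
    rw [← hκ] at hx
    have hkk : κ * κ = 1 := by rw [hκ]; exact hκsq x x.2
    have h2 : κ⁻¹ * y ∈ Z := by
      rw [← hρker, map_mul, map_inv, hx, inv_mul_cancel]
    obtain ⟨c, hc⟩ : ∃ c, c = κ⁻¹ * y := ⟨_, rfl⟩
    rw [← hc] at h2
    have hy' : y = κ * c := by rw [hc]; group
    have hcc := hZsq c h2
    have hcomm' := hZc c h2 κ
    rw [hy']
    calc (κ * c) * (κ * c) = κ * (c * κ) * c := by group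
      _ = κ * (κ * c) * c := by rw [hcomm']
      _ = (κ * κ) * (c * c) := by group
      _ = 1 := by rw [hkk, hcc, one_mul]
  have := hminus C hCH' hCexp
  omega

end Cfsg.Agent.Lib.helper14
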