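import Mathlib

set_option autoImplicit false
set_option linter.unusedSectionVars false
set_option linter.unusedVariables false

namespace Cfsg.Agent.Lib.helper14

open scoped commutatorElement Pointwise

/-- the scalar matrix `-1` in `SL₂`. -/
def negOneSL (F : Type*) [Field F] : Matrix.SpecialLinearGroup (Fin 2) F :=
  ⟨!![-1, 0; 0, -1], by simp [Matrix.det_fin_two]⟩

theorem negOneSL_coe (F : Type*) [Field F] : (negOneSL F).1 = !![-1, 0; 0, -1] := rfl

theorem negOneSL_mul_self (F : Type*) [Field F] : negOneSL F * negOneSL F = 1 := by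
  apply Subtype.ext
  show (negOneSL F).1 * (negOneSL F).1 = 1
  rw [negOneSL_coe]
  simp [Matrix.mul_fin_two, Matrix.one_fin_two]

theorem negOneSL_comm (F : Type*) [Field F] (g : Matrix.SpecialLinearGroup (Fin 2) F) :
    g * negOneSL F = negOneSL F * g := by
  apply Subtype.ext
  show g.1 * (negOneSL F).1 = (negOneSL F).1 * g.1
  rw [negOneSL_coe]
  ext i j
  fin_cases i <;> fin_cases j <;> simp [Matrix.mul_apply, Fin.sum_univ_two]

theorem sl2_noncomm (F : Type*) [Field F] :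
    ∃ u v : Matrix.SpecialLinearGroup (Fin 2) F, u * v ≠ v * u := by
  refine ⟨⟨!![1, 1; 0, 1], by simp [Matrix.det_fin_two]⟩,
    ⟨!![1, 0; 1, 1], by simp [Matrix.det_fin_two]⟩, ?_⟩
  intro h
  have h1 := congrArg (fun M : Matrix.SpecialLinearGroup (Fin 2) F => M.1 0 0) h
  have h2 : (!![1, 1; 0, 1] * !![1, 0; 1, 1] : Matrix (Fin 2) (Fin 2) F) 0 0 =
      (!![1, 0; 1, 1] * !![1, 1; 0, 1] : Matrix (Fin 2) (Fin 2) F) 0 0 := h1
  simp [Matrix.mul_apply, Fin.sum_univ_two] at h2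

section split
variable {N : Type*} [Group N] [Finite N] {p : ℕ} [Fact p.Prime]

/-- two elements act on an invariant subgroup of prime order by commuting automorphisms. -/
theorem conj_comm_of_card_prime (X : Subgroup N) (hX : Nat.card X = p)
    (hinv : ∀ n : N, ∀ x ∈ X, n * x * n⁻¹ ∈ X) (n₁ n₂ : N) :
    ∀ x ∈ X, (n₁ * n₂) * x * (n₁ * n₂)⁻¹ = (n₂ * n₁) * x * (n₂ * n₁)⁻¹ := by
  have hp : p.Prime := Fact.out
  have hnt : Nontrivial X := by
    rw [← Finite.one_lt_card_iff_nontrivial, hX]; exact hp.one_lt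
  obtain ⟨g₀, hg₀⟩ := exists_ne (1 : X)
  have hpow : ∀ x ∈ X, ∃ k : ℤ, x = (g₀ : N) ^ k := by
    intro x hx
    have := mem_zpowers_of_prime_card hX (g := g₀) (g' := ⟨x, hx⟩) hg₀
    obtain ⟨k, hk⟩ := Subgroup.mem_zpowers_iff.1 this
    refine ⟨k, ?_⟩
    have := congrArg Subtype.val hk
    simpa using this.symm
  obtain ⟨k₁, hk₁⟩ := hpow _ (hinv n₁ g₀ g₀.2)
  obtain ⟨k₂, hk₂⟩ := hpow _ (hinv n₂ g₀ g₀.2)
  have h12 : (n₁ * n₂) * (g₀ : N) * (n₁ * n₂)⁻¹ = (g₀ : N) ^ (k₁ * k₂) := by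
    calc (n₁ * n₂) * (g₀ : N) * (n₁ * n₂)⁻¹ = n₁ * (n₂ * (g₀ : N) * n₂⁻¹) * n₁⁻¹ := by group
      _ = n₁ * (g₀ : N) ^ k₂ * n₁⁻¹ := by rw [hk₂]
      _ = (n₁ * (g₀ : N) * n₁⁻¹) ^ k₂ := by rw [conj_zpow]
      _ = ((g₀ : N) ^ k₁) ^ k₂ := by rw [hk₁]
      _ = (g₀ : N) ^ (k₁ * k₂) := by rw [zpow_mul]
  have h21 : (n₂ * n₁) * (g₀ : N) * (n₂ * n₁)⁻¹ = (g₀ : N) ^ (k₁ * k₂) := by
    calc (n₂ * n₁) * (g₀ : N) * (n₂ * n₁)⁻¹ = n₂ * (n₁ * (g₀ : N) * n₁⁻¹) * n₂⁻¹ := by group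
      _ = n₂ * (g₀ : N) ^ k₁ * n₂⁻¹ := by rw [hk₁]
      _ = (n₂ * (g₀ : N) * n₂⁻¹) ^ k₁ := by rw [conj_zpow]
      _ = ((g₀ : N) ^ k₂) ^ k₁ := by rw [hk₂]
      _ = (g₀ : N) ^ (k₁ * k₂) := by rw [← zpow_mul, mul_comm]
  intro x hx
  obtain ⟨k, rfl⟩ := hpow x hx
  rw [← conj_zpow, ← conj_zpow, h12, h21]

/-- **S3075**: a self-centralizing normal plane with quotient `SL₂(p)` is complemented. -/
theorem plane_by_sl2_splits (hp2 : p ≠ 2)
    (A : Subgroup N) [A.Normal] (hAcomm : IsMulCommutative A) (hAcard : Nat.card A = p ^ 2)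
    (hAexp : Monoid.exponent ↥A = p)
    (hAself : Subgroup.centralizer (A : Set N) = A)
    {F : Type*} [Field F] [Fintype F] (hF : Fintype.card F = p)
    (e : N ⧸ A ≃* Matrix.SpecialLinearGroup (Fin 2) F) :
    ∃ U : Subgroup N, A ⊓ U = ⊥ ∧ A ⊔ U = ⊤ := by
  classical
  have hp : p.Prime := Fact.out
  have hodd : Odd p := hp.odd_of_ne_two hp2
  obtain ⟨m, hm⟩ := hodd
  -- the field has odd characteristic
  have h2 : (2 : F) ≠ 0 := by
    intro h
    have h1 : ((p : ℕ) : F) = 0 := by rw [← hF]; exact Nat.cast_card_eq_zero F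
    rw [hm] at h1
    push_cast at h1
    rw [h, zero_mul, zero_add] at h1
    exact one_ne_zero h1
  -- the map onto SL₂
  let f : N →* Matrix.SpecialLinearGroup (Fin 2) F :=
    e.toMonoidHom.comp (QuotientGroup.mk' A)
  have hf : Function.Surjective f := e.surjective.comp (QuotientGroup.mk'_surjective A)
  have hker : ∀ n : N, f n = 1 ↔ n ∈ A := by
    intro n
    show e (QuotientGroup.mk' A n) = 1 ↔ _
    rw [MulEquiv.map_eq_one_iff, QuotientGroup.mk'_apply, QuotientGroup.eq_one_iff]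
  have hAcomm' : ∀ a ∈ A, ∀ b ∈ A, a * b = b * a := by
    intro a ha b hb
    have := hAcomm.is_comm.comm (⟨a, ha⟩ : A) ⟨b, hb⟩
    exact congrArg Subtype.val this
  have hApow : ∀ a ∈ A, a ^ p = 1 := by
    intro a ha
    have := Monoid.pow_exponent_eq_one (⟨a, ha⟩ : A)
    rw [hAexp] at this
    have := congrArg Subtype.val this
    simpa using this
  -- the central involution of SL₂
  set z : Matrix.SpecialLinearGroup (Fin 2) F := negOneSL F with hzdef
  have hz1 : z ≠ 1 := by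
    intro h
    have h3 : (z.1 0 0 : F) = (1 : Matrix.SpecialLinearGroup (Fin 2) F).1 0 0 := by rw [h]
    rw [hzdef, negOneSL_coe] at h3
    simp at h3
    apply h2
    have h4 : (2 : F) = 1 - (-1) := by ring
    rw [h4, h3]; ring
  have hz2 : z * z = 1 := negOneSL_mul_self F
  have hzc : ∀ g : Matrix.SpecialLinearGroup (Fin 2) F, g * z = z * g := negOneSL_comm F
  obtain ⟨t₀, ht₀⟩ := hf z
  have ht₀2 : t₀ * t₀ ∈ A := by
    rw [← hker, map_mul, ht₀, hz2]
  set t : N := t₀ ^ p with ht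
  have hzp : z ^ p = z := by
    rw [hm, pow_succ, pow_mul, pow_two, hz2, one_pow, one_mul]
  have hft : f t = z := by rw [ht, map_pow, ht₀, hzp]
  have htA : t ∉ A := by
    intro h
    rw [← hker, hft] at h
    exact hz1 h
  have ht2 : t * t = 1 := by
    have : t * t = (t₀ * t₀) ^ p := by
      rw [ht, ← pow_two, ← pow_two, ← pow_mul, ← pow_mul, mul_comm]
    rw [this]
    exact hApow _ ht₀2
  have htinv : t⁻¹ = t := inv_eq_of_mul_eq_one_left ht2
  have htc : ∀ n : N, n * t * n⁻¹ * t⁻¹ ∈ A := by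
    intro n
    rw [← hker, map_mul, map_mul, map_mul, map_inv, map_inv, hft, hzc (f n)]
    group
  -- conjugation by `t` on `A`
  have htA' : ∀ a ∈ A, t * a * t⁻¹ ∈ A := fun a ha => Subgroup.Normal.conj_mem inferInstance a ha t
  -- N acts on C and I
  let C : Subgroup N := A ⊓ Subgroup.centralizer {t}
  have hCmem : ∀ a : N, a ∈ C ↔ a ∈ A ∧ t * a * t⁻¹ = a := by
    intro a
    rw [Subgroup.mem_inf, Subgroup.mem_centralizer_iff]
    constructor
    · rintro ⟨ha, h⟩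
      refine ⟨ha, ?_⟩
      have := h t rfl
      rw [this]; group
    · rintro ⟨ha, h⟩
      refine ⟨ha, ?_⟩
      intro y hy
      rw [Set.mem_singleton_iff] at hy
      subst hy
      nth_rewrite 2 [← h]
      group
  have hCA : C ≤ A := inf_le_left
  let I : Subgroup N :=
    { carrier := {a | a ∈ A ∧ t * a * t⁻¹ = a⁻¹}
      mul_mem' := by
        rintro a b ⟨ha, ha2⟩ ⟨hb, hb2⟩
        refine ⟨A.mul_mem ha hb, ?_⟩
        have : t * (a * b) * t⁻¹ = (t * a * t⁻¹) * (t * b * t⁻¹) := by group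
        rw [this, ha2, hb2, mul_inv_rev]
        exact hAcomm' _ (A.inv_mem ha) _ (A.inv_mem hb)
      one_mem' := ⟨A.one_mem, by simp⟩
      inv_mem' := by
        rintro a ⟨ha, ha2⟩
        refine ⟨A.inv_mem ha, ?_⟩
        have : t * a⁻¹ * t⁻¹ = (t * a * t⁻¹)⁻¹ := by group
        rw [this, ha2] }
  have hImem : ∀ a : N, a ∈ I ↔ a ∈ A ∧ t * a * t⁻¹ = a⁻¹ := fun a => Iff.rfl
  have hIA : I ≤ A := fun a ha => ha.1
  have hconj : ∀ n : N, ∀ a ∈ A, t * (n * a * n⁻¹) * t⁻¹ = n * (t * a * t⁻¹) * n⁻¹ := by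
    intro n a ha
    have ha' : n⁻¹ * t * n * t⁻¹ ∈ A := by
      have := htc n⁻¹
      simpa using this
    have h1 : t * (n * a * n⁻¹) * t⁻¹ =
        n * ((n⁻¹ * t * n * t⁻¹) * (t * a * t⁻¹) * (n⁻¹ * t * n * t⁻¹)⁻¹) * n⁻¹ := by group
    rw [h1, hAcomm' _ ha' _ (htA' a ha), mul_inv_cancel_right]
  have hCinv : ∀ n : N, ∀ x ∈ C, n * x * n⁻¹ ∈ C := by
    intro n x hx
    obtain ⟨hxA, hx2⟩ := (hCmem x).1 hx
    refine (hCmem _).2 ⟨Subgroup.Normal.conj_mem inferInstance x hxA n, ?_⟩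
    rw [hconj n x hxA, hx2]
  have hIinv : ∀ n : N, ∀ x ∈ I, n * x * n⁻¹ ∈ I := by
    intro n x hx
    obtain ⟨hxA, hx2⟩ := (hImem x).1 hx
    refine (hImem _).2 ⟨Subgroup.Normal.conj_mem inferInstance x hxA n, ?_⟩
    rw [hconj n x hxA, hx2]; group
  have htt : ∀ a : N, t * (t * a * t⁻¹) * t⁻¹ = a := by
    intro a
    have : t * (t * a * t⁻¹) * t⁻¹ = (t * t) * a * (t * t)⁻¹ := by group
    rw [this, ht2]; group
  have hc₀ : ∀ a ∈ A, a * (t * a * t⁻¹) ∈ C := by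
    intro a ha
    refine (hCmem _).2 ⟨A.mul_mem ha (htA' a ha), ?_⟩
    have : t * (a * (t * a * t⁻¹)) * t⁻¹ = (t * a * t⁻¹) * (t * (t * a * t⁻¹) * t⁻¹) := by group
    rw [this, htt]
    exact hAcomm' _ (htA' a ha) _ ha
  have hi₀ : ∀ a ∈ A, a * (t * a * t⁻¹)⁻¹ ∈ I := by
    intro a ha
    refine (hImem _).2 ⟨A.mul_mem ha (A.inv_mem (htA' a ha)), ?_⟩
    have : t * (a * (t * a * t⁻¹)⁻¹) * t⁻¹ = (t * a * t⁻¹) * (t * (t * a * t⁻¹) * t⁻¹)⁻¹ := by
      group
    rw [this, htt, mul_inv_rev, inv_inv]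
  have hsq : ∀ a ∈ A, a * a = (a * (t * a * t⁻¹)) * (a * (t * a * t⁻¹)⁻¹) := by
    intro a ha
    have h1 := hAcomm' _ (htA' a ha) _ ha
    symm
    calc (a * (t * a * t⁻¹)) * (a * (t * a * t⁻¹)⁻¹)
        = a * ((t * a * t⁻¹) * a) * (t * a * t⁻¹)⁻¹ := by group
      _ = a * (a * (t * a * t⁻¹)) * (t * a * t⁻¹)⁻¹ := by rw [h1]
      _ = a * a := by group
  have hroot : ∀ a ∈ A, a = (a * a) ^ (m + 1) := by
    intro a ha
    have h1 : (a * a) ^ (m + 1) = a ^ p * a := by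
      rw [hm, ← pow_two, ← pow_mul, ← pow_succ]; congr 1
    rw [h1, hApow a ha, one_mul]
  -- `C` is trivial
  have hCbot : C = ⊥ := by
    by_contra hCne
    have hIne : I ≠ ⊥ := by
      intro hI
      apply htA
      rw [← hAself, Subgroup.mem_centralizer_iff]
      intro a ha
      have h1 : a * (t * a * t⁻¹)⁻¹ = 1 := by
        have := hi₀ a ha
        rw [hI] at this
        exact Subgroup.mem_bot.1 this
      have h2 : a = t * a * t⁻¹ := by
        have := mul_inv_eq_one.1 h1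
        exact this
      calc a * t = (t * a * t⁻¹) * t := by rw [← h2]
        _ = t * a := by group
    have hCI : C ⊓ I = ⊥ := by
      rw [eq_bot_iff]
      intro a ha
      obtain ⟨haC, haI⟩ := Subgroup.mem_inf.1 ha
      have h1 := ((hCmem a).1 haC).2
      have h2 := ((hImem a).1 haI).2
      have h3 : a * a = 1 := by
        have : a = a⁻¹ := h1.symm.trans h2
        calc a * a = a * a⁻¹ := by rw [← this]
          _ = 1 := mul_inv_cancel a
      rw [Subgroup.mem_bot, hroot a ((hCmem a).1 haC).1, h3, one_pow]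
    have hcard : ∀ X : Subgroup N, X ≤ A → X ≠ ⊥ → X ≠ A → Nat.card X = p := by
      intro X hXA hX1 hX2
      have hdvd : Nat.card X ∣ p ^ 2 := hAcard ▸ Subgroup.card_dvd_of_le hXA
      obtain ⟨k, hk, hk2⟩ := (Nat.dvd_prime_pow hp).1 hdvd
      interval_cases k
      · exfalso; apply hX1
        rw [pow_zero] at hk2
        exact Subgroup.card_eq_one.1 hk2
      · rw [hk2, pow_one]
      · exfalso; apply hX2
        exact Subgroup.eq_of_le_of_card_ge hXA (by rw [hk2, hAcard])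
    have hCA' : C ≠ A := by
      intro h
      apply hIne
      rw [← hCI, h]
      exact (inf_eq_right.2 hIA).symm
    have hIA' : I ≠ A := by
      intro h
      apply hCne
      rw [← hCI, h]
      exact (inf_eq_left.2 hCA).symm
    have hcC := hcard C hCA hCne hCA'
    have hcI := hcard I hIA hIne hIA'
    obtain ⟨u, v, huv⟩ := sl2_noncomm F
    obtain ⟨n₁, rfl⟩ := hf u
    obtain ⟨n₂, rfl⟩ := hf v
    apply huv
    have hmem : (n₂ * n₁)⁻¹ * (n₁ * n₂) ∈ A := by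
      rw [← hAself, Subgroup.mem_centralizer_iff]
      intro a ha
      have key : ∀ x ∈ A, (n₁ * n₂) * (x * x) * (n₁ * n₂)⁻¹ =
          (n₂ * n₁) * (x * x) * (n₂ * n₁)⁻¹ := by
        intro x hx
        rw [hsq x hx]
        have e1 := conj_comm_of_card_prime C hcC hCinv n₁ n₂ _ (hc₀ x hx)
        have e2 := conj_comm_of_card_prime I hcI hIinv n₁ n₂ _ (hi₀ x hx)
        calc (n₁ * n₂) * ((x * (t * x * t⁻¹)) * (x * (t * x * t⁻¹)⁻¹)) * (n₁ * n₂)⁻¹
            = ((n₁ * n₂) * (x * (t * x * t⁻¹)) * (n₁ * n₂)⁻¹) *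
              ((n₁ * n₂) * (x * (t * x * t⁻¹)⁻¹) * (n₁ * n₂)⁻¹) := by group
          _ = ((n₂ * n₁) * (x * (t * x * t⁻¹)) * (n₂ * n₁)⁻¹) *
              ((n₂ * n₁) * (x * (t * x * t⁻¹)⁻¹) * (n₂ * n₁)⁻¹) := by rw [e1, e2]
          _ = (n₂ * n₁) * ((x * (t * x * t⁻¹)) * (x * (t * x * t⁻¹)⁻¹)) * (n₂ * n₁)⁻¹ := by
            group
      have key2 : (n₁ * n₂) * a * (n₁ * n₂)⁻¹ = (n₂ * n₁) * a * (n₂ * n₁)⁻¹ := by
        rw [hroot a ha, ← conj_pow, ← conj_pow, key a ha]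
      calc a * ((n₂ * n₁)⁻¹ * (n₁ * n₂))
          = (n₂ * n₁)⁻¹ * ((n₂ * n₁) * a * (n₂ * n₁)⁻¹) * (n₁ * n₂) := by group
        _ = (n₂ * n₁)⁻¹ * ((n₁ * n₂) * a * (n₁ * n₂)⁻¹) * (n₁ * n₂) := by rw [key2]
        _ = (n₂ * n₁)⁻¹ * (n₁ * n₂) * a := by group
    have h1 := (hker _).2 hmem
    rw [map_mul, map_inv, inv_mul_eq_one] at h1
    rw [← map_mul, ← map_mul, h1]
  have hinvert : ∀ a ∈ A, t * a * t⁻¹ = a⁻¹ := by
    intro a ha
    have := hc₀ a ha
    rw [hCbot, Subgroup.mem_bot] at this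
    exact (eq_inv_of_mul_eq_one_right this)
  refine ⟨Subgroup.centralizer {t}, hCbot, ?_⟩
  rw [eq_top_iff]
  intro n _
  have ha : n * t * n⁻¹ * t⁻¹ ∈ A := htc n
  set a := n * t * n⁻¹ * t⁻¹ with hadef
  set b := a ^ (m + 1) with hbdef
  have hbA : b ∈ A := A.pow_mem ha _
  have hbb : b * b = a := by
    rw [hbdef, ← pow_add]
    have : m + 1 + (m + 1) = p + 1 := by omega
    rw [this, pow_succ, hApow a ha, one_mul]
  have hU : b⁻¹ * n ∈ Subgroup.centralizer {t} := by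
    rw [Subgroup.mem_centralizer_iff]
    intro y hy
    rw [Set.mem_singleton_iff] at hy
    rw [hy]
    have h1 : t * b⁻¹ * t⁻¹ = b := by
      have := hinvert b⁻¹ (A.inv_mem hbA)
      rw [inv_inv] at this
      exact this
    have h2 : n * t * n⁻¹ = a * t := by rw [hadef]; group
    have h3 : b * t * b⁻¹ = a * t := by
      calc b * t * b⁻¹ = b * (t * b⁻¹ * t⁻¹) * t := by group
        _ = b * b * t := by rw [h1]
        _ = a * t := by rw [hbb]
    calc t * (b⁻¹ * n) = b⁻¹ * (b * t * b⁻¹) * n := by group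
      _ = b⁻¹ * (n * t * n⁻¹) * n := by rw [h3, h2]
      _ = b⁻¹ * n * t := by group
  have : n = b * (b⁻¹ * n) := by group
  rw [this]
  exact Subgroup.mul_mem_sup hbA hU

end split

end Cfsg.Agent.Lib.helper14
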