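import Mathlib
import Cfsg.Agent.Lib.helper15.QdSec
import Cfsg.Agent.Lib.helper12.SL2Cent
import Cfsg.Agent.Lib.helper3.Normalizer

set_option autoImplicit false
set_option linter.style.haveILetI false

namespace Cfsg.Agent.Lib.helper14

open Cfsg Cfsg.Agent.Lib.helper15 Cfsg.Agent.Lib.helper15.Qd

section utm

variable {F : Type*} [Field F]

/-- The upper unitriangular `3 × 3` element with entries `a`, `b`, `c`. -/
def utm (a b c : F) : Matrix.SpecialLinearGroup (Fin 3) F := aff (Dk.uu a) ![b, c]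

omit [Field F] in
theorem qdc_vec2_eta (s : Fin 2 → F) : s = ![s 0, s 1] := by
  funext i; fin_cases i <;> rfl

theorem qdc_sl2_mulVec (A : Dk.SL2 F) (x y : F) :
    (A : Matrix (Fin 2) (Fin 2) F).mulVec ![x, y] =
      ![Dk.ea A * x + Dk.eb A * y, Dk.ec A * x + Dk.ed A * y] := by
  funext i
  fin_cases i <;> simp [Matrix.mulVec, dotProduct, Fin.sum_univ_two, Dk.ea, Dk.eb, Dk.ec, Dk.ed]

theorem qdc_aff_mul (A B : Dk.SL2 F) (x y x' y' : F) :
    aff A ![x, y] * aff B ![x', y'] =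
      aff (A * B) ![Dk.ea A * x' + Dk.eb A * y' + x, Dk.ec A * x' + Dk.ed A * y' + y] := by
  rw [aff_mul, qdc_sl2_mulVec]
  congr 1
  funext i
  fin_cases i <;> simp

theorem utm_mul (a b c a' b' c' : F) :
    utm a b c * utm a' b' c' = utm (a + a') (b + b' + a * c') (c + c') := by
  unfold utm
  rw [qdc_aff_mul, ← Dk.uu_add]
  congr 1
  funext i
  fin_cases i <;> simp <;> ring

theorem utm_inj {a b c a' b' c' : F} (h : utm a b c = utm a' b' c') :
    a = a' ∧ b = b' ∧ c = c' := by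
  obtain ⟨h1, h2⟩ := aff_inj h
  refine ⟨Dk.uu_injective h1, ?_, ?_⟩
  · simpa using congrFun h2 0
  · simpa using congrFun h2 1

theorem utm_one : utm (0 : F) 0 0 = 1 := by
  unfold utm
  rw [Dk.uu_zero]
  have h : (![0, 0] : Fin 2 → F) = 0 := by
    funext i; fin_cases i <;> rfl
  rw [h, aff_one]

theorem utm_pow (b c : F) (n : ℕ) : utm 0 b c ^ n = utm 0 (n * b) (n * c) := by
  induction n with
  | zero =>
    rw [pow_zero]
    have h : utm 0 ((0 : ℕ) * b) ((0 : ℕ) * c) = utm (0 : F) 0 0 := by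
      congr 1 <;> simp
    rw [h, utm_one]
  | succ n ih =>
    rw [pow_succ, ih, utm_mul]
    congr 1 <;> push_cast <;> ring

end utm

section char

/-- The normalizer of a subgroup normalizes its characteristic subgroups. -/
theorem normalizer_le_normalizer_map_char {G : Type*} [Group G] (S : Subgroup G)
    (T : Subgroup S) (hT : T.Characteristic) :
    Subgroup.normalizer (S : Set G) ≤
      Subgroup.normalizer ((T.map S.subtype : Subgroup G) : Set G) := by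
  apply Cfsg.Agent.Lib.helper3.le_normalizer_of_conj_mem
  intro g hg a ha
  obtain ⟨a', ha'T, rfl⟩ := ha
  have hmem : ∀ x : G, x ∈ S → g * x * g⁻¹ ∈ S := fun x hx =>
    (Subgroup.mem_normalizer_iff.mp hg x).mp hx
  have hmem' : ∀ x : G, x ∈ S → g⁻¹ * x * g ∈ S := fun x hx => by
    have := (Subgroup.mem_normalizer_iff.mp hg (g⁻¹ * x * g)).mpr (by
      have e : g * (g⁻¹ * x * g) * g⁻¹ = x := by group
      rw [e]; exact hx)
    exact this
  let φ : S ≃* S :=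
    { toFun := fun x => ⟨g * x * g⁻¹, hmem x x.2⟩
      invFun := fun x => ⟨g⁻¹ * x * g, hmem' x x.2⟩
      left_inv := fun x => by
        apply Subtype.ext
        show g⁻¹ * (g * (x : G) * g⁻¹) * g = x
        group
      right_inv := fun x => by
        apply Subtype.ext
        show g * (g⁻¹ * (x : G) * g) * g⁻¹ = x
        group
      map_mul' := fun x y => by
        apply Subtype.ext
        show g * ((x : G) * (y : G)) * g⁻¹ = (g * x * g⁻¹) * (g * y * g⁻¹)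
        group }
  have h1 : φ a' ∈ T := (Subgroup.characteristic_iff_le_comap.mp hT φ) ha'T
  exact ⟨φ a', h1, rfl⟩

end char

section emb

variable {p : ℕ} [Fact p.Prime] {Y : Type*} [Group Y]
  (E : Y →* Matrix.SpecialLinearGroup (Fin 3) (ZMod p))

theorem qdc_theta (hE : Function.Injective E)
    (hsurj : ∀ (A : Dk.SL2 (ZMod p)) (t : Fin 2 → ZMod p), ∃ y, E y = aff A t)
    (S : Subgroup Y) (hS : ∀ y, y ∈ S ↔ ∃ a b c, E y = utm a b c) :
    ∃ θ : S ≃* S, ∀ x : S, ∀ a b c, E (x : Y) = utm a b c →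
      E ((θ x : S) : Y) = utm (-c) (a * c - b) (-a) := by
  have hex : ∀ x : S, ∃ y : S, ∀ a b c, E (x : Y) = utm a b c →
      E (y : Y) = utm (-c) (a * c - b) (-a) := by
    intro x
    obtain ⟨a, b, c, h⟩ := (hS (x : Y)).mp x.2
    obtain ⟨y, hy⟩ := hsurj (Dk.uu (-c)) ![a * c - b, -a]
    refine ⟨⟨y, (hS y).mpr ⟨_, _, _, hy⟩⟩, ?_⟩
    intro a' b' c' h'
    obtain ⟨rfl, rfl, rfl⟩ := utm_inj (h.symm.trans h')
    exact hy
  choose f hf using hex
  have hmul : ∀ x x' : S, f (x * x') = f x * f x' := by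
    intro x x'
    obtain ⟨a, b, c, h⟩ := (hS (x : Y)).mp x.2
    obtain ⟨a', b', c', h'⟩ := (hS (x' : Y)).mp x'.2
    apply Subtype.ext
    apply hE
    have h1 : E ((x * x' : S) : Y) = utm (a + a') (b + b' + a * c') (c + c') := by
      rw [Subgroup.coe_mul, map_mul, h, h', utm_mul]
    rw [hf _ _ _ _ h1, Subgroup.coe_mul, map_mul, hf _ _ _ _ h, hf _ _ _ _ h', utm_mul]
    congr 1 <;> ring
  have hinv : ∀ x : S, f (f x) = x := by
    intro x
    obtain ⟨a, b, c, h⟩ := (hS (x : Y)).mp x.2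
    apply Subtype.ext
    apply hE
    rw [hf _ _ _ _ (hf _ _ _ _ h), h]
    congr 1 <;> ring
  exact ⟨MulEquiv.mk ⟨f, f, hinv, hinv⟩ hmul, hf⟩

theorem qdc_lower_zero (hE : Function.Injective E)
    (hsurj : ∀ (A : Dk.SL2 (ZMod p)) (t : Fin 2 → ZMod p), ∃ y, E y = aff A t)
    (S : Subgroup Y) (hS : ∀ y, y ∈ S ↔ ∃ a b c, E y = utm a b c)
    (T : Subgroup S) (hT : T ≠ ⊥) (hTc : T.Characteristic) (y : Y)
    (hy : y ∈ Subgroup.normalizer ((T.map S.subtype : Subgroup Y) : Set Y))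
    (A : Dk.SL2 (ZMod p)) (t : Fin 2 → ZMod p) (hyA : E y = aff A t) : Dk.ec A = 0 := by
  have hT'S : T.map S.subtype ≤ S := Subgroup.map_subtype_le T
  have hT'n : ∀ s ∈ S, ∀ x ∈ T.map S.subtype, s * x * s⁻¹ ∈ T.map S.subtype := by
    intro s hs x hx
    obtain ⟨x', hx', rfl⟩ := hx
    haveI := hTc
    exact ⟨⟨s, hs⟩ * x' * ⟨s, hs⟩⁻¹, (inferInstance : T.Normal).conj_mem x' hx' ⟨s, hs⟩, rfl⟩
  -- Step 1: the central element lies in `T`
  have hz : ∃ z ∈ T.map S.subtype, E z = utm 0 1 0 := by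
    have h1 : ∃ c₀ : ZMod p, c₀ ≠ 0 ∧ ∃ z₀ ∈ T.map S.subtype, E z₀ = utm 0 c₀ 0 := by
      obtain ⟨x, hxT, hx1⟩ : ∃ x ∈ T.map S.subtype, x ≠ 1 := by
        by_contra hcon
        push Not at hcon
        apply hT
        rw [Subgroup.eq_bot_iff_forall]
        intro x hx
        apply Subtype.ext
        exact hcon (x : Y) ⟨x, hx, rfl⟩
      obtain ⟨a, b, c, hx⟩ := (hS x).mp (hT'S hxT)
      by_cases ha : a = 0
      · by_cases hc : c = 0
        · refine ⟨b, ?_, x, hxT, by rw [hx, ha, hc]⟩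
          rintro rfl
          apply hx1
          apply hE
          rw [hx, ha, hc, map_one, utm_one]
        · obtain ⟨u, hu⟩ := hsurj (Dk.uu 1) ![0, 0]
          have huS : u ∈ S := (hS u).mpr ⟨1, 0, 0, hu⟩
          refine ⟨c, hc, u * x * u⁻¹ * x⁻¹,
            (T.map S.subtype).mul_mem (hT'n u huS x hxT) ((T.map S.subtype).inv_mem hxT), ?_⟩
          simp only [map_mul, map_inv]
          rw [mul_inv_eq_iff_eq_mul, mul_inv_eq_iff_eq_mul, hu, hx, ha]
          show utm 1 0 0 * utm 0 b c = utm 0 c 0 * utm 0 b c * utm 1 0 0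
          rw [utm_mul, utm_mul, utm_mul]
          congr 1 <;> ring
      · obtain ⟨v, hv⟩ := hsurj (Dk.uu 0) ![0, 1]
        have hvS : v ∈ S := (hS v).mpr ⟨0, 0, 1, hv⟩
        refine ⟨-a, neg_ne_zero.mpr ha, v * x * v⁻¹ * x⁻¹,
          (T.map S.subtype).mul_mem (hT'n v hvS x hxT) ((T.map S.subtype).inv_mem hxT), ?_⟩
        simp only [map_mul, map_inv]
        rw [mul_inv_eq_iff_eq_mul, mul_inv_eq_iff_eq_mul, hv, hx]
        show utm 0 0 1 * utm a b c = utm 0 (-a) 0 * utm a b c * utm 0 0 1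
        rw [utm_mul, utm_mul, utm_mul]
        congr 1 <;> ring
    obtain ⟨c₀, hc₀, z₀, hz₀T, hz₀⟩ := h1
    refine ⟨z₀ ^ (c₀⁻¹).val, (T.map S.subtype).pow_mem hz₀T _, ?_⟩
    rw [map_pow, hz₀, utm_pow, ZMod.natCast_zmod_val]
    congr 1
    · exact inv_mul_cancel₀ hc₀
    · ring
  obtain ⟨z, hzT, hz⟩ := hz
  by_contra hc
  have hw : E (y * z * y⁻¹) = utm 0 (Dk.ea A) (Dk.ec A) := by
    rw [map_mul, map_mul, map_inv, hyA, hz, mul_inv_eq_iff_eq_mul, qdc_vec2_eta t]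
    unfold utm
    rw [qdc_aff_mul, qdc_aff_mul, Dk.uu_zero, one_mul, mul_one]
    congr 1
    funext i
    fin_cases i <;> simp <;> ring
  have hwT : y * z * y⁻¹ ∈ T.map S.subtype := (Subgroup.mem_normalizer_iff.mp hy z).mp hzT
  have hx₀ : ∃ x₀ ∈ T.map S.subtype, E x₀ = utm 0 0 1 := by
    refine ⟨z ^ (-(Dk.ea A) / Dk.ec A).val * (y * z * y⁻¹) ^ ((Dk.ec A)⁻¹).val,
      (T.map S.subtype).mul_mem ((T.map S.subtype).pow_mem hzT _)
        ((T.map S.subtype).pow_mem hwT _), ?_⟩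
    rw [map_mul, map_pow, map_pow, hz, hw, utm_pow, utm_pow, utm_mul, ZMod.natCast_zmod_val,
      ZMod.natCast_zmod_val]
    congr 1
    · simp
    · field_simp
      ring
    · rw [mul_zero, zero_add, inv_mul_cancel₀ hc]
  obtain ⟨x₀, hx₀T, hx₀⟩ := hx₀
  obtain ⟨θ, hθ⟩ := qdc_theta E hE hsurj S hS
  obtain ⟨x₀', hx₀'T, rfl⟩ := hx₀T
  have h1 : θ x₀' ∈ T := (Subgroup.characteristic_iff_le_comap.mp hTc θ) hx₀'T
  have h2 : E ((θ x₀' : S) : Y) = utm (-1) (0 * 1 - 0) (-0) := hθ x₀' 0 0 1 hx₀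
  have h3 : ((θ x₀' : S) : Y) ∈ T.map S.subtype := ⟨θ x₀', h1, rfl⟩
  have h4 : y * ((θ x₀' : S) : Y) * y⁻¹ ∈ T.map S.subtype :=
    (Subgroup.mem_normalizer_iff.mp hy _).mp h3
  obtain ⟨a'', b'', c'', h5⟩ := (hS _).mp (hT'S h4)
  rw [map_mul, map_mul, map_inv, mul_inv_eq_iff_eq_mul, hyA, h2, qdc_vec2_eta t] at h5
  unfold utm at h5
  rw [qdc_aff_mul, qdc_aff_mul] at h5
  have h6 := congrArg Dk.ed (aff_inj h5).1
  simp at h6
  exact hc h6

theorem qdc_mem_normalizer (_hE : Function.Injective E)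
    (S : Subgroup Y) (hS : ∀ y, y ∈ S ↔ ∃ a b c, E y = utm a b c)
    (y : Y) (A : Dk.SL2 (ZMod p)) (t : Fin 2 → ZMod p) (hyA : E y = aff A t)
    (hc : Dk.ec A = 0) : y ∈ Subgroup.normalizer (S : Set Y) := by
  let B : Subgroup Y :=
    { carrier := {y | ∃ (A : Dk.SL2 (ZMod p)) (t : Fin 2 → ZMod p), E y = aff A t ∧ Dk.ec A = 0}
      mul_mem' := by
        rintro x x' ⟨A, t, h, hA⟩ ⟨A', t', h', hA'⟩
        refine ⟨_, _, by rw [map_mul, h, h', aff_mul], ?_⟩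
        simp [hA, hA']
      one_mem' := ⟨1, 0, by rw [map_one, aff_one], by simp⟩
      inv_mem' := by
        rintro x ⟨A, t, h, hA⟩
        refine ⟨_, _, by rw [map_inv, h, aff_inv], ?_⟩
        simp [hA] }
  have hB : B ≤ Subgroup.normalizer (S : Set Y) := by
    apply Cfsg.Agent.Lib.helper3.le_normalizer_of_conj_mem
    rintro g ⟨A, t, hg, hA⟩ x hx
    obtain ⟨a, b, c, hx⟩ := (hS x).mp hx
    have hdet := Dk.det_eq A
    rw [hA, mul_zero, sub_zero] at hdet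
    have key : A * Dk.uu a * A⁻¹ = Dk.uu (a * Dk.ea A ^ 2) := by
      rw [mul_inv_eq_iff_eq_mul]
      apply Dk.ext4 <;> simp [hA]
      linear_combination (-(a * Dk.ea A)) * hdet
    have h1 : ∃ s, E (g * x * g⁻¹) = aff (Dk.uu (a * Dk.ea A ^ 2)) s := by
      rw [map_mul, map_mul, map_inv, hg, hx]
      unfold utm
      rw [aff_mul, aff_inv, aff_mul, key]
      exact ⟨_, rfl⟩
    obtain ⟨s, h1⟩ := h1
    exact (hS _).mpr ⟨a * Dk.ea A ^ 2, s 0, s 1,
      h1.trans (congrArg (aff (Dk.uu (a * Dk.ea A ^ 2))) (qdc_vec2_eta s))⟩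
  exact hB ⟨A, t, hyA, hc⟩

theorem qdc_main (hE : Function.Injective E)
    (hsurj : ∀ (A : Dk.SL2 (ZMod p)) (t : Fin 2 → ZMod p), ∃ y, E y = aff A t)
    (hrange : ∀ y, ∃ (A : Dk.SL2 (ZMod p)) (t : Fin 2 → ZMod p), E y = aff A t)
    (S : Subgroup Y) (hS : ∀ y, y ∈ S ↔ ∃ a b c, E y = utm a b c)
    (T : Subgroup S) (hT : T ≠ ⊥) (hTc : T.Characteristic) :
    Subgroup.normalizer ((T.map S.subtype : Subgroup Y) : Set Y) =
        Subgroup.normalizer (S : Set Y) ∧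
      Subgroup.normalizer (S : Set Y) ≠ ⊤ := by
  have h1 : Subgroup.normalizer ((T.map S.subtype : Subgroup Y) : Set Y) ≤
      Subgroup.normalizer (S : Set Y) := by
    intro y hy
    obtain ⟨A, t, hyA⟩ := hrange y
    exact qdc_mem_normalizer E hE S hS y A t hyA
      (qdc_lower_zero E hE hsurj S hS T hT hTc y hy A t hyA)
  have h2 := normalizer_le_normalizer_map_char S T hTc
  refine ⟨le_antisymm h1 h2, ?_⟩
  intro htop
  obtain ⟨y₀, hy₀⟩ := hsurj (Dk.mk4 0 (-1) 1 0 (by ring)) 0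
  have h3 : y₀ ∈ Subgroup.normalizer ((T.map S.subtype : Subgroup Y) : Set Y) :=
    h2 (htop ▸ Subgroup.mem_top y₀)
  have h4 := qdc_lower_zero E hE hsurj S hS T hT hTc y₀ h3 _ _ hy₀
  simp at h4

end emb

section concrete

variable (p : ℕ) [Fact p.Prime]

/-- The standard Sylow `p`-subgroup of `Qd(p)`. -/
def qdSyl : Subgroup ↥(Cfsg.qd p) where
  carrier := {y | ∃ a b c : ZMod p,
    ((y : ↥(Cfsg.qd p)) : Matrix.SpecialLinearGroup (Fin 3) (ZMod p)) = utm a b c}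
  mul_mem' := by
    rintro x y ⟨a, b, c, h⟩ ⟨a', b', c', h'⟩
    exact ⟨_, _, _, by rw [Subgroup.coe_mul, h, h', utm_mul]⟩
  one_mem' := ⟨0, 0, 0, by rw [Subgroup.coe_one, utm_one]⟩
  inv_mem' := by
    rintro x ⟨a, b, c, h⟩
    refine ⟨-a, a * c - b, -c, ?_⟩
    rw [Subgroup.coe_inv, h]
    apply inv_eq_of_mul_eq_one_right
    rw [utm_mul]
    have h0 : utm (a + -a) (b + (a * c - b) + a * -c) (c + -c) = utm (0 : ZMod p) 0 0 := by
      congr 1 <;> ring
    rw [h0, utm_one]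

theorem card_qdSyl : Nat.card (qdSyl p) = p ^ 3 := by
  have e : (ZMod p × ZMod p × ZMod p) ≃ qdSyl p :=
    Equiv.ofBijective
      (fun x => ⟨⟨utm x.1 x.2.1 x.2.2, aff_mem_qd p _ _⟩, ⟨_, _, _, rfl⟩⟩) (by
        constructor
        · intro x x' h
          have h1 := utm_inj (congrArg (fun z : qdSyl p =>
            ((z : ↥(Cfsg.qd p)) : Matrix.SpecialLinearGroup (Fin 3) (ZMod p))) h)
          exact Prod.ext h1.1 (Prod.ext h1.2.1 h1.2.2)
        · rintro ⟨y, a, b, c, h⟩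
          exact ⟨(a, b, c), Subtype.ext (Subtype.ext h.symm)⟩)
  rw [← Nat.card_congr e, Nat.card_prod, Nat.card_prod, Nat.card_zmod]
  ring

theorem card_qd : Nat.card (Cfsg.qd p) = p * (p ^ 2 - 1) * p ^ 2 := by
  have e : (Dk.SL2 (ZMod p) × (Fin 2 → ZMod p)) ≃ ↥(Cfsg.qd p) :=
    Equiv.ofBijective (fun x => ⟨aff x.1 x.2, aff_mem_qd p _ _⟩) (by
      constructor
      · intro x x' h
        have h1 := aff_inj (congrArg Subtype.val h)
        exact Prod.ext h1.1 h1.2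
      · rintro ⟨y, hy⟩
        obtain ⟨A, t, rfl⟩ := exists_aff_of_mem_qd p y hy
        exact ⟨(A, t), rfl⟩)
  rw [← Nat.card_congr e, Nat.card_prod, Cfsg.Agent.Lib.helper12.card_SL2, Nat.card_fun,
    ZMod.card, Nat.card_zmod, Nat.card_fin]

theorem qdc_result (S : Sylow p ↥(Cfsg.qd p)) (T : Subgroup ↥(S : Subgroup ↥(Cfsg.qd p)))
    (hT : T ≠ ⊥) (hTc : T.Characteristic) :
    Subgroup.normalizer ((T.map (S : Subgroup ↥(Cfsg.qd p)).subtype :
        Subgroup ↥(Cfsg.qd p)) : Set ↥(Cfsg.qd p)) =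
      Subgroup.normalizer ((S : Subgroup ↥(Cfsg.qd p)) : Set ↥(Cfsg.qd p)) ∧
    Subgroup.normalizer ((S : Subgroup ↥(Cfsg.qd p)) : Set ↥(Cfsg.qd p)) ≠ ⊤ := by
  classical
  have hp : p.Prime := Fact.out
  obtain ⟨P₀, hP₀⟩ := (IsPGroup.of_card (card_qdSyl p)).exists_le_sylow
  have hPeq : (P₀ : Subgroup ↥(Cfsg.qd p)) = qdSyl p := by
    symm
    apply Subgroup.eq_of_le_of_card_ge hP₀
    rw [card_qdSyl]
    obtain ⟨k, hk⟩ := IsPGroup.iff_card.mp P₀.isPGroup'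
    have hdvd : p ^ k ∣ p ^ 3 := by
      have h1 : p ^ k ∣ Nat.card ↥(Cfsg.qd p) := hk ▸ Subgroup.card_subgroup_dvd_card _
      rw [card_qd] at h1
      have hcop : Nat.Coprime (p ^ k) (p ^ 2 - 1) := by
        apply Nat.Coprime.pow_left
        rw [Nat.Prime.coprime_iff_not_dvd hp]
        intro hdvd
        have h2 : p ∣ p ^ 2 := dvd_pow_self p two_ne_zero
        have h3 : p ∣ 1 := by
          have h4 : p ^ 2 = (p ^ 2 - 1) + 1 := by
            have := Nat.one_le_pow 2 p hp.pos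
            omega
          rw [h4] at h2
          exact (Nat.dvd_add_right hdvd).mp h2
        exact hp.one_lt.ne' (Nat.dvd_one.mp h3)
      have h5 : p * (p ^ 2 - 1) * p ^ 2 = p ^ 3 * (p ^ 2 - 1) := by ring
      rw [h5] at h1
      exact hcop.dvd_of_dvd_mul_right h1
    rw [hk]
    exact Nat.le_of_dvd (pow_pos hp.pos 3) hdvd
  obtain ⟨g, hg⟩ := MulAction.exists_smul_eq (↥(Cfsg.qd p)) P₀ S
  let E : ↥(Cfsg.qd p) →* Matrix.SpecialLinearGroup (Fin 3) (ZMod p) :=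
    (Cfsg.qd p).subtype.comp (MulAut.conj g⁻¹).toMonoidHom
  have hE : Function.Injective E :=
    (Cfsg.qd p).subtype_injective.comp (MulAut.conj g⁻¹).injective
  have hsurj : ∀ (A : Dk.SL2 (ZMod p)) (t : Fin 2 → ZMod p), ∃ y, E y = aff A t := by
    intro A t
    refine ⟨g * ⟨aff A t, aff_mem_qd p A t⟩ * g⁻¹, ?_⟩
    have h1 : MulAut.conj g⁻¹ (g * ⟨aff A t, aff_mem_qd p A t⟩ * g⁻¹) =
        (⟨aff A t, aff_mem_qd p A t⟩ : ↥(Cfsg.qd p)) := by
      rw [MulAut.conj_apply]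
      group
    show ((MulAut.conj g⁻¹ (g * ⟨aff A t, aff_mem_qd p A t⟩ * g⁻¹) : ↥(Cfsg.qd p)) :
      Matrix.SpecialLinearGroup (Fin 3) (ZMod p)) = aff A t
    rw [h1]
  have hrange : ∀ y, ∃ (A : Dk.SL2 (ZMod p)) (t : Fin 2 → ZMod p), E y = aff A t :=
    fun y => exists_aff_of_mem_qd p _ (MulAut.conj g⁻¹ y).2
  have hS : ∀ y, y ∈ (S : Subgroup ↥(Cfsg.qd p)) ↔ ∃ a b c, E y = utm a b c := by
    intro y
    rw [← hg, Sylow.coe_subgroup_smul, Subgroup.mem_pointwise_smul_iff_inv_smul_mem, hPeq]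
    have h1 : (MulAut.conj g)⁻¹ • y = MulAut.conj g⁻¹ y := by
      rw [map_inv]
      rfl
    rw [h1]
    rfl
  exact qdc_main E hE hsurj hrange (S : Subgroup ↥(Cfsg.qd p)) hS T hT hTc

end concrete

end Cfsg.Agent.Lib.helper14
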