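import Mathlib
import Cfsg.Prelude.Def_LocalEven
import Cfsg.Agent.Lib.helper15.DkMain
import Cfsg.Agent.Lib.helper15.PCore
import Cfsg.Agent.Lib.helper3.QuadPairGroup
import Cfsg.Agent.S0199
import Cfsg.Agent.Lib.helper14.S4Inv
import Cfsg.Agent.Lib.helper14.SylIn
import Cfsg.Agent.Lib.helper14.PStabQuot

/-!
# Quadratic pairs acting on a `p`-group produce `SL₂(p)` (library, seat helper14)
-/

set_option autoImplicit false
set_option linter.style.haveILetI false
set_option linter.unusedVariables false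
set_option linter.unusedSectionVars false

namespace Cfsg.Agent.Lib.helper14

universe u w

section autos
variable {P : Type u} [Group P]

/-- restriction of automorphisms to a characteristic subgroup -/
def resAut (U : Subgroup P) [hU : U.Characteristic] : MulAut P →* MulAut U where
  toFun σ :=
    { toFun := fun u => ⟨σ u, (Subgroup.characteristic_iff_le_comap.mp hU σ) u.2⟩
      invFun := fun u => ⟨σ.symm u, (Subgroup.characteristic_iff_le_comap.mp hU σ.symm) u.2⟩
      left_inv := fun u => Subtype.ext (σ.symm_apply_apply u)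
      right_inv := fun u => Subtype.ext (σ.apply_symm_apply u)
      map_mul' := fun a b => Subtype.ext (map_mul σ (a : P) (b : P)) }
  map_one' := by ext u; rfl
  map_mul' := fun σ τ => by ext u; rfl

theorem resAut_apply (U : Subgroup P) [hU : U.Characteristic] (σ : MulAut P) (u : U) :
    ((resAut U σ u : U) : P) = σ (u : P) := rfl

/-- automorphisms induced on the quotient by a characteristic subgroup -/
def quotAut (U : Subgroup P) [hU : U.Characteristic] : MulAut P →* MulAut (P ⧸ U) where
  toFun σ := QuotientGroup.congr U U σ (Subgroup.characteristic_iff_map_eq.mp hU σ)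
  map_one' := by
    ext x
    induction x using QuotientGroup.induction_on
    rfl
  map_mul' := fun σ τ => by
    ext x
    induction x using QuotientGroup.induction_on
    rfl

theorem quotAut_mk (U : Subgroup P) [hU : U.Characteristic] (σ : MulAut P) (x : P) :
    quotAut U σ (x : P ⧸ U) = ((σ x : P) : P ⧸ U) := rfl

theorem aut_pow_apply_of_fixed (σ : MulAut P) (x : P) (hc : σ (σ x / x) = σ x / x) (n : ℕ) :
    (σ ^ n) x = (σ x / x) ^ n * x := by
  induction n with
  | zero => simp
  | succ n ih =>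
    rw [pow_succ', MulAut.mul_apply, ih, map_mul, map_pow, hc, pow_succ, mul_assoc,
      div_mul_cancel]

theorem aut_pow_card_eq_one_of_quad [Finite P] (σ : MulAut P)
    (h : ∀ x, σ (σ x / x) = σ x / x) : σ ^ Nat.card P = 1 := by
  ext x
  rw [aut_pow_apply_of_fixed σ x (h x), pow_card_eq_one', one_mul]
  rfl

theorem aut_pow_card_eq_one_of_stab (U : Subgroup P) [Finite U] (σ : MulAut P)
    (h1 : ∀ u ∈ U, σ u = u) (h2 : ∀ x : P, σ x / x ∈ U) : σ ^ Nat.card U = 1 := by
  ext x
  rw [aut_pow_apply_of_fixed σ x (h1 _ (h2 x))]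
  have : (σ x / x) ^ Nat.card U = 1 := by
    have h3 : (⟨σ x / x, h2 x⟩ : U) ^ Nat.card U = 1 := pow_card_eq_one'
    have h4 := congrArg Subtype.val h3
    rw [Subgroup.coe_pow, Subgroup.coe_one] at h4
    exact h4
  rw [this, one_mul]
  rfl

end autos

/-- a finite `p`-group which is not elementary abelian has a proper nontrivial characteristic
subgroup -/
theorem exists_characteristic_of_not_ea {p : ℕ} [Fact p.Prime] {P : Type u} [Group P] [Finite P]
    (hP : IsPGroup p P) (hea : ¬ ((∀ x y : P, x * y = y * x) ∧ ∀ x : P, x ^ p = 1)) :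
    ∃ U : Subgroup P, U.Characteristic ∧ U ≠ ⊥ ∧ U ≠ ⊤ := by
  by_cases hcomm : ∀ x y : P, x * y = y * x
  · have hex : ∃ x₀ : P, x₀ ^ p ≠ 1 := by
      by_contra hno
      push Not at hno
      exact hea ⟨hcomm, hno⟩
    obtain ⟨x₀, hx₀⟩ := hex
    let U : Subgroup P :=
      { carrier := {x | x ^ p = 1}
        one_mem' := one_pow p
        mul_mem' := fun {x y} hx hy => by
          show (x * y) ^ p = 1
          have hc : Commute x y := hcomm x y
          rw [hc.mul_pow, (hx : x ^ p = 1), (hy : y ^ p = 1), one_mul]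
        inv_mem' := fun {x} hx => by
          show (x⁻¹) ^ p = 1
          rw [inv_pow, (hx : x ^ p = 1), inv_one] }
    refine ⟨U, ?_, ?_, ?_⟩
    · rw [Subgroup.characteristic_iff_le_comap]
      intro φ x hx
      show (φ x) ^ p = 1
      rw [← map_pow, (hx : x ^ p = 1), map_one]
    · haveI : Nontrivial P := ⟨⟨x₀, 1, fun h => hx₀ (by rw [h, one_pow])⟩⟩
      obtain ⟨k, hk⟩ := IsPGroup.iff_card.mp hP
      have hk0 : k ≠ 0 := by
        intro h0
        rw [h0, pow_zero] at hk
        have := Finite.one_lt_card (α := P)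
        omega
      have hdvd : p ∣ Nat.card P := by rw [hk]; exact dvd_pow_self p hk0
      obtain ⟨y, hy⟩ := exists_prime_orderOf_dvd_card' p hdvd
      intro hbot
      have hyU : y ∈ U := by
        show y ^ p = 1
        rw [← hy]; exact pow_orderOf_eq_one y
      rw [hbot, Subgroup.mem_bot] at hyU
      rw [hyU, orderOf_one] at hy
      exact (Fact.out : p.Prime).one_lt.ne hy
    · intro htop
      have : x₀ ∈ U := by rw [htop]; exact Subgroup.mem_top _
      exact hx₀ this
  · refine ⟨Subgroup.center P, inferInstance, ?_, ?_⟩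
    · haveI : Nontrivial P := by
        by_contra hnt
        rw [not_nontrivial_iff_subsingleton] at hnt
        exact hcomm (fun x y => Subsingleton.elim _ _)
      haveI := hP.center_nontrivial
      exact (Subgroup.nontrivial_iff_ne_bot _).mp inferInstance
    · intro htop
      apply hcomm
      intro x y
      have hy : y ∈ Subgroup.center P := by rw [htop]; exact Subgroup.mem_top _
      exact (Subgroup.mem_center_iff.mp hy x)

/-- Two quadratically acting generators of a finite group acting on a finite `p`-group, not as a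
`p`-group, give a homomorphism to `SL₂` of a finite field of characteristic `p` whose image is
not a `p`-group and whose kernel contains the kernel of the action. -/
theorem quad_pair_pgroup {p : ℕ} [Fact p.Prime] {T : Type w} [Group T] [Finite T] (a b : T)
    (hgen : Subgroup.closure {a, b} = ⊤) :
    ∀ (n : ℕ) (P : Type u) [Group P] [Finite P], Nat.card P = n → IsPGroup p P →
      ∀ (α : T →* MulAut P), (∀ x : P, α a (α a x / x) = α a x / x) →
        (∀ x : P, α b (α b x / x) = α b x / x) → (∃ g : T, ∀ j : ℕ, α g ^ (p ^ j) ≠ 1) →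
        ∃ (m : ℕ) (φ : T →* Matrix.SpecialLinearGroup (Fin 2) (GaloisField p m)),
          (∀ g : T, α g = 1 → φ g = 1) ∧ ∃ g : T, ∀ j : ℕ, φ g ^ (p ^ j) ≠ 1 := by
  intro n
  induction n using Nat.strong_induction_on with
  | _ n ih =>
  intro P _ _ hn hP α ha hb hnp
  by_cases hea : (∀ x y : P, x * y = y * x) ∧ ∀ x : P, x ^ p = 1
  · letI : CommGroup P := { (inferInstance : Group P) with mul_comm := hea.1 }
    exact Cfsg.Agent.Lib.helper3.quad_pair_abstract hea.2 α a b hgen ha hb hnp
  · obtain ⟨U, hUc, hUb, hUt⟩ := exists_characteristic_of_not_ea hP hea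
    haveI := hUc
    obtain ⟨g, hg⟩ := hnp
    by_cases h1 : ∀ j : ℕ, (resAut U (α g)) ^ (p ^ j) ≠ 1
    · have hlt : Nat.card U < n := by
        by_contra hcon
        rw [← hn] at hcon
        exact hUt (Subgroup.eq_top_of_le_card U (not_lt.mp hcon))
      obtain ⟨m, φ, hφ, hφ2⟩ := ih (Nat.card U) hlt ↥U rfl (hP.to_subgroup U)
        ((resAut U).comp α)
        (fun x => Subtype.ext (by
          simp only [MonoidHom.comp_apply, resAut_apply, Subgroup.coe_div]
          exact ha x))
        (fun x => Subtype.ext (by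
          simp only [MonoidHom.comp_apply, resAut_apply, Subgroup.coe_div]
          exact hb x))
        ⟨g, h1⟩
      exact ⟨m, φ, fun t ht => hφ t (by rw [MonoidHom.comp_apply, ht, map_one]), hφ2⟩
    · by_cases h2 : ∀ j : ℕ, (quotAut U (α g)) ^ (p ^ j) ≠ 1
      · have hlt : Nat.card (P ⧸ U) < n := by
          have h3 := Subgroup.card_eq_card_quotient_mul_card_subgroup U
          have h4 : 1 < Nat.card U := (Subgroup.one_lt_card_iff_ne_bot U).mpr hUb
          have h5 : 0 < Nat.card (P ⧸ U) := Nat.card_pos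
          rw [← hn, h3]
          nlinarith
        obtain ⟨m, φ, hφ, hφ2⟩ := ih (Nat.card (P ⧸ U)) hlt (P ⧸ U) rfl (hP.to_quotient U)
          ((quotAut U).comp α)
          (fun x => by
            induction x using QuotientGroup.induction_on with
            | H x =>
              simp only [MonoidHom.comp_apply, quotAut_mk, ← QuotientGroup.mk_div]
              rw [ha x])
          (fun x => by
            induction x using QuotientGroup.induction_on with
            | H x =>
              simp only [MonoidHom.comp_apply, quotAut_mk, ← QuotientGroup.mk_div]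
              rw [hb x])
          ⟨g, h2⟩
        exact ⟨m, φ, fun t ht => hφ t (by rw [MonoidHom.comp_apply, ht, map_one]), hφ2⟩
      · exfalso
        push Not at h1 h2
        obtain ⟨j1, hj1⟩ := h1
        obtain ⟨j2, hj2⟩ := h2
        obtain ⟨σ, hσ⟩ : ∃ σ : MulAut P, σ = (α g) ^ (p ^ (j1 + j2)) := ⟨_, rfl⟩
        have hr : resAut U σ = 1 := by
          rw [hσ, map_pow, pow_add, pow_mul, hj1, one_pow]
        have hq : quotAut U σ = 1 := by
          rw [hσ, map_pow, add_comm, pow_add, pow_mul, hj2, one_pow]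
        have hs1 : ∀ u ∈ U, σ u = u := by
          intro u hu
          have := congrArg (fun τ : MulAut U => ((τ ⟨u, hu⟩ : U) : P)) hr
          exact this
        have hs2 : ∀ x : P, σ x / x ∈ U := by
          intro x
          have h3 := congrArg (fun τ : MulAut (P ⧸ U) => τ (x : P ⧸ U)) hq
          simp only [quotAut_mk, MulAut.one_apply] at h3
          rw [← QuotientGroup.eq_one_iff, QuotientGroup.mk_div, h3, div_self']
        have h4 := aut_pow_card_eq_one_of_stab U σ hs1 hs2
        obtain ⟨m, hm⟩ := IsPGroup.iff_card.mp (hP.to_subgroup U)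
        rw [hm, hσ, ← pow_mul, ← pow_add] at h4
        exact hg _ h4

/-- An abelian group generated by two elements of order dividing `p` has exponent `p`. -/
theorem pow_eq_one_of_gen' {T S : Type*} [Group T] [Group S] (φ : T →* S) (a b : T)
    (hgen : Subgroup.closure ({a, b} : Set T) = ⊤) (p : ℕ) (ha : φ a ^ p = 1) (hb : φ b ^ p = 1)
    (hc : φ a * φ b = φ b * φ a) : ∀ t : T, φ t ^ p = 1 := by
  have hcomm : ∀ s ∈ Subgroup.closure ({φ a, φ b} : Set S),
      ∀ t ∈ Subgroup.closure ({φ a, φ b} : Set S), s * t = t * s := by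
    have hC : IsMulCommutative ↥(Subgroup.closure ({φ a, φ b} : Set S)) := by
      apply Subgroup.isMulCommutative_closure
      intro y hy z hz
      rcases hy with rfl | hy <;> rcases hz with rfl | hz
      · rfl
      · rw [Set.mem_singleton_iff] at hz; subst hz; exact hc
      · rw [Set.mem_singleton_iff] at hy; subst hy; exact hc.symm
      · rw [Set.mem_singleton_iff] at hy hz; rw [hy, hz]
    intro s hs t ht
    exact setLike_mul_comm hs ht
  have hmem : ∀ t : T, φ t ∈ Subgroup.closure ({φ a, φ b} : Set S) := by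
    intro t
    have ht : t ∈ Subgroup.closure ({a, b} : Set T) := by rw [hgen]; exact Subgroup.mem_top t
    have h1 : φ t ∈ (Subgroup.closure ({a, b} : Set T)).map φ := ⟨t, ht, rfl⟩
    rw [MonoidHom.map_closure, Set.image_pair] at h1
    exact h1
  have hpow : ∀ s ∈ Subgroup.closure ({φ a, φ b} : Set S), s ^ p = 1 := by
    intro s hs
    induction hs using Subgroup.closure_induction with
    | mem y hy =>
      rcases hy with rfl | hy
      · exact ha
      · rw [Set.mem_singleton_iff] at hy; rw [hy]; exact hb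
    | one => exact one_pow _
    | mul y z hy hz ihy ihz =>
      have hc' : Commute y z := hcomm y hy z hz
      rw [hc'.mul_pow, ihy, ihz, one_mul]
    | inv y hy ihy => rw [inv_pow, ihy, inv_one]
  exact fun t => hpow _ (hmem t)

/-- Two quadratically acting generators of a finite group acting on a finite `p`-group (`p` odd),
not as a `p`-group, force `SL₂(p)` to be involved. -/
theorem involves_sl2_of_quad_pair {p : ℕ} [Fact p.Prime] (hp : p ≠ 2) {T : Type w} [Group T]
    [Finite T] {P : Type u} [Group P] [Finite P] (hP : IsPGroup p P) (α : T →* MulAut P)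
    (a b : T) (hgen : Subgroup.closure {a, b} = ⊤)
    (ha : ∀ x : P, α a (α a x / x) = α a x / x) (hb : ∀ x : P, α b (α b x / x) = α b x / x)
    (hnp : ∃ g : T, ∀ j : ℕ, α g ^ (p ^ j) ≠ 1) :
    Cfsg.Involves (Matrix.SpecialLinearGroup (Fin 2) (ZMod p)) T := by
  classical
  obtain ⟨m, φ, hker, t₀, ht₀⟩ := quad_pair_pgroup a b hgen _ P rfl hP α ha hb hnp
  obtain ⟨k, hk⟩ := IsPGroup.iff_card.mp hP
  have hta : Cfsg.Agent.Lib.helper15.Dk.tr (φ a) = 2 := by
    apply Cfsg.Agent.Lib.helper15.Dk.tr_of_pow_char p _ k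
    rw [← map_pow]
    apply hker
    rw [map_pow, ← hk]
    exact aut_pow_card_eq_one_of_quad _ ha
  have htb : Cfsg.Agent.Lib.helper15.Dk.tr (φ b) = 2 := by
    apply Cfsg.Agent.Lib.helper15.Dk.tr_of_pow_char p _ k
    rw [← map_pow]
    apply hker
    rw [map_pow, ← hk]
    exact aut_pow_card_eq_one_of_quad _ hb
  have hnc : φ a * φ b ≠ φ b * φ a := by
    intro hc
    have h1 := pow_eq_one_of_gen' φ a b hgen p
      (Cfsg.Agent.Lib.helper15.Dk.unip_pow_char p _ hta)
      (Cfsg.Agent.Lib.helper15.Dk.unip_pow_char p _ htb) hc t₀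
    exact ht₀ 1 (by rw [pow_one]; exact h1)
  obtain ⟨Ψ, hΨinj, hΨmem⟩ := Cfsg.Agent.Lib.helper15.Dk.W_hom p hp φ.range (φ a) (φ b)
    ⟨a, rfl⟩ ⟨b, rfl⟩ hta htb hnc
  obtain ⟨K₁, hK₁⟩ : ∃ K₁ : Subgroup T, K₁ = Ψ.range.comap φ := ⟨_, rfl⟩
  have hmemK : ∀ t : ↥K₁, (φ.comp K₁.subtype) t ∈ Ψ.range := by
    intro t
    have h1 : (t : T) ∈ Ψ.range.comap φ := by rw [← hK₁]; exact t.2
    exact h1
  obtain ⟨f₁, hf₁⟩ : ∃ f₁ : ↥K₁ →* Matrix.SpecialLinearGroup (Fin 2) (ZMod p),
      ∀ t : ↥K₁, Ψ (f₁ t) = φ (t : T) := by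
    refine ⟨(MonoidHom.ofInjective hΨinj).symm.toMonoidHom.comp
      ((φ.comp K₁.subtype).codRestrict Ψ.range hmemK), ?_⟩
    intro t
    have h1 := (MonoidHom.ofInjective hΨinj).apply_symm_apply
      (((φ.comp K₁.subtype).codRestrict Ψ.range hmemK) t)
    exact congrArg Subtype.val h1
  have hf₁surj : Function.Surjective f₁ := by
    intro M
    obtain ⟨t, ht⟩ := hΨmem M
    have htK : t ∈ K₁ := by
      rw [hK₁]
      exact ⟨M, ht.symm⟩
    refine ⟨⟨t, htK⟩, hΨinj ?_⟩
    rw [hf₁]
    exact ht
  exact involves_of_surjective K₁ f₁ hf₁surj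

/-- **Stability from `SL₂(p)`-freeness.**  If `X` acts on a finite `p`-group `P` with kernel `C`
and does not involve `SL₂(p)` (`p` odd), then every element acting quadratically lies in
`O_p(X / C)`. -/
theorem mk_mem_pCore_of_quad {p : ℕ} [Fact p.Prime] (hp : p ≠ 2) {X : Type w} [Group X] [Finite X]
    {P : Type u} [Group P] [Finite P] (hP : IsPGroup p P) (α : X →* MulAut P)
    (C : Subgroup X) [hCn : C.Normal] (hC : ∀ x, x ∈ C ↔ α x = 1)
    (hfree : ¬ Cfsg.Involves (Matrix.SpecialLinearGroup (Fin 2) (ZMod p)) X)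
    (a : X) (ha : ∀ x : P, α a (α a x / x) = α a x / x) :
    (QuotientGroup.mk a : X ⧸ C) ∈ Cfsg.pCore p (X ⧸ C) := by
  classical
  by_contra hnot
  obtain ⟨k, hk⟩ := IsPGroup.iff_card.mp hP
  obtain ⟨xb, hxb⟩ : ∃ xb : X ⧸ C, xb = QuotientGroup.mk' C a := ⟨_, rfl⟩
  have hpow_mem : ∀ (t : X) (j : ℕ), (QuotientGroup.mk' C t) ^ (p ^ j) = 1 ↔ α t ^ (p ^ j) = 1 := by
    intro t j
    rw [← map_pow, ← map_pow, QuotientGroup.mk'_apply, QuotientGroup.eq_one_iff, hC]
  have hxpow : xb ^ (p ^ k) = 1 := by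
    rw [hxb, hpow_mem, ← hk]
    exact aut_pow_card_eq_one_of_quad _ ha
  have hXp : IsPGroup p (Subgroup.zpowers xb) := by
    rintro ⟨g, hg⟩
    obtain ⟨m, rfl⟩ := Subgroup.mem_zpowers_iff.mp hg
    refine ⟨k, Subtype.ext ?_⟩
    rw [Subgroup.coe_pow, Subgroup.coe_one]
    show (xb ^ m) ^ (p ^ k) = 1
    rw [← zpow_natCast, ← zpow_mul, mul_comm, zpow_mul, zpow_natCast, hxpow, one_zpow]
  have hBS : ∃ g : X ⧸ C, ¬ IsPGroup p
      ↥(Subgroup.zpowers xb ⊔ (Subgroup.zpowers xb).map (MulAut.conj g).toMonoidHom) := by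
    by_contra hno
    push Not at hno
    obtain ⟨N, hN, hNp, hXN⟩ := Cfsg.Agent.S0199.result (Subgroup.zpowers xb) hXp hno
    have hle : N ≤ Cfsg.pCore p (X ⧸ C) := Cfsg.Agent.Lib.helper15.le_pCore hN hNp
    apply hnot
    have := hle (hXN (Subgroup.mem_zpowers xb))
    rw [hxb] at this
    exact this
  obtain ⟨gb, hgb⟩ := hBS
  obtain ⟨y, rfl⟩ := QuotientGroup.mk'_surjective C gb
  obtain ⟨b, hb⟩ : ∃ b : X, b = y * a * y⁻¹ := ⟨_, rfl⟩
  obtain ⟨T, hT⟩ : ∃ T : Subgroup X, T = Subgroup.closure {a, b} := ⟨_, rfl⟩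
  have hTeq : Subgroup.zpowers xb ⊔ (Subgroup.zpowers xb).map
      (MulAut.conj (QuotientGroup.mk' C y)).toMonoidHom = T.map (QuotientGroup.mk' C) := by
    rw [hT, MonoidHom.map_closure, Set.image_pair, MonoidHom.map_zpowers,
      Subgroup.zpowers_eq_closure, Subgroup.zpowers_eq_closure, ← Subgroup.closure_union]
    have hbe : (MulAut.conj (QuotientGroup.mk' C y)).toMonoidHom xb = QuotientGroup.mk' C b := by
      rw [hb, hxb, map_mul, map_mul, map_inv]; rfl
    rw [hbe, Set.singleton_union, hxb]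
  rw [hTeq] at hgb
  have hnp : ∃ t : ↥T, ∀ j : ℕ, (α.comp T.subtype) t ^ (p ^ j) ≠ 1 := by
    by_contra hno
    push Not at hno
    apply hgb
    rintro ⟨q, t, ht, rfl⟩
    obtain ⟨j, hj⟩ := hno ⟨t, ht⟩
    refine ⟨j, Subtype.ext ?_⟩
    rw [Subgroup.coe_pow, Subgroup.coe_one]
    exact (hpow_mem t j).mpr hj
  obtain ⟨a', ha'⟩ : ∃ a' : ↥T, (a' : X) = a :=
    ⟨⟨a, by rw [hT]; exact Subgroup.subset_closure (by simp)⟩, rfl⟩
  obtain ⟨b', hb'⟩ : ∃ b' : ↥T, (b' : X) = b :=
    ⟨⟨b, by rw [hT]; exact Subgroup.subset_closure (by simp)⟩, rfl⟩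
  have hgen : Subgroup.closure ({a', b'} : Set ↥T) = ⊤ := by
    subst hT
    have h1 := Subgroup.closure_closure_coe_preimage (k := ({a, b} : Set X))
    have h2 : (Subtype.val ⁻¹' ({a, b} : Set X) :
        Set ↥(Subgroup.closure ({a, b} : Set X))) = {a', b'} := by
      ext t
      constructor
      · intro ht
        have ht' : (t : X) = a ∨ (t : X) = b := ht
        rcases ht' with h | h
        · left; exact Subtype.ext (by rw [ha']; exact h)
        · right; exact Subtype.ext (by rw [hb']; exact h)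
      · intro ht
        have ht' : t = a' ∨ t = b' := ht
        show (t : X) = a ∨ (t : X) = b
        rcases ht' with h | h
        · left; rw [h]; exact ha'
        · right; rw [h]; exact hb'
    rw [← h2]; exact h1
  have hqb : ∀ v : P, α b (α b v / v) = α b v / v := by
    intro v
    have hbα : α b = α y * α a * (α y)⁻¹ := by rw [hb, map_mul, map_mul, map_inv]
    obtain ⟨u, hu⟩ : ∃ u : P, u = (α y)⁻¹ v := ⟨_, rfl⟩
    have hv : v = α y u := by rw [hu]; simp
    have e1 : α b v = α y (α a u) := by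
      rw [hbα, hv]; simp
    have e2 : α b v / v = α y (α a u / u) := by
      rw [e1, map_div, ← hv]
    have e3 : α b (α y (α a u / u)) = α y (α a (α a u / u)) := by
      rw [hbα]; simp
    rw [e2, e3, ha u]
  have hinv := involves_sl2_of_quad_pair hp hP (α.comp T.subtype) a' b' hgen
    (fun x => by
      simp only [MonoidHom.comp_apply, Subgroup.coe_subtype, ha']
      exact ha x)
    (fun x => by
      simp only [MonoidHom.comp_apply, Subgroup.coe_subtype, hb']
      exact hqb x) hnp
  exact hfree (involves_of_injective T.subtype T.subtype_injective hinv)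

theorem quad_conj_fixed {G : Type*} [Group G] (V : Subgroup G) (x : G)
    (hq : ⁅⁅V, Subgroup.zpowers x⁆, Subgroup.zpowers x⁆ = ⊥) (v : G) (hv : v ∈ V) :
    x * (x * v * x⁻¹ * v⁻¹) * x⁻¹ = x * v * x⁻¹ * v⁻¹ := by
  have hc1 : x * v * x⁻¹ * v⁻¹ ∈ ⁅V, Subgroup.zpowers x⁆ := by
    have h5 := Subgroup.commutator_mem_commutator hv (Subgroup.mem_zpowers x)
    have h6 := Subgroup.inv_mem _ h5
    rw [commutatorElement_inv, commutatorElement_def] at h6
    exact h6
  have hc2 := Subgroup.commutator_mem_commutator hc1 (Subgroup.mem_zpowers x)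
  rw [hq, Subgroup.mem_bot, commutatorElement_def] at hc2
  have hc3 : x * v * x⁻¹ * v⁻¹ * x = x * (x * v * x⁻¹ * v⁻¹) := by
    have h7 := congrArg (fun t => t * x * (x * v * x⁻¹ * v⁻¹)) hc2
    simp only [one_mul] at h7
    rw [← h7]
    group
  rw [← hc3]
  group

/-- A group all of whose `p`-local subgroups are `SL₂(p)`-free is `p`-stable in the normalizer
form (`p` odd). -/
theorem normalizerPStable_of_free {p : ℕ} [Fact p.Prime] (hp : p ≠ 2) {X : Type u} [Group X]
    [Finite X]
    (hfree : ∀ P : Subgroup X, IsPGroup p P → P ≠ ⊥ →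
      ¬ Cfsg.Involves (Matrix.SpecialLinearGroup (Fin 2) (ZMod p))
        ↥(Subgroup.normalizer (P : Set X))) :
    Cfsg.IsNormalizerPStable p X := by
  intro P hP g hg hquad
  by_cases hbot : P = ⊥
  · have h1 : (QuotientGroup.mk (s := (Subgroup.centralizer (P : Set X)).subgroupOf
        (Subgroup.normalizer (P : Set X))) (⟨g, hg⟩ : ↥(Subgroup.normalizer (P : Set X)))) = 1 := by
      rw [QuotientGroup.eq_one_iff, Subgroup.mem_subgroupOf]
      show g ∈ Subgroup.centralizer (P : Set X)
      rw [Subgroup.mem_centralizer_iff]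
      intro h hh
      have : h = 1 := by
        have hh' : h ∈ P := hh
        rw [hbot] at hh'
        exact Subgroup.mem_bot.mp hh'
      rw [this, one_mul, mul_one]
    rw [h1]
    exact Subgroup.one_mem _
  · refine mk_mem_pCore_of_quad hp hP (Subgroup.normalizerMonoidHom P)
      ((Subgroup.centralizer (P : Set X)).subgroupOf (Subgroup.normalizer (P : Set X))) ?_
      (hfree P hP hbot) ⟨g, hg⟩ ?_
    · intro x
      rw [← MonoidHom.mem_ker, Subgroup.normalizerMonoidHom_ker]
    · intro x
      have hα : ∀ (h : ↥(Subgroup.normalizer (P : Set X))) (v : ↥P),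
          ((Subgroup.normalizerMonoidHom P h v : ↥P) : X) = (h : X) * v * (h : X)⁻¹ :=
        fun h v => rfl
      apply Subtype.ext
      rw [hα, Subgroup.coe_div, hα, div_eq_mul_inv]
      exact quad_conj_fixed P g hquad (x : X) x.2

/-- Lifting a `p`-subgroup together with its normalizer along a surjection. -/
theorem exists_lift_normalizer {p : ℕ} [Fact p.Prime] {Y Z : Type*} [Group Y] [Group Z] [Finite Y]
    (π : Y →* Z) (hπ : Function.Surjective π) (Pb : Subgroup Z) (hPb : IsPGroup p Pb) :
    ∃ P₀ : Subgroup Y, IsPGroup p P₀ ∧ P₀.map π = Pb ∧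
      ∀ n ∈ Subgroup.normalizer (Pb : Set Z), ∃ m ∈ Subgroup.normalizer (P₀ : Set Y), π m = n := by
  have hY : (Pb.comap π).map π = Pb := Subgroup.map_comap_eq_self_of_surjective hπ Pb
  obtain ⟨S, hS⟩ := exists_pgroup_map_eq π (Pb.comap π) Pb hPb hY
  have hSyl := sylIn_of_sylow_subtype (Pb.comap π) S
  refine ⟨(S : Subgroup ↥(Pb.comap π)).map (Pb.comap π).subtype, hSyl.isPGroup, hS, ?_⟩
  intro n hn
  obtain ⟨g, rfl⟩ := hπ n
  have hgN : g ∈ Subgroup.normalizer ((Pb.comap π : Subgroup Y) : Set Y) := by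
    rw [Subgroup.mem_normalizer_iff]
    intro y
    rw [Subgroup.mem_comap, Subgroup.mem_comap, map_mul, map_mul, map_inv]
    exact (Subgroup.mem_normalizer_iff.mp hn) (π y)
  obtain ⟨a, ha, c, hc, hgac⟩ := hSyl.frattini (Subgroup.normalizer ((Pb.comap π : Subgroup Y) : Set Y))
    Subgroup.le_normalizer le_rfl g hgN
  have hc' : π c ∈ Pb := hc
  rw [← hS] at hc'
  obtain ⟨c', hc'P, hc'c⟩ := hc'
  refine ⟨a * c', Subgroup.mul_mem _ ha.2 (Subgroup.le_normalizer hc'P), ?_⟩
  rw [map_mul, hc'c, ← map_mul, ← hgac]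

/-- `p`-local subgroups of sections are sections of `p`-local subgroups. -/
theorem involves_normalizer_of_section {p : ℕ} [Fact p.Prime] {G : Type*} [Group G] [Finite G]
    {H : Type*} [Group H] (K R : Subgroup G) [hR : (R.subgroupOf K).Normal]
    (Pb : Subgroup (↥K ⧸ R.subgroupOf K)) (hPb : IsPGroup p Pb) (hne : Pb ≠ ⊥)
    (hinv : Cfsg.Involves H ↥(Subgroup.normalizer (Pb : Set (↥K ⧸ R.subgroupOf K)))) :
    ∃ P : Subgroup G, IsPGroup p P ∧ P ≠ ⊥ ∧
      Cfsg.Involves H ↥(Subgroup.normalizer (P : Set G)) := by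
  obtain ⟨P₀, hP₀, hmap, hlift⟩ := exists_lift_normalizer (QuotientGroup.mk' (R.subgroupOf K))
    (QuotientGroup.mk'_surjective _) Pb hPb
  refine ⟨P₀.map K.subtype, hP₀.map _, ?_, ?_⟩
  · intro hbot
    rw [Subgroup.map_eq_bot_iff_of_injective _ K.subtype_injective] at hbot
    rw [hbot, Subgroup.map_bot] at hmap
    exact hne hmap.symm
  · have hmem : ∀ m : ↥(Subgroup.normalizer (P₀ : Set ↥K)),
        ((QuotientGroup.mk' (R.subgroupOf K)).comp (Subgroup.normalizer (P₀ : Set ↥K)).subtype) m ∈
          Subgroup.normalizer (Pb : Set (↥K ⧸ R.subgroupOf K)) := by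
      intro m
      have h1 := Subgroup.le_normalizer_map (QuotientGroup.mk' (R.subgroupOf K)) (H := P₀)
        ⟨(m : ↥K), m.2, rfl⟩
      rw [hmap] at h1
      exact h1
    have hsurj : Function.Surjective
        (((QuotientGroup.mk' (R.subgroupOf K)).comp
          (Subgroup.normalizer (P₀ : Set ↥K)).subtype).codRestrict _ hmem) := by
      rintro ⟨n, hn⟩
      obtain ⟨m, hm, hmn⟩ := hlift n hn
      exact ⟨⟨m, hm⟩, Subtype.ext hmn⟩
    have h2 := involves_of_surjective_hom _ hsurj hinv
    have hmem2 : ∀ m : ↥(Subgroup.normalizer (P₀ : Set ↥K)),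
        (K.subtype.comp (Subgroup.normalizer (P₀ : Set ↥K)).subtype) m ∈
          Subgroup.normalizer ((P₀.map K.subtype : Subgroup G) : Set G) := by
      intro m
      exact Subgroup.le_normalizer_map K.subtype (H := P₀) ⟨(m : ↥K), m.2, rfl⟩
    refine involves_of_injective
      ((K.subtype.comp (Subgroup.normalizer (P₀ : Set ↥K)).subtype).codRestrict _ hmem2) ?_ h2
    intro x y hxy
    have h3 := congrArg Subtype.val hxy
    exact Subtype.ext (Subtype.ext h3)

end Cfsg.Agent.Lib.helper14
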