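import Mathlib
import Cfsg.Prelude.Def_LocalEven
import Cfsg.Agent.Lib.helper3.FFOffender
import Cfsg.Agent.Lib.helper3.Replacement
import Cfsg.Agent.Lib.helper7.Sup
import Cfsg.Agent.Lib.helper14.S4Inv
import Cfsg.Agent.Lib.helper14.FFCoprime

/-!
# Sections isomorphic to `S₃` from small offenders (library, seat helper14)
-/

set_option autoImplicit false
set_option linter.style.haveILetI false
set_option linter.deprecated false

namespace Cfsg.Agent.Lib.helper14

/-- The number of fixed points of a `q`-element on a normalized subgroup. -/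
theorem card_modEq_card_cent {G : Type*} [Group G] [Finite G] {q : ℕ} [Fact q.Prime]
    (W : Subgroup G) (u : G) (huq : IsPGroup q (Subgroup.zpowers u))
    (huW : u ∈ Subgroup.normalizer (W : Set G)) :
    Nat.card W ≡ Nat.card ↥(W ⊓ Subgroup.centralizer ({u} : Set G)) [MOD q] := by
  classical
  have hUW : Subgroup.zpowers u ≤ Subgroup.normalizer (W : Set G) := Subgroup.zpowers_le.mpr huW
  let φ : ↥(Subgroup.zpowers u) →* MulAut ↥W :=
    (Subgroup.normalizerMonoidHom W).comp (Subgroup.inclusion hUW)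
  letI : MulAction ↥(Subgroup.zpowers u) ↥W := MulAction.compHom ↥W φ
  have hsmul : ∀ (g : ↥(Subgroup.zpowers u)) (w : ↥W),
      ((g • w : ↥W) : G) = (g : G) * w * (g : G)⁻¹ := fun g w => rfl
  have hmod := huq.card_modEq_card_fixedPoints ↥W
  obtain ⟨F, hF⟩ : ∃ F : Subgroup G,
      F = W ⊓ Subgroup.centralizer ({u} : Set G) := ⟨_, rfl⟩
  have hFW : F ≤ W := hF ▸ inf_le_left
  have hset : MulAction.fixedPoints ↥(Subgroup.zpowers u) ↥W =
      ((F.subgroupOf W : Subgroup ↥W) : Set ↥W) := by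
    ext w
    rw [MulAction.mem_fixedPoints, SetLike.mem_coe, Subgroup.mem_subgroupOf, hF]
    constructor
    · intro h
      refine Subgroup.mem_inf.mpr ⟨w.2, Subgroup.mem_centralizer_iff.mpr fun g hg => ?_⟩
      rw [Set.mem_singleton_iff] at hg
      have := congrArg Subtype.val (h ⟨u, Subgroup.mem_zpowers u⟩)
      rw [hsmul] at this
      rw [hg]
      exact mul_inv_eq_iff_eq_mul.mp this
    · intro h g
      apply Subtype.ext
      rw [hsmul]
      have h2 := Subgroup.mem_centralizer_iff.mp (Subgroup.mem_inf.mp h).2 u rfl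
      have hz : Subgroup.zpowers u ≤ Subgroup.centralizer ({(w : G)} : Set G) := by
        rw [Subgroup.zpowers_le]
        refine Subgroup.mem_centralizer_iff.mpr fun y hy => ?_
        rw [Set.mem_singleton_iff] at hy
        rw [hy]; exact h2.symm
      have := Subgroup.mem_centralizer_iff.mp (hz g.2) (w : G) rfl
      rw [← this]; group
  have hcardF : Nat.card (MulAction.fixedPoints ↥(Subgroup.zpowers u) ↥W) = Nat.card F := by
    rw [hset]
    exact Nat.card_congr (Subgroup.subgroupOfEquivOfLe hFW).toEquiv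
  rw [hcardF, hF] at hmod
  exact hmod

/-- A dihedral group of order `6` inside `G` is isomorphic to `S₃`. -/
theorem s3_of_dihedral {G : Type*} [Group G] [Finite G] (x a : G) (hx : orderOf x = 3)
    (ha : orderOf a = 2) (hinv : a * x * a⁻¹ = x⁻¹) :
    Nonempty (↥(Subgroup.zpowers x ⊔ Subgroup.zpowers a) ≃* Equiv.Perm (Fin 3)) := by
  classical
  obtain ⟨D, hD⟩ : ∃ D : Subgroup G, D = Subgroup.zpowers x ⊔ Subgroup.zpowers a := ⟨_, rfl⟩
  rw [← hD]
  have hxD : x ∈ D := hD ▸ (le_sup_left : Subgroup.zpowers x ≤ _) (Subgroup.mem_zpowers x)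
  have haD : a ∈ D := hD ▸ (le_sup_right : Subgroup.zpowers a ≤ _) (Subgroup.mem_zpowers a)
  have hn : Subgroup.zpowers a ≤ Subgroup.normalizer (Subgroup.zpowers x : Set G) := by
    rw [Subgroup.zpowers_le]
    apply mem_normalizer_of_forall_conj_mem
    intro y hy
    obtain ⟨k, rfl⟩ := Subgroup.mem_zpowers_iff.mp hy
    have : a * x ^ k * a⁻¹ = (x⁻¹) ^ k := by
      rw [← hinv]; exact (conj_zpow (a := a) (b := x) (i := k)).symm
    rw [this]
    exact zpow_mem (inv_mem (Subgroup.mem_zpowers x)) k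
  have hc1 : Nat.card (Subgroup.zpowers x) = 3 := by rw [Nat.card_zpowers, hx]
  have hc2 : Nat.card (Subgroup.zpowers a) = 2 := by rw [Nat.card_zpowers, ha]
  have hdvd := Cfsg.Agent.Lib.helper7.card_sup_dvd_of_le_normalizer (Subgroup.zpowers x)
    (Subgroup.zpowers a) hn
  rw [← hD, hc1, hc2] at hdvd
  have h3 : 3 ∣ Nat.card D := by
    rw [← hc1]; exact Subgroup.card_dvd_of_le (hD ▸ le_sup_left)
  have h2 : 2 ∣ Nat.card D := by
    rw [← hc2]; exact Subgroup.card_dvd_of_le (hD ▸ le_sup_right)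
  have h6 : Nat.card D = 6 := by
    have h6' : 6 ∣ Nat.card D := Nat.Coprime.mul_dvd_of_dvd_of_dvd (by decide) h2 h3
    exact Nat.dvd_antisymm hdvd h6'
  obtain ⟨H, hH⟩ : ∃ H : Subgroup ↥D, H = (Subgroup.zpowers a).subgroupOf D := ⟨_, rfl⟩
  have hHc : Nat.card H = 2 := by
    rw [hH, ← hc2]
    exact Nat.card_congr (Subgroup.subgroupOfEquivOfLe (hD ▸ le_sup_right)).toEquiv
  have hidx : H.index = 3 := by
    have := H.index_mul_card
    rw [hHc, h6] at this
    omega
  have hq3 : Nat.card (↥D ⧸ H) = 3 := hidx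
  have hker : (MulAction.toPermHom ↥D (↥D ⧸ H)).ker = ⊥ := by
    rw [← Subgroup.normalCore_eq_ker, eq_bot_iff]
    intro g hg
    have hgH : g ∈ H := Subgroup.normalCore_le H hg
    rw [hH, Subgroup.mem_subgroupOf] at hgH
    obtain ⟨k, hk⟩ := Subgroup.mem_zpowers_iff.mp hgH
    rw [Subgroup.mem_bot]
    by_contra hg1
    -- g = a
    have hga : (g : G) = a := by
      have h2n : a ^ 2 = 1 := by
        rw [← ha]; exact pow_orderOf_eq_one a
      have h2' : a ^ (2 : ℤ) = 1 := by exact_mod_cast h2n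
      rcases Int.emod_two_eq_zero_or_one k with h0 | h1
      · exfalso
        apply hg1
        apply Subtype.ext
        rw [← hk]
        obtain ⟨m, hm⟩ : ∃ m, k = 2 * m := ⟨k / 2, by omega⟩
        rw [hm, zpow_mul, h2', one_zpow]; rfl
      · obtain ⟨m, hm⟩ : ∃ m, k = 2 * m + 1 := ⟨k / 2, by omega⟩
        rw [← hk, hm, zpow_add, zpow_mul, h2', one_zpow, one_mul, zpow_one]
    have hconj : (⟨x, hxD⟩ : ↥D) * g * (⟨x, hxD⟩ : ↥D)⁻¹ ∈ H.normalCore :=
      (Subgroup.normalCore_normal H).conj_mem g hg _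
    have hcH := Subgroup.normalCore_le H hconj
    rw [hH, Subgroup.mem_subgroupOf] at hcH
    have hcH' : x * a * x⁻¹ ∈ Subgroup.zpowers a := by
      have : (((⟨x, hxD⟩ : ↥D) * g * (⟨x, hxD⟩ : ↥D)⁻¹ : ↥D) : G) = x * a * x⁻¹ := by
        simp [hga]
      rw [← this]; exact hcH
    obtain ⟨j, hj⟩ := Subgroup.mem_zpowers_iff.mp hcH'
    have hcomm : x * a = a * x := by
      have h2n : a ^ 2 = 1 := by
        rw [← ha]; exact pow_orderOf_eq_one a
      have h2' : a ^ (2 : ℤ) = 1 := by exact_mod_cast h2n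
      rcases Int.emod_two_eq_zero_or_one j with h0 | h1
      · exfalso
        obtain ⟨m, hm⟩ : ∃ m, j = 2 * m := ⟨j / 2, by omega⟩
        rw [hm, zpow_mul, h2', one_zpow] at hj
        have : a = 1 := by
          have h := hj.symm
          rw [mul_inv_eq_one] at h
          exact (mul_eq_left).mp h
        rw [this, orderOf_one] at ha
        omega
      · obtain ⟨m, hm⟩ : ∃ m, j = 2 * m + 1 := ⟨j / 2, by omega⟩
        rw [hm, zpow_add, zpow_mul, h2', one_zpow, one_mul, zpow_one] at hj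
        exact (mul_inv_eq_iff_eq_mul.mp hj.symm)
    have hx2 : x = x⁻¹ := by
      rw [← hinv, ← hcomm]; group
    have hx2' : x ^ 2 = 1 := by
      rw [pow_two]; nth_rewrite 2 [hx2]; exact mul_inv_cancel x
    have := orderOf_dvd_of_pow_eq_one hx2'
    rw [hx] at this
    omega
  have hinj : Function.Injective (MulAction.toPermHom ↥D (↥D ⧸ H)) :=
    (MonoidHom.ker_eq_bot_iff _).mp hker
  haveI : Finite (↥D ⧸ H) := Nat.finite_of_card_ne_zero (by omega)
  have hbij : Function.Bijective (MulAction.toPermHom ↥D (↥D ⧸ H)) := by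
    rw [Nat.bijective_iff_injective_and_card]
    refine ⟨hinj, ?_⟩
    rw [h6, Nat.card_perm, hq3]
    rfl
  exact ⟨(MulEquiv.ofBijective _ hbij).trans
    (Equiv.permCongrHom (Finite.equivFinOfCardEq hq3))⟩


/-- An involution inverting an element of prime order `r ≥ 5` has small fixed-point group on a
`2`-group not centralized by that element. -/
theorem dihedral_fix_bound {G : Type*} [Group G] [Finite G] (U : Subgroup G)
    (hU : IsPGroup 2 U) (x a : G) (r : ℕ) (hr : r.Prime) (hr5 : 5 ≤ r) (hx : orderOf x = r)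
    (ha : a * a = 1) (hinv : a * x * a⁻¹ = x⁻¹)
    (hxU : x ∈ Subgroup.normalizer (U : Set G))
    (hxc : x ∉ Subgroup.centralizer (U : Set G)) :
    4 * Nat.card ↥(U ⊓ Subgroup.centralizer ({a} : Set G)) ≤ Nat.card U := by
  classical
  haveI : Fact r.Prime := ⟨hr⟩
  obtain ⟨F, hF⟩ : ∃ F : Subgroup G, F = U ⊓ Subgroup.centralizer ({a} : Set G) := ⟨_, rfl⟩
  obtain ⟨F', hF'⟩ : ∃ F' : Subgroup G, F' = F.map (MulAut.conj x).toMonoidHom := ⟨_, rfl⟩
  obtain ⟨U0, hU0⟩ : ∃ U0 : Subgroup G, U0 = U ⊓ Subgroup.centralizer ({x} : Set G) := ⟨_, rfl⟩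
  rw [← hF]
  have hFU : F ≤ U := hF ▸ inf_le_left
  have hU0U : U0 ≤ U := hU0 ▸ inf_le_left
  have hF'U : F' ≤ U := by
    rw [hF']
    rintro _ ⟨u, hu, rfl⟩
    exact (Subgroup.mem_normalizer_iff.mp hxU u).mp (hFU hu)
  have hcF' : Nat.card F' = Nat.card F := by
    rw [hF', Subgroup.card_map_of_injective (MulAut.conj x).injective]
  have hainv : a⁻¹ = a := inv_eq_of_mul_eq_one_left ha
  have hle : F ⊓ F' ≤ U0 := by
    intro u hu
    obtain ⟨hu1, hu2⟩ := Subgroup.mem_inf.mp hu
    rw [hU0]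
    refine Subgroup.mem_inf.mpr ⟨hFU hu1, ?_⟩
    rw [hF] at hu1
    have h1 : a * u = u * a := Subgroup.mem_centralizer_iff.mp (Subgroup.mem_inf.mp hu1).2 a rfl
    rw [hF'] at hu2
    obtain ⟨w, hw, hwu⟩ := hu2
    rw [hF] at hw
    have h2 : a * w = w * a := Subgroup.mem_centralizer_iff.mp (Subgroup.mem_inf.mp hw).2 a rfl
    have hwu' : x * w * x⁻¹ = u := hwu
    -- u commutes with x a x⁻¹
    have h3 : (x * a * x⁻¹) * u = u * (x * a * x⁻¹) := by
      rw [← hwu']
      have : x * a * x⁻¹ * (x * w * x⁻¹) = x * (a * w) * x⁻¹ := by group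
      rw [this, h2]; group
    -- a * (x a x⁻¹) = x⁻¹ * x⁻¹
    have h4 : a * (x * a * x⁻¹) = x⁻¹ * x⁻¹ := by
      have : a * (x * a * x⁻¹) = (a * x * a⁻¹) * x⁻¹ := by rw [hainv]; group
      rw [this, hinv]
    have h5 : (x⁻¹ * x⁻¹) * u = u * (x⁻¹ * x⁻¹) := by
      rw [← h4, mul_assoc, h3, ← mul_assoc, h1, mul_assoc]
    have h6 : Commute (x * x) u := by
      have : Commute (x⁻¹ * x⁻¹) u := h5
      have h7 := this.inv_left
      rwa [mul_inv_rev, inv_inv] at h7
    -- x is a power of x * x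
    have hodd : Odd r := hr.odd_of_ne_two (by omega)
    obtain ⟨m, hm⟩ := hodd
    have hxp : x = (x * x) ^ (m + 1) := by
      rw [← pow_two, ← pow_mul]
      have : 2 * (m + 1) = r + 1 := by omega
      rw [this, pow_succ, ← hx, pow_orderOf_eq_one, one_mul]
    have h8 : Commute x u := by
      rw [hxp]; exact h6.pow_left _
    refine Subgroup.mem_centralizer_iff.mpr fun y hy => ?_
    rw [Set.mem_singleton_iff] at hy
    rw [hy]; exact h8.eq
  -- index computations
  have e1 : Nat.card F * F.relIndex U = Nat.card U := Cfsg.Agent.Lib.helper3.card_mul_relIndex_of_le hFU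
  have e2 : Nat.card F' * F'.relIndex U = Nat.card U := Cfsg.Agent.Lib.helper3.card_mul_relIndex_of_le hF'U
  have e3 : Nat.card U0 * U0.relIndex U = Nat.card U := Cfsg.Agent.Lib.helper3.card_mul_relIndex_of_le hU0U
  have hpos : 0 < Nat.card F := Nat.card_pos
  have hi : F'.relIndex U = F.relIndex U := by
    rw [hcF'] at e2
    exact Nat.eq_of_mul_eq_mul_left hpos (e2.trans e1.symm)
  have h1 : (F ⊓ F').relIndex U ≤ F.relIndex U * F'.relIndex U := Subgroup.relIndex_inf_le
  have hne0 : (F ⊓ F').relIndex U ≠ 0 := by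
    have := Subgroup.relIndex_dvd_card (F ⊓ F') U
    intro h0
    rw [h0] at this
    have := Nat.eq_zero_of_zero_dvd this
    exact Nat.card_pos.ne' this
  have h2 : U0.relIndex U ≤ (F ⊓ F').relIndex U := Subgroup.relIndex_le_of_le_left hle hne0
  rw [hi] at h1
  -- U0.relIndex U ≥ 8
  obtain ⟨n, hn⟩ := IsPGroup.iff_card.mp hU
  obtain ⟨k, hk⟩ := IsPGroup.iff_card.mp (hU.to_le hU0U)
  have hxr : IsPGroup r (Subgroup.zpowers x) := by
    apply IsPGroup.of_card (n := 1)
    rw [Nat.card_zpowers, hx, pow_one]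
  have hmod := card_modEq_card_cent U x hxr hxU
  rw [← hU0, hn, hk] at hmod
  have hkn : k ≤ n := by
    have := Subgroup.card_le_of_le hU0U
    rw [hn, hk] at this
    exact (Nat.pow_le_pow_iff_right (by norm_num)).mp this
  have hne : U0 ≠ U := by
    intro h
    apply hxc
    refine Subgroup.mem_centralizer_iff.mpr fun u hu => ?_
    have hu' : u ∈ U0 := h ▸ hu
    rw [hU0] at hu'
    exact (Subgroup.mem_centralizer_iff.mp (Subgroup.mem_inf.mp hu').2 x rfl).symm
  have hkn' : k < n := by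
    rcases Nat.lt_or_ge k n with h | h
    · exact h
    · exfalso
      apply hne
      apply Subgroup.eq_of_le_of_card_ge hU0U
      rw [hn, hk]
      exact Nat.pow_le_pow_right (by norm_num) h
  have hdvd : r ∣ 2 ^ n - 2 ^ k := by
    exact (Nat.modEq_iff_dvd' (Nat.pow_le_pow_right (by norm_num) hkn)).mp hmod.symm
  have hsplit : 2 ^ n - 2 ^ k = 2 ^ k * (2 ^ (n - k) - 1) := by
    have : n = k + (n - k) := by omega
    nth_rewrite 1 [this]
    rw [pow_add, Nat.mul_sub, mul_one]
  rw [hsplit] at hdvd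
  have hcop : Nat.Coprime r (2 ^ k) := by
    apply Nat.Coprime.pow_right
    rw [Nat.coprime_primes hr Nat.prime_two]
    omega
  have hdvd' : r ∣ 2 ^ (n - k) - 1 := hcop.dvd_of_dvd_mul_left hdvd
  have hnk : 3 ≤ n - k := by
    by_contra hlt
    have : n - k = 1 ∨ n - k = 2 := by omega
    rcases this with h | h
    · rw [h] at hdvd'
      have := Nat.le_of_dvd (by norm_num) hdvd'
      omega
    · rw [h] at hdvd'
      have := Nat.le_of_dvd (by norm_num) hdvd'
      omega
  have hrel : U0.relIndex U = 2 ^ (n - k) := by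
    rw [hn, hk] at e3
    have : (2:ℕ) ^ n = 2 ^ k * 2 ^ (n - k) := by
      rw [← pow_add]; congr 1; omega
    rw [this] at e3
    exact Nat.eq_of_mul_eq_mul_left (by positivity) e3
  have h8 : 8 ≤ U0.relIndex U := by
    rw [hrel]
    calc 8 = 2 ^ 3 := by norm_num
      _ ≤ 2 ^ (n - k) := Nat.pow_le_pow_right (by norm_num) hnk
  -- F.relIndex U is a power of two with square ≥ 8
  have hidvd : F.relIndex U ∣ 2 ^ n := hn ▸ Subgroup.relIndex_dvd_card F U
  obtain ⟨j, hj, hj2⟩ := (Nat.dvd_prime_pow Nat.prime_two).mp hidvd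
  have hsq : 8 ≤ F.relIndex U * F.relIndex U := (h8.trans h2).trans h1
  have hj2' : 2 ≤ j := by
    by_contra hlt
    have : j = 0 ∨ j = 1 := by omega
    rcases this with h | h
    · rw [hj2, h] at hsq; norm_num at hsq
    · rw [hj2, h] at hsq; norm_num at hsq
  have h4 : 4 ≤ F.relIndex U := by
    rw [hj2]
    calc 4 = 2 ^ 2 := by norm_num
      _ ≤ 2 ^ j := Nat.pow_le_pow_right (by norm_num) hj2'
  calc 4 * Nat.card F = Nat.card F * 4 := by ring
    _ ≤ Nat.card F * F.relIndex U := Nat.mul_le_mul_left _ h4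
    _ = Nat.card U := e1


open Cfsg.Agent.Lib.helper3 in
/-- In an `S₃`-free group `M` with `C_M(O_{2'}(M)) ≤ O_{2'}(M)` acting faithfully on the elementary
abelian `2`-group `V`, every elementary abelian `2`-subgroup `A` has `|A|² |C_V(A)| ≤ |V|`. -/
theorem s3_offender_bound {X : Type*} [Group X] [Finite X] (M V : Subgroup X)
    (hV : Cfsg.IsElementaryAbelian 2 V) (hMV : M ≤ Subgroup.normalizer (V : Set X))
    (hfaith : M ⊓ Subgroup.centralizer (V : Set X) = ⊥)
    (hcon : Subgroup.centralizer (Cfsg.pPrimeCore 2 ↥M : Set ↥M) ≤ Cfsg.pPrimeCore 2 ↥M)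
    (hno : ¬ Cfsg.Involves (Equiv.Perm (Fin 3)) ↥M) :
    ∀ n : ℕ, ∀ A : Subgroup X, Nat.card A = n → A ≤ M → Cfsg.IsElementaryAbelian 2 A →
      Nat.card A ^ 2 * Nat.card ↥(V ⊓ Subgroup.centralizer (A : Set X)) ≤ Nat.card V := by
  classical
  haveI : Fact (Nat.Prime 2) := ⟨Nat.prime_two⟩
  intro n
  induction n using Nat.strong_induction_on with
  | _ n ih =>
  intro A hn hAM hA
  by_cases hA1 : A = ⊥
  · subst hA1
    have : V ⊓ Subgroup.centralizer (((⊥ : Subgroup X) : Subgroup X) : Set X) = V := by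
      apply inf_eq_left.mpr
      intro v _
      refine Subgroup.mem_centralizer_iff.mpr fun y hy => ?_
      have : y = 1 := by simpa using hy
      rw [this]; simp
    rw [this, Subgroup.card_bot]; simp
  obtain ⟨hab, hexp⟩ := (isEA_iff 2 A).mp hA
  haveI : IsMulCommutative A := hA.1
  have hA2 : IsPGroup 2 A := isPGroup_of_isEA hA
  have hV2 : IsPGroup 2 V := isPGroup_of_isEA hV
  obtain ⟨Q, hQ⟩ : ∃ Q : Subgroup X, Q = ffQ 2 M := ⟨_, rfl⟩
  have hQcop : (Nat.card Q).Coprime 2 := hQ ▸ ffQ_coprime M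
  have hcop : (Nat.card A).Coprime (Nat.card Q) := by
    obtain ⟨k, hk⟩ := IsPGroup.iff_card.mp hA2
    rw [hk]; exact Nat.Coprime.pow_left k hQcop.symm
  have hMQ : M ≤ Subgroup.normalizer (Q : Set X) := hQ ▸ ffQ_normal M
  have hAQ : A ≤ Subgroup.normalizer (Q : Set X) := hAM.trans hMQ
  have hQM : Q ≤ M := hQ ▸ ffQ_le M
  -- a good hyperplane
  have hex : ∃ B : Subgroup X, B ≤ A ∧ (∃ a ∈ A, B ⊔ Subgroup.zpowers a = A) ∧
      ¬ (Q ⊓ Subgroup.centralizer (B : Set X) ≤ Subgroup.centralizer (A : Set X)) := by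
    by_contra hcon'
    push Not at hcon'
    have hQc : Q ≤ Subgroup.centralizer (A : Set X) :=
      Cfsg.Agent.Lib.helper9.gen_main A Q hAQ hcop _ (fun B hB hex => hcon' B hB hex)
    apply hA1
    rw [eq_bot_iff]
    intro a ha
    have haQ : a ∈ ffQ 2 M := ffQ_self_centralizing M hcon (hAM ha)
      (fun x hx => (Subgroup.mem_centralizer_iff.mp (hQc (hQ ▸ hx)) a ha).symm)
    have : a ∈ A ⊓ Q := Subgroup.mem_inf.mpr ⟨ha, hQ ▸ haQ⟩
    rw [Subgroup.inf_eq_bot_of_coprime hcop] at this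
    exact this
  obtain ⟨B, hBA, ⟨a, haA, hBa⟩, hng⟩ := hex
  have haa : a * a = 1 := by
    have := hexp a haA
    rwa [pow_two] at this
  have hainv : a⁻¹ = a := inv_eq_of_mul_eq_one_left haa
  obtain ⟨k, hk, hkA⟩ := SetLike.not_le_iff_exists.mp hng
  obtain ⟨hkQ, hkB⟩ := Subgroup.mem_inf.mp hk
  have hka : a * k ≠ k * a := by
    intro h
    apply hkA
    rw [← hBa]
    apply mem_centralizer_sup hkB
    have hz : Subgroup.zpowers a ≤ Subgroup.centralizer ({k} : Set X) := by
      rw [Subgroup.zpowers_le]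
      refine Subgroup.mem_centralizer_iff.mpr fun y hy => ?_
      rw [Set.mem_singleton_iff] at hy
      rw [hy]; exact h.symm
    refine Subgroup.mem_centralizer_iff.mpr fun y hy => ?_
    exact (Subgroup.mem_centralizer_iff.mp (hz hy) k rfl).symm
  have hBne : B ≠ A := by
    intro h
    apply hng
    rw [h]; exact inf_le_right
  have hBlt : B < A := lt_of_le_of_ne hBA hBne
  -- a centralizes B
  have haB : ∀ b ∈ B, a * b = b * a := fun b hb => hab a haA b (hBA hb)
  have haNQ : a ∈ Subgroup.normalizer (Q : Set X) := hAQ haA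
  have hak : a * k * a⁻¹ ∈ Q := (Subgroup.mem_normalizer_iff.mp haNQ k).mp hkQ
  -- the inverted element
  obtain ⟨x0, hx0⟩ : ∃ x0 : X, x0 = k⁻¹ * (a * k * a⁻¹) := ⟨_, rfl⟩
  have hx0Q : x0 ∈ Q := hx0 ▸ Q.mul_mem (Q.inv_mem hkQ) hak
  have hx0B : x0 ∈ Subgroup.centralizer (B : Set X) := by
    rw [hx0]
    apply (Subgroup.centralizer (B : Set X)).mul_mem ((Subgroup.centralizer (B : Set X)).inv_mem hkB)
    refine Subgroup.mem_centralizer_iff.mpr fun b hb => ?_
    have h1 := Subgroup.mem_centralizer_iff.mp hkB b hb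
    have h2 := haB b hb
    have h2' : a⁻¹ * b = b * a⁻¹ := by rw [hainv]; exact h2
    calc b * (a * k * a⁻¹) = (b * a) * k * a⁻¹ := by group
      _ = a * (b * k) * a⁻¹ := by rw [← h2]; group
      _ = a * (k * b) * a⁻¹ := by rw [h1]
      _ = a * k * (b * a⁻¹) := by group
      _ = a * k * (a⁻¹ * b) := by rw [h2']
      _ = a * k * a⁻¹ * b := by group
  have hx0inv : a * x0 * a⁻¹ = x0⁻¹ := by
    rw [hx0, hainv]
    have e1 : a * (k⁻¹ * (a * k * a)) * a = a * k⁻¹ * a * k * (a * a) := by group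
    have e2 : (k⁻¹ * (a * k * a))⁻¹ = a⁻¹ * k⁻¹ * a⁻¹ * k := by group
    rw [e1, e2, haa, hainv, mul_one]
  have hx0ne : x0 ≠ 1 := by
    intro h
    rw [hx0] at h
    apply hka
    have : a * k * a⁻¹ = k := by
      have := congrArg (fun t => k * t) h
      simpa using this
    calc a * k = (a * k * a⁻¹) * a := by group
      _ = k * a := by rw [this]
  obtain ⟨r, hr, hrdvd⟩ := Nat.exists_prime_and_dvd (n := orderOf x0)
    (fun h => hx0ne (orderOf_eq_one_iff.mp h))
  obtain ⟨x, hxdef⟩ : ∃ x : X, x = x0 ^ (orderOf x0 / r) := ⟨_, rfl⟩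
  have hxord : orderOf x = r := by
    rw [hxdef]
    exact orderOf_pow_orderOf_div (orderOf_pos x0).ne' hrdvd
  have hxQ : x ∈ Q := hxdef ▸ Q.pow_mem hx0Q _
  have hxB : x ∈ Subgroup.centralizer (B : Set X) :=
    hxdef ▸ (Subgroup.centralizer (B : Set X)).pow_mem hx0B _
  have hxinv : a * x * a⁻¹ = x⁻¹ := by
    rw [hxdef, ← inv_pow, ← hx0inv, conj_pow]
  have hxM : x ∈ M := hQM hxQ
  have hr2 : r ≠ 2 := by
    intro h
    have h1 : r ∣ Nat.card Q := by
      rw [← hxord]
      have := Subgroup.orderOf_dvd_natCard Q hxQ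
      exact this
    rw [h] at h1
    have := Nat.Coprime.eq_one_of_dvd hQcop.symm h1
    omega
  have haone : a ≠ 1 := by
    intro h
    apply hka
    rw [h]; simp
  have haord : orderOf a = 2 := by
    apply orderOf_eq_prime
    · rw [pow_two]; exact haa
    · exact haone
  by_cases hr3 : r = 3
  · exfalso
    apply hno
    rw [hr3] at hxord
    obtain ⟨e⟩ := s3_of_dihedral x a hxord haord hxinv
    have hDM : Subgroup.zpowers x ⊔ Subgroup.zpowers a ≤ M :=
      sup_le (Subgroup.zpowers_le.mpr hxM) (Subgroup.zpowers_le.mpr (hAM haA))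
    have h1 : Cfsg.Involves (Equiv.Perm (Fin 3)) ↥(Subgroup.zpowers x ⊔ Subgroup.zpowers a) :=
      involves_of_surjective (⊤ : Subgroup ↥(Subgroup.zpowers x ⊔ Subgroup.zpowers a))
        (e.toMonoidHom.comp (⊤ : Subgroup ↥(Subgroup.zpowers x ⊔ Subgroup.zpowers a)).subtype)
        (fun y => ⟨⟨e.symm y, Subgroup.mem_top _⟩, by simp⟩)
    exact involves_of_injective (Subgroup.inclusion hDM) (Subgroup.inclusion_injective hDM) h1
  have hr5 : 5 ≤ r := by
    have := hr.two_le
    rcases Nat.lt_or_ge r 5 with h | h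
    · exfalso
      have : r = 4 := by omega
      rw [this] at hr
      exact (by decide : ¬ Nat.Prime 4) hr
    · exact h
  -- the module U = C_V(B)
  obtain ⟨U, hU⟩ : ∃ U : Subgroup X, U = V ⊓ Subgroup.centralizer (B : Set X) := ⟨_, rfl⟩
  have hUV : U ≤ V := hU ▸ inf_le_left
  have hU2 : IsPGroup 2 U := hV2.to_le hUV
  have hnorm : ∀ g : X, g ∈ M → (∀ b ∈ B, g * b = b * g) → g ∈ Subgroup.normalizer (U : Set X) := by
    intro g hgM hgB
    apply mem_normalizer_of_forall_conj_mem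
    intro u hu
    rw [hU] at hu ⊢
    obtain ⟨hu1, hu2⟩ := Subgroup.mem_inf.mp hu
    refine Subgroup.mem_inf.mpr ⟨(Subgroup.mem_normalizer_iff.mp (hMV hgM) u).mp hu1, ?_⟩
    refine Subgroup.mem_centralizer_iff.mpr fun b hb => ?_
    have h1 := Subgroup.mem_centralizer_iff.mp hu2 b hb
    have h2 := hgB b hb
    have h2' : g⁻¹ * b = b * g⁻¹ := by
      have : Commute g b := h2
      exact this.inv_left.eq
    calc b * (g * u * g⁻¹) = (b * g) * u * g⁻¹ := by group
      _ = g * (b * u) * g⁻¹ := by rw [← h2]; group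
      _ = g * (u * b) * g⁻¹ := by rw [h1]
      _ = g * u * (b * g⁻¹) := by group
      _ = g * u * (g⁻¹ * b) := by rw [h2']
      _ = g * u * g⁻¹ * b := by group
  have hxU : x ∈ Subgroup.normalizer (U : Set X) :=
    hnorm x hxM (fun b hb => (Subgroup.mem_centralizer_iff.mp hxB b hb).symm)
  have hxc : x ∉ Subgroup.centralizer (U : Set X) := by
    intro hxc
    have hB2 : IsPGroup 2 B := hA2.to_le hBA
    have hZcop : (Nat.card (Subgroup.zpowers x)).Coprime 2 := by
      rw [Nat.card_zpowers, hxord, Nat.coprime_primes hr Nat.prime_two]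
      exact hr2
    have hBZ : B ≤ Subgroup.centralizer (Subgroup.zpowers x : Set X) := by
      intro b hb
      have hz : Subgroup.zpowers x ≤ Subgroup.centralizer ({b} : Set X) := by
        rw [Subgroup.zpowers_le]
        refine Subgroup.mem_centralizer_iff.mpr fun y hy => ?_
        rw [Set.mem_singleton_iff] at hy
        rw [hy]; exact Subgroup.mem_centralizer_iff.mp hxB b hb
      refine Subgroup.mem_centralizer_iff.mpr fun y hy => ?_
      exact (Subgroup.mem_centralizer_iff.mp (hz hy) b rfl).symm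
    have hC : V ⊓ Subgroup.centralizer (B : Set X) ≤
        Subgroup.centralizer (Subgroup.zpowers x : Set X) := by
      intro u hu
      have huU : u ∈ U := hU ▸ hu
      have h1 := Subgroup.mem_centralizer_iff.mp hxc u huU
      have hz : Subgroup.zpowers x ≤ Subgroup.centralizer ({u} : Set X) := by
        rw [Subgroup.zpowers_le]
        refine Subgroup.mem_centralizer_iff.mpr fun y hy => ?_
        rw [Set.mem_singleton_iff] at hy
        rw [hy]; exact h1
      refine Subgroup.mem_centralizer_iff.mpr fun y hy => ?_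
      exact (Subgroup.mem_centralizer_iff.mp (hz hy) u rfl).symm
    have hres := Cfsg.Agent.Lib.helper8.thompson_pq B (Subgroup.zpowers x) V hB2 hZcop hV2 hBZ
      ((hBA.trans hAM).trans hMV) (Subgroup.zpowers_le.mpr (hMV hxM)) hC
    have hx1 : x ∈ M ⊓ Subgroup.centralizer (V : Set X) :=
      Subgroup.mem_inf.mpr ⟨hxM, hres (Subgroup.mem_zpowers x)⟩
    rw [hfaith, Subgroup.mem_bot] at hx1
    rw [hx1, orderOf_one] at hxord
    exact hr.one_lt.ne hxord
  have hD := dihedral_fix_bound U hU2 x a r hr hr5 hxord haa hxinv hxU hxc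
  -- C_V(A) ≤ C_U(a)
  have hle : V ⊓ Subgroup.centralizer (A : Set X) ≤ U ⊓ Subgroup.centralizer ({a} : Set X) := by
    intro v hv
    obtain ⟨hv1, hv2⟩ := Subgroup.mem_inf.mp hv
    refine Subgroup.mem_inf.mpr ⟨?_, ?_⟩
    · rw [hU]
      exact Subgroup.mem_inf.mpr ⟨hv1,
        Subgroup.centralizer_le (SetLike.coe_subset_coe.mpr hBA) hv2⟩
    · refine Subgroup.mem_centralizer_iff.mpr fun y hy => ?_
      rw [Set.mem_singleton_iff] at hy
      rw [hy]; exact Subgroup.mem_centralizer_iff.mp hv2 a haA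
  have hcle := Subgroup.card_le_of_le hle
  -- induction
  have hBcard : Nat.card B < n := by
    rw [← hn]
    apply lt_of_le_of_ne (Subgroup.card_le_of_le hBA)
    intro h
    exact hBne (Subgroup.eq_of_le_of_card_ge hBA h.ge)
  have hBEA : Cfsg.IsElementaryAbelian 2 B :=
    (isEA_iff 2 B).mpr ⟨fun x hx y hy => hab x (hBA hx) y (hBA hy), fun x hx => hexp x (hBA hx)⟩
  have hih := ih (Nat.card B) hBcard B rfl (hBA.trans hAM) hBEA
  rw [← hU] at hih
  -- |A| ≤ 2 |B|
  have hnB : Subgroup.zpowers a ≤ Subgroup.normalizer (B : Set X) := by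
    rw [Subgroup.zpowers_le]
    apply mem_normalizer_of_forall_conj_mem
    intro b hb
    have : a * b * a⁻¹ = b := by rw [haB b hb]; group
    rw [this]; exact hb
  have hdvd := Cfsg.Agent.Lib.helper7.card_sup_dvd_of_le_normalizer B (Subgroup.zpowers a) hnB
  rw [hBa, Nat.card_zpowers, haord] at hdvd
  have hAle : Nat.card A ≤ Nat.card B * 2 := Nat.le_of_dvd (Nat.mul_pos Nat.card_pos (by norm_num)) hdvd
  calc Nat.card A ^ 2 * Nat.card ↥(V ⊓ Subgroup.centralizer (A : Set X))
      ≤ (Nat.card B * 2) ^ 2 * Nat.card ↥(U ⊓ Subgroup.centralizer ({a} : Set X)) :=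
        Nat.mul_le_mul (Nat.pow_le_pow_left hAle 2) hcle
    _ = Nat.card B ^ 2 * (4 * Nat.card ↥(U ⊓ Subgroup.centralizer ({a} : Set X))) := by ring
    _ ≤ Nat.card B ^ 2 * Nat.card U := Nat.mul_le_mul_left _ hD
    _ ≤ Nat.card V := hih

end Cfsg.Agent.Lib.helper14
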