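import Mathlib
import Cfsg.Prelude.Def_Transfer
import Cfsg.Agent.Lib.helper1.PGroup
import Cfsg.Agent.Lib.helper7.Fitting

set_option autoImplicit false

namespace Cfsg.Agent.Lib.helper14

open Cfsg

section general

variable {G : Type*} [Group G]

lemma symp_char_mem {H : Subgroup G} (hH : H.Characteristic) (φ : G ≃* G) {x : G} :
    φ x ∈ H ↔ x ∈ H := by
  constructor
  · intro h
    have h1 : x ∈ H.comap φ.toMonoidHom := h
    rwa [hH.fixed φ] at h1
  · intro h
    have h1 : x ∈ H.comap φ.toMonoidHom := by rw [hH.fixed φ]; exact h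
    exact h1

lemma symp_char_of_forall {H : Subgroup G} (h : ∀ (φ : G ≃* G) (x : G), x ∈ H → φ x ∈ H) :
    H.Characteristic := by
  rw [Subgroup.characteristic_iff_map_le]
  rintro φ _ ⟨x, hx, rfl⟩
  exact h φ x hx

lemma symp_exists_order_p {p : ℕ} [Fact p.Prime] (hG : IsPGroup p G) {z : G} (hz : z ≠ 1) :
    ∃ m : ℕ, z ^ m ≠ 1 ∧ (z ^ m) ^ p = 1 := by
  have hpp : p.Prime := Fact.out
  obtain ⟨k, hk⟩ := (IsPGroup.iff_orderOf.mp hG) z
  have hk0 : k ≠ 0 := by
    rintro rfl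
    rw [pow_zero, orderOf_eq_one_iff] at hk
    exact hz hk
  refine ⟨p ^ (k - 1), ?_, ?_⟩
  · apply pow_ne_one_of_lt_orderOf (pow_ne_zero _ hpp.ne_zero)
    rw [hk]
    exact Nat.pow_lt_pow_right hpp.one_lt (by omega)
  · rw [← pow_mul, ← pow_succ, Nat.sub_add_cancel (by omega), ← hk, pow_orderOf_eq_one]

lemma symp_central_of_card_prime {p : ℕ} [Fact p.Prime] [Finite G] (hG : IsPGroup p G)
    (Z : Subgroup G) [Z.Normal] (hZ : Nat.card Z = p) : Z ≤ Subgroup.center G := by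
  have hpp : p.Prime := Fact.out
  haveI : Group.IsNilpotent G := hG.isNilpotent
  have hZ1 : Z ≠ ⊥ := by
    intro h
    rw [← Subgroup.card_eq_one, hZ] at h
    exact hpp.one_lt.ne' h
  have h1 : Z ⊓ Subgroup.center G ≠ ⊥ :=
    Cfsg.Agent.Lib.helper7.nilpotent_normal_inf_center_ne_bot Z hZ1
  have h2 : Nat.card ↥(Z ⊓ Subgroup.center G) ∣ p := hZ ▸ Subgroup.card_dvd_of_le inf_le_left
  have h3 : Nat.card ↥(Z ⊓ Subgroup.center G) ≠ 1 := fun h => h1 (Subgroup.card_eq_one.mp h)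
  have h4 : Nat.card ↥(Z ⊓ Subgroup.center G) = p := ((Nat.dvd_prime hpp).mp h2).resolve_left h3
  have h5 : Z ⊓ Subgroup.center G = Z :=
    Subgroup.eq_of_le_of_card_ge inf_le_left (by rw [h4, hZ])
  rw [← h5]
  exact inf_le_right

lemma symp_exists_gen {Z : Subgroup G} (hZ : IsCyclic Z) :
    ∃ g ∈ Z, ∀ x ∈ Z, x ∈ Subgroup.zpowers g := by
  obtain ⟨g, hg⟩ := hZ.exists_generator
  refine ⟨g, g.2, fun x hx => ?_⟩
  obtain ⟨k, hk⟩ := Subgroup.mem_zpowers_iff.mp (hg ⟨x, hx⟩)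
  refine Subgroup.mem_zpowers_iff.mpr ⟨k, ?_⟩
  have := congrArg Subtype.val hk
  simpa using this

/-- in a cyclic `p`-group with an element of order `> p`, elements of order `≤ p` are `p`-th powers -/
lemma symp_cyc_pow {p : ℕ} [Fact p.Prime] (hG : IsPGroup p G) {Z : Subgroup G} (hZ : IsCyclic Z)
    {z₀ : G} (hz₀ : z₀ ∈ Z) (hz₀p : z₀ ^ p ≠ 1) {u : G} (hu : u ∈ Z) (hup : u ^ p = 1) :
    ∃ z ∈ Z, u = z ^ p := by
  have hpp : p.Prime := Fact.out
  obtain ⟨g, hgZ, hg⟩ := symp_exists_gen hZ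
  obtain ⟨i, hi⟩ := Subgroup.mem_zpowers_iff.mp (hg z₀ hz₀)
  obtain ⟨j, hj⟩ := Subgroup.mem_zpowers_iff.mp (hg u hu)
  have hgp : g ^ p ≠ 1 := by
    intro h
    apply hz₀p
    rw [← hi, ← zpow_natCast, ← zpow_mul, mul_comm, zpow_mul, zpow_natCast, h, one_zpow]
  obtain ⟨m, hm⟩ := (IsPGroup.iff_orderOf.mp hG) g
  have hm2 : 2 ≤ m := by
    by_contra hlt
    apply hgp
    have : orderOf g ∣ p := by
      rw [hm]
      have : m ≤ 1 := by omega
      exact (pow_dvd_pow p this).trans (by rw [pow_one])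
    exact orderOf_dvd_iff_pow_eq_one.mp this
  have h1 : (orderOf g : ℤ) ∣ j * p := by
    rw [orderOf_dvd_iff_zpow_eq_one, zpow_mul, hj, zpow_natCast, hup]
  have h2 : ((p : ℤ) * p) ∣ j * p := by
    refine dvd_trans ?_ h1
    rw [hm]
    have : p * p ∣ p ^ m := by
      rw [← pow_two]
      exact pow_dvd_pow p hm2
    exact_mod_cast this
  have h3 : (p : ℤ) ∣ j :=
    Int.dvd_of_mul_dvd_mul_right (by exact_mod_cast hpp.ne_zero) h2
  obtain ⟨j', rfl⟩ := h3
  refine ⟨g ^ j', Subgroup.zpow_mem _ hgZ _, ?_⟩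
  rw [← hj, ← zpow_natCast (g ^ j'), ← zpow_mul, mul_comm]

/-- in a cyclic `p`-group an element which is not a `p`-th power is a generator -/
lemma symp_cyc_gen {p : ℕ} [Fact p.Prime] (hG : IsPGroup p G) {Z : Subgroup G} (hZ : IsCyclic Z)
    {g₀ : G} (hg₀ : g₀ ∈ Z) (hnp : ¬ ∃ z ∈ Z, g₀ = z ^ p) {x : G} (hx : x ∈ Z) :
    x ∈ Subgroup.zpowers g₀ := by
  have hpp : p.Prime := Fact.out
  obtain ⟨g, hgZ, hg⟩ := symp_exists_gen hZ
  obtain ⟨j, hj⟩ := Subgroup.mem_zpowers_iff.mp (hg g₀ hg₀)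
  have hpj : ¬ (p : ℤ) ∣ j := by
    rintro ⟨j', rfl⟩
    apply hnp
    refine ⟨g ^ j', Subgroup.zpow_mem _ hgZ _, ?_⟩
    rw [← hj, ← zpow_natCast (g ^ j'), ← zpow_mul, mul_comm]
  obtain ⟨m, hm⟩ := (IsPGroup.iff_orderOf.mp hG) g
  have hp' : Prime (p : ℤ) := Nat.prime_iff_prime_int.mp hpp
  have hcop : IsCoprime (j : ℤ) ((p : ℤ) ^ m) :=
    ((Prime.coprime_iff_not_dvd hp').mpr hpj).symm.pow_right
  obtain ⟨a, b, hab⟩ := hcop
  have hgg : g ∈ Subgroup.zpowers g₀ := by
    refine Subgroup.mem_zpowers_iff.mpr ⟨a, ?_⟩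
    have h1 : g ^ ((p : ℤ) ^ m) = 1 := by
      have : ((p : ℤ) ^ m) = ((p ^ m : ℕ) : ℤ) := by push_cast; rfl
      rw [this, zpow_natCast, ← hm, pow_orderOf_eq_one]
    calc g₀ ^ a = g ^ (a * j) := by rw [← hj, ← zpow_mul, mul_comm]
      _ = g ^ (a * j + b * (p : ℤ) ^ m) := by
        rw [zpow_add, mul_comm b, zpow_mul g ((p : ℤ) ^ m) b, h1, one_zpow, mul_one]
      _ = g := by rw [hab, zpow_one]
  exact (Subgroup.zpowers_le.mpr hgg) (hg x hx)

lemma symp_card_dvd_of_pow {p : ℕ} {W Z : Subgroup G} (hWZ : W ≤ Z) (hZ : IsCyclic Z)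
    (hW : ∀ w ∈ W, w ^ p = 1) : Nat.card W ∣ p := by
  haveI := hZ
  haveI : IsCyclic W := Subgroup.isCyclic_of_le hWZ
  rw [← IsCyclic.exponent_eq_card]
  apply Monoid.exponent_dvd_of_forall_pow_eq_one
  intro w
  apply Subtype.ext
  simpa using hW w w.2

lemma symp_card_sup [Finite G] (E R : Subgroup G) [R.Normal] :
    Nat.card ↥(E ⊔ R) * Nat.card ↥(E ⊓ R) = Nat.card E * Nat.card R := by
  have h1 : Nat.card ↥(R.subgroupOf (E ⊔ R)) * (R.subgroupOf (E ⊔ R)).index = Nat.card ↥(E ⊔ R) :=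
    Subgroup.card_mul_index _
  have h2 : Nat.card ↥(R.subgroupOf E) * (R.subgroupOf E).index = Nat.card E :=
    Subgroup.card_mul_index _
  have h3 : (R.subgroupOf (E ⊔ R)).index = (R.subgroupOf E).index := Subgroup.relIndex_sup_right E R
  have h4 : Nat.card ↥(R.subgroupOf (E ⊔ R)) = Nat.card R :=
    Nat.card_congr (Subgroup.subgroupOfEquivOfLe le_sup_right).toEquiv
  have h5 : Nat.card ↥(R.subgroupOf E) = Nat.card ↥(E ⊓ R) := by
    rw [← Subgroup.inf_subgroupOf_right R E, inf_comm]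
    exact Nat.card_congr (Subgroup.subgroupOfEquivOfLe inf_le_left).toEquiv
  rw [← h1, ← h2, h3, h4, h5]
  ring

end general

section idx

variable {G : Type*} [Group G]

lemma symp_idx {p : ℕ} [Fact p.Prime] [Finite G] (hG : IsPGroup p G) (Y N Z1 : Subgroup G)
    (hZ1 : Nat.card Z1 ≤ p) (hZ1c : ∀ a ∈ Z1, ∀ b ∈ Z1, a * b = b * a)
    (hYZ : ∀ y ∈ Y, ∀ z ∈ Z1, y * z = z * y) (hYN : ∀ y ∈ Y, ∀ n ∈ N, y * n = n * y) :
    ∀ (k : ℕ) (H : Subgroup G), Nat.card H ≤ k → N ≤ H →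
      (∀ y ∈ Y, ∀ h ∈ H, y * h * y⁻¹ * h⁻¹ ∈ Z1) →
      Nat.card Y * Nat.card N ≤ Nat.card H * Nat.card ↥(Y ⊓ Subgroup.centralizer (H : Set G)) := by
  have hpp : p.Prime := Fact.out
  intro k
  induction k with
  | zero =>
    intro H hk
    have := Nat.card_pos (α := H)
    omega
  | succ k ih =>
    intro H hk hNH hcomm
    by_cases hHN : H = N
    · subst hHN
      have : Y ⊓ Subgroup.centralizer (H : Set G) = Y := by
        apply le_antisymm inf_le_left
        intro y hy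
        exact ⟨hy, fun n hn => (hYN y hy n hn).symm⟩
      rw [this, mul_comm]
    · have hfin : {K : Subgroup G | N ≤ K ∧ K < H}.Finite := Set.toFinite _
      obtain ⟨H₁, ⟨hNH₁, hH₁H⟩, hmax⟩ := Set.exists_max_image _
        (fun K : Subgroup G => Nat.card K) hfin ⟨N, le_refl N, lt_of_le_of_ne hNH (Ne.symm hHN)⟩
      obtain ⟨h, hhH, hhH₁⟩ := SetLike.exists_of_lt hH₁H
      have hsup : H₁ ⊔ Subgroup.zpowers h = H := by
        by_contra hne
        have hlt : H₁ ⊔ Subgroup.zpowers h < H :=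
          lt_of_le_of_ne (sup_le hH₁H.le (by rw [Subgroup.zpowers_le]; exact hhH)) hne
        have h1 := hmax (H₁ ⊔ Subgroup.zpowers h) ⟨le_trans hNH₁ le_sup_left, hlt⟩
        have h2 : H₁ = H₁ ⊔ Subgroup.zpowers h := Subgroup.eq_of_le_of_card_ge le_sup_left h1
        apply hhH₁
        rw [h2]
        exact (le_sup_right : Subgroup.zpowers h ≤ _) (Subgroup.mem_zpowers h)
      have hcardlt : Nat.card H₁ < Nat.card H := by
        by_contra hge
        exact hH₁H.ne (Subgroup.eq_of_le_of_card_ge hH₁H.le (not_lt.mp hge))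
      have hpcard : p * Nat.card H₁ ≤ Nat.card H := by
        obtain ⟨a, ha⟩ := IsPGroup.iff_card.mp (hG.to_subgroup H₁)
        obtain ⟨b, hb⟩ := IsPGroup.iff_card.mp (hG.to_subgroup H)
        rw [ha, hb] at hcardlt ⊢
        have hab : a < b := (Nat.pow_lt_pow_iff_right hpp.one_lt).mp hcardlt
        rw [← pow_succ']
        exact Nat.pow_le_pow_right hpp.pos hab
      have hih := ih H₁ (by omega) hNH₁ (fun y hy x hx => hcomm y hy x (hH₁H.le hx))
      -- the homomorphism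
      let D : Subgroup G := Y ⊓ Subgroup.centralizer (H₁ : Set G)
      let f : D →* Z1 := MonoidHom.mk' (fun y => ⟨(y : G) * h * (y : G)⁻¹ * h⁻¹, hcomm y y.2.1 h hhH⟩)
        (by
          intro y y'
          apply Subtype.ext
          have hu' : (y : G) * ((y' : G) * h * (y' : G)⁻¹ * h⁻¹) =
              ((y' : G) * h * (y' : G)⁻¹ * h⁻¹) * (y : G) :=
            hYZ y y.2.1 _ (hcomm y' y'.2.1 h hhH)
          show ((y : G) * (y' : G)) * h * ((y : G) * (y' : G))⁻¹ * h⁻¹ =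
            ((y : G) * h * (y : G)⁻¹ * h⁻¹) * ((y' : G) * h * (y' : G)⁻¹ * h⁻¹)
          calc ((y : G) * (y' : G)) * h * ((y : G) * (y' : G))⁻¹ * h⁻¹
              = ((y : G) * ((y' : G) * h * (y' : G)⁻¹ * h⁻¹)) * (h * (y : G)⁻¹ * h⁻¹) := by group
            _ = (((y' : G) * h * (y' : G)⁻¹ * h⁻¹) * (y : G)) * (h * (y : G)⁻¹ * h⁻¹) := by rw [hu']
            _ = ((y' : G) * h * (y' : G)⁻¹ * h⁻¹) * ((y : G) * h * (y : G)⁻¹ * h⁻¹) := by group
            _ = ((y : G) * h * (y : G)⁻¹ * h⁻¹) * ((y' : G) * h * (y' : G)⁻¹ * h⁻¹) :=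
              hZ1c _ (hcomm y' y'.2.1 h hhH) _ (hcomm y y.2.1 h hhH))
      have hker : Nat.card f.ker ≤ Nat.card ↥(Y ⊓ Subgroup.centralizer (H : Set G)) := by
        let ι : f.ker → ↥(Y ⊓ Subgroup.centralizer (H : Set G)) := fun y => ⟨((y : D) : G), by
          have hy1 : ((y : D) : G) ∈ Y := (y : D).2.1
          have hy2 : ((y : D) : G) ∈ Subgroup.centralizer (H₁ : Set G) := (y : D).2.2
          have hy3 : ((y : D) : G) * h * ((y : D) : G)⁻¹ * h⁻¹ = 1 := by
            have := y.2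
            rw [MonoidHom.mem_ker] at this
            exact congrArg Subtype.val this
          refine ⟨hy1, ?_⟩
          have hle : H ≤ Subgroup.centralizer ({((y : D) : G)} : Set G) := by
            rw [← hsup]
            apply sup_le
            · intro x hx
              rw [Subgroup.mem_centralizer_singleton_iff]
              exact hy2 x hx
            · rw [Subgroup.zpowers_le, Subgroup.mem_centralizer_singleton_iff]
              calc h * ((y : D) : G) = (((y : D) : G) * h * ((y : D) : G)⁻¹ * h⁻¹)⁻¹ * (((y : D) : G) * h) := by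
                    group
                _ = ((y : D) : G) * h := by rw [hy3, inv_one, one_mul]
          intro x hx
          have := hle hx
          rw [Subgroup.mem_centralizer_singleton_iff] at this
          exact this⟩
        apply Nat.card_le_card_of_injective ι
        intro y y' hyy
        have h9 := congrArg (fun z : ↥(Y ⊓ Subgroup.centralizer (H : Set G)) => (z : G)) hyy
        exact Subtype.ext (Subtype.ext h9)
      have hD : Nat.card D ≤ p * Nat.card ↥(Y ⊓ Subgroup.centralizer (H : Set G)) := by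
        have h1 := Subgroup.card_mul_index f.ker
        rw [Subgroup.index_ker] at h1
        have h2 : Nat.card f.range ≤ p := le_trans (Subgroup.card_le_card_group _) hZ1
        calc Nat.card D = Nat.card f.ker * Nat.card f.range := h1.symm
          _ ≤ Nat.card ↥(Y ⊓ Subgroup.centralizer (H : Set G)) * p := Nat.mul_le_mul hker h2
          _ = p * Nat.card ↥(Y ⊓ Subgroup.centralizer (H : Set G)) := mul_comm _ _
      calc Nat.card Y * Nat.card N ≤ Nat.card H₁ * Nat.card D := hih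
        _ ≤ Nat.card H₁ * (p * Nat.card ↥(Y ⊓ Subgroup.centralizer (H : Set G))) :=
          Nat.mul_le_mul_left _ hD
        _ = (p * Nat.card H₁) * Nat.card ↥(Y ⊓ Subgroup.centralizer (H : Set G)) := by ring
        _ ≤ Nat.card H * Nat.card ↥(Y ⊓ Subgroup.centralizer (H : Set G)) :=
          Nat.mul_le_mul_right _ hpcard

end idx

section extraspecial

lemma symp_extraspecial_of {X : Type*} [Group X] [Finite X] {p : ℕ} [Fact p.Prime]
    (hX : IsPGroup p X) (Z : Subgroup X) (hZcard : Nat.card Z = p)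
    (hcen : Subgroup.center X = Z) (hcomm : ∀ x y : X, x * y * x⁻¹ * y⁻¹ ∈ Z)
    (hpow : ∀ x : X, x ^ p ∈ Z) (hna : ∃ x y : X, x * y ≠ y * x) : Cfsg.IsExtraspecial p X := by
  have hpp : p.Prime := Fact.out
  haveI : Z.Normal := hcen ▸ inferInstance
  have hc1 : commutator X ≤ Z := by
    rw [commutator_def, Subgroup.commutator_le]
    intro a _ b _
    exact hcomm a b
  have hc2 : commutator X ≠ ⊥ := by
    intro h
    obtain ⟨x, y, hxy⟩ := hna
    have h9 : x * y * x⁻¹ * y⁻¹ ∈ commutator X :=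
      Subgroup.commutator_mem_commutator (Subgroup.mem_top x) (Subgroup.mem_top y)
    rw [h, Subgroup.mem_bot] at h9
    apply hxy
    calc x * y = (x * y * x⁻¹ * y⁻¹) * (y * x) := by group
      _ = y * x := by rw [h9, one_mul]
  have hc3 : commutator X = Z := by
    apply Subgroup.eq_of_le_of_card_ge hc1
    have h1 : Nat.card ↥(commutator X) ∣ p := hZcard ▸ Subgroup.card_dvd_of_le hc1
    have h2 : Nat.card ↥(commutator X) ≠ 1 := fun h => hc2 (Subgroup.card_eq_one.mp h)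
    rw [hZcard, ((Nat.dvd_prime hpp).mp h1).resolve_left h2]
  have hf1 : frattini X ≤ Z :=
    Cfsg.Agent.Lib.helper1.frattini_le_of_elementary_quotient p Z hc1 hpow
  have hf2 : Z ≤ frattini X := hc3 ▸ Cfsg.Agent.Lib.helper1.commutator_le_frattini p hX
  exact ⟨⟨hX, by rw [hcen]; exact le_antisymm hf1 hf2, by rw [hcen]; exact hc3⟩,
    by rw [hcen]; exact hZcard⟩

lemma symp_card_ge_cube {X : Type*} [Group X] [Finite X] {p : ℕ} [Fact p.Prime]
    (hX : IsPGroup p X) (hna : ∃ x y : X, x * y ≠ y * x) : ∃ j, 3 ≤ j ∧ Nat.card X = p ^ j := by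
  obtain ⟨j, hj⟩ := IsPGroup.iff_card.mp hX
  refine ⟨j, ?_, hj⟩
  by_contra hlt
  obtain ⟨x, y, hxy⟩ := hna
  apply hxy
  have hj2 : j ≤ 2 := by omega
  interval_cases j
  · rw [pow_zero] at hj
    haveI : Subsingleton X := (Nat.card_eq_one_iff_unique.mp hj).1
    exact Subsingleton.elim _ _
  · rw [pow_one] at hj
    haveI := isCyclic_of_prime_card hj
    obtain ⟨g, hg⟩ := IsCyclic.exists_generator (α := X)
    obtain ⟨a, rfl⟩ := Subgroup.mem_zpowers_iff.mp (hg x)
    obtain ⟨b, rfl⟩ := Subgroup.mem_zpowers_iff.mp (hg y)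
    rw [← zpow_add, ← zpow_add, add_comm]
  · haveI := IsPGroup.isMulCommutative_of_card_eq_prime_sq hj
    exact mul_comm' x y

lemma symp_extraspecial_of_card_cube {X : Type*} [Group X] [Finite X] {p : ℕ} [Fact p.Prime]
    (hcard : Nat.card X = p ^ 3) (hna : ∃ x y : X, x * y ≠ y * x) : Cfsg.IsExtraspecial p X := by
  have hpp : p.Prime := Fact.out
  have hX : IsPGroup p X := IsPGroup.of_card hcard
  have hZdvd : Nat.card (Subgroup.center X) ∣ p ^ 3 := hcard ▸ Subgroup.card_subgroup_dvd_card _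
  obtain ⟨k, hk3, hk⟩ := (Nat.dvd_prime_pow hpp).mp hZdvd
  have hQ : Nat.card (X ⧸ Subgroup.center X) * p ^ k = p ^ 3 := by
    rw [← hk, ← hcard]
    exact (Subgroup.card_eq_card_quotient_mul_card_subgroup _).symm
  have hnc : ¬ IsCyclic (X ⧸ Subgroup.center X) := by
    intro hcyc
    obtain ⟨x, y, hxy⟩ := hna
    haveI := MonoidHom.isMulCommutative_of_isCyclic_of_ker_le_center
      (QuotientGroup.mk' (Subgroup.center X)) (by rw [QuotientGroup.ker_mk'])
    exact hxy (mul_comm' x y)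
  have hQk : ∀ i, k + i = 3 → Nat.card (X ⧸ Subgroup.center X) = p ^ i := by
    intro i hi
    have h1 : p ^ 3 = p ^ i * p ^ k := by rw [← pow_add, add_comm, hi]
    rw [h1] at hQ
    exact Nat.eq_of_mul_eq_mul_right (pow_pos hpp.pos k) hQ
  have hk1 : k = 1 := by
    interval_cases k
    · exfalso
      have h3 := hQk 3 rfl
      have : Nontrivial X := by
        rw [← Finite.one_lt_card_iff_nontrivial, hcard]
        exact Nat.one_lt_pow (by norm_num) hpp.one_lt
      have hn := hX.center_nontrivial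
      rw [pow_zero] at hk
      have := (Subgroup.card_eq_one.mp hk)
      exact (Subgroup.nontrivial_iff_ne_bot _).mp hn this
    · rfl
    · exfalso
      apply hnc
      have h3 := hQk 1 rfl
      rw [pow_one] at h3
      exact isCyclic_of_prime_card h3
    · exfalso
      apply hnc
      have h3 := hQk 0 rfl
      rw [pow_zero] at h3
      haveI : Subsingleton (X ⧸ Subgroup.center X) := (Nat.card_eq_one_iff_unique.mp h3).1
      exact isCyclic_of_subsingleton
  subst hk1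
  have hQ2 : Nat.card (X ⧸ Subgroup.center X) = p ^ 2 := hQk 2 rfl
  haveI := IsPGroup.isMulCommutative_of_card_eq_prime_sq hQ2
  have hQp : ∀ a : X ⧸ Subgroup.center X, a ^ p = 1 := by
    intro a
    have h1 : orderOf a ∣ p ^ 2 := hQ2 ▸ orderOf_dvd_natCard a
    obtain ⟨j, hj2, hj⟩ := (Nat.dvd_prime_pow hpp).mp h1
    interval_cases j
    · rw [pow_zero, orderOf_eq_one_iff] at hj
      rw [hj, one_pow]
    · rw [pow_one] at hj
      rw [← hj, pow_orderOf_eq_one]
    · exfalso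
      apply hnc
      exact isCyclic_of_orderOf_eq_card a (by rw [hj, hQ2])
  apply symp_extraspecial_of hX (Subgroup.center X) (by rw [hk, pow_one]) rfl
  · intro x y
    rw [← QuotientGroup.eq_one_iff]
    have h := mul_comm' (x : X ⧸ Subgroup.center X) (y : X ⧸ Subgroup.center X)
    simp only [QuotientGroup.mk_mul, QuotientGroup.mk_inv]
    rw [h]
    group
  · intro x
    rw [← QuotientGroup.eq_one_iff, QuotientGroup.mk_pow]
    exact hQp _
  · exact hna

end extraspecial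

section omega

variable {G : Type*} [Group G]

/-- the elements of order dividing `p` in an abelian subgroup -/
def sympOmega (p : ℕ) (Z : Subgroup G) (hab : ∀ a ∈ Z, ∀ b ∈ Z, a * b = b * a) : Subgroup G where
  carrier := {z | z ∈ Z ∧ z ^ p = 1}
  mul_mem' := by
    rintro a b ⟨ha, hap⟩ ⟨hb, hbp⟩
    refine ⟨Z.mul_mem ha hb, ?_⟩
    have hc : Commute a b := hab a ha b hb
    rw [hc.mul_pow, hap, hbp, one_mul]
  one_mem' := ⟨Z.one_mem, one_pow _⟩
  inv_mem' := by
    rintro a ⟨ha, hap⟩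
    exact ⟨Z.inv_mem ha, by rw [inv_pow, hap, inv_one]⟩

lemma mem_sympOmega {p : ℕ} {Z : Subgroup G} {hab : ∀ a ∈ Z, ∀ b ∈ Z, a * b = b * a} {z : G} :
    z ∈ sympOmega p Z hab ↔ z ∈ Z ∧ z ^ p = 1 := Iff.rfl

lemma sympOmega_le {p : ℕ} {Z : Subgroup G} {hab : ∀ a ∈ Z, ∀ b ∈ Z, a * b = b * a} :
    sympOmega p Z hab ≤ Z := fun _ h => h.1

lemma sympOmega_card_dvd {p : ℕ} {Z : Subgroup G} {hab : ∀ a ∈ Z, ∀ b ∈ Z, a * b = b * a}
    (hZ : IsCyclic Z) : Nat.card (sympOmega p Z hab) ∣ p :=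
  symp_card_dvd_of_pow sympOmega_le hZ (fun _ hw => hw.2)

lemma sympOmega_char {p : ℕ} {Z : Subgroup G} {hab : ∀ a ∈ Z, ∀ b ∈ Z, a * b = b * a}
    (hZ : Z.Characteristic) : (sympOmega p Z hab).Characteristic := by
  apply symp_char_of_forall
  rintro φ x ⟨hx, hxp⟩
  exact ⟨(symp_char_mem hZ φ).mpr hx, by rw [← map_pow, hxp, map_one]⟩

lemma symp_inf_centralizer_char {X : Subgroup G} (hX : X.Characteristic) :
    (X ⊓ Subgroup.centralizer (X : Set G)).Characteristic := by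
  apply symp_char_of_forall
  rintro φ x ⟨hx, hxc⟩
  refine ⟨(symp_char_mem hX φ).mpr hx, ?_⟩
  intro y hy
  have hy' : φ.symm y ∈ X := by
    have := (symp_char_mem hX φ (x := φ.symm y))
    rw [MulEquiv.apply_symm_apply] at this
    exact this.mp hy
  have h1 := hxc (φ.symm y) hy'
  have h2 := congrArg φ h1
  rw [map_mul, map_mul, MulEquiv.apply_symm_apply] at h2
  exact h2

lemma symp_inf_centralizer_comm (X : Subgroup G) :
    ∀ a ∈ X ⊓ Subgroup.centralizer (X : Set G), ∀ b ∈ X ⊓ Subgroup.centralizer (X : Set G),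
      a * b = b * a := fun a ha b hb => hb.2 a ha.1

end omega

end Cfsg.Agent.Lib.helper14
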