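import Mathlib
import Cfsg.Prelude.Def_CaseTheorems
import Cfsg.Agent.Lib.helper1.PGroup
import Cfsg.Agent.Lib.helper7.Fitting
import Cfsg.Agent.Lib.helper8.CoprimeAction
import Cfsg.Agent.Lib.helper14.Symp1

set_option autoImplicit false

namespace Cfsg.Agent.Lib.helper14

open Cfsg

section secrank

variable {G : Type*} [Group G]

/-- The conjugate `x A x⁻¹`. -/
def srCj (x : G) (A : Subgroup G) : Subgroup G := A.map (MulAut.conj x).toMonoidHom

lemma mem_srCj {x b : G} {A : Subgroup G} : b ∈ srCj x A ↔ x⁻¹ * b * x ∈ A := by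
  unfold srCj
  rw [Subgroup.mem_map_equiv]
  simp [MulAut.conj_symm_apply]

lemma conj_mem_srCj {x a : G} {A : Subgroup G} (ha : a ∈ A) : x * a * x⁻¹ ∈ srCj x A := by
  rw [mem_srCj]
  have e : x⁻¹ * (x * a * x⁻¹) * x = a := by group
  rw [e]; exact ha

lemma card_srCj (x : G) (A : Subgroup G) : Nat.card (srCj x A) = Nat.card A :=
  Subgroup.card_map_of_injective (MulEquiv.injective _)

lemma srCj_mono {x : G} {A B : Subgroup G} (h : A ≤ B) : srCj x A ≤ srCj x B :=
  Subgroup.map_mono h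

lemma sr_conj_sup_mem {t : G} {K₁ K₂ K₁' K₂' : Subgroup G}
    (h1 : ∀ k ∈ K₁, t * k * t⁻¹ ∈ K₁') (h2 : ∀ k ∈ K₂, t * k * t⁻¹ ∈ K₂') :
    ∀ k ∈ K₁ ⊔ K₂, t * k * t⁻¹ ∈ K₁' ⊔ K₂' := by
  have h : (K₁ ⊔ K₂).map (MulAut.conj t).toMonoidHom ≤ K₁' ⊔ K₂' := by
    rw [Subgroup.map_sup]
    apply sup_le_sup
    · rintro _ ⟨k, hk, rfl⟩
      simpa using h1 k hk
    · rintro _ ⟨k, hk, rfl⟩
      simpa using h2 k hk
  intro k hk
  have := h (Subgroup.mem_map_of_mem _ hk)
  simpa using this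

/-- The subgroup generated by the squares. -/
def srSq (A : Subgroup G) : Subgroup G := Subgroup.closure {g | ∃ a ∈ A, a ^ 2 = g}

lemma srSq_le (A : Subgroup G) : srSq A ≤ A := by
  unfold srSq
  rw [Subgroup.closure_le]
  rintro _ ⟨a, ha, rfl⟩
  exact A.pow_mem ha 2

lemma sq_mem_srSq {A : Subgroup G} {a : G} (ha : a ∈ A) : a ^ 2 ∈ srSq A :=
  Subgroup.subset_closure ⟨a, ha, rfl⟩

lemma comm_mem_srSq {A : Subgroup G} {a b : G} (ha : a ∈ A) (hb : b ∈ A) :
    a * b * a⁻¹ * b⁻¹ ∈ srSq A := by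
  have h : a * b * a⁻¹ * b⁻¹ = (a * b) ^ 2 * (b⁻¹ * a⁻¹ * b) ^ 2 * (b⁻¹) ^ 2 := by
    simp only [pow_two]; group
  rw [h]
  exact (srSq A).mul_mem ((srSq A).mul_mem (sq_mem_srSq (A.mul_mem ha hb))
    (sq_mem_srSq (A.mul_mem (A.mul_mem (A.inv_mem hb) (A.inv_mem ha)) hb)))
    (sq_mem_srSq (A.inv_mem hb))

lemma srSq_conj {A B : Subgroup G} {g : G} (h : ∀ a ∈ A, g * a * g⁻¹ ∈ B) :
    ∀ k ∈ srSq A, g * k * g⁻¹ ∈ srSq B := by
  intro k hk
  unfold srSq at hk
  induction hk using Subgroup.closure_induction with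
  | mem y hy =>
    obtain ⟨a, ha, rfl⟩ := hy
    have e : g * a ^ 2 * g⁻¹ = (g * a * g⁻¹) ^ 2 := by rw [conj_pow]
    rw [e]
    exact sq_mem_srSq (h a ha)
  | one => simp
  | mul y z _ _ hy hz =>
    have e : g * (y * z) * g⁻¹ = (g * y * g⁻¹) * (g * z * g⁻¹) := by group
    rw [e]; exact (srSq B).mul_mem hy hz
  | inv y _ hy =>
    have e : g * y⁻¹ * g⁻¹ = (g * y * g⁻¹)⁻¹ := by group
    rw [e]; exact (srSq B).inv_mem hy

lemma srSq_mono {A B : Subgroup G} (h : A ≤ B) : srSq A ≤ srSq B := by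
  apply Subgroup.closure_mono
  rintro _ ⟨a, ha, rfl⟩
  exact ⟨a, h ha, rfl⟩

/-- `N ≤ A` contains the commutators and the squares of `A`. -/
def SrGood (A N : Subgroup G) : Prop :=
  N ≤ A ∧ (∀ a ∈ A, ∀ b ∈ A, a * b * a⁻¹ * b⁻¹ ∈ N) ∧ ∀ a ∈ A, a ^ 2 ∈ N

lemma srGood_sq (A : Subgroup G) : SrGood A (srSq A) :=
  ⟨srSq_le A, fun _ ha _ hb => comm_mem_srSq ha hb, fun _ ha => sq_mem_srSq ha⟩

lemma srGood_cj {A N : Subgroup G} (x : G) (h : SrGood A N) :
    SrGood (srCj x A) (srCj x N) := by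
  refine ⟨srCj_mono h.1, ?_, ?_⟩
  · intro a ha b hb
    rw [mem_srCj] at ha hb ⊢
    have := h.2.1 _ ha _ hb
    have e : x⁻¹ * (a * b * a⁻¹ * b⁻¹) * x
        = (x⁻¹ * a * x) * (x⁻¹ * b * x) * (x⁻¹ * a * x)⁻¹ * (x⁻¹ * b * x)⁻¹ := by group
    rw [e]; exact this
  · intro a ha
    rw [mem_srCj] at ha ⊢
    have := h.2.2 _ ha
    have e : x⁻¹ * a ^ 2 * x = (x⁻¹ * a * x) ^ 2 := by simp only [pow_two]; group
    rw [e]; exact this

lemma srGood_normal {A N : Subgroup G} (h : SrGood A N) :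
    ∀ a ∈ A, ∀ k ∈ N, a * k * a⁻¹ ∈ N := by
  intro a ha k hk
  have := N.mul_mem (h.2.1 a ha k (h.1 hk)) hk
  have e : a * k * a⁻¹ * k⁻¹ * k = a * k * a⁻¹ := by group
  rwa [e] at this

lemma sr_claim (X Y K : Subgroup G)
    (hn : ∀ t, t ∈ X ∨ t ∈ Y → ∀ k ∈ K, t * k * t⁻¹ ∈ K)
    (hc : ∀ a, a ∈ X ∨ a ∈ Y → ∀ b, b ∈ X ∨ b ∈ Y → a * b * a⁻¹ * b⁻¹ ∈ K)
    (hs : ∀ a, a ∈ X ∨ a ∈ Y → a ^ 2 ∈ K) :
    (∀ a ∈ X ⊔ Y, ∀ b ∈ X ⊔ Y, a * b * a⁻¹ * b⁻¹ ∈ K) ∧ ∀ a ∈ X ⊔ Y, a ^ 2 ∈ K := by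
  have hsup : X ⊔ Y = Subgroup.closure {t | t ∈ X ∨ t ∈ Y} := by
    rw [Subgroup.sup_eq_closure]; rfl
  have hinv : ∀ t, t ∈ X ∨ t ∈ Y → (t⁻¹ ∈ X ∨ t⁻¹ ∈ Y) := by
    rintro t (h | h)
    · exact Or.inl (X.inv_mem h)
    · exact Or.inr (Y.inv_mem h)
  have hN : ∀ h ∈ X ⊔ Y, ∀ k ∈ K, h * k * h⁻¹ ∈ K ∧ h⁻¹ * k * h ∈ K := by
    intro h hh
    rw [hsup] at hh
    induction hh using Subgroup.closure_induction with
    | mem t ht =>
      intro k hk
      refine ⟨hn t ht k hk, ?_⟩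
      have := hn t⁻¹ (hinv t ht) k hk
      simpa using this
    | one => intro k hk; simpa using hk
    | mul a b _ _ ha hb =>
      intro k hk
      constructor
      · have := (ha _ (hb k hk).1).1
        have e : a * b * k * (a * b)⁻¹ = a * (b * k * b⁻¹) * a⁻¹ := by group
        rw [e]; exact this
      · have := (hb _ (ha k hk).2).2
        have e : (a * b)⁻¹ * k * (a * b) = b⁻¹ * (a⁻¹ * k * a) * b := by group
        rw [e]; exact this
    | inv a _ ha =>
      intro k hk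
      refine ⟨?_, ?_⟩
      · have := (ha k hk).2
        simpa using this
      · have := (ha k hk).1
        simpa using this
  have hA : ∀ h ∈ X ⊔ Y, ∀ t, t ∈ X ∨ t ∈ Y → h * t * h⁻¹ * t⁻¹ ∈ K := by
    intro h hh
    rw [hsup] at hh
    induction hh using Subgroup.closure_induction with
    | mem s hs' => intro t ht; exact hc s hs' t ht
    | one => intro t _; simp
    | mul a b ha' _ ha hb =>
      intro t ht
      rw [← hsup] at ha'
      have := K.mul_mem (hN a ha' _ (hb t ht)).1 (ha t ht)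
      have e : a * b * t * (a * b)⁻¹ * t⁻¹
          = a * (b * t * b⁻¹ * t⁻¹) * a⁻¹ * (a * t * a⁻¹ * t⁻¹) := by group
      rw [e]; exact this
    | inv a ha' ha =>
      intro t ht
      rw [← hsup] at ha'
      have := (hN a ha' _ (K.inv_mem (ha t ht))).2
      have e : a⁻¹ * t * a⁻¹⁻¹ * t⁻¹ = a⁻¹ * (a * t * a⁻¹ * t⁻¹)⁻¹ * a := by group
      rw [e]; exact this
  have hB : ∀ h ∈ X ⊔ Y, ∀ g ∈ X ⊔ Y, h * g * h⁻¹ * g⁻¹ ∈ K := by
    intro h hh g hg
    rw [hsup] at hg
    induction hg using Subgroup.closure_induction with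
    | mem t ht => exact hA h hh t ht
    | one => simp
    | mul a b ha' _ ha hb =>
      rw [← hsup] at ha'
      have := K.mul_mem ha (hN a ha' _ hb).1
      have e : h * (a * b) * h⁻¹ * (a * b)⁻¹
          = (h * a * h⁻¹ * a⁻¹) * (a * (h * b * h⁻¹ * b⁻¹) * a⁻¹) := by group
      rw [e]; exact this
    | inv a ha' ha =>
      rw [← hsup] at ha'
      have := (hN a ha' _ (K.inv_mem ha)).2
      have e : h * a⁻¹ * h⁻¹ * a⁻¹⁻¹ = a⁻¹ * (h * a * h⁻¹ * a⁻¹)⁻¹ * a := by group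
      rw [e]; exact this
  refine ⟨hB, ?_⟩
  intro h hh
  have hh' := hh
  rw [hsup] at hh'
  induction hh' using Subgroup.closure_induction with
  | mem t ht => exact hs t ht
  | one => simp
  | mul a b ha' hb' ha hb =>
    rw [← hsup] at ha' hb'
    have h1 := (hN a ha' _ (hB b hb' a ha')).2
    have := K.mul_mem (K.mul_mem (ha ha') h1) (hb hb')
    have e : (a * b) ^ 2 = a ^ 2 * (a⁻¹ * (b * a * b⁻¹ * a⁻¹) * a) * b ^ 2 := by
      simp only [pow_two]; group
    rw [e]; exact this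
  | inv a ha' ha =>
    rw [← hsup] at ha'
    have := K.inv_mem (ha ha')
    have e : (a⁻¹) ^ 2 = (a ^ 2)⁻¹ := by group
    rw [e]; exact this

lemma sr_sec [Finite G] (hr : Cfsg.SectionalPRankLE 2 4 G) (H K : Subgroup G) (hKH : K ≤ H)
    (hc : ∀ a ∈ H, ∀ b ∈ H, a * b * a⁻¹ * b⁻¹ ∈ K) (hs : ∀ a ∈ H, a ^ 2 ∈ K) :
    Nat.card H ≤ 16 * Nat.card K := by
  have : (K.subgroupOf H).Normal := by
    constructor
    intro n hn g
    rw [Subgroup.mem_subgroupOf] at hn ⊢
    have := K.mul_mem (hc g g.2 n (hKH hn)) hn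
    have e : (g : G) * n * (g : G)⁻¹ * (n : G)⁻¹ * n = g * n * (g : G)⁻¹ := by group
    rw [e] at this
    simpa using this
  have h1 : Nat.card ↥(⊤ : Subgroup (↥H ⧸ K.subgroupOf H)) ≤ 2 ^ 4 := by
    apply hr H (K.subgroupOf H) ⊤
    · refine ⟨⟨fun a b => ?_⟩⟩
      apply Subtype.ext
      obtain ⟨a, _⟩ := a
      obtain ⟨b, _⟩ := b
      induction a using QuotientGroup.induction_on with
      | _ a =>
        induction b using QuotientGroup.induction_on with
        | _ b =>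
          show (a : ↥H ⧸ K.subgroupOf H) * (b : ↥H ⧸ K.subgroupOf H) = b * a
          rw [← QuotientGroup.mk_mul, ← QuotientGroup.mk_mul, QuotientGroup.eq,
            Subgroup.mem_subgroupOf]
          have := hc (b : G)⁻¹ (H.inv_mem b.2) (a : G)⁻¹ (H.inv_mem a.2)
          simpa [mul_assoc] using this
    · intro a _
      induction a using QuotientGroup.induction_on with
      | _ a =>
        rw [← QuotientGroup.mk_pow, QuotientGroup.eq_one_iff, Subgroup.mem_subgroupOf]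
        simpa using hs a a.2
  rw [Subgroup.card_top] at h1
  have h2 := Subgroup.card_eq_card_quotient_mul_card_subgroup (K.subgroupOf H)
  have h3 : Nat.card (K.subgroupOf H) = Nat.card K :=
    Cfsg.Agent.Lib.helper8.card_subgroupOf_of_le hKH
  rw [h2, h3]
  exact Nat.mul_le_mul_right _ (by norm_num at h1 ⊢; exact h1)

lemma sr_card_sup [Finite G] (X Y : Subgroup G) (h : ∀ a ∈ X, ∀ b ∈ Y, a * b * a⁻¹ ∈ Y) :
    Nat.card ↥(X ⊔ Y) * Nat.card ↥(X ⊓ Y) = Nat.card X * Nat.card Y := by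
  have hXn : X ≤ Subgroup.normalizer (Y : Set G) :=
    Cfsg.Agent.Lib.helper8.le_normalizer_of_conj_mem h
  have : (Y.subgroupOf (Y ⊔ X)).Normal := Cfsg.Agent.Lib.helper8.normal_subgroupOf_sup hXn
  have key := symp_card_sup (X.subgroupOf (Y ⊔ X)) (Y.subgroupOf (Y ⊔ X))
  have e1 : X.subgroupOf (Y ⊔ X) ⊔ Y.subgroupOf (Y ⊔ X) = ⊤ := by
    rw [← Subgroup.subgroupOf_sup le_sup_right le_sup_left, sup_comm, Subgroup.subgroupOf_self]
  have e2 : X.subgroupOf (Y ⊔ X) ⊓ Y.subgroupOf (Y ⊔ X) = (X ⊓ Y).subgroupOf (Y ⊔ X) := rfl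
  rw [e1, e2, Subgroup.card_top, Cfsg.Agent.Lib.helper8.card_subgroupOf_of_le le_sup_right,
    Cfsg.Agent.Lib.helper8.card_subgroupOf_of_le le_sup_left,
    Cfsg.Agent.Lib.helper8.card_subgroupOf_of_le (inf_le_left.trans le_sup_right)] at key
  rw [sup_comm]
  exact key

lemma sr_card_sup_le [Finite G] (X Y : Subgroup G) (h : ∀ a ∈ X, ∀ b ∈ Y, a * b * a⁻¹ ∈ Y) :
    Nat.card ↥(X ⊔ Y) ≤ Nat.card X * Nat.card Y := by
  rw [← sr_card_sup X Y h]
  exact Nat.le_mul_of_pos_right _ Nat.card_pos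

lemma sr_conj_card_le [Finite G] {A B : Subgroup G} {g : G} (h : ∀ k ∈ A, g * k * g⁻¹ ∈ B) :
    Nat.card A ≤ Nat.card B := by
  apply Nat.card_le_card_of_injective (fun k : A => (⟨g * k * g⁻¹, h k k.2⟩ : B))
  intro a b hab
  have := congrArg Subtype.val hab
  simp only at this
  apply Subtype.ext
  simpa using this

end secrank

section secrank2

variable {G : Type*} [Group G] [Finite G]

lemma sr_gen2 (hr : Cfsg.SectionalPRankLE 2 4 G) {A N B M : Subgroup G} (hA : SrGood A N)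
    (hB : SrGood B M) (hAB : ∀ a ∈ A, ∀ b ∈ B, a * b * a⁻¹ * b⁻¹ ∈ N ⊔ M)
    (hAM : ∀ a ∈ A, ∀ m ∈ M, a * m * a⁻¹ ∈ M) (hBN : ∀ b ∈ B, ∀ n ∈ N, b * n * b⁻¹ ∈ N) :
    Nat.card ↥(A ⊔ B) ≤ 16 * Nat.card ↥(N ⊔ M) := by
  have hcl := sr_claim A B (N ⊔ M) ?_ ?_ ?_
  · exact sr_sec hr (A ⊔ B) (N ⊔ M) (sup_le_sup hA.1 hB.1) hcl.1 hcl.2
  · rintro t (ht | ht)
    · exact sr_conj_sup_mem (srGood_normal hA t ht) (hAM t ht)
    · exact sr_conj_sup_mem (hBN t ht) (srGood_normal hB t ht)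
  · rintro a (ha | ha) b (hb | hb)
    · exact (le_sup_left : N ≤ N ⊔ M) (hA.2.1 a ha b hb)
    · exact hAB a ha b hb
    · have := (N ⊔ M).inv_mem (hAB b hb a ha)
      have e : (b * a * b⁻¹ * a⁻¹)⁻¹ = a * b * a⁻¹ * b⁻¹ := by group
      rwa [e] at this
    · exact (le_sup_right : M ≤ N ⊔ M) (hB.2.1 a ha b hb)
  · rintro a (ha | ha)
    · exact (le_sup_left : N ≤ N ⊔ M) (hA.2.2 a ha)
    · exact (le_sup_right : M ≤ N ⊔ M) (hB.2.2 a ha)

lemma sr_double (hr : Cfsg.SectionalPRankLE 2 4 G) (P P' : Subgroup G) (x : G)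
    (hdisj : P ⊓ P' = ⊥) (hcomm : ∀ a ∈ P, ∀ b ∈ P', a * b = b * a)
    (hx : ∀ a ∈ P, x * a * x⁻¹ ∈ P') {A N : Subgroup G} (hAN : SrGood A N) (hAP : A ≤ P) :
    Nat.card A ≤ 4 * Nat.card N := by
  have hA'P' : srCj x A ≤ P' := by
    intro b hb
    rw [mem_srCj] at hb
    have := hx _ (hAP hb)
    have e : x * (x⁻¹ * b * x) * x⁻¹ = b := by group
    rwa [e] at this
  have hG' := srGood_cj x hAN
  have hc1 : ∀ a ∈ A, ∀ b ∈ srCj x A, a * b = b * a :=
    fun a ha b hb => hcomm a (hAP ha) b (hA'P' hb)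
  have key := sr_gen2 hr hAN hG' ?_ ?_ ?_
  · have h1 := sr_card_sup A (srCj x A) (fun a ha b hb => by
      have := hc1 a ha b hb
      rw [this, mul_inv_cancel_right]; exact hb)
    have h2 : A ⊓ srCj x A = ⊥ := by
      rw [eq_bot_iff, ← hdisj]; exact inf_le_inf hAP hA'P'
    rw [h2, Subgroup.card_bot, mul_one, card_srCj] at h1
    have h3 := sr_card_sup_le N (srCj x N) (fun a ha b hb => by
      have := hc1 a (hAN.1 ha) b (hG'.1 hb)
      rw [this, mul_inv_cancel_right]; exact hb)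
    rw [card_srCj] at h3
    rw [h1] at key
    by_contra hcon
    push Not at hcon
    nlinarith
  · intro a ha b hb
    have := hc1 a ha b hb
    have e : a * b * a⁻¹ * b⁻¹ = 1 := by rw [this]; group
    rw [e]; exact Subgroup.one_mem _
  · intro a ha m hm
    have := hc1 a ha m (hG'.1 hm)
    rw [this, mul_inv_cancel_right]; exact hm
  · intro b hb n hn
    have := hc1 n (hAN.1 hn) b hb
    rw [← this, mul_inv_cancel_right]; exact hn

lemma sr_meet {p : ℕ} [Fact p.Prime] (hG : IsPGroup p G) (P D : Subgroup G) (hDP : D ≤ P)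
    (hD : D ≠ ⊥) (hn : ∀ a ∈ P, ∀ d ∈ D, a * d * a⁻¹ ∈ D) :
    ∃ d ∈ D, d ≠ 1 ∧ ∀ a ∈ P, a * d = d * a := by
  have : Group.IsNilpotent ↥P := (hG.to_subgroup P).isNilpotent
  have hnorm : (D.subgroupOf P).Normal := by
    constructor
    intro n hn' g
    rw [Subgroup.mem_subgroupOf] at hn' ⊢
    simpa using hn g g.2 n hn'
  have hne : D.subgroupOf P ≠ ⊥ := by
    intro h
    apply hD
    rw [eq_bot_iff]
    intro d hd
    have : (⟨d, hDP hd⟩ : P) ∈ D.subgroupOf P := Subgroup.mem_subgroupOf.mpr hd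
    rw [h, Subgroup.mem_bot] at this
    rw [Subgroup.mem_bot]
    exact congrArg Subtype.val this
  have h1 := Cfsg.Agent.Lib.helper7.nilpotent_normal_inf_center_ne_bot (D.subgroupOf P) hne
  obtain ⟨⟨y, hy⟩, hy1⟩ := (Subgroup.ne_bot_iff_exists_ne_one).mp h1
  refine ⟨(y : G), Subgroup.mem_subgroupOf.mp hy.1, ?_, ?_⟩
  · intro h
    apply hy1
    apply Subtype.ext
    apply Subtype.ext
    exact h
  · intro a ha
    have := Subgroup.mem_center_iff.mp hy.2 ⟨a, ha⟩
    exact congrArg Subtype.val this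

lemma sr_two_le {H : Type*} [Group H] [Finite H] {D M : Subgroup H} (h : D ≤ M) (hne : D ≠ M) :
    2 * Nat.card D ≤ Nat.card M := by
  obtain ⟨k, hk⟩ := Subgroup.card_dvd_of_le h
  have h1 : k ≠ 1 := by
    rintro rfl
    rw [mul_one] at hk
    exact hne (Subgroup.eq_of_le_of_card_ge h hk.le)
  have h0 : k ≠ 0 := by
    rintro rfl
    rw [mul_zero] at hk
    exact (Nat.card_pos (α := M)).ne' hk
  have h2 : 2 ≤ k := by omega
  rw [hk]
  nlinarith [Nat.card_pos (α := D)]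

lemma sr_card_sq (hG : IsPGroup 2 G) (A : Subgroup G)
    (hA : ¬ ∀ a ∈ A, ∀ b ∈ A, a * b = b * a) : 4 * Nat.card (srSq A) ≤ Nat.card A := by
  have : Fact (Nat.Prime 2) := ⟨Nat.prime_two⟩
  have hGA : IsPGroup 2 ↥A := hG.to_subgroup A
  obtain ⟨M₁, hM₁, -⟩ : ∃ M : Subgroup ↥A, IsCoatom M ∧ ⊥ ≤ M := by
    rcases eq_top_or_exists_le_coatom (⊥ : Subgroup ↥A) with h | h
    · exfalso
      apply hA
      intro a ha b hb
      have h1 : (⟨a, ha⟩ : A) ∈ (⊤ : Subgroup ↥A) := Subgroup.mem_top _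
      have h2 : (⟨b, hb⟩ : A) ∈ (⊤ : Subgroup ↥A) := Subgroup.mem_top _
      rw [← h, Subgroup.mem_bot] at h1 h2
      have h1' : a = 1 := congrArg Subtype.val h1
      have h2' : b = 1 := congrArg Subtype.val h2
      rw [h1', h2']
    · exact h
  obtain ⟨a, ha⟩ : ∃ a : ↥A, a ∉ M₁ := by
    by_contra hcon
    push Not at hcon
    exact hM₁.1 (eq_top_iff.mpr (fun a _ => hcon a))
  obtain ⟨M₂, hM₂, haM₂⟩ : ∃ M : Subgroup ↥A, IsCoatom M ∧ Subgroup.zpowers a ≤ M := by
    rcases eq_top_or_exists_le_coatom (Subgroup.zpowers a) with h | h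
    · exfalso
      apply hA
      intro b hb c hc
      have h1 : (⟨b, hb⟩ : A) ∈ Subgroup.zpowers a := by rw [h]; exact Subgroup.mem_top _
      have h2 : (⟨c, hc⟩ : A) ∈ Subgroup.zpowers a := by rw [h]; exact Subgroup.mem_top _
      obtain ⟨i, hi⟩ := Subgroup.mem_zpowers_iff.mp h1
      obtain ⟨j, hj⟩ := Subgroup.mem_zpowers_iff.mp h2
      have : (⟨b, hb⟩ : A) * ⟨c, hc⟩ = ⟨c, hc⟩ * ⟨b, hb⟩ := by
        rw [← hi, ← hj, ← zpow_add, ← zpow_add, add_comm]
      exact congrArg Subtype.val this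
    · exact h
  have hne : M₁ ⊓ M₂ ≠ M₁ := by
    intro h
    have hle : M₁ ≤ M₂ := by rw [← h]; exact inf_le_right
    rcases hle.lt_or_eq with h' | h'
    · exact hM₂.1 (hM₁.2 M₂ h')
    · exact ha (h' ▸ haM₂ (Subgroup.mem_zpowers a))
  have c1 := sr_two_le (inf_le_left : M₁ ⊓ M₂ ≤ M₁) hne
  have c2 := sr_two_le (le_top : M₁ ≤ ⊤) hM₁.1
  rw [Subgroup.card_top] at c2
  have hle : srSq A ≤ (M₁ ⊓ M₂).map A.subtype := by
    unfold srSq
    rw [Subgroup.closure_le]
    rintro _ ⟨b, hb, rfl⟩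
    refine ⟨(⟨b, hb⟩ : A) ^ 2, ⟨?_, ?_⟩, rfl⟩
    · exact (Cfsg.Agent.Lib.helper1.coatom_commutator_le_and_pow_mem 2 hGA M₁ hM₁).2 ⟨b, hb⟩
    · exact (Cfsg.Agent.Lib.helper1.coatom_commutator_le_and_pow_mem 2 hGA M₂ hM₂).2 ⟨b, hb⟩
  have c3 := Subgroup.card_le_of_le hle
  rw [Subgroup.card_map_of_injective A.subtype_injective] at c3
  omega

end secrank2

section secrank3

theorem sr_main {S : Type*} [Group S] [Finite S] (h2 : IsPGroup 2 S)
    (hr : Cfsg.SectionalPRankLE 2 4 S)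
    (P : Subgroup S) (hPlt : P ≠ ⊤) (hP : ¬ IsMulCommutative ↥P)
    (hZP : Nat.card ↥(Subgroup.center ↥P) = 2)
    (S₀ : Subgroup S)
    (hS₀ : S₀ = Subgroup.centralizer (((Subgroup.center ↥P).map P.subtype : Subgroup S) : Set S))
    (hPn : ∀ s ∈ S₀, ∀ x ∈ P, s * x * s⁻¹ ∈ P) :
    S₀ = ⊤ ∨ (Cfsg.SectionalPRankLE 2 2 ↥P ∧ S₀.index = 2) := by
  have hfact : Fact (Nat.Prime 2) := ⟨Nat.prime_two⟩
  obtain ⟨z₀, hz₀, hz₀u⟩ := (Nat.card_eq_two_iff' (1 : Subgroup.center ↥P)).mp hZP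
  obtain ⟨z, hz⟩ : ∃ z : S, z = ((z₀ : ↥P) : S) := ⟨_, rfl⟩
  have hzP : z ∈ P := by rw [hz]; exact (z₀ : ↥P).2
  have hz1 : z ≠ 1 := by
    intro h
    apply hz₀
    apply Subtype.ext
    apply Subtype.ext
    rw [← hz]; exact h
  have hzc : ∀ a ∈ P, a * z = z * a := by
    intro a ha
    have := Subgroup.mem_center_iff.mp z₀.2 ⟨a, ha⟩
    rw [hz]
    exact congrArg Subtype.val this
  have huniq : ∀ t ∈ P, (∀ a ∈ P, a * t = t * a) → t = 1 ∨ t = z := by
    intro t ht hc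
    by_cases h1 : t = 1
    · exact Or.inl h1
    · right
      have hmem : (⟨t, ht⟩ : P) ∈ Subgroup.center ↥P := by
        rw [Subgroup.mem_center_iff]
        intro g
        apply Subtype.ext
        exact hc g g.2
      have h3 := hz₀u ⟨⟨t, ht⟩, hmem⟩ (by
        intro h
        apply h1
        have h4 : t = ((1 : Subgroup.center ↥P) : ↥P) :=
          congrArg (fun y : Subgroup.center ↥P => ((y : ↥P) : S)) h
        simpa using h4)
      have h5 : t = ((z₀ : ↥P) : S) :=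
        congrArg (fun y : Subgroup.center ↥P => ((y : ↥P) : S)) h3
      rw [hz]; exact h5
  have hzz : z * z = 1 := by
    have h1 : z * z ∈ P := P.mul_mem hzP hzP
    rcases huniq (z * z) h1 (fun a ha => by
      rw [← mul_assoc, hzc a ha, mul_assoc, hzc a ha, mul_assoc]) with h | h
    · exact h
    · exfalso
      apply hz1
      exact mul_left_cancel (a := z) (by rw [h, mul_one])
  have hzinv : z⁻¹ = z := inv_eq_of_mul_eq_one_left hzz
  have hmemS₀ : ∀ g, g ∈ S₀ ↔ g * z = z * g := by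
    intro g
    rw [hS₀, Subgroup.mem_centralizer_iff]
    constructor
    · intro h
      have := h z ⟨(z₀ : ↥P), z₀.2, hz.symm⟩
      exact this.symm
    · rintro h _ ⟨y, hy, rfl⟩
      show (y : S) * g = g * (y : S)
      rcases huniq (y : S) y.2 (fun a ha => by
        have := Subgroup.mem_center_iff.mp hy ⟨a, ha⟩
        exact congrArg Subtype.val this) with h' | h'
      · rw [h', one_mul, mul_one]
      · rw [h']; exact h.symm
  have hPS₀ : P ≤ S₀ := fun a ha => (hmemS₀ a).mpr (hzc a ha)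
  have hPnc : ¬ ∀ a ∈ P, ∀ b ∈ P, a * b = b * a := by
    intro h
    apply hP
    exact ⟨⟨fun a b => Subtype.ext (h a a.2 b b.2)⟩⟩
  by_cases hTop : S₀ = ⊤
  · exact Or.inl hTop
  right
  have hnil : Group.IsNilpotent S := h2.isNilpotent
  have hlt : S₀ < Subgroup.normalizer (S₀ : Set S) :=
    Group.normalizerCondition_of_isNilpotent S₀ (lt_top_iff_ne_top.mpr hTop)
  obtain ⟨g, hgN, hgS⟩ := SetLike.exists_of_lt hlt
  obtain ⟨x, hxN, hxS, hx2⟩ :
      ∃ x, x ∈ Subgroup.normalizer (S₀ : Set S) ∧ x ∉ S₀ ∧ x * x ∈ S₀ := by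
    obtain ⟨k, hk⟩ := h2 g
    have hex : ∃ j, g ^ 2 ^ j ∈ S₀ := ⟨k, by rw [hk]; exact S₀.one_mem⟩
    classical
    have hj0 : Nat.find hex ≠ 0 := by
      intro h0
      have := Nat.find_spec hex
      rw [h0] at this
      simp at this
      exact hgS this
    obtain ⟨i, hi⟩ := Nat.exists_eq_succ_of_ne_zero hj0
    refine ⟨g ^ 2 ^ i, Subgroup.pow_mem _ hgN _, ?_, ?_⟩
    · exact Nat.find_min hex (by omega)
    · have := Nat.find_spec hex
      rw [hi, pow_succ, pow_mul, pow_two] at this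
      exact this
  have hxn1 : ∀ s ∈ S₀, x * s * x⁻¹ ∈ S₀ :=
    fun s hs => (Subgroup.mem_normalizer_iff.mp hxN s).mp hs
  have hxn2 : ∀ s ∈ S₀, x⁻¹ * s * x ∈ S₀ := by
    intro s hs
    apply (Subgroup.mem_normalizer_iff.mp hxN _).mpr
    have e : x * (x⁻¹ * s * x) * x⁻¹ = s := by group
    rw [e]; exact hs
  obtain ⟨z', hz'⟩ : ∃ z' : S, z' = x * z * x⁻¹ := ⟨_, rfl⟩
  have hz'ne : z' ≠ z := by
    intro h
    apply hxS
    rw [hmemS₀]
    rw [hz'] at h
    exact mul_inv_eq_iff_eq_mul.mp h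
  have hzS₀ : z ∈ S₀ := hPS₀ hzP
  have hz'S₀ : z' ∈ S₀ := by rw [hz']; exact hxn1 z hzS₀
  have hz'c : ∀ s ∈ S₀, s * z' = z' * s := by
    intro s hs
    have h1 := (hmemS₀ _).mp (hxn2 s hs)
    have e1 : s * z' = x * ((x⁻¹ * s * x) * z) * x⁻¹ := by rw [hz']; group
    have e2 : z' * s = x * (z * (x⁻¹ * s * x)) * x⁻¹ := by rw [hz']; group
    rw [e1, e2, h1]
  have hz'1 : z' ≠ 1 := by
    intro h
    apply hz1
    have e : z = x⁻¹ * z' * x := by rw [hz']; group
    rw [e, h]; group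
  have hz'z' : z' * z' = 1 := by
    have e : z' * z' = x * (z * z) * x⁻¹ := by rw [hz']; group
    rw [e, hzz]; group
  obtain ⟨P', hP'⟩ : ∃ P' : Subgroup S, P' = srCj x P := ⟨_, rfl⟩
  have hsw1 : ∀ a ∈ P, x * a * x⁻¹ ∈ P' := fun a ha => by rw [hP']; exact conj_mem_srCj ha
  have hsw2 : ∀ b ∈ P', x⁻¹ * b * x ∈ P := fun b hb => by rw [hP'] at hb; exact mem_srCj.mp hb
  have hsw3 : ∀ a ∈ P, x⁻¹ * a * x ∈ P' := by
    intro a ha
    rw [hP', mem_srCj]
    have := hPn (x * x)⁻¹ (S₀.inv_mem hx2) a ha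
    have e : x⁻¹ * (x⁻¹ * a * x) * x = (x * x)⁻¹ * a * ((x * x)⁻¹)⁻¹ := by
      simp only [mul_inv_rev, inv_inv, mul_assoc]
    rw [e]; exact this
  have hsw4 : ∀ b ∈ P', x * b * x⁻¹ ∈ P := by
    intro b hb
    have := hPn (x * x) hx2 _ (hsw2 b hb)
    have e : x * x * (x⁻¹ * b * x) * (x * x)⁻¹ = x * b * x⁻¹ := by group
    rwa [e] at this
  have hP'S₀ : P' ≤ S₀ := by
    intro b hb
    have := hxn1 _ (hPS₀ (hsw2 b hb))
    have e : x * (x⁻¹ * b * x) * x⁻¹ = b := by group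
    rwa [e] at this
  have hP'n : ∀ s ∈ S₀, ∀ b ∈ P', s * b * s⁻¹ ∈ P' := by
    intro s hs b hb
    rw [hP', mem_srCj]
    have := hPn _ (hxn2 s hs) _ (hsw2 b hb)
    have e : x⁻¹ * (s * b * s⁻¹) * x
        = (x⁻¹ * s * x) * (x⁻¹ * b * x) * (x⁻¹ * s * x)⁻¹ := by group
    rw [e]; exact this
  have huniq' : ∀ t ∈ P', (∀ b ∈ P', b * t = t * b) → t = 1 ∨ t = z' := by
    intro t ht hc
    have h3 := huniq _ (hsw2 t ht) (fun a ha => by
      have h1 := hc _ (hsw1 a ha)
      have e1 : a * (x⁻¹ * t * x) = x⁻¹ * ((x * a * x⁻¹) * t) * x := by group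
      have e2 : (x⁻¹ * t * x) * a = x⁻¹ * (t * (x * a * x⁻¹)) * x := by group
      rw [e1, e2, h1])
    have e : t = x * (x⁻¹ * t * x) * x⁻¹ := by group
    rcases h3 with h | h
    · left
      rw [e, h]; group
    · right
      rw [e, h, hz']
  have hdisj : P ⊓ P' = ⊥ := by
    by_contra hne
    obtain ⟨d, hd, hd1, hdc⟩ := sr_meet h2 P (P ⊓ P') inf_le_left hne (by
      intro a ha d hd
      exact ⟨hPn a (hPS₀ ha) d hd.1, hP'n a (hPS₀ ha) d hd.2⟩)
    have hdz : d = z := (huniq d hd.1 hdc).resolve_left hd1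
    have hzP' : z ∈ P' := hdz ▸ hd.2
    have h1 : z' ∈ P := by rw [hz']; exact hsw4 z hzP'
    rcases huniq z' h1 (fun a ha => hz'c a (hPS₀ ha)) with h | h
    · exact hz'1 h
    · exact hz'ne h
  have hcomm : ∀ a ∈ P, ∀ b ∈ P', a * b = b * a := by
    intro a ha b hb
    have h1 : a * b * a⁻¹ * b⁻¹ ∈ P ⊓ P' := by
      constructor
      · have := P.mul_mem ha (hPn b (hP'S₀ hb) a⁻¹ (P.inv_mem ha))
        have e : a * (b * a⁻¹ * b⁻¹) = a * b * a⁻¹ * b⁻¹ := by group
        rwa [e] at this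
      · exact P'.mul_mem (hP'n a (hPS₀ ha) b hb) (P'.inv_mem hb)
    rw [hdisj, Subgroup.mem_bot] at h1
    exact mul_inv_eq_iff_eq_mul.mp (mul_inv_eq_one.mp h1)
  refine ⟨?_, ?_⟩
  · intro H N₁ _ A hA hexp
    have hfinj : Function.Injective (P.subtype.comp H.subtype) :=
      fun a b h => Subtype.ext (Subtype.ext h)
    have hN₁A' : N₁ ≤ A.comap (QuotientGroup.mk' N₁) := by
      intro n hn
      rw [Subgroup.mem_comap]
      have : QuotientGroup.mk' N₁ n = 1 := (QuotientGroup.eq_one_iff n).mpr hn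
      rw [this]; exact A.one_mem
    have hgood : SrGood ((A.comap (QuotientGroup.mk' N₁)).map (P.subtype.comp H.subtype))
        (N₁.map (P.subtype.comp H.subtype)) := by
      refine ⟨Subgroup.map_mono hN₁A', ?_, ?_⟩
      · rintro _ ⟨a, ha, rfl⟩ _ ⟨b, hb, rfl⟩
        refine ⟨a * b * a⁻¹ * b⁻¹, (QuotientGroup.eq_one_iff _).mp ?_, by simp⟩
        have hc : (QuotientGroup.mk' N₁ a) * (QuotientGroup.mk' N₁ b)
            = (QuotientGroup.mk' N₁ b) * (QuotientGroup.mk' N₁ a) :=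
          congrArg Subtype.val
            (hA.is_comm.comm ⟨QuotientGroup.mk' N₁ a, ha⟩ ⟨QuotientGroup.mk' N₁ b, hb⟩)
        show QuotientGroup.mk' N₁ (a * b * a⁻¹ * b⁻¹) = 1
        rw [map_mul, map_mul, map_mul, map_inv, map_inv, hc, mul_inv_cancel_right,
          mul_inv_cancel]
      · rintro _ ⟨a, ha, rfl⟩
        refine ⟨a ^ 2, (QuotientGroup.eq_one_iff _).mp ?_, by simp⟩
        show QuotientGroup.mk' N₁ (a ^ 2) = 1
        rw [map_pow]
        exact hexp _ ha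
    have hAP : (A.comap (QuotientGroup.mk' N₁)).map (P.subtype.comp H.subtype) ≤ P := by
      rintro _ ⟨a, _, rfl⟩
      exact (a : ↥P).2
    have key := sr_double hr P P' x hdisj hcomm hsw1 hgood hAP
    rw [Subgroup.card_map_of_injective hfinj, Subgroup.card_map_of_injective hfinj] at key
    have k1 : Nat.card (A.comap (QuotientGroup.mk' N₁)) * (A.comap (QuotientGroup.mk' N₁)).index
        = Nat.card ↥H := Subgroup.card_mul_index _
    have k2 : Nat.card A * A.index = Nat.card (↥H ⧸ N₁) := Subgroup.card_mul_index A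
    have k3 : (A.comap (QuotientGroup.mk' N₁)).index = A.index :=
      Subgroup.index_comap_of_surjective A (QuotientGroup.mk'_surjective N₁)
    have k4 : Nat.card ↥H = Nat.card (↥H ⧸ N₁) * Nat.card N₁ :=
      Subgroup.card_eq_card_quotient_mul_card_subgroup N₁
    have hidx : 0 < A.index := Nat.pos_of_ne_zero Subgroup.index_ne_zero_of_finite
    have k5 : Nat.card (A.comap (QuotientGroup.mk' N₁)) = Nat.card A * Nat.card N₁ := by
      have : Nat.card (A.comap (QuotientGroup.mk' N₁)) * A.index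
          = Nat.card A * Nat.card N₁ * A.index := by
        rw [← k3, k1, k4, ← k2, k3]; ring
      exact Nat.eq_of_mul_eq_mul_right hidx this
    rw [k5] at key
    have hN₁pos : 0 < Nat.card N₁ := Nat.card_pos
    have : Nat.card A ≤ 4 := by
      by_contra hcon
      push Not at hcon
      nlinarith
    norm_num
    exact this
  · obtain ⟨N₁, hN₁mem⟩ : ∃ N₁ : Subgroup S, ∀ g, g ∈ N₁ ↔ g ∈ S₀ ∨ g * x ∈ S₀ :=
      ⟨{ carrier := {g | g ∈ S₀ ∨ g * x ∈ S₀}
         one_mem' := Or.inl S₀.one_mem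
         mul_mem' := by
           rintro g h (hg | hg) (hh | hh)
           · exact Or.inl (S₀.mul_mem hg hh)
           · right
             have := S₀.mul_mem hg hh
             rwa [← mul_assoc] at this
           · right
             have := S₀.mul_mem hg (hxn2 h hh)
             have e : g * x * (x⁻¹ * h * x) = g * h * x := by group
             rwa [e] at this
           · left
             have := S₀.mul_mem (S₀.mul_mem hg (hxn2 _ hh)) (S₀.inv_mem hx2)
             have e : g * x * (x⁻¹ * (h * x) * x) * (x * x)⁻¹ = g * h := by group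
             rwa [e] at this
         inv_mem' := by
           rintro g (hg | hg)
           · exact Or.inl (S₀.inv_mem hg)
           · right
             have := S₀.mul_mem (hxn1 _ (S₀.inv_mem hg)) hx2
             have e : x * (g * x)⁻¹ * x⁻¹ * (x * x) = g⁻¹ * x := by group
             rwa [e] at this }, fun g => Iff.rfl⟩
    have hS₀N₁ : S₀ ≤ N₁ := fun s hs => (hN₁mem s).mpr (Or.inl hs)
    have hxinvN₁ : x⁻¹ ∈ N₁ :=
      (hN₁mem _).mpr (Or.inr (by rw [inv_mul_cancel]; exact S₀.one_mem))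
    have hxN₁ : x ∈ N₁ := by
      have := N₁.inv_mem hxinvN₁
      rwa [inv_inv] at this
    suffices hN₁top : N₁ = ⊤ by
      rw [Subgroup.index_eq_two_iff]
      refine ⟨x, fun b => ?_⟩
      have hb : b ∈ N₁ := by rw [hN₁top]; exact Subgroup.mem_top b
      by_cases hbS : b ∈ S₀
      · right
        refine ⟨hbS, fun h => hxS ?_⟩
        have := S₀.mul_mem (S₀.inv_mem hbS) h
        rwa [inv_mul_cancel_left] at this
      · left
        exact ⟨((hN₁mem b).mp hb).resolve_left hbS, hbS⟩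
    by_contra hN₁ne
    have hlt2 : N₁ < Subgroup.normalizer (N₁ : Set S) :=
      Group.normalizerCondition_of_isNilpotent N₁ (lt_top_iff_ne_top.mpr hN₁ne)
    obtain ⟨w, hwN, hwN₁⟩ := SetLike.exists_of_lt hlt2
    have hwn1 : ∀ n ∈ N₁, w * n * w⁻¹ ∈ N₁ :=
      fun n hn => (Subgroup.mem_normalizer_iff.mp hwN n).mp hn
    have hwn2 : ∀ n ∈ N₁, w⁻¹ * n * w ∈ N₁ := by
      intro n hn
      apply (Subgroup.mem_normalizer_iff.mp hwN _).mpr
      have e : w * (w⁻¹ * n * w) * w⁻¹ = n := by group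
      rw [e]; exact hn
    have hconj : ∀ n ∈ N₁, (n * z = z * n ∧ n * z' = z' * n) ∨
        (n * z = z' * n ∧ n * z' = z * n) := by
      intro n hn
      rcases (hN₁mem n).mp hn with hn | hn
      · exact Or.inl ⟨(hmemS₀ n).mp hn, hz'c n hn⟩
      · right
        have k1 : x⁻¹ * z * x = z' := by
          have k3 := (hmemS₀ _).mp (S₀.inv_mem hx2)
          have e : x⁻¹ * z * x = x * ((x * x)⁻¹ * z) * (x * x) * x⁻¹ := by group
          rw [e, k3, hz']; group
        constructor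
        · have e : n * z = (n * x) * (x⁻¹ * z * x) * x⁻¹ := by group
          rw [e, k1, hz'c _ hn, mul_assoc, mul_inv_cancel_right]
        · have e : n * z' = (n * x) * z * x⁻¹ := by rw [hz']; group
          rw [e, (hmemS₀ _).mp hn, mul_assoc, mul_inv_cancel_right]
    have hzz'comm : z * z' = z' * z := hz'c z hzS₀
    have hu1 : z * z' ≠ 1 := fun h => hz'ne (mul_left_cancel (h.trans hzz.symm))
    have huu : (z * z') * (z * z') = 1 := by
      have e : (z * z') * (z * z') = z * (z' * z) * z' := by group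
      rw [e, ← hzz'comm]
      have e' : z * (z * z') * z' = (z * z) * (z' * z') := by group
      rw [e', hzz, hz'z', mul_one]
    have hucent : ∀ n ∈ N₁, n * (z * z') = (z * z') * n := by
      intro n hn
      rcases hconj n hn with ⟨k1, k2⟩ | ⟨k1, k2⟩
      · rw [← mul_assoc, k1, mul_assoc, k2, mul_assoc]
      · rw [← mul_assoc, k1, mul_assoc, k2, ← mul_assoc, ← hzz'comm]
    obtain ⟨R, hR⟩ : ∃ R : Subgroup S, R = P ⊔ P' := ⟨_, rfl⟩
    have hRS₀ : R ≤ S₀ := by rw [hR]; exact sup_le hPS₀ hP'S₀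
    have hRn0 : ∀ s ∈ S₀, ∀ r ∈ R, s * r * s⁻¹ ∈ R := by
      intro s hs
      rw [hR]
      exact sr_conj_sup_mem (hPn s hs) (hP'n s hs)
    have hRnx : ∀ r ∈ R, x⁻¹ * r * x ∈ R := by
      intro r hr'
      rw [hR] at hr' ⊢
      have := sr_conj_sup_mem (t := x⁻¹) (K₁ := P) (K₂ := P') (K₁' := P') (K₂' := P)
        (fun a ha => by rw [inv_inv]; exact hsw3 a ha)
        (fun b hb => by rw [inv_inv]; exact hsw2 b hb) r hr'
      rw [sup_comm, inv_inv] at this
      exact this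
    have hRn : ∀ n ∈ N₁, ∀ r ∈ R, n * r * n⁻¹ ∈ R := by
      intro n hn r hr'
      rcases (hN₁mem n).mp hn with hn | hn
      · exact hRn0 n hn r hr'
      · have := hRn0 _ hn _ (hRnx r hr')
        have e : n * x * (x⁻¹ * r * x) * (n * x)⁻¹ = n * r * n⁻¹ := by group
        rwa [e] at this
    have hRN₁ : R ≤ N₁ := hRS₀.trans hS₀N₁
    have hPn' : P' ≤ Subgroup.normalizer (P : Set S) :=
      Cfsg.Agent.Lib.helper8.le_normalizer_of_conj_mem (fun b hb a ha => by
        rw [← hcomm a ha b hb, mul_inv_cancel_right]; exact ha)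
    have hRdec : ∀ r ∈ R, ∃ a ∈ P, ∃ b ∈ P', r = a * b := fun r hr' => by
      rw [hR] at hr'
      exact (Cfsg.Agent.Lib.helper8.mem_sup_iff_of_le_normalizer hPn' r).mp hr'
    have hZR : ∀ t ∈ R, (∀ a ∈ P, a * t = t * a) → (∀ b ∈ P', b * t = t * b) →
        t = 1 ∨ t = z ∨ t = z' ∨ t = z * z' := by
      intro t ht hc1 hc2
      obtain ⟨a, ha, b, hb, rfl⟩ := hRdec t ht
      have ha' : a = 1 ∨ a = z := huniq a ha (fun c hc => by
        have k1 := hc1 c hc
        have k2 := hcomm c hc b hb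
        have : c * a * b = a * c * b := by
          calc c * a * b = c * (a * b) := mul_assoc _ _ _
            _ = a * b * c := k1
            _ = a * (b * c) := mul_assoc _ _ _
            _ = a * (c * b) := by rw [k2]
            _ = a * c * b := (mul_assoc _ _ _).symm
        exact mul_right_cancel this)
      have hb' : b = 1 ∨ b = z' := huniq' b hb (fun c hc => by
        have k1 := hc2 c hc
        have k2 := hcomm a ha c hc
        have : a * (c * b) = a * (b * c) := by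
          calc a * (c * b) = a * c * b := (mul_assoc _ _ _).symm
            _ = c * a * b := by rw [k2]
            _ = c * (a * b) := mul_assoc _ _ _
            _ = a * b * c := k1
            _ = a * (b * c) := mul_assoc _ _ _
        exact mul_left_cancel this)
      rcases ha' with ha' | ha' <;> rcases hb' with hb' | hb' <;> rw [ha', hb']
      · left; rw [mul_one]
      · right; right; left; rw [one_mul]
      · right; left; rw [mul_one]
      · right; right; right; rfl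
    obtain ⟨Rw, hRw⟩ : ∃ Rw : Subgroup S, Rw = srCj w R := ⟨_, rfl⟩
    have hRwmem : ∀ b, b ∈ Rw ↔ w⁻¹ * b * w ∈ R := fun b => by rw [hRw]; exact mem_srCj
    have hRwN₁ : Rw ≤ N₁ := by
      intro b hb
      have := hwn1 _ (hRN₁ ((hRwmem b).mp hb))
      have e : w * (w⁻¹ * b * w) * w⁻¹ = b := by group
      rwa [e] at this
    have hRwn : ∀ n ∈ N₁, ∀ b ∈ Rw, n * b * n⁻¹ ∈ Rw := by
      intro n hn b hb
      rw [hRwmem]
      have := hRn _ (hwn2 n hn) _ ((hRwmem b).mp hb)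
      have e : w⁻¹ * (n * b * n⁻¹) * w
          = (w⁻¹ * n * w) * (w⁻¹ * b * w) * (w⁻¹ * n * w)⁻¹ := by group
      rw [e]; exact this
    have hzRw : z ∉ Rw := by
      intro hz_in
      obtain ⟨t', ht'def⟩ : ∃ t' : S, t' = w⁻¹ * z * w := ⟨_, rfl⟩
      obtain ⟨u', hu'def⟩ : ∃ u' : S, u' = w⁻¹ * (z * z') * w := ⟨_, rfl⟩
      have ht' : t' ∈ R := by rw [ht'def]; exact (hRwmem z).mp hz_in
      have hct : ∀ c ∈ N₁, c * t' * c⁻¹ * t'⁻¹ = 1 ∨ c * t' * c⁻¹ * t'⁻¹ = u' := by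
        intro c hc
        have hc1 := hwn1 c hc
        have e : c * t' * c⁻¹ * t'⁻¹
            = w⁻¹ * ((w * c * w⁻¹) * z * (w * c * w⁻¹)⁻¹ * z⁻¹) * w := by
          rw [ht'def]; group
        rcases hconj _ hc1 with ⟨k1, _⟩ | ⟨k1, _⟩
        · left
          rw [e, k1, mul_inv_cancel_right, mul_inv_cancel]; group
        · right
          rw [e, k1, mul_inv_cancel_right, hu'def, hzinv, ← hzz'comm]
      have hu'c : ∀ n ∈ N₁, n * u' = u' * n := by
        intro n hn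
        have k1 := hucent _ (hwn1 n hn)
        have e1 : n * u' = w⁻¹ * ((w * n * w⁻¹) * (z * z')) * w := by rw [hu'def]; group
        have e2 : u' * n = w⁻¹ * ((z * z') * (w * n * w⁻¹)) * w := by rw [hu'def]; group
        rw [e1, e2, k1]
      have hu'1 : u' ≠ 1 := by
        intro h
        apply hu1
        have e : z * z' = w * u' * w⁻¹ := by rw [hu'def]; group
        rw [e, h]; group
      have hu'P : u' ∉ P := by
        intro h
        rcases huniq u' h (fun a ha => hu'c a (hS₀N₁ (hPS₀ ha))) with h' | h'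
        · exact hu'1 h'
        · apply hxS
          rw [hmemS₀]
          have := hu'c x hxN₁
          rwa [h'] at this
      have hu'P' : u' ∉ P' := by
        intro h
        apply hu'P
        have k1 := hsw4 u' h
        have k2 := hu'c x hxN₁
        rw [k2, mul_inv_cancel_right] at k1
        exact k1
      have htP : ∀ a ∈ P, a * t' = t' * a := by
        intro a ha
        have k1 : a * t' * a⁻¹ * t'⁻¹ ∈ P := by
          have := P.mul_mem ha (hPn t' (hRS₀ ht') a⁻¹ (P.inv_mem ha))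
          have e : a * (t' * a⁻¹ * t'⁻¹) = a * t' * a⁻¹ * t'⁻¹ := by group
          rwa [e] at this
        rcases hct a (hS₀N₁ (hPS₀ ha)) with h | h
        · exact mul_inv_eq_iff_eq_mul.mp (mul_inv_eq_one.mp h)
        · rw [h] at k1; exact absurd k1 hu'P
      have htP' : ∀ b ∈ P', b * t' = t' * b := by
        intro a ha
        have k1 : a * t' * a⁻¹ * t'⁻¹ ∈ P' := by
          have := P'.mul_mem ha (hP'n t' (hRS₀ ht') a⁻¹ (P'.inv_mem ha))
          have e : a * (t' * a⁻¹ * t'⁻¹) = a * t' * a⁻¹ * t'⁻¹ := by group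
          rwa [e] at this
        rcases hct a (hS₀N₁ (hP'S₀ ha)) with h | h
        · exact mul_inv_eq_iff_eq_mul.mp (mul_inv_eq_one.mp h)
        · rw [h] at k1; exact absurd k1 hu'P'
      rcases hZR t' ht' htP htP' with h | h | h | h
      · apply hz1
        have e : z = w * t' * w⁻¹ := by rw [ht'def]; group
        rw [e, h]; group
      · apply hwN₁
        apply hS₀N₁
        rw [hmemS₀]
        have k1 : w * t' = z * w := by rw [ht'def]; group
        rw [h] at k1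
        exact k1
      · apply hwN₁
        rw [hN₁mem]
        right
        rw [hmemS₀]
        have k1 : w * t' * x = z * (w * x) := by rw [ht'def]; group
        rw [h, hz'] at k1
        have e : w * (x * z * x⁻¹) * x = w * x * z := by group
        rw [e] at k1
        exact k1
      · apply hxS
        rw [hmemS₀]
        have e : z = w * t' * w⁻¹ := by rw [ht'def]; group
        have k1 := hucent _ (hwn2 x hxN₁)
        have e1 : x * (w * (z * z') * w⁻¹) = w * ((w⁻¹ * x * w) * (z * z')) * w⁻¹ := by group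
        have e2 : w * (z * z') * w⁻¹ * x = w * ((z * z') * (w⁻¹ * x * w)) * w⁻¹ := by group
        have k2 : x * (w * (z * z') * w⁻¹) = w * (z * z') * w⁻¹ * x := by rw [e1, e2, k1]
        have e3 : w * t' * w⁻¹ = w * (z * z') * w⁻¹ := by rw [h]
        rw [e, e3]
        exact k2
    have hz'Rw : z' ∉ Rw := by
      intro h
      apply hzRw
      have := hRwn x⁻¹ hxinvN₁ z' h
      have e : x⁻¹ * z' * x⁻¹⁻¹ = z := by rw [hz']; group
      rwa [e] at this
    have hI : ∀ t ∈ R ⊓ Rw, t = 1 ∨ t = z * z' := by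
      intro t ht
      have hIn : ∀ n ∈ N₁, ∀ d ∈ R ⊓ Rw, n * d * n⁻¹ ∈ R ⊓ Rw := fun n hn d hd =>
        ⟨hRn n hn d hd.1, hRwn n hn d hd.2⟩
      have hIP : (R ⊓ Rw) ⊓ P = ⊥ := by
        by_contra hne
        obtain ⟨d, hd, hd1, hdc⟩ := sr_meet h2 P ((R ⊓ Rw) ⊓ P) inf_le_right hne (by
          intro a ha d hd
          exact ⟨hIn a (hS₀N₁ (hPS₀ ha)) d hd.1, hPn a (hPS₀ ha) d hd.2⟩)
        have hdz : d = z := (huniq d hd.2 hdc).resolve_left hd1
        exact hzRw (hdz ▸ hd.1.2)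
      have hIP' : (R ⊓ Rw) ⊓ P' = ⊥ := by
        by_contra hne
        obtain ⟨d, hd, hd1, hdc⟩ := sr_meet h2 P' ((R ⊓ Rw) ⊓ P') inf_le_right hne (by
          intro a ha d hd
          exact ⟨hIn a (hS₀N₁ (hP'S₀ ha)) d hd.1, hP'n a (hP'S₀ ha) d hd.2⟩)
        have hdz : d = z' := (huniq' d hd.2 hdc).resolve_left hd1
        exact hz'Rw (hdz ▸ hd.1.2)
      have htP : ∀ a ∈ P, a * t = t * a := by
        intro a ha
        have k1 : a * t * a⁻¹ * t⁻¹ ∈ (R ⊓ Rw) ⊓ P := by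
          refine ⟨?_, ?_⟩
          · exact (R ⊓ Rw).mul_mem (hIn a (hS₀N₁ (hPS₀ ha)) t ht) ((R ⊓ Rw).inv_mem ht)
          · have := P.mul_mem ha (hPn t (hRS₀ ht.1) a⁻¹ (P.inv_mem ha))
            have e : a * (t * a⁻¹ * t⁻¹) = a * t * a⁻¹ * t⁻¹ := by group
            rwa [e] at this
        rw [hIP, Subgroup.mem_bot] at k1
        exact mul_inv_eq_iff_eq_mul.mp (mul_inv_eq_one.mp k1)
      have htP' : ∀ b ∈ P', b * t = t * b := by
        intro a ha
        have k1 : a * t * a⁻¹ * t⁻¹ ∈ (R ⊓ Rw) ⊓ P' := by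
          refine ⟨?_, ?_⟩
          · exact (R ⊓ Rw).mul_mem (hIn a (hS₀N₁ (hP'S₀ ha)) t ht) ((R ⊓ Rw).inv_mem ht)
          · have := P'.mul_mem ha (hP'n t (hRS₀ ht.1) a⁻¹ (P'.inv_mem ha))
            have e : a * (t * a⁻¹ * t⁻¹) = a * t * a⁻¹ * t⁻¹ := by group
            rwa [e] at this
        rw [hIP', Subgroup.mem_bot] at k1
        exact mul_inv_eq_iff_eq_mul.mp (mul_inv_eq_one.mp k1)
      rcases hZR t ht.1 htP htP' with h | h | h | h
      · exact Or.inl h
      · exact absurd (h ▸ ht.2) hzRw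
      · exact absurd (h ▸ ht.2) hz'Rw
      · exact Or.inr h
    have hgR := srGood_sq R
    have hgRw := srGood_sq Rw
    have hz_sq : z ∈ srSq P := by
      have hne : srSq P ≠ ⊥ := by
        intro h
        apply hPnc
        intro a ha b hb
        have := comm_mem_srSq ha hb
        rw [h, Subgroup.mem_bot] at this
        exact mul_inv_eq_iff_eq_mul.mp (mul_inv_eq_one.mp this)
      obtain ⟨d, hd, hd1, hdc⟩ := sr_meet h2 P (srSq P) (srSq_le P) hne
        (fun a ha => srSq_conj (fun c hc => hPn a (hPS₀ ha) c hc))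
      exact ((huniq d (srSq_le P hd) hdc).resolve_left hd1) ▸ hd
    have hz'_sq : z' ∈ srSq P' := by rw [hz']; exact srSq_conj hsw1 z hz_sq
    have hPR : P ≤ R := by rw [hR]; exact le_sup_left
    have hP'R : P' ≤ R := by rw [hR]; exact le_sup_right
    have hu_sq : z * z' ∈ srSq R :=
      (srSq R).mul_mem (srSq_mono hPR hz_sq) (srSq_mono hP'R hz'_sq)
    have hcardR : Nat.card R = Nat.card P * Nat.card P' := by
      have k1 := sr_card_sup P P' (fun a ha b hb => by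
        rw [hcomm a ha b hb, mul_inv_cancel_right]; exact hb)
      rw [hdisj, Subgroup.card_bot, mul_one] at k1
      rw [hR]; exact k1
    have hP'nc : ¬ ∀ a ∈ P', ∀ b ∈ P', a * b = b * a := by
      intro h
      apply hPnc
      intro a ha b hb
      have k1 := h _ (hsw1 a ha) _ (hsw1 b hb)
      have e1 : a * b = x⁻¹ * ((x * a * x⁻¹) * (x * b * x⁻¹)) * x := by group
      have e2 : b * a = x⁻¹ * ((x * b * x⁻¹) * (x * a * x⁻¹)) * x := by group
      rw [e1, e2, k1]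
    have hsqR : srSq R ≤ srSq P ⊔ srSq P' := by
      show Subgroup.closure {g | ∃ a ∈ R, a ^ 2 = g} ≤ srSq P ⊔ srSq P'
      rw [Subgroup.closure_le]
      rintro _ ⟨r, hr', rfl⟩
      obtain ⟨a, ha, b, hb, rfl⟩ := hRdec r hr'
      show (a * b) ^ 2 ∈ srSq P ⊔ srSq P'
      have e : (a * b) ^ 2 = a ^ 2 * b ^ 2 := Commute.mul_pow (hcomm a ha b hb) 2
      rw [e]
      exact Subgroup.mul_mem _ (Subgroup.mem_sup_left (sq_mem_srSq ha))
        (Subgroup.mem_sup_right (sq_mem_srSq hb))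
    have hc16 : 16 * Nat.card (srSq R) ≤ Nat.card R := by
      have k1 := Subgroup.card_le_of_le hsqR
      have k2 := sr_card_sup_le (srSq P) (srSq P') (fun a ha b hb => by
        rw [hcomm a (srSq_le P ha) b (srSq_le P' hb), mul_inv_cancel_right]; exact hb)
      have k3 := sr_card_sq h2 P hPnc
      have k4 := sr_card_sq h2 P' hP'nc
      rw [hcardR]
      calc 16 * Nat.card (srSq R) ≤ 16 * (Nat.card (srSq P) * Nat.card (srSq P')) :=
            Nat.mul_le_mul_left _ (k1.trans k2)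
        _ = (4 * Nat.card (srSq P)) * (4 * Nat.card (srSq P')) := by ring
        _ ≤ Nat.card P * Nat.card P' := Nat.mul_le_mul k3 k4
    have cRw : Nat.card Rw = Nat.card R := by rw [hRw]; exact card_srCj w R
    have key := sr_gen2 hr hgR hgRw ?_ ?_ ?_
    · have c1 := sr_card_sup R Rw (fun a ha b hb => hRwn a (hRN₁ ha) b hb)
      rw [cRw] at c1
      have c2 : Nat.card ↥(R ⊓ Rw) ≤ 2 := by
        have k1 : R ⊓ Rw ≤ Subgroup.zpowers (z * z') := by
          intro t ht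
          rcases hI t ht with h | h
          · rw [h]; exact Subgroup.one_mem _
          · rw [h]; exact Subgroup.mem_zpowers _
        have k3 : orderOf (z * z') ∣ 2 :=
          orderOf_dvd_of_pow_eq_one (by rw [pow_two]; exact huu)
        calc Nat.card ↥(R ⊓ Rw) ≤ Nat.card (Subgroup.zpowers (z * z')) :=
              Subgroup.card_le_of_le k1
          _ = orderOf (z * z') := Nat.card_zpowers _
          _ ≤ 2 := Nat.le_of_dvd (by norm_num) k3
      have c3 := sr_card_sup_le (srSq R) (srSq Rw) (fun a ha b hb =>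
        srSq_conj (fun c hc => hRwn a (hRN₁ (srSq_le R ha)) c hc) b hb)
      have c4 : Nat.card (srSq Rw) ≤ Nat.card (srSq R) :=
        sr_conj_card_le (g := w⁻¹) (srSq_conj (fun a ha => by
          rw [inv_inv]; exact (hRwmem a).mp ha))
      have hpos : 0 < Nat.card (srSq R) := Nat.card_pos
      have e1 : Nat.card R * Nat.card R ≤ 2 * Nat.card ↥(R ⊔ Rw) := by
        rw [← c1, mul_comm]
        exact Nat.mul_le_mul_right _ c2
      have e2 : Nat.card ↥(srSq R ⊔ srSq Rw) ≤ Nat.card (srSq R) * Nat.card (srSq R) :=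
        c3.trans (Nat.mul_le_mul_left _ c4)
      have e3 : (16 * Nat.card (srSq R)) * (16 * Nat.card (srSq R))
          ≤ Nat.card R * Nat.card R := Nat.mul_le_mul hc16 hc16
      nlinarith
    · intro a ha b hb
      have k1 : a * b * a⁻¹ * b⁻¹ ∈ R ⊓ Rw := by
        constructor
        · have := R.mul_mem ha (hRn b (hRwN₁ hb) a⁻¹ (R.inv_mem ha))
          have e : a * (b * a⁻¹ * b⁻¹) = a * b * a⁻¹ * b⁻¹ := by group
          rwa [e] at this
        · exact Rw.mul_mem (hRwn a (hRN₁ ha) b hb) (Rw.inv_mem hb)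
      rcases hI _ k1 with h | h
      · rw [h]; exact Subgroup.one_mem _
      · rw [h]; exact Subgroup.mem_sup_left hu_sq
    · intro a ha
      exact srSq_conj (fun c hc => hRwn a (hRN₁ ha) c hc)
    · intro b hb
      exact srSq_conj (fun c hc => hRn b (hRwN₁ hb) c hc)

end secrank3

end Cfsg.Agent.Lib.helper14
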